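import Mathlib
import Cfsg.Agent.H22.Lev

/-! Products of conjugacy classes in `SL(V)`: basic tools. -/

set_option autoImplicit false

namespace Cfsg.Agent.H26.Cov

open Module Polynomial Cfsg.Agent.H76 Cfsg.Agent.H22.Lev
open scoped Pointwise

variable {F V W : Type*} [Field F] [AddCommGroup V] [Module F V] [AddCommGroup W] [Module F W]

/-- the conjugates of `A` under `SL(V)` -/
def cls (A : End F V) : Set (End F V) := {Y | ∃ z : End F V, LinearMap.det z = 1 ∧ z * A = Y * z}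

/-- the centralizer of `A` has all determinants -/
def Full (A : End F V) : Prop :=
  ∀ c : F, c ≠ 0 → ∃ z : End F V, LinearMap.det z = c ∧ z * A = A * z

/-- non-scalar -/
def NSc (g : End F V) : Prop := ∀ c : F, g ≠ c • 1

theorem self_mem_cls (A : End F V) : A ∈ cls A := ⟨1, map_one _, by simp⟩

theorem cls_trans {A Y Z : End F V} (h : Y ∈ cls A) (h' : Z ∈ cls Y) : Z ∈ cls A := by
  obtain ⟨z, h1, h2⟩ := h
  obtain ⟨w, h3, h4⟩ := h'
  exact ⟨w * z, by rw [map_mul, h1, h3, mul_one], by rw [mul_assoc, h2, ← mul_assoc, h4, mul_assoc]⟩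

theorem det_cj (e : V ≃ₗ[F] W) (z : End F V) :
    LinearMap.det (e.conjRingEquiv z) = LinearMap.det z := LinearMap.det_conj z e

theorem cj_apply (e : V ≃ₗ[F] W) (z : End F V) (x : W) :
    e.conjRingEquiv z x = e (z (e.symm x)) := rfl

theorem sim_cj (e : V ≃ₗ[F] W) (z : End F V) : Sim z (e.conjRingEquiv z) :=
  ⟨e, fun v => by rw [cj_apply, e.symm_apply_apply]⟩

theorem eq_cj {e : V ≃ₗ[F] W} {A : End F V} {B : End F W} (h : ∀ v, e (A v) = B (e v)) :
    B = e.conjRingEquiv A := LinearMap.ext fun x => by rw [cj_apply, h, e.apply_symm_apply]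

theorem cj_mem_cls (e : V ≃ₗ[F] W) {A Y : End F V} (h : Y ∈ cls A) :
    e.conjRingEquiv Y ∈ cls (e.conjRingEquiv A) := by
  obtain ⟨z, h1, h2⟩ := h
  exact ⟨e.conjRingEquiv z, by rw [det_cj, h1], by rw [← map_mul, h2, map_mul]⟩

theorem cj_mem_pow (e : V ≃ₗ[F] W) {A : End F V} (k : ℕ) : ∀ {Y : End F V}, Y ∈ cls A ^ k →
    e.conjRingEquiv Y ∈ cls (e.conjRingEquiv A) ^ k := by
  induction k with
  | zero => intro Y h; rw [pow_zero, Set.mem_one] at h ⊢; rw [h, map_one]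
  | succ k ih =>
    intro Y h
    rw [pow_succ] at h ⊢
    obtain ⟨a, ha, b, hb, rfl⟩ := h
    rw [map_mul]
    exact Set.mul_mem_mul (ih ha) (cj_mem_cls e hb)

theorem smul_mem_pow (c : F) {A : End F V} (k : ℕ) : ∀ {Y : End F V}, Y ∈ cls A ^ k →
    c ^ k • Y ∈ cls (c • A) ^ k := by
  induction k with
  | zero => intro Y h; rw [pow_zero] at h ⊢; rwa [pow_zero, one_smul]
  | succ k ih =>
    intro Y h
    rw [pow_succ] at h
    obtain ⟨a, ha, b, ⟨z, h1, h2⟩, rfl⟩ := h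
    rw [pow_succ (cls _), pow_succ, ← smul_mul_smul_comm]
    exact Set.mul_mem_mul (ih ha) ⟨z, h1, by rw [mul_smul_comm, h2, smul_mul_assoc]⟩

theorem Full.sim {A : End F V} {B : End F W} (h : Full A) (s : Sim A B) : Full B := by
  obtain ⟨e, he⟩ := s
  intro c hc
  obtain ⟨z, h1, h2⟩ := h c hc
  exact ⟨e.conjRingEquiv z, by rw [det_cj, h1], by rw [eq_cj he, ← map_mul, h2, map_mul]⟩

theorem gen_sim {A : End F V} {B : End F W} (s : Sim A B) {v : V} (h : Gen A v ⊤) :
    ∃ w, Gen B w ⊤ := by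
  obtain ⟨e, he⟩ := s
  refine ⟨e v, trivial, le_top, fun S hv hS x _ => ?_⟩
  have := h.2.2 (S.comap e.toLinearMap) hv (by
    rintro _ ⟨y, hy, rfl⟩
    change e (A y) ∈ S
    rw [he]; exact hS ⟨_, hy, rfl⟩) (Submodule.mem_top (x := e.symm x))
  simpa using this

theorem NSc.sim {A : End F V} {B : End F W} (h : NSc A) (s : Sim A B) : NSc B := by
  obtain ⟨e, he⟩ := s
  intro c hc
  refine h c (LinearMap.ext fun v => e.injective ?_)
  rw [he, hc]; simp

theorem NSc.exists_vec {A : End F V} (h : NSc A) : ∃ v, A v ∉ F ∙ v := by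
  by_contra! hc
  obtain ⟨c, hc⟩ := LinearMap.exists_eq_smul_id_of_forall_notLinearIndependent (f := A) fun v => by
    by_cases hv : v = 0
    · exact fun h => h.ne_zero 0 hv
    · obtain ⟨c, hc⟩ := Submodule.mem_span_singleton.1 (hc v)
      rw [LinearIndependent.pair_iff' hv]
      push Not
      exact ⟨c, hc⟩
  exact h c hc

variable [FiniteDimensional F V] [FiniteDimensional F W]

theorem exists_inv {z : End F V} (h : LinearMap.det z ≠ 0) :
    ∃ z' : End F V, z' * z = 1 ∧ z * z' = 1 := by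
  obtain ⟨u, rfl⟩ := (LinearMap.isUnit_iff_isUnit_det z).2 (Ne.isUnit h)
  exact ⟨↑u⁻¹, u.inv_mul, u.mul_inv⟩

theorem det_ne_zero_of_injective {z : End F V} (h : Function.Injective z) :
    LinearMap.det z ≠ 0 :=
  ((LinearMap.isUnit_iff_isUnit_det z).1 ((Module.End.isUnit_iff z).2
    ⟨h, LinearMap.injective_iff_surjective.1 h⟩)).ne_zero

theorem sim_iff {A B : End F V} : Sim A B ↔ ∃ z : End F V, LinearMap.det z ≠ 0 ∧ z * A = B * z := by
  refine ⟨fun ⟨e, he⟩ => ⟨e, e.isUnit_det'.ne_zero, LinearMap.ext he⟩, fun ⟨z, h1, h2⟩ => ?_⟩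
  exact ⟨LinearEquiv.ofInjectiveEndo z (injective_of_det h1), fun v => LinearMap.congr_fun h2 v⟩

theorem sim_of_mem {A Y : End F V} (h : Y ∈ cls A) : Sim A Y := by
  obtain ⟨z, h1, h2⟩ := h
  exact sim_iff.2 ⟨z, h1 ▸ one_ne_zero, h2⟩

theorem cls_symm {A Y : End F V} (h : Y ∈ cls A) : A ∈ cls Y := by
  obtain ⟨z, h1, h2⟩ := h
  obtain ⟨w, h3, h4⟩ := exists_inv (z := z) (h1 ▸ one_ne_zero)
  refine ⟨w, ?_, ?_⟩
  · have := congrArg LinearMap.det h3
    rwa [map_mul, h1, mul_one, map_one] at this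
  · calc w * Y = w * (Y * z) * w := by rw [mul_assoc, mul_assoc, h4, mul_one]
      _ = A * w := by rw [← h2, ← mul_assoc, h3, one_mul]

theorem cls_eq {A Y : End F V} (h : Y ∈ cls A) : cls Y = cls A :=
  Set.ext fun _ => ⟨cls_trans h, cls_trans (cls_symm h)⟩

theorem mem_cls_of_full {A Y : End F V} (hA : Full A) (s : Sim A Y) : Y ∈ cls A := by
  obtain ⟨z, h1, h2⟩ := sim_iff.1 s
  obtain ⟨w, h3, h4⟩ := hA _ (inv_ne_zero h1)
  exact ⟨z * w, by rw [map_mul, h3, mul_inv_cancel₀ h1],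
    by rw [mul_assoc, h4, ← mul_assoc, h2, mul_assoc]⟩

theorem mem_pow_of_mem_cls {A Y Z : End F V} {k : ℕ} (h : Y ∈ cls A ^ k) (h' : Z ∈ cls Y) :
    Z ∈ cls A ^ k := by
  obtain ⟨z, h1, h2⟩ := h'
  let e := LinearEquiv.ofInjectiveEndo z (injective_of_det (h1 ▸ one_ne_zero))
  have h3 := cj_mem_pow e k h
  rw [← eq_cj (e := e) (B := Z) fun v => LinearMap.congr_fun h2 v, cls_eq (A := A)] at h3
  · exact h3
  · exact ⟨z, h1, LinearMap.ext fun v => by
      change e (A v) = e (A (e.symm (e v)))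
      rw [e.symm_apply_apply]⟩

theorem mem_pow_of_full {A Y Z : End F V} {k : ℕ} (hA : Full A) (h : Y ∈ cls A ^ k) (s : Sim Y Z) :
    Z ∈ cls A ^ k := by
  obtain ⟨e, he⟩ := s
  have h3 := cj_mem_pow e k h
  rwa [← eq_cj he, cls_eq (mem_cls_of_full hA (sim_cj e A))] at h3

theorem det_of_mem_pow {A : End F V} (k : ℕ) : ∀ {Y : End F V}, Y ∈ cls A ^ k →
    LinearMap.det Y = LinearMap.det A ^ k := by
  induction k with
  | zero => intro Y h; rw [pow_zero, Set.mem_one] at h; rw [h, map_one, pow_zero]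
  | succ k ih =>
    intro Y h
    rw [pow_succ] at h
    obtain ⟨a, ha, b, hb, rfl⟩ := h
    rw [map_mul, ih ha, ← (sim_of_mem hb).det_eq, pow_succ]

theorem full_of_simple {Y : End F V} {d : F} {f : F[X]} (h : Y.charpoly = (X - C d) * f)
    (hf : f.eval d ≠ 0) : Full Y := by
  obtain ⟨u, hu, hu0⟩ := ((Module.End.hasEigenvalue_iff_isRoot_charpoly Y d).2
    (by rw [h]; simp)).exists_hasEigenvector
  have h1 : Y u = d • u := Module.End.mem_eigenspace_iff.1 hu
  have h2 : u ∉ LinearMap.range (Y - d • 1) := by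
    rintro ⟨w, hw⟩
    have h3 : aeval Y f u = f.eval d • u := Module.End.aeval_apply_of_mem_apply_eq_smul h1
    have h4 := LinearMap.congr_fun Y.aeval_self_charpoly w
    rw [h, mul_comm, map_mul, Module.End.mul_apply, map_sub, aeval_X, aeval_C,
      Algebra.algebraMap_eq_smul_one, hw, h3, LinearMap.zero_apply, smul_eq_zero] at h4
    exact h4.elim hf hu0
  obtain ⟨φ, h3, h4⟩ := exists_dual h2
  refine fun c _ => exists_comm_det h1 (fun x => ?_) h4 c
  have := h3 _ ⟨x, rfl⟩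
  simpa [sub_eq_zero] using this

/-- `A ^ k` contains a cyclic map with characteristic polynomial `f`. -/
def HasCyc (A : End F V) (k : ℕ) (f : F[X]) : Prop :=
  ∃ Y ∈ cls A ^ k, ∃ v, Gen Y v ⊤ ∧ Y.charpoly = f

theorem HasCyc.sim {A : End F V} {B : End F W} {k : ℕ} {f : F[X]} (h : HasCyc A k f)
    (s : Sim A B) : HasCyc B k f := by
  obtain ⟨e, he⟩ := s
  obtain ⟨Y, hY, v, hv, rfl⟩ := h
  obtain ⟨w, hw⟩ := gen_sim (sim_cj e Y) hv
  exact ⟨_, eq_cj he ▸ cj_mem_pow e k hY, w, hw, (sim_cj e Y).charpoly_eq.symm⟩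

theorem HasCyc.mem {A : End F V} {k : ℕ} {f : F[X]} (h : HasCyc A k f)
    (hf : Full A ∨ ∃ d f', f = (X - C d) * f' ∧ f'.eval d ≠ 0) {M : End F V} {v : V}
    (hv : Gen M v ⊤) (hM : M.charpoly = f) : M ∈ cls A ^ k := by
  obtain ⟨Y, hY, w, hw, hc⟩ := h
  have s := hw.sim_of_charpoly hv (hc.trans hM.symm)
  rcases hf with hf | ⟨d, f', h1, h2⟩
  · exact mem_pow_of_full hf hY s
  · exact mem_pow_of_mem_cls hY (mem_cls_of_full (full_of_simple (hc.trans h1) h2) s)

theorem neg_one_sq (n : ℕ) : ((-1 : F) ^ n) * (-1) ^ n = 1 := by rw [← mul_pow]; simp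

theorem factor [Finite F] {A : End F V} {a b : ℕ} {f₁ f' : F[X]} {d : F} (h1 : HasCyc A a f₁)
    (h2 : HasCyc A b ((X - C d) * f')) (hd : f'.eval d ≠ 0)
    (hf : Full A ∨ ∃ d f', f₁ = (X - C d) * f' ∧ f'.eval d ≠ 0) (hA : LinearMap.det A ≠ 0)
    {g : End F V} (hg : NSc g) (hdet : LinearMap.det g = LinearMap.det A ^ (a + b)) :
    ∃ M₁ ∈ cls A ^ a, ∃ M₂ ∈ cls A ^ b, M₁.charpoly = f₁ ∧ g = M₁ * M₂ := by
  obtain ⟨Y₁, hY₁, v₁, hv₁, hc₁⟩ := id h1
  obtain ⟨Y₂, hY₂, v₂, hv₂, hc₂⟩ := id h2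
  have hm : f'.Monic := (monic_X_sub_C d).of_mul_monic_left (hc₂ ▸ Y₂.charpoly_monic)
  have hn := Y₂.charpoly_natDegree
  rw [hc₂, (monic_X_sub_C d).natDegree_mul hm, natDegree_X_sub_C] at hn
  obtain ⟨M₁, M₂, w₁, w₂, -, -, e, g1, c1, g2, c2, -⟩ := lev hg (f₁ := f₁) (hc₁ ▸ Y₁.charpoly_monic)
    (hc₁ ▸ Y₁.charpoly_natDegree) hm (by omega) hd (by rw [hdet]; exact pow_ne_zero _ hA) (by
      rw [hdet, pow_add, ← det_of_mem_pow a hY₁, ← det_of_mem_pow b hY₂, det_eq_charpoly,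
        det_eq_charpoly, hc₁, hc₂]
      linear_combination (eval 0 f₁ * eval 0 ((X - C d) * f')) * neg_one_sq (F := F) (finrank F V))
  exact ⟨M₁, h1.mem hf g1 c1, M₂, h2.mem (Or.inr ⟨d, f', rfl, hd⟩) g2 c2, c1, e⟩

/-- every non-scalar map of the right determinant is a product of `k` conjugates -/
def NS (A : End F V) (k : ℕ) : Prop :=
  ∀ g : End F V, NSc g → LinearMap.det g = LinearMap.det A ^ k → g ∈ cls A ^ k

/-- every map of the right determinant is a product of `k` conjugates -/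
def All (A : End F V) (k : ℕ) : Prop :=
  ∀ g : End F V, LinearMap.det g = LinearMap.det A ^ k → g ∈ cls A ^ k

theorem ns_of_cyc [Finite F] {A : End F V} {a b : ℕ} {f₁ f' : F[X]} {d : F} (h1 : HasCyc A a f₁)
    (h2 : HasCyc A b ((X - C d) * f')) (hd : f'.eval d ≠ 0)
    (hf : Full A ∨ ∃ d f', f₁ = (X - C d) * f' ∧ f'.eval d ≠ 0) (hA : LinearMap.det A ≠ 0) :
    NS A (a + b) := fun g hg hdet => by
  obtain ⟨M₁, h3, M₂, h4, -, rfl⟩ := factor h1 h2 hd hf hA hg hdet
  rw [pow_add]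
  exact Set.mul_mem_mul h3 h4

theorem exists_dual_ne_zero {S : Submodule F V} (h : finrank F S < finrank F V) :
    ∃ φ : Dual F V, (∀ w ∈ S, φ w = 0) ∧ ∃ e, φ e = 1 := by
  obtain ⟨e, -, he⟩ := exists_notMem (W := S) (K := ⊤) (by rwa [finrank_top])
  obtain ⟨φ, h1, h2⟩ := exists_dual he
  exact ⟨φ, h1, e, h2⟩

/-- conjugation by a transvection -/
theorem exists_conj_tv (A : End F V) {φ : Dual F V} {x : V} (h1 : φ x = 0) (h2 : φ (A x) = 0) :
    ∃ A' ∈ cls A, ∀ y, A' y = A y + φ (A y) • x - φ y • A x := by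
  refine ⟨LinearMap.transvection φ x * A * LinearMap.transvection φ (-x),
    ⟨LinearMap.transvection φ x, by simp [h1], LinearMap.ext fun y => ?_⟩, fun y => ?_⟩
  · simp [LinearMap.transvection.apply, h1]
  · simp [LinearMap.transvection.apply, h2]
    module

theorem finrank_span_pair_le (x y : V) : finrank F (Submodule.span F {x, y}) ≤ 2 := by
  classical
  refine (finrank_span_le_card _).trans ?_
  rw [Set.toFinset_insert, Set.toFinset_singleton]
  exact Finset.card_le_two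

theorem all_succ {A : End F V} {k : ℕ} (h : NS A k) (hA : NSc A) (h0 : LinearMap.det A ≠ 0)
    (h3 : 3 ≤ finrank F V) : All A (k + 1) := by
  intro g hg
  have key : ∀ B ∈ cls A, (∀ c : F, g ≠ c • B) → g ∈ cls A ^ (k + 1) := fun B hB hc => by
    have hB0 : LinearMap.det B = LinearMap.det A := (sim_of_mem hB).det_eq.symm
    obtain ⟨B', e1, e2⟩ := exists_inv (z := B) (hB0 ▸ h0)
    rw [pow_succ', show g = B * (B' * g) by rw [← mul_assoc, e2, one_mul]]
    refine Set.mul_mem_mul hB (h _ (fun c e => hc c ?_) ?_)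
    · rw [show g = B * (B' * g) by rw [← mul_assoc, e2, one_mul], e, mul_smul_comm, mul_one]
    · apply mul_left_cancel₀ h0
      rw [← pow_succ', ← hg, ← hB0, ← map_mul, ← mul_assoc, e2, one_mul]
  by_contra hne
  obtain ⟨x, hx⟩ := hA.exists_vec
  obtain ⟨φ, p1, y, p2⟩ := exists_dual_ne_zero (S := Submodule.span F {x, A x})
    (by have := finrank_span_pair_le (F := F) x (A x); omega)
  have q1 := p1 x (Submodule.subset_span (by simp))
  have q2 := p1 (A x) (Submodule.subset_span (by simp))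
  obtain ⟨A', hA', e⟩ := exists_conj_tv A q1 q2
  obtain ⟨c, hc⟩ : ∃ c : F, g = c • A := by
    by_contra! hc; exact hne (key A (self_mem_cls A) hc)
  obtain ⟨c', hc'⟩ : ∃ c : F, g = c • A' := by
    by_contra! hc; exact hne (key A' hA' hc)
  have hc0 : c ≠ 0 := fun e => by
    have : Nontrivial V := finrank_pos_iff.1 (by omega : 0 < finrank F V)
    rw [hc, e, zero_smul, LinearMap.det_zero''] at hg
    exact pow_ne_zero _ h0 hg.symm
  have hAx : A x ≠ 0 := fun e => hx (e ▸ Submodule.zero_mem _)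
  have e1 := LinearMap.congr_fun (hc.symm.trans hc') x
  simp only [LinearMap.smul_apply, e, q1, q2, zero_smul, add_zero, sub_zero] at e1
  have e2 : c = c' := smul_left_injective F hAx e1
  have e3 := LinearMap.congr_fun (hc.symm.trans hc') y
  simp only [LinearMap.smul_apply, e, p2, one_smul, ← e2] at e3
  have e4 := smul_right_injective V hc0 e3
  exact hx (Submodule.mem_span_singleton.2 ⟨φ (A y), by linear_combination (norm := module) -e4⟩)

theorem All.ns {A : End F V} {k : ℕ} (h : All A k) : NS A k := fun g _ => h g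

theorem all_of_ns {A : End F V} {k n : ℕ} (h : NS A k) (hA : NSc A) (h0 : LinearMap.det A ≠ 0)
    (h3 : 3 ≤ finrank F V) (hk : k < n) : All A n := by
  induction n, hk using Nat.le_induction with
  | base => exact all_succ h hA h0 h3
  | succ n _ ih => exact all_succ ih.ns hA h0 h3

end Cfsg.Agent.H26.Cov
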