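import Mathlib
import Cfsg.Agent.H26.CovA

/-! Products of conjugacy classes in `SL(V)`: gluing of cyclic blocks, products of two conjugates. -/

set_option autoImplicit false

namespace Cfsg.Agent.H26.Cov

open Module Polynomial Cfsg.Agent.H76 Cfsg.Agent.H22.Lev
open scoped Pointwise

variable {F V W : Type*} [Field F] [AddCommGroup V] [Module F V] [AddCommGroup W] [Module F W]

theorem glue {W₁ W₂ : Type*} [AddCommGroup W₁] [Module F W₁] [AddCommGroup W₂] [Module F W₂]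
    (ι : W₁ →ₗ[F] V) (π : V →ₗ[F] W₂) (hk : ∀ v, π v = 0 → v ∈ LinearMap.range ι)
    (hπ : Function.Surjective π) {Y : End F V} {Y₁ : End F W₁} {Y₂ : End F W₂}
    (h1 : ∀ w, Y (ι w) = ι (Y₁ w)) (h2 : ∀ v, π (Y v) = Y₂ (π v)) {w₁ : W₁} {w₂ : W₂}
    (g1 : Gen Y₁ w₁ ⊤) (g2 : Gen Y₂ w₂ ⊤) {f₁ f₂ : F[X]} (hc : IsCoprime f₁ f₂)
    (e1 : aeval Y₁ f₁ w₁ = 0) (e2 : aeval Y₂ f₂ w₂ = 0) :
    ∃ v, Gen Y v ⊤ ∧ aeval Y (f₁ * f₂) v = 0 := by
  obtain ⟨a, b, hab⟩ := hc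
  obtain ⟨v₂, rfl⟩ := hπ w₂
  have i1 : ∀ (p : F[X]) w, aeval Y p (ι w) = ι (aeval Y₁ p w) := fun p w =>
    (aeval_intertwine ι (fun w => (h1 w).symm) p w).symm
  have i2 : ∀ (p : F[X]) v, π (aeval Y p v) = aeval Y₂ p (π v) := aeval_intertwine π h2
  have k1 : ∀ w, aeval Y f₁ (ι w) = 0 := fun w => by
    rw [i1, g1.aeval_eq_zero e1 trivial, map_zero]
  obtain ⟨w, hw⟩ := hk (aeval Y f₂ v₂) (by rw [i2, e2])
  have mul : ∀ (p q : F[X]) v, aeval Y (p * q) v = aeval Y p (aeval Y q v) := fun p q v => by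
    rw [map_mul]; rfl
  have one : ∀ v, aeval Y (a * f₁) v + aeval Y (b * f₂) v = v := fun v => by
    rw [← LinearMap.add_apply, ← map_add, hab, map_one]; rfl
  have k2 : aeval Y f₂ (aeval Y (a * f₁) v₂) = 0 := by
    rw [← mul, mul_comm, mul, ← hw, mul, k1, map_zero]
  refine ⟨ι w₁ + aeval Y (a * f₁) v₂, ⟨trivial, le_top, fun S hv hS x _ => ?_⟩, ?_⟩
  · have s1 : ι w₁ ∈ S := by
      have := aeval_mem hS hv (b * f₂)
      rwa [map_add, mul b f₂ (aeval Y _ _), k2, map_zero, add_zero, ← zero_add (aeval Y _ _),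
        ← (aeval Y a).map_zero, ← k1 w₁, ← mul, one] at this
    have s2 : ∀ w, ι w ∈ S := fun w => g1.2.2 (S.comap ι) s1 (by
      rintro _ ⟨y, hy, rfl⟩
      change ι (Y₁ y) ∈ S
      rw [← h1]; exact hS ⟨_, hy, rfl⟩) trivial
    have s3 : v₂ ∈ S := by
      rw [← one v₂, mul b, ← hw, i1]
      exact S.add_mem (by simpa using S.sub_mem hv s1) (s2 _)
    obtain ⟨y, hy, e⟩ := g2.2.2 (S.map π) ⟨_, s3, rfl⟩ (by
      rintro _ ⟨_, ⟨y, hy, rfl⟩, rfl⟩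
      exact ⟨_, hS ⟨_, hy, rfl⟩, h2 y⟩) (Submodule.mem_top (x := π x))
    obtain ⟨u, hu⟩ := hk (x - y) (by rw [map_sub, e, sub_self])
    simpa [hu] using S.add_mem (s2 u) hy
  · rw [map_add, mul f₁ f₂ (aeval Y _ _), k2, map_zero, add_zero, mul_comm, mul, k1, map_zero]

theorem gen_affine {M : End F V} {e : V} (h : Gen M e ⊤) {c : F} (hc : c ≠ 0) (c' : F) :
    Gen (c • M + c' • 1) e ⊤ := ⟨trivial, le_top, fun S he hS => h.2.2 S he (by
  rintro _ ⟨y, hy, rfl⟩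
  have h1 : c • M y + c' • y ∈ S := hS ⟨y, hy, rfl⟩
  simpa [Submodule.smul_mem_iff _ hc] using S.sub_mem h1 (S.smul_mem c' hy))⟩

theorem gen_of_nilp {M : End F V} {e : V} (hM : IsNilpotent M)
    (h : ∀ v, ∃ c : F, ∃ w, v = c • e + M w) : Gen M e ⊤ := by
  refine ⟨trivial, le_top, fun S he hS v _ => ?_⟩
  obtain ⟨k, hk⟩ := hM
  have key : ∀ j : ℕ, ∀ v, ∃ s ∈ S, ∃ w, v = s + (M ^ j) w := fun j => by
    induction j with
    | zero => exact fun v => ⟨0, S.zero_mem, v, by simp⟩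
    | succ j ih =>
      intro v
      obtain ⟨s, hs, w, rfl⟩ := ih v
      obtain ⟨c, u, rfl⟩ := h w
      exact ⟨s + c • (M ^ j) e, S.add_mem hs (S.smul_mem c (pow_mem hS he j)), u, by
        simp [pow_succ, add_assoc]⟩
  obtain ⟨s, hs, w, rfl⟩ := key k v
  simpa [hk] using hs

theorem Gen.dec {M : End F V} {e : V} (h : Gen M e ⊤) (v : V) :
    ∃ c : F, ∃ w, v = c • e + M w := by
  have := h.2.2 ((F ∙ e) ⊔ LinearMap.range M)
    (Submodule.mem_sup_left (Submodule.mem_span_singleton_self e))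
    (by rintro _ ⟨y, -, rfl⟩; exact Submodule.mem_sup_right ⟨y, rfl⟩) (Submodule.mem_top (x := v))
  obtain ⟨_, h1, _, ⟨w, rfl⟩, rfl⟩ := Submodule.mem_sup.1 this
  obtain ⟨c, rfl⟩ := Submodule.mem_span_singleton.1 h1
  exact ⟨c, w, rfl⟩

theorem gen_one (c : F) : Gen (c • 1 : End F F) 1 ⊤ :=
  ⟨trivial, le_top, fun S h _ x _ => by simpa using S.smul_mem x h⟩

theorem coprime_X_sub_C {d : F} {f : F[X]} (h : f.eval d ≠ 0) : IsCoprime (X - C d) f :=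
  (irreducible_X_sub_C d).coprime_iff_not_dvd.2 (by rwa [dvd_iff_isRoot])

/-- `X ^ s + β X + c` -/
noncomputable def pl (s : ℕ) (β c : F) : F[X] := X ^ s + (C β * X + C c)

theorem pl_deg {s : ℕ} (hs : 2 ≤ s) (β c : F) : (pl s β c).Monic ∧ (pl s β c).natDegree = s := by
  have h : (C β * X + C c).degree < (s : WithBot ℕ) :=
    lt_of_le_of_lt degree_linear_le (by exact_mod_cast hs)
  refine ⟨monic_X_pow_add h, ?_⟩
  rw [pl, natDegree_add_eq_left_of_degree_lt (by rwa [degree_X_pow]), natDegree_X_pow]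

theorem pl_eval (s : ℕ) (β c t : F) : (pl s β c).eval t = t ^ s + (β * t + c) := by simp [pl]

theorem pl_zero {s : ℕ} (hs : 2 ≤ s) (β c : F) : (pl s β c).eval 0 = c := by
  rw [pl_eval, zero_pow (by omega)]; simp

theorem exists_notMem3 [Fintype F] (h4 : 4 ≤ Fintype.card F) (a b c : F) :
    ∃ x, x ≠ a ∧ x ≠ b ∧ x ≠ c := by
  classical
  obtain ⟨x, -, hx⟩ := Finset.exists_mem_notMem_of_card_lt_card (s := {a, b, c})
    (t := Finset.univ) (lt_of_le_of_lt Finset.card_le_three (by rwa [Finset.card_univ]))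
  exact ⟨x, by simpa using hx⟩

theorem exists_pl [Fintype F] (h4 : 4 ≤ Fintype.card F) {s : ℕ} (hs : 2 ≤ s) {c : F} (hc : c ≠ 0)
    (t₁ t₂ t₃ : F) : ∃ β, (pl s β c).eval t₁ ≠ 0 ∧ (pl s β c).eval t₂ ≠ 0 ∧
      (pl s β c).eval t₃ ≠ 0 := by
  obtain ⟨β, h1, h2, h3⟩ := exists_notMem3 h4 (-(t₁ ^ s + c) / t₁) (-(t₂ ^ s + c) / t₂)
    (-(t₃ ^ s + c) / t₃)
  have key : ∀ t, β ≠ -(t ^ s + c) / t → (pl s β c).eval t ≠ 0 := fun t h e => by
    by_cases ht : t = 0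
    · rw [ht, pl_zero hs] at e; exact hc e
    · rw [pl_eval] at e
      exact h (by field_simp; linear_combination e)
  exact ⟨β, key _ h1, key _ h2, key _ h3⟩

/-- the conjugates of `A` under `GL(V)` -/
def gcls (A : End F V) : Set (End F V) := {Y | Sim A Y}

theorem cj_mem_gpow (e : V ≃ₗ[F] W) {A : End F V} {B : End F W} (s : Sim A B) (k : ℕ) :
    ∀ {Y : End F V}, Y ∈ gcls A ^ k → e.conjRingEquiv Y ∈ gcls B ^ k := by
  induction k with
  | zero => intro Y h; rw [pow_zero, Set.mem_one] at h ⊢; rw [h, map_one]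
  | succ k ih =>
    intro Y h
    rw [pow_succ] at h ⊢
    obtain ⟨a, ha, b, hb, rfl⟩ := h
    rw [map_mul]
    exact Set.mul_mem_mul (ih ha) (s.symm.trans (Sim.trans hb (sim_cj e b)))

theorem mem_gpow_of_sim {A Y Z : End F V} {k : ℕ} (h : Y ∈ gcls A ^ k) (s : Sim Y Z) :
    Z ∈ gcls A ^ k := by
  obtain ⟨e, he⟩ := s
  exact eq_cj he ▸ cj_mem_gpow e (Sim.refl A) k h

variable [FiniteDimensional F V] [FiniteDimensional F W]

theorem gcls_eq {A : End F V} (h : Full A) : gcls A = cls A :=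
  Set.ext fun _ => ⟨mem_cls_of_full h, sim_of_mem⟩

theorem det_of_mem_gpow {A : End F V} (k : ℕ) : ∀ {Y : End F V}, Y ∈ gcls A ^ k →
    LinearMap.det Y = LinearMap.det A ^ k := by
  induction k with
  | zero => intro Y h; rw [pow_zero, Set.mem_one] at h; rw [h, map_one, pow_zero]
  | succ k ih =>
    intro Y h
    rw [pow_succ] at h
    obtain ⟨a, ha, b, hb, rfl⟩ := h
    rw [map_mul, ih ha, ← Sim.det_eq hb, pow_succ]

/-- `GL`-version of `HasCyc`. -/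
def HasCycG (A : End F V) (k : ℕ) (f : F[X]) : Prop :=
  ∃ Y ∈ gcls A ^ k, ∃ v, Gen Y v ⊤ ∧ Y.charpoly = f

theorem HasCyc.toG {A : End F V} {k : ℕ} {f : F[X]} (h : HasCyc A k f) : HasCycG A k f := by
  obtain ⟨Y, hY, h⟩ := h
  exact ⟨Y, Set.pow_subset_pow_left (fun _ => sim_of_mem) hY, h⟩

theorem HasCycG.sim {A : End F V} {B : End F W} {k : ℕ} {f : F[X]} (h : HasCycG A k f)
    (s : Sim A B) : HasCycG B k f := by
  obtain ⟨e, -⟩ := id s
  obtain ⟨Y, hY, v, hv, rfl⟩ := h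
  obtain ⟨w, hw⟩ := gen_sim (sim_cj e Y) hv
  exact ⟨_, cj_mem_gpow e s k hY, w, hw, (sim_cj e Y).charpoly_eq.symm⟩

theorem factorG [Finite F] {A : End F V} {a b : ℕ} {f₁ f' : F[X]} {d : F} (h1 : HasCycG A a f₁)
    (h2 : HasCycG A b ((X - C d) * f')) (hd : f'.eval d ≠ 0) (hA : LinearMap.det A ≠ 0)
    {g : End F V} (hg : NSc g) (hdet : LinearMap.det g = LinearMap.det A ^ (a + b)) :
    ∃ M₁ ∈ gcls A ^ a, ∃ M₂ ∈ gcls A ^ b, M₁.charpoly = f₁ ∧ g = M₁ * M₂ := by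
  obtain ⟨Y₁, hY₁, v₁, hv₁, hc₁⟩ := h1
  obtain ⟨Y₂, hY₂, v₂, hv₂, hc₂⟩ := h2
  have hm : f'.Monic := (monic_X_sub_C d).of_mul_monic_left (hc₂ ▸ Y₂.charpoly_monic)
  have hn := Y₂.charpoly_natDegree
  rw [hc₂, (monic_X_sub_C d).natDegree_mul hm, natDegree_X_sub_C] at hn
  obtain ⟨M₁, M₂, w₁, w₂, -, -, e, g1, c1, g2, c2, -⟩ := lev hg (f₁ := f₁) (hc₁ ▸ Y₁.charpoly_monic)
    (hc₁ ▸ Y₁.charpoly_natDegree) hm (by omega) hd (by rw [hdet]; exact pow_ne_zero _ hA) (by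
      rw [hdet, pow_add, ← det_of_mem_gpow a hY₁, ← det_of_mem_gpow b hY₂, det_eq_charpoly,
        det_eq_charpoly, hc₁, hc₂]
      linear_combination (eval 0 f₁ * eval 0 ((X - C d) * f')) * neg_one_sq (F := F) (finrank F V))
  exact ⟨M₁, mem_gpow_of_sim hY₁ (hv₁.sim_of_charpoly g1 (hc₁.trans c1.symm)), M₂,
    mem_gpow_of_sim hY₂ (hv₂.sim_of_charpoly g2 (hc₂.trans c2.symm)), c1, e⟩

theorem det_add_nilp {N : End F V} (h : IsNilpotent N) (c : F) :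
    LinearMap.det (c • 1 + N) = c ^ finrank F V := by
  have := LinearMap.eval_charpoly (-N) c
  rw [h.neg.charpoly_eq_X_pow_finrank, Algebra.algebraMap_eq_smul_one, sub_neg_eq_add] at this
  simpa using this.symm

theorem det_one_add {N : End F V} (h : N * N = 0) : LinearMap.det (1 + N) = 1 := by
  have := det_add_nilp (N := N) ⟨2, by rwa [pow_two]⟩ (1 : F)
  rwa [one_smul, one_pow] at this

theorem eval_ne_zero_iff {Y : End F V} {d : F} :
    Y.charpoly.eval d ≠ 0 ↔ ∀ v, Y v = d • v → v = 0 := by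
  rw [Ne, ← IsRoot.def, ← Module.End.hasEigenvalue_iff_isRoot_charpoly,
    Module.End.hasEigenvalue_iff, not_not, Submodule.eq_bot_iff]
  simp only [Module.End.mem_eigenspace_iff]

theorem exists_cyc {f : F[X]} (hf : f.Monic) (hd : f.natDegree = finrank F V) :
    ∃ (Z : End F V) (e : V), Gen Z e ⊤ ∧ Z.charpoly = f := by
  have := finite_adjoinRoot hf.ne_zero
  let e : AdjoinRoot f ≃ₗ[F] V := LinearEquiv.ofFinrankEq _ _ (by rw [finrank_adjoinRoot, hd])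
  obtain ⟨w, hw⟩ := gen_sim (sim_cj e (cyc f)) (gen_cyc f)
  exact ⟨_, w, hw, by rw [← (sim_cj e (cyc f)).charpoly_eq, charpoly_cyc hf]⟩

theorem aeval_charpoly {Y : End F V} {f : F[X]} (h : Y.charpoly = f) (v : V) : aeval Y f v = 0 := by
  rw [← h, Y.aeval_self_charpoly]; rfl

theorem exists_det (h : 0 < finrank F V) (c : F) : ∃ P : End F V, LinearMap.det P = c := by
  obtain ⟨φ, -, e, he⟩ := exists_dual_ne_zero (S := (⊥ : Submodule F V)) (by simpa using h)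
  exact ⟨LinearMap.transvection φ ((c - 1) • e), by simp [he]⟩

/-- `Y` is a product of a conjugate of `A` and one of `B`; `r` is the ratio of the determinants of
the conjugating maps. -/
def Two (A B : End F V) (r : F) (Y : End F V) : Prop :=
  ∃ z₁ z₂ A₁ B₁ : End F V, LinearMap.det z₁ ≠ 0 ∧ LinearMap.det z₂ = r * LinearMap.det z₁ ∧
    z₁ * A = A₁ * z₁ ∧ z₂ * B = B₁ * z₂ ∧ Y = A₁ * B₁

theorem Two.mem_gcls {A Y : End F V} {r : F} (h : Two A A r Y) (hr : r ≠ 0) : Y ∈ gcls A ^ 2 := by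
  obtain ⟨z₁, z₂, A₁, B₁, h1, h2, h3, h4, rfl⟩ := h
  rw [pow_two]
  exact Set.mul_mem_mul (sim_iff.2 ⟨z₁, h1, h3⟩) (sim_iff.2 ⟨z₂, h2 ▸ mul_ne_zero hr h1, h4⟩)

theorem Two.exists {A B Y : End F V} {r : F} (h : Two A B r Y) (hr : r ≠ 0) {c : End F V}
    (hc : LinearMap.det c = r) (hB : c * B = B * c) : ∃ B' ∈ cls B, Sim (A * B') Y := by
  obtain ⟨z₁, z₂, A₁, B₁, h1, h2, h3, h4, rfl⟩ := h
  obtain ⟨w, e1, e2⟩ := exists_inv h1
  obtain ⟨c', e3, e4⟩ := exists_inv (z := c) (hc ▸ hr)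
  have hB' : c' * B = B * c' := by
    calc c' * B = c' * (B * c) * c' := by rw [mul_assoc, mul_assoc, e4, mul_one]
      _ = B * c' := by rw [← hB, ← mul_assoc, e3, one_mul]
  refine ⟨w * B₁ * z₁, ⟨w * z₂ * c', ?_, ?_⟩, sim_iff.2 ⟨z₁, h1, ?_⟩⟩
  · have d1 := congrArg LinearMap.det e1
    have d3 := congrArg LinearMap.det e3
    rw [map_mul, map_one] at d1 d3
    rw [map_mul, map_mul, h2, ← hc]
    linear_combination (LinearMap.det c' * LinearMap.det c) * d1 + d3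
  · calc w * z₂ * c' * B = w * (z₂ * B) * c' := by simp only [mul_assoc, hB']
      _ = w * B₁ * (z₁ * w) * z₂ * c' := by rw [h4, e2]; simp only [mul_assoc, one_mul]
      _ = _ := by simp only [mul_assoc]
  · calc z₁ * (A * (w * B₁ * z₁)) = (z₁ * A) * w * B₁ * z₁ := by simp only [mul_assoc]
      _ = A₁ * (z₁ * w) * B₁ * z₁ := by rw [h3]; simp only [mul_assoc]
      _ = _ := by rw [e2, mul_one]

theorem Two.hasCyc {A Y : End F V} {r : F} (h : Two A A r Y) (hr : r ≠ 0) {c : End F V}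
    (hc : LinearMap.det c = r) (hA : c * A = A * c) {v : V} (hv : Gen Y v ⊤) :
    HasCyc A 2 Y.charpoly := by
  obtain ⟨B, hB, s⟩ := h.exists hr hc hA
  obtain ⟨w, hw⟩ := gen_sim s.symm hv
  exact ⟨_, by rw [pow_two]; exact Set.mul_mem_mul (self_mem_cls A) hB, w, hw, s.charpoly_eq⟩

theorem Two.prod {A B Y : End F V} {A' B' Y' : End F W} {r r' : F} (h : Two A B r Y)
    (h' : Two A' B' r' Y') : Two (A.prodMap A') (B.prodMap B') (r * r') (Y.prodMap Y') := by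
  obtain ⟨z₁, z₂, A₁, B₁, h1, h2, h3, h4, rfl⟩ := h
  obtain ⟨w₁, w₂, A₂, B₂, k1, k2, k3, k4, rfl⟩ := h'
  refine ⟨z₁.prodMap w₁, z₂.prodMap w₂, A₁.prodMap A₂, B₁.prodMap B₂, ?_, ?_, ?_, ?_, ?_⟩
  · rw [LinearMap.det_prodMap]; exact mul_ne_zero h1 k1
  · rw [LinearMap.det_prodMap, LinearMap.det_prodMap, h2, k2]; ring
  · rw [LinearMap.prodMap_mul, LinearMap.prodMap_mul, h3, k3]
  · rw [LinearMap.prodMap_mul, LinearMap.prodMap_mul, h4, k4]
  · rw [LinearMap.prodMap_mul]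

theorem Two.cj (e : V ≃ₗ[F] W) {A B Y : End F V} {r : F} (h : Two A B r Y) :
    Two (e.conjRingEquiv A) (e.conjRingEquiv B) r (e.conjRingEquiv Y) := by
  obtain ⟨z₁, z₂, A₁, B₁, h1, h2, h3, h4, rfl⟩ := h
  exact ⟨e.conjRingEquiv z₁, e.conjRingEquiv z₂, e.conjRingEquiv A₁, e.conjRingEquiv B₁,
    by rwa [det_cj], by rwa [det_cj, det_cj], by rw [← map_mul, h3, map_mul],
    by rw [← map_mul, h4, map_mul], map_mul _ _ _⟩

end Cfsg.Agent.H26.Cov
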