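import Mathlib
import Cfsg.Agent.H26.CovB

/-! Products of two conjugates stabilizing a subspace moved off itself by each factor. -/

set_option autoImplicit false

namespace Cfsg.Agent.H26.Cov

open Module Polynomial Cfsg.Agent.H76 Cfsg.Agent.H22.Lev
open scoped Pointwise

variable {F V W L : Type*} [Field F] [AddCommGroup V] [Module F V] [AddCommGroup W] [Module F W]
  [AddCommGroup L] [Module F L]

/-- The block shape `[[0, 0, α], [0, x, *], [1, *, *]]`. -/
structure Md (A : End F ((W × L) × W)) (x : F) (α : End F W) : Prop where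
  h1 : ∀ w, A ((w, 0), 0) = ((0, 0), w)
  h2 : ∀ v, (A v).1.1 = α v.2
  h3 : ∀ l, (A ((0, l), 0)).1.2 = x • l

/-- swap of the outer blocks -/
def sw (F W L : Type*) [Field F] [AddCommGroup W] [Module F W] [AddCommGroup L] [Module F L] :
    End F ((W × L) × W) where
  toFun v := ((v.2, v.1.2), v.1.1)
  map_add' _ _ := rfl
  map_smul' _ _ := rfl

theorem sw_apply (v : (W × L) × W) : sw F W L v = ((v.2, v.1.2), v.1.1) := rfl

theorem sw_sw : sw F W L * sw F W L = 1 := rfl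

theorem det_sw : LinearMap.det (sw F W L) * LinearMap.det (sw F W L) = 1 := by
  rw [← map_mul, sw_sw, map_one]

theorem Md.h4 {A : End F ((W × L) × W)} {x : F} {α : End F W} (h : Md A x α) (w : W) (l : L) :
    ∃ u, A ((w, l), 0) = ((0, x • l), u) := by
  have e : ((w, l), (0 : W)) = ((w, 0), 0) + ((0, l), 0) := by simp
  refine ⟨(A ((w, l), 0)).2, Prod.ext (Prod.ext ?_ ?_) rfl⟩
  · rw [h.h2, map_zero]
  · rw [e, map_add, h.h1, Prod.fst_add, Prod.snd_add, h.h3, zero_add]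

variable [FiniteDimensional F V] [FiniteDimensional F W] [FiniteDimensional F L]

theorem Md.det_ne {A : End F ((W × L) × W)} {x : F} {α : End F W} (h : Md A x α)
    (hA : LinearMap.det A ≠ 0) (hx : x ≠ 0) : LinearMap.det α ≠ 0 := by
  refine det_ne_zero_of_injective ((injective_iff_map_eq_zero α).2 fun w hw => ?_)
  obtain ⟨u, hu⟩ := h.h4 0 (x⁻¹ • (A ((0, 0), w)).1.2)
  have e : A ((0, 0), w) = A (((A ((0, 0), w)).2 - u, 0), 0) +
      A ((0, x⁻¹ • (A ((0, 0), w)).1.2), 0) := by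
    rw [h.h1, hu]
    refine Prod.ext (Prod.ext ?_ ?_) ?_
    · rw [h.h2, hw]; simp
    · simp [smul_smul, hx]
    · simp
  rw [← map_add] at e
  simpa using congrArg Prod.snd (injective_of_det hA e)

theorem exists_md (A : End F V) (ι : W →ₗ[F] V) (j : L →ₗ[F] V)
    (inj : ∀ w l w', ι w + j l + A (ι w') = 0 → w = 0 ∧ l = 0 ∧ w' = 0)
    (hd : finrank F V = 2 * finrank F W + finrank F L) {x : F}
    (hx : ∀ l, ∃ w', A (j l) = x • j l + A (ι w')) :
    ∃ (e : ((W × L) × W) ≃ₗ[F] V) (α : End F W), (∀ w l w', e ((w, l), w') = ι w + j l + A (ι w')) ∧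
      Md (e.symm.conjRingEquiv A) x α := by
  let m : ((W × L) × W) →ₗ[F] V := (ι.coprod j).coprod (A ∘ₗ ι)
  have hm : Function.Injective m := (injective_iff_map_eq_zero m).2 fun v hv => by
    obtain ⟨a, b, c⟩ := inj v.1.1 v.1.2 v.2 hv
    exact Prod.ext (Prod.ext a b) c
  let e := LinearEquiv.ofBijective m ⟨hm, (LinearMap.injective_iff_surjective_of_finrank_eq_finrank
    (by rw [finrank_prod, finrank_prod]; omega)).1 hm⟩
  have he : ∀ w l w', e ((w, l), w') = ι w + j l + A (ι w') := fun _ _ _ => rfl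
  have h1 : ∀ w, e.symm.conjRingEquiv A ((w, 0), 0) = ((0, 0), w) := fun w => by
    rw [cj_apply, e.symm_symm, e.symm_apply_eq, he, he]; simp
  have h3 : ∀ l, ∃ u, e.symm.conjRingEquiv A ((0, l), 0) = ((0, x • l), u) := fun l => by
    obtain ⟨u, hu⟩ := hx l
    exact ⟨u, by rw [cj_apply, e.symm_symm, e.symm_apply_eq, he, he]; simp [hu]⟩
  refine ⟨e, LinearMap.fst F W L ∘ₗ LinearMap.fst F (W × L) W ∘ₗ e.symm.conjRingEquiv A ∘ₗ
    LinearMap.inr F (W × L) W, he, h1, fun v => ?_, fun l => ?_⟩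
  · obtain ⟨⟨w, l⟩, w'⟩ := v
    obtain ⟨u, hu⟩ := h3 l
    have e1 : ((w, l), w') = ((w, 0), 0) + ((0, l), 0) + (0, w') := by simp
    rw [e1, map_add, map_add, h1, hu]
    simp
  · obtain ⟨u, hu⟩ := h3 l
    rw [hu]

theorem block {A B : End F ((W × L) × W)} {x y : F} {α β : End F W} (hA : Md A x α) (hB : Md B y β)
    {P Y₁ Y₃ : End F W} (hP : LinearMap.det P ≠ 0) (h1 : LinearMap.det Y₁ ≠ 0)
    (hG : α * P * β = Y₃ * Y₁ * P) {t : F} (ht : t ≠ 0) {w₁ w₃ : W} {l₀ : L} (g1 : Gen Y₁ w₁ ⊤)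
    (g2 : Gen ((x * y) • 1 : End F L) l₀ ⊤) (g3 : Gen Y₃ w₃ ⊤) {f₁ f₂ f₃ : F[X]}
    (c1 : Y₁.charpoly = f₁) (c2 : ((x * y) • 1 : End F L).charpoly = f₂) (c3 : Y₃.charpoly = f₃)
    (k1 : IsCoprime f₁ f₂) (k2 : IsCoprime f₁ f₃) (k3 : IsCoprime f₂ f₃) :
    ∃ Y v, Two A B (LinearMap.det (sw F W L) * (LinearMap.det P ^ 2 * LinearMap.det Y₁ *
      t ^ finrank F L)) Y ∧ Gen Y v ⊤ ∧ Y.charpoly = f₁ * f₂ * f₃ := by
  obtain ⟨P', p1, p2⟩ := exists_inv hP
  obtain ⟨Q', q1, q2⟩ := exists_inv (z := Y₁ * P) (by rw [map_mul]; exact mul_ne_zero h1 hP)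
  let z : End F ((W × L) × W) := (P.prodMap (t • 1)).prodMap (Y₁ * P)
  let z' : End F ((W × L) × W) := (P'.prodMap (t⁻¹ • 1)).prodMap Q'
  have hz : z' * z = 1 := by
    simp only [z, z', LinearMap.prodMap_mul, p1, q1, smul_mul_smul_comm, inv_mul_cancel₀ ht,
      one_smul, mul_one]
    rfl
  set Y := sw F W L * A * sw F W L * (z * B * z') with hY
  have y1 : ∀ w, Y ((w, 0), 0) = ((Y₁ w, 0), 0) := fun w => by
    have := LinearMap.congr_fun p2 w
    simp only [Module.End.mul_apply, Module.End.one_apply] at this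
    simp [hY, z, z', hB.h1, hA.h1, sw_apply, this]
  have y2 : ∀ v, (Y v).2 = Y₃ v.2 := fun v => by
    have := LinearMap.congr_fun (congrArg (· * Q') hG) v.2
    simp only [mul_assoc Y₃, q2, mul_one, Module.End.mul_apply] at this
    simp [hY, z, z', hB.h2, hA.h2, sw_apply, this]
  have y3 : ∀ w l, (Y ((w, l), 0)).1.2 = (x * y) • l := fun w l => by
    obtain ⟨u, hu⟩ := hB.h4 (P' w) (t⁻¹ • l)
    obtain ⟨u', hu'⟩ := hA.h4 (Y₁ (P u)) (y • l)
    have e : t⁻¹ • t • l = l := by rw [smul_smul, inv_mul_cancel₀ ht, one_smul]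
    simp [hY, z, z', sw_apply, hu, e, hu', mul_smul]
  let Y' : End F (W × L) := LinearMap.fst F (W × L) W ∘ₗ Y ∘ₗ LinearMap.inl F (W × L) W
  obtain ⟨v', a1, a2⟩ := glue (LinearMap.inl F W L) (LinearMap.snd F W L)
    (fun v hv => ⟨v.1, Prod.ext rfl hv.symm⟩) (fun l => ⟨(0, l), rfl⟩) (Y := Y') (Y₁ := Y₁)
    (Y₂ := (x * y) • 1) (fun w => by simp [Y', y1]) (fun v => y3 v.1 v.2) g1 g2 k1
    (aeval_charpoly c1 _) (aeval_charpoly c2 _)
  obtain ⟨v, b1, b2⟩ := glue (LinearMap.inl F (W × L) W) (LinearMap.snd F (W × L) W)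
    (fun v hv => ⟨v.1, Prod.ext rfl hv.symm⟩) (fun l => ⟨(0, l), rfl⟩) (Y := Y) (Y₁ := Y')
    (Y₂ := Y₃) (fun w => Prod.ext rfl (by simp [y2])) y2 a1 g3 (k2.mul_left k3) a2
    (aeval_charpoly c3 _)
  have m1 := c1 ▸ Y₁.charpoly_monic
  have m2 := c2 ▸ LinearMap.charpoly_monic ((x * y) • 1 : End F L)
  have m3 := c3 ▸ Y₃.charpoly_monic
  refine ⟨Y, v, ⟨sw F W L, z, _, _, left_ne_zero_of_mul_eq_one det_sw, ?_, ?_, ?_, rfl⟩, b1,
    b1.charpoly_eq ((m1.mul m2).mul m3) ?_ b2⟩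
  · simp only [z, LinearMap.det_prodMap, map_mul, LinearMap.det_smul, map_one]
    linear_combination (-(LinearMap.det P ^ 2 * LinearMap.det Y₁ * t ^ finrank F L)) *
      det_sw (F := F) (W := W) (L := L)
  · rw [mul_assoc, sw_sw, mul_one]
  · rw [mul_assoc, hz, mul_one]
  · rw [(m1.mul m2).natDegree_mul m3, m1.natDegree_mul m2, ← c1, ← c2, ← c3,
      LinearMap.charpoly_natDegree, LinearMap.charpoly_natDegree, LinearMap.charpoly_natDegree,
      finrank_prod, finrank_prod]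

theorem exists_P {α : End F W} (h : NSc α) : ∃ P G : End F W, LinearMap.det P = 1 ∧ NSc G ∧
    α * P * α = G * P ∧ LinearMap.det G = LinearMap.det α ^ 2 := by
  obtain ⟨v, hv⟩ := h.exists_vec
  by_cases h1 : α (α v) ∈ F ∙ v
  · obtain ⟨φ, p1, p2⟩ := exists_dual hv
    have p3 := p1 v (Submodule.mem_span_singleton_self v)
    have e : LinearMap.transvection φ (-v) * LinearMap.transvection φ v = 1 :=
      LinearMap.ext fun y => by simp [LinearMap.transvection.apply, p3]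
    refine ⟨LinearMap.transvection φ v,
      α * LinearMap.transvection φ v * α * LinearMap.transvection φ (-v), by simp [p3],
      fun c hc => hv ?_, by rw [mul_assoc _ _ (LinearMap.transvection φ v), e, mul_one],
      by simp [p3, pow_two]⟩
    have := LinearMap.congr_fun hc v
    simp only [Module.End.mul_apply, LinearMap.transvection.apply, p3, p2, zero_smul, add_zero,
      one_smul, map_add, LinearMap.smul_apply, Module.End.one_apply] at this
    rw [← add_sub_cancel_left (α (α v)) (α v), this]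
    exact Submodule.sub_mem _ (Submodule.smul_mem _ _ (Submodule.mem_span_singleton_self v)) h1
  · exact ⟨1, α * α, map_one _, fun c hc => h1 (by
      rw [← Module.End.mul_apply, hc]
      exact Submodule.smul_mem _ _ (Submodule.mem_span_singleton_self v)), by simp,
      by rw [map_mul, pow_two]⟩

theorem md_main [Finite F] {A : End F ((W × L) × W)} {x : F} {α : End F W} (hA : Md A x α)
    (h0 : LinearMap.det α ≠ 0) (hα : NSc α) {d : F} {f' f₂ f₃ : F[X]} (m1 : f'.Monic)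
    (n1 : f'.natDegree + 1 = finrank F W) (hd : f'.eval d ≠ 0) (m3 : f₃.Monic)
    (n3 : f₃.natDegree = finrank F W)
    (hdet : f₃.eval 0 * ((X - C d) * f').eval 0 = LinearMap.det α ^ 2) {t : F} (ht : t ≠ 0) {l₀ : L}
    (g2 : Gen ((x * x) • 1 : End F L) l₀ ⊤) (c2 : ((x * x) • 1 : End F L).charpoly = f₂)
    (k1 : IsCoprime ((X - C d) * f') f₂) (k2 : IsCoprime ((X - C d) * f') f₃)
    (k3 : IsCoprime f₂ f₃) :
    ∃ Y v, Two A A (LinearMap.det (sw F W L) * ((-1) ^ finrank F W * ((X - C d) * f').eval 0 *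
      t ^ finrank F L)) Y ∧ Gen Y v ⊤ ∧ Y.charpoly = (X - C d) * f' * f₂ * f₃ := by
  obtain ⟨P, G, p1, p2, p3, p4⟩ := exists_P hα
  obtain ⟨Y₃, Y₁, w₃, w₁, -, -, e, g3, c3, g1, c1, -⟩ := lev p2 m3 n3 m1 n1 hd
    (by rw [p4]; exact pow_ne_zero _ h0) (p4.trans hdet.symm)
  have h1 : LinearMap.det Y₁ ≠ 0 := fun h => pow_ne_zero 2 h0 (by rw [← p4, e, map_mul, h, mul_zero])
  have := block hA hA (p1 ▸ one_ne_zero) h1 (e ▸ p3) ht g1 g2 g3 c1 c2 c3 k1 k2 k3
  rwa [p1, one_pow, one_mul, det_eq_charpoly Y₁, c1] at this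

theorem gen_unit (c : F) : Gen (c • 1 : End F PUnit.{1}) 0 ⊤ :=
  ⟨trivial, le_top, fun S h _ x _ => by rwa [Subsingleton.elim x 0]⟩

theorem charpoly_unit (Y : End F PUnit.{1}) : Y.charpoly = 1 :=
  Y.charpoly_monic.natDegree_eq_zero.1 (by rw [Y.charpoly_natDegree, finrank_zero_of_subsingleton])

theorem charpoly_line (c : F) : (c • 1 : End F F).charpoly = X - C c :=
  (gen_one c).charpoly_eq (monic_X_sub_C c) (by simp) (by simp [Module.algebraMap_end_apply])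

theorem coprime_of_eval {d u u' : F} {k : ℕ} {f : F[X]} (h1 : f.eval d ≠ 0) (h2 : f.eval u ≠ 0)
    (h3 : f.eval u' ≠ 0) : IsCoprime ((X - C d) * ((X - C u) ^ k * (X - C u'))) f :=
  (coprime_X_sub_C h1).mul_left ((coprime_X_sub_C h2).pow_left.mul_left (coprime_X_sub_C h3))

theorem eval_ne_of_coprime {d : F} {f g : F[X]} (h : IsCoprime ((X - C d) * f) g) :
    g.eval d ≠ 0 := fun e => by
  obtain ⟨a, b, hab⟩ := h
  simpa [e] using congrArg (eval d) hab

/-- the split polynomial used for the first block -/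
theorem split_facts {s : ℕ} (hs : 2 ≤ s) (d u u' : F) :
    ((X - C u) ^ (s - 2) * (X - C u') : F[X]).Monic ∧
    ((X - C u) ^ (s - 2) * (X - C u') : F[X]).natDegree + 1 = s ∧
    (-1) ^ s * ((X - C d) * ((X - C u) ^ (s - 2) * (X - C u'))).eval 0 = d * u ^ (s - 2) * u' := by
  refine ⟨((monic_X_sub_C u).pow _).mul (monic_X_sub_C u'), ?_, ?_⟩
  · rw [((monic_X_sub_C u).pow _).natDegree_mul (monic_X_sub_C u'), natDegree_pow,
      natDegree_X_sub_C, natDegree_X_sub_C]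
    omega
  · obtain ⟨k, rfl⟩ := Nat.exists_eq_add_of_le' hs
    simp only [Nat.add_sub_cancel, eval_mul, eval_sub, eval_X, eval_C, eval_pow, zero_sub]
    rw [neg_pow u, pow_add]
    linear_combination (d * u ^ k * u') * neg_one_sq (F := F) k

variable [Fintype F]

theorem exists_d (h4 : 4 ≤ Fintype.card F) {ε : F} (hε : ε * ε = 1) :
    ∃ d : F, d ≠ 0 ∧ d ≠ 1 ∧ d * d ≠ ε := by
  by_cases h : ε = 1
  · obtain ⟨d, h1, h2, h3⟩ := exists_notMem3 h4 (0 : F) 1 (-1)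
    exact ⟨d, h1, h2, fun e => (mul_self_eq_one_iff.1 (e.trans h)).elim h2 h3⟩
  · have h1 := (mul_self_eq_one_iff.1 hε).resolve_left h
    exact ⟨-1, by simp, h1 ▸ h, by simpa using Ne.symm h⟩

/-- even dimension, `α` non-scalar: a good element in the square of the `SL`-class -/
theorem even_good (h4 : 4 ≤ Fintype.card F) {A : End F ((W × PUnit.{1}) × W)} {α : End F W}
    (hA : Md A 1 α) (h0 : LinearMap.det A ≠ 0) (hα : NSc α) (hs : 2 ≤ finrank F W) :
    ∃ d f', HasCyc A 2 ((X - C d) * f') ∧ f'.eval d ≠ 0 := by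
  have h1 := hA.det_ne h0 one_ne_zero
  set ε := LinearMap.det (sw F W PUnit.{1})
  have hε : ε * ε = 1 := det_sw
  have hε0 := left_ne_zero_of_mul_eq_one hε
  obtain ⟨d, d0, d1, d2⟩ := exists_d h4 hε
  obtain ⟨m1, n1, e1⟩ := split_facts hs d 1 (ε / d)
  rw [one_pow, mul_one, mul_div_cancel₀ _ d0] at e1
  set s := finrank F W
  set f₁ : F[X] := (X - C 1) ^ (s - 2) * (X - C (ε / d))
  have e0 : ((X - C d) * f₁).eval 0 ≠ 0 := fun e => hε0 (by rw [← e1, e, mul_zero])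
  obtain ⟨β, b1, b2, b3⟩ := exists_pl h4 hs (div_ne_zero (pow_ne_zero 2 h1) e0) d 1 (ε / d)
  have hd : f₁.eval d ≠ 0 := by
    simp only [f₁, eval_mul, eval_pow, eval_sub, eval_X, eval_C]
    exact mul_ne_zero (pow_ne_zero _ (sub_ne_zero.2 d1))
      (sub_ne_zero.2 fun e => d2 (by rw [eq_div_iff d0] at e; exact e))
  obtain ⟨Y, v, t1, t2, t3⟩ := md_main hA h1 hα m1 n1 hd (pl_deg hs β _).1 (pl_deg hs β _).2
    (by rw [pl_zero hs, div_mul_cancel₀ _ e0]) one_ne_zero (gen_unit _) (charpoly_unit _)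
    isCoprime_one_right (coprime_of_eval b1 b2 b3) isCoprime_one_left
  rw [e1, one_pow, mul_one, hε] at t1
  have := t1.hasCyc one_ne_zero (c := 1) (map_one _) (by simp) t2
  rw [t3, mul_one, mul_assoc] at this
  exact ⟨d, _, this, by rw [eval_mul]; exact mul_ne_zero hd b1⟩

/-- even dimension, `α` non-scalar: a cyclic element avoiding an eigenvalue -/
theorem even_avoid (h4 : 4 ≤ Fintype.card F) {A : End F ((W × PUnit.{1}) × W)} {α : End F W}
    (hA : Md A 1 α) (h0 : LinearMap.det A ≠ 0) (hα : NSc α) (hs : 2 ≤ finrank F W) {c : F}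
    (hc : c ≠ 0) : ∃ f, HasCycG A 2 f ∧ f.eval c ≠ 0 := by
  have h1 := hA.det_ne h0 one_ne_zero
  obtain ⟨d, d0, d1, -⟩ := exists_notMem3 h4 0 c c
  obtain ⟨u, u0, u1, u2⟩ := exists_notMem3 h4 0 c d
  obtain ⟨m1, n1, e1⟩ := split_facts hs d u u
  set s := finrank F W
  set f₁ : F[X] := (X - C u) ^ (s - 2) * (X - C u)
  have e2 : d * u ^ (s - 2) * u ≠ 0 := mul_ne_zero (mul_ne_zero d0 (pow_ne_zero _ u0)) u0
  have e0 : ((X - C d) * f₁).eval 0 ≠ 0 := fun e => e2 (by rw [← e1, e, mul_zero])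
  obtain ⟨β, b1, b2, b3⟩ := exists_pl h4 hs (div_ne_zero (pow_ne_zero 2 h1) e0) d u c
  have hd : ∀ d, d ≠ u → f₁.eval d ≠ 0 := fun d h => by
    simp only [f₁, eval_mul, eval_pow, eval_sub, eval_X, eval_C]
    exact mul_ne_zero (pow_ne_zero _ (sub_ne_zero.2 h)) (sub_ne_zero.2 h)
  obtain ⟨Y, v, t1, t2, t3⟩ := md_main hA h1 hα m1 n1 (hd d u2.symm) (pl_deg hs β _).1
    (pl_deg hs β _).2 (by rw [pl_zero hs, div_mul_cancel₀ _ e0]) one_ne_zero (gen_unit _)
    (charpoly_unit _) isCoprime_one_right (coprime_of_eval b1 b2 b2) isCoprime_one_left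
  rw [e1, one_pow, mul_one] at t1
  refine ⟨_, ⟨Y, t1.mem_gcls (mul_ne_zero (left_ne_zero_of_mul_eq_one det_sw) e2), v, t2, t3⟩, ?_⟩
  rw [mul_one, eval_mul (p := _ * f₁), eval_mul (q := f₁)]
  exact mul_ne_zero (mul_ne_zero (by simpa [sub_ne_zero] using d1.symm) (hd c u1.symm)) b3

/-- odd dimension, `α` non-scalar -/
theorem odd_good (h4 : 4 ≤ Fintype.card F) {A : End F ((W × F) × W)} {x : F} {α : End F W}
    (hA : Md A x α) (h0 : LinearMap.det A ≠ 0) (hx : x ≠ 0) (hα : NSc α) (hs : 2 ≤ finrank F W) :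
    ∃ d f', HasCyc A 2 ((X - C d) * f') ∧ f'.eval d ≠ 0 := by
  have h1 := hA.det_ne h0 hx
  obtain ⟨d, d0, d1, -⟩ := exists_notMem3 h4 0 (x * x) (x * x)
  obtain ⟨u, u0, u1, u2⟩ := exists_notMem3 h4 0 (x * x) d
  obtain ⟨m1, n1, e1⟩ := split_facts hs d u u
  set s := finrank F W
  set f₁ : F[X] := (X - C u) ^ (s - 2) * (X - C u)
  have e2 : d * u ^ (s - 2) * u ≠ 0 := mul_ne_zero (mul_ne_zero d0 (pow_ne_zero _ u0)) u0
  have e0 : ((X - C d) * f₁).eval 0 ≠ 0 := fun e => e2 (by rw [← e1, e, mul_zero])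
  obtain ⟨β, b1, b2, b3⟩ := exists_pl h4 hs (div_ne_zero (pow_ne_zero 2 h1) e0) d u (x * x)
  have hd : ∀ d, d ≠ u → f₁.eval d ≠ 0 := fun d h => by
    simp only [f₁, eval_mul, eval_pow, eval_sub, eval_X, eval_C]
    exact mul_ne_zero (pow_ne_zero _ (sub_ne_zero.2 h)) (sub_ne_zero.2 h)
  have hε0 := left_ne_zero_of_mul_eq_one (det_sw (F := F) (W := W) (L := F))
  have k1 : (X - C (x * x)).eval d ≠ 0 := by simpa [sub_ne_zero] using d1
  have k2 : (X - C (x * x)).eval u ≠ 0 := by simpa [sub_ne_zero] using u1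
  obtain ⟨Y, v, t1, t2, t3⟩ := md_main hA h1 hα m1 n1 (hd d u2.symm) (pl_deg hs β _).1
    (pl_deg hs β _).2 (by rw [pl_zero hs, div_mul_cancel₀ _ e0])
    (inv_ne_zero (mul_ne_zero hε0 e2)) (gen_one _) (charpoly_line _) (coprime_of_eval k1 k2 k2)
    (coprime_of_eval b1 b2 b2) (coprime_X_sub_C b3)
  rw [e1, finrank_self, pow_one, ← mul_assoc, mul_inv_cancel₀ (mul_ne_zero hε0 e2)] at t1
  have := t1.hasCyc one_ne_zero (c := 1) (map_one _) (by simp) t2
  rw [t3, mul_assoc, mul_assoc] at this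
  exact ⟨d, _, this, by
    rw [eval_mul (p := f₁), eval_mul (p := X - C (x * x))]
    exact mul_ne_zero (hd d u2.symm) (mul_ne_zero k1 b1)⟩

end Cfsg.Agent.H26.Cov
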