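import Mathlib
import Cfsg.Agent.H26.CovC

/-! Products of two conjugates of a map satisfying a quadratic polynomial. -/

set_option autoImplicit false

namespace Cfsg.Agent.H26.Cov

open Module Polynomial Cfsg.Agent.H76 Cfsg.Agent.H22.Lev
open scoped Pointwise

variable {F V W : Type*} [Field F] [AddCommGroup V] [Module F V] [AddCommGroup W] [Module F W]

/-- a two by two block map -/
def m2 (p q r s : End F W) : End F (W × W) := (p.coprod q).prod (r.coprod s)

theorem m2_apply (p q r s : End F W) (v : W × W) :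
    m2 p q r s v = (p v.1 + q v.2, r v.1 + s v.2) := rfl

/-- the map with `A ^ 2 = b A + a` on `W × W` -/
def qd (W : Type*) [AddCommGroup W] [Module F W] (a b : F) : End F (W × W) :=
  m2 0 (a • 1) 1 (b • 1)

/-- a product of two conjugates of `qd` -/
def yq (a b t : F) (Z Zi : End F W) : End F (W × W) :=
  m2 (b • 1) 1 (a • 1) 0 * m2 (t • Z) (a • Zi - (t * t) • Z + (t * b) • 1) Z (b • 1 - t • Z)

/-- its trace -/
def tq (a b t : F) (Z Zi : End F W) : End F W :=
  (1 + t * b - t * t * a) • Z + (a * a) • Zi + (t * a * b) • 1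

theorem yq_rel (a b t : F) {Z Zi : End F W} (h1 : Zi * Z = 1) (h2 : Z * Zi = 1) (v : W × W) :
    yq a b t Z Zi (yq a b t Z Zi v) + (a * a) • v =
      (tq a b t Z Zi).prodMap (tq a b t Z Zi) (yq a b t Z Zi v) := by
  have e1 : ∀ w, Zi (Z w) = w := LinearMap.congr_fun h1
  have e2 : ∀ w, Z (Zi w) = w := LinearMap.congr_fun h2
  refine Prod.ext ?_ ?_ <;>
  · simp only [yq, tq, m2_apply, Module.End.mul_apply, LinearMap.add_apply, LinearMap.sub_apply,
      LinearMap.smul_apply, Module.End.one_apply, LinearMap.zero_apply, map_add, map_sub, map_smul,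
      e1, e2, Prod.fst_add, Prod.snd_add, Prod.smul_fst, Prod.smul_snd, LinearMap.prodMap_apply,
      add_zero, map_zero]
    module

/-- some map commuting with `A` has determinant `r` -/
def Cen (A : End F V) (r : F) : Prop := ∃ c : End F V, LinearMap.det c = r ∧ c * A = A * c

theorem Cen.sim {A : End F V} {B : End F W} {r : F} (h : Cen A r) (s : Sim A B) : Cen B r := by
  obtain ⟨e, he⟩ := s
  obtain ⟨z, h1, h2⟩ := h
  exact ⟨e.conjRingEquiv z, by rw [det_cj, h1], by rw [eq_cj he, ← map_mul, h2, map_mul]⟩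

theorem sim_qd {W₁ W₂ : Type*} [AddCommGroup W₁] [Module F W₁] [AddCommGroup W₂] [Module F W₂]
    (e : W ≃ₗ[F] W₁ × W₂) (a b : F) : Sim (qd W a b) ((qd W₁ a b).prodMap (qd W₂ a b)) :=
  ⟨(e.prodCongr e).trans (LinearEquiv.prodProdProdComm F W₁ W₂ W₁ W₂), fun v => by
    simp [qd, m2_apply]⟩

theorem f4 {w c₀ c₁ c₂ c₃ : F} (h2 : (2 : F) = 0) (hw : w * w + w + 1 = 0)
    (k1 : c₀ + c₁ + c₂ + c₃ = 0) (k2 : w * (c₀ + c₁ * w + c₂ * w ^ 2 + c₃ * w ^ 3) = 0)
    (k3 : (w + 1) * (c₀ + c₁ * (w + 1) + c₂ * (w + 1) ^ 2 + c₃ * (w + 1) ^ 3) = 0) :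
    c₂ = 0 ∧ c₀ = c₃ := by
  constructor <;> grind

theorem cnt [Fintype F] (h4 : 4 ≤ Fintype.card F) {a d : F} (b : F) (ha : a ≠ 0) (hd : d ≠ 0) :
    ∃ t, t ≠ 0 ∧ b * (d + a) - t * a * d ≠ 0 ∧ (1 + t * b - t * t * a) * (d * d) - a * a ≠ 0 := by
  by_contra! hc
  have key : ∀ t, t * ((b * (d + a) - t * a * d) *
      ((1 + t * b - t * t * a) * (d * d) - a * a)) = 0 := fun t => by
    by_contra h
    exact right_ne_zero_of_mul (right_ne_zero_of_mul h)
      (hc t (left_ne_zero_of_mul h) (left_ne_zero_of_mul (right_ne_zero_of_mul h)))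
  rcases h4.eq_or_lt with h | h
  · have h2 : (2 : F) = 0 := by
      have := FiniteField.cast_card_eq_zero F
      rw [← h] at this
      exact mul_self_eq_zero.1 (by rw [← this]; norm_num)
    obtain ⟨w, w0, w1, -⟩ := exists_notMem3 h4 (0 : F) 1 1
    have hw : w * w + w + 1 = 0 := by
      have := FiniteField.pow_card w
      rw [← h] at this
      apply mul_left_cancel₀ (mul_ne_zero w0 (sub_ne_zero.2 w1))
      linear_combination this
    obtain ⟨k1, k2⟩ := f4 h2 hw (c₀ := b * (d + a) * (d * d - a * a))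
      (c₁ := b * (d + a) * b * (d * d) - a * d * (d * d - a * a))
      (c₂ := -(b * (d + a) * a * (d * d)) - a * d * b * (d * d)) (c₃ := a * d * (a * (d * d)))
      (by linear_combination key 1) (by linear_combination key w)
      (by linear_combination key (w + 1))
    have hb : b = 0 := by
      apply mul_left_cancel₀ (mul_ne_zero (mul_ne_zero ha ha) (mul_ne_zero hd hd))
      linear_combination -k1 - (a * b * d ^ 3) * h2
    exact mul_ne_zero (mul_ne_zero ha hd) (mul_ne_zero ha (mul_ne_zero hd hd))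
      (by rw [← k2, hb]; ring)
  · let p : F[X] := X * ((C (b * (d + a)) - X * C (a * d)) *
      ((1 + X * C b - X * X * C a) * C (d * d) - C (a * a)))
    have h1 : p.natDegree ≤ 4 := by simp only [p]; compute_degree
    have h2 : p.coeff 4 = a * d * (a * (d * d)) := by
      simp only [p]
      have : (X * ((C (b * (d + a)) - X * C (a * d)) *
          ((1 + X * C b - X * X * C a) * C (d * d) - C (a * a))) : F[X]) =
          C (a * d * (a * (d * d))) * X ^ 4 + C (-(b * (d + a) * a * (d * d)) - a * d * b * (d * d)) * X ^ 3 +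
          C (b * (d + a) * b * (d * d) - a * d * (d * d - a * a)) * X ^ 2 +
          C (b * (d + a) * (d * d - a * a)) * X := by
        simp only [map_mul, map_sub, map_add, map_neg]; ring
      rw [this]
      simp [coeff_X, coeff_X_pow, -map_mul, -map_sub, -map_neg]
    have h3 := eq_zero_of_natDegree_lt_card_of_eval_eq_zero p Function.injective_id
      (fun t => by
        simp only [p, eval_mul, eval_sub, eval_add, eval_X, eval_C, eval_one, id]
        linear_combination key t) (by omega)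
    rw [h3, coeff_zero] at h2
    exact mul_ne_zero (mul_ne_zero ha hd) (mul_ne_zero ha (mul_ne_zero hd hd)) h2.symm

variable [FiniteDimensional F V] [FiniteDimensional F W]

theorem det_up (q : End F W) : LinearMap.det (m2 1 q 0 1) = 1 := by
  rw [show m2 1 q 0 1 = 1 + m2 0 q 0 0 from LinearMap.ext fun v => by simp [m2_apply, Prod.ext_iff]]
  exact det_one_add (LinearMap.ext fun v => by simp [m2_apply])

theorem det_lo (q : End F W) : LinearMap.det (m2 1 0 q 1) = 1 := by
  rw [show m2 1 0 q 1 = 1 + m2 0 0 q 0 from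
    LinearMap.ext fun v => by simp [m2_apply, Prod.ext_iff, add_comm]]
  exact det_one_add (LinearMap.ext fun v => by simp [m2_apply])

theorem det_diag (p s : End F W) : LinearMap.det (m2 p 0 0 s) = LinearMap.det p * LinearMap.det s := by
  rw [← LinearMap.det_prodMap]
  congr 1
  exact LinearMap.ext fun v => by simp [m2_apply]

theorem det_scal (p q s : F) {r : F} (hr : r ≠ 0) :
    LinearMap.det (m2 (p • 1) (q • 1) (r • 1) (s • 1 : End F W)) = (p * s - q * r) ^ finrank F W := by
  have : m2 (p • 1) (q • 1) (r • 1) (s • 1 : End F W) = m2 1 (((p - 1) / r) • 1) 0 1 *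
      m2 1 0 (r • 1) 1 * m2 1 0 0 ((p * s - q * r) • 1) * m2 1 ((q - (p - 1) / r * s) • 1) 0 1 :=
    LinearMap.ext fun v => by
      refine Prod.ext ?_ ?_ <;>
      · simp only [m2_apply, Module.End.mul_apply, LinearMap.smul_apply, Module.End.one_apply,
          LinearMap.zero_apply]
        match_scalars <;> field_simp <;> ring
  rw [this, map_mul, map_mul, map_mul, det_up, det_up, det_lo, det_diag]
  simp

theorem two_yq (a b t : F) {Z Zi : End F W} (h1 : Zi * Z = 1) :
    Two (qd W a b) (qd W a b) ((-1) ^ finrank F W * LinearMap.det Z) (yq a b t Z Zi) := by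
  have e1 : ∀ w, Zi (Z w) = w := LinearMap.congr_fun h1
  have hJ := det_scal (W := W) (0 : F) 1 0 one_ne_zero
  simp only [zero_smul, one_smul, mul_zero, mul_one, zero_sub] at hJ
  refine ⟨m2 0 1 1 0, m2 1 (t • 1) 0 1 * m2 1 0 0 Z, _, _, ?_, ?_, ?_, ?_, rfl⟩
  · rw [hJ]; exact pow_ne_zero _ (by simp)
  · rw [hJ, map_mul, det_up, det_diag, map_one]
    linear_combination (-LinearMap.det Z) * neg_one_sq (F := F) (finrank F W)
  · exact LinearMap.ext fun v => by simp [qd, m2_apply, add_comm]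
  · refine LinearMap.ext fun v => Prod.ext ?_ ?_ <;>
    · simp only [qd, m2_apply, Module.End.mul_apply, LinearMap.add_apply, LinearMap.sub_apply,
        LinearMap.smul_apply, Module.End.one_apply, LinearMap.zero_apply, map_add, map_smul, e1,
        zero_add, add_zero]
      module

theorem yq_gen {a b t : F} (ha : a ≠ 0) (ht : t ≠ 0) {Z Zi : End F W} (h1 : Zi * Z = 1)
    (h2 : Z * Zi = 1) {e : W} (hg : Gen (tq a b t Z Zi) e ⊤) : Gen (yq a b t Z Zi) (e, 0) ⊤ := by
  refine ⟨trivial, le_top, fun S he hS v _ => ?_⟩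
  have hi : Function.Injective (yq a b t Z Zi) := (injective_iff_map_eq_zero _).2 fun v hv => by
    have := yq_rel a b t h1 h2 v
    rw [hv, map_zero, map_zero, zero_add, smul_eq_zero] at this
    exact this.resolve_left (mul_ne_zero ha ha)
  have s1 : ∀ w, (w, 0) ∈ S := fun w => hg.2.2 (S.comap (LinearMap.inl F W W)) he (by
    rintro _ ⟨y, hy, rfl⟩
    obtain ⟨u, hu, e⟩ : (y, 0) ∈ S.map (yq a b t Z Zi) := by rw [map_eq_of_le hi hS]; exact hy
    have := yq_rel a b t h1 h2 u
    have h3 := S.add_mem (hS ⟨_, hS ⟨_, hu, rfl⟩, rfl⟩) (S.smul_mem (a * a) hu)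
    rw [this, e] at h3
    simpa using h3) trivial
  have s2 := hS ⟨_, s1 ((a * t)⁻¹ • Zi v.2), rfl⟩
  have s3 : (yq a b t Z Zi ((a * t)⁻¹ • Zi v.2, 0)).2 = v.2 := by
    have e2 : ∀ w, Z (Zi w) = w := LinearMap.congr_fun h2
    simp only [yq, m2_apply, Module.End.mul_apply, LinearMap.smul_apply, Module.End.one_apply,
      LinearMap.zero_apply, map_smul, e2, map_zero, add_zero]
    match_scalars
    field_simp
  convert S.add_mem s2 (s1 (v.1 - (yq a b t Z Zi ((a * t)⁻¹ • Zi v.2, 0)).1)) using 1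
  exact Prod.ext (by simp) (by rw [Prod.snd_add, s3, add_zero])

theorem yq_eval {a b t d : F} (hd : d ≠ 0) {Z Zi : End F W} (h1 : Zi * Z = 1) (h2 : Z * Zi = 1)
    (h : ∀ w, tq a b t Z Zi w = (d + a * a / d) • w → w = 0) :
    (yq a b t Z Zi).charpoly.eval d ≠ 0 := by
  refine eval_ne_zero_iff.2 fun v hv => ?_
  have := yq_rel a b t h1 h2 v
  rw [hv, map_smul, hv, map_smul] at this
  have key : ∀ w, d • d • w + (a * a) • w = d • tq a b t Z Zi w → w = 0 := fun w hw =>
    h w (smul_right_injective W hd (by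
      simp only [← hw]
      match_scalars
      field_simp))
  exact Prod.ext (key _ (congrArg Prod.fst this)) (key _ (congrArg Prod.snd this))

theorem quad_avoid [Fintype F] (h4 : 4 ≤ Fintype.card F) {a d : F} (b : F) (ha : a ≠ 0)
    (hd : d ≠ 0) : ∃ Y v, Two (qd W a b) (qd W a b) ((-d) ^ finrank F W) Y ∧ Gen Y v ⊤ ∧
      Y.charpoly.eval d ≠ 0 ∧ Y.charpoly.eval (a * a / d) ≠ 0 := by
  obtain ⟨t, t0, t1, t2⟩ := cnt h4 b ha hd
  obtain ⟨N, e, hg, hc⟩ := exists_cyc (V := W) (monic_X_pow (finrank F W)) (natDegree_X_pow _)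
  have hN : IsNilpotent N := (LinearMap.isNilpotent_iff_charpoly N).2 hc
  have hZ := det_add_nilp hN d
  obtain ⟨Zi, h1, h2⟩ := exists_inv (z := d • 1 + N) (hZ ▸ pow_ne_zero _ hd)
  have hc1 : Commute N Zi := by
    have : Commute N (d • 1 + N) := ((Commute.one_right N).smul_right d).add_right (Commute.refl N)
    calc N * Zi = Zi * ((d • 1 + N) * N) * Zi := by rw [← mul_assoc, h1, one_mul]
      _ = Zi * N := by rw [← this.eq, mul_assoc, mul_assoc, h2, mul_one]
  set κ := 1 + t * b - t * t * a with hκ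
  have hZi : Zi = d⁻¹ • 1 - d⁻¹ • (N * Zi) := by
    rw [add_mul, smul_mul_assoc, one_mul] at h2
    rw [← smul_sub, ← h2, add_sub_cancel_right, smul_smul, inv_mul_cancel₀ hd, one_smul]
  set u : End F W := κ • 1 - (a * a * d⁻¹) • Zi with hu
  have hu2 : u = (κ - a * a * d⁻¹ * d⁻¹) • 1 + (a * a * d⁻¹ * d⁻¹) • (N * Zi) := by
    rw [hu]
    nth_rw 1 [hZi]
    module
  have hu3 : LinearMap.det u ≠ 0 := by
    rw [hu2, det_add_nilp ((hc1.isNilpotent_mul_right hN).smul _)]
    exact pow_ne_zero _ fun e => t2 (by field_simp at e; linear_combination e)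
  obtain ⟨u', u1, u2⟩ := exists_inv hu3
  have hc2 : Commute N u := ((Commute.one_right N).smul_right _).sub_right (hc1.smul_right _)
  have hM : IsNilpotent (N * u) := hc2.isNilpotent_mul_right hN
  have hτ : tq a b t (d • 1 + N) Zi = (1 : F) • (N * u) + (κ * d + a * a / d + t * a * b) • 1 := by
    rw [tq, ← hκ, hu, mul_sub, mul_smul_comm, mul_smul_comm, mul_one, div_eq_mul_inv]
    nth_rw 1 [hZi]
    module
  have hinj : ∀ w, tq a b t (d • 1 + N) Zi w = (d + a * a / d) • w → w = 0 := fun w hw => by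
    have h3 := det_add_nilp hM (t * (b * (d + a) - t * a * d))
    refine injective_of_det (h3 ▸ pow_ne_zero _ (mul_ne_zero t0 t1)) ?_
    rw [hτ] at hw
    simp only [LinearMap.add_apply, LinearMap.smul_apply, Module.End.one_apply, map_zero] at hw ⊢
    rw [hκ] at hw
    linear_combination (norm := module) hw
  refine ⟨_, _, ?_, yq_gen ha t0 h1 h2 (e := e) ?_, yq_eval hd h1 h2 hinj,
    yq_eval (div_ne_zero (mul_ne_zero ha ha) hd) h1 h2 fun w hw => hinj w ?_⟩
  · have := two_yq a b t h1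
    rwa [hZ, ← mul_pow, neg_one_mul] at this
  · rw [hτ]
    refine gen_affine (gen_of_nilp hM fun v => ?_) one_ne_zero _
    obtain ⟨c, w, rfl⟩ := Gen.dec hg v
    exact ⟨c, u' w, by rw [← Module.End.mul_apply, mul_assoc, u2, mul_one]⟩
  · rw [hw]
    congr 1
    field_simp
    ring

theorem quad_one {a d : F} (b : F) (hd : d ≠ 0) (h : d ≠ a * a / d) :
    ∃ Y v, Two (qd F a b) (qd F a b) (-d) Y ∧ Gen Y v ⊤ ∧
      Y.charpoly = (X - C d) * (X - C (a * a / d)) := by
  have h1 : (d⁻¹ • 1 : End F F) * (d • 1) = 1 := by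
    rw [smul_mul_smul_comm, inv_mul_cancel₀ hd, one_smul, one_mul]
  have h2 := two_yq a b 0 h1
  obtain ⟨v, a1, a2⟩ := glue (LinearMap.inl F F F) (LinearMap.snd F F F)
    (fun v hv => ⟨v.1, Prod.ext rfl hv.symm⟩) (fun l => ⟨(0, l), rfl⟩)
    (Y := yq a b 0 (d • 1) (d⁻¹ • 1)) (Y₁ := d • 1) (Y₂ := (a * a / d) • 1)
    (fun w => by simp [yq, m2_apply]) (fun v => by simp [yq, m2_apply]; ring) (gen_one _) (gen_one _)
    (coprime_X_sub_C (f := X - C (a * a / d)) (by simpa [sub_ne_zero] using h))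
    (aeval_charpoly (charpoly_line _) _) (aeval_charpoly (charpoly_line _) _)
  refine ⟨_, v, by simpa using h2, a1, a1.charpoly_eq ((monic_X_sub_C _).mul (monic_X_sub_C _)) ?_ a2⟩
  rw [(monic_X_sub_C _).natDegree_mul (monic_X_sub_C _)]
  simp

theorem cen_sq (h : 0 < finrank F W) (a b x : F) : Cen (qd W a b) (x * x) := by
  obtain ⟨P, hP⟩ := exists_det h x
  exact ⟨m2 P 0 0 P, by rw [det_diag, hP], LinearMap.ext fun v => by simp [qd, m2_apply]⟩

theorem cen_norm (a b x : F) {y : F} (hy : y ≠ 0) :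
    Cen (qd W a b) ((x * (x + b * y) - a * y * y) ^ finrank F W) := by
  refine ⟨_, det_scal x (a * y) (x + b * y) hy, LinearMap.ext fun v => Prod.ext ?_ ?_⟩ <;>
  · simp only [qd, m2_apply, Module.End.mul_apply, LinearMap.smul_apply, Module.End.one_apply,
      LinearMap.zero_apply]
    module

theorem quad_sum {a b d r : F} (hd : d ≠ 0) (h : d ≠ a * a / d) {W₂ : Type*} [AddCommGroup W₂]
    [Module F W₂] [FiniteDimensional F W₂] (hW : finrank F W = finrank F W₂ + 1)
    {Y : End F (W₂ × W₂)} {v : W₂ × W₂} (h1 : Two (qd W₂ a b) (qd W₂ a b) r Y) (h2 : Gen Y v ⊤)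
    (h3 : Y.charpoly.eval d ≠ 0) (h4 : Y.charpoly.eval (a * a / d) ≠ 0) (hr : r ≠ 0)
    (hc : Cen (qd W a b) (-d * r)) :
    ∃ d f', HasCyc (qd W a b) 2 ((X - C d) * f') ∧ f'.eval d ≠ 0 := by
  have s := sim_qd (LinearEquiv.ofFinrankEq W (F × W₂) (by simp [hW, add_comm])) a b
  obtain ⟨Y₁, v₁, k1, k2, k3⟩ := quad_one b hd h
  obtain ⟨c, c1, c2⟩ := hc.sim s
  obtain ⟨u, a1, a2⟩ := glue (LinearMap.inl F (F × F) (W₂ × W₂)) (LinearMap.snd F (F × F) (W₂ × W₂))
    (fun v hv => ⟨v.1, Prod.ext rfl hv.symm⟩) (fun l => ⟨(0, l), rfl⟩)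
    (Y := Y₁.prodMap Y) (Y₁ := Y₁) (Y₂ := Y) (fun w => by simp) (fun v => rfl) k2 h2
    ((coprime_X_sub_C h3).mul_left (coprime_X_sub_C h4)) (aeval_charpoly k3 _)
    (aeval_charpoly rfl _)
  have := ((k1.prod h1).hasCyc (mul_ne_zero (neg_ne_zero.2 hd) hr) c1 c2 a1).sim s.symm
  rw [LinearMap.charpoly_prodMap, k3, mul_assoc] at this
  exact ⟨d, _, this, by
    rw [eval_mul]; exact mul_ne_zero (by simpa [sub_ne_zero] using h) h3⟩

theorem quad_good [Fintype F] (h4 : 4 ≤ Fintype.card F) {a : F} (b : F) (ha : a ≠ 0)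
    (hs : 2 ≤ finrank F W) : ∃ d f', HasCyc (qd W a b) 2 ((X - C d) * f') ∧ f'.eval d ≠ 0 := by
  obtain ⟨d, d0, d1, d2⟩ := exists_notMem3 h4 0 a (-a)
  have hd : d ≠ a * a / d := fun e => by
    rw [eq_div_iff d0] at e
    exact (mul_self_eq_mul_self_iff.1 e).elim d1 d2
  obtain ⟨k, hk⟩ : ∃ k, finrank F W = k + 1 := ⟨finrank F W - 1, by omega⟩
  have hW : finrank F W = finrank F (Fin k → F) + 1 := by simp [hk]
  by_cases hc : Cen (qd W a b) ((-d) ^ finrank F W)
  · obtain ⟨Y, v, k1, k2, k3, k4⟩ := quad_avoid (W := Fin k → F) h4 b ha d0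
    exact quad_sum d0 hd hW k1 k2 k3 k4 (pow_ne_zero _ (neg_ne_zero.2 d0))
      (by rwa [← pow_succ', ← hW])
  have hsq : ¬ IsSquare ((-d) ^ finrank F W) := fun ⟨x, hx⟩ => hc (hx ▸ cen_sq (by omega) a b x)
  have h2 : ringChar F ≠ 2 := fun e => hsq (FiniteField.isSquare_of_char_two e _)
  have h2' : (2 : F) ≠ 0 := Ring.two_ne_zero h2
  have hodd : ¬ Even (finrank F W) := fun e => hsq (e.isSquare_pow _)
  have hdisc : b * b + 4 * a = 0 := by
    by_contra hne
    obtain ⟨x, y, e⟩ := FiniteField.exists_root_sum_quadratic (f := X ^ 2)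
      (g := C (-((b * b + 4 * a) / 4)) * X ^ 2 + C d) (degree_X_pow 2)
      (by
        rw [degree_add_eq_left_of_degree_lt] <;>
          rw [degree_C_mul_X_pow _ (neg_ne_zero.2 (div_ne_zero hne (by
            rw [show (4 : F) = 2 * 2 by norm_num]; exact mul_ne_zero h2' h2')))]
        · rfl
        · exact lt_of_le_of_lt degree_C_le (by norm_num))
      (FiniteField.odd_card_of_char_ne_two h2)
    simp only [eval_add, eval_mul, eval_pow, eval_X, eval_C] at e
    have h4' : (4 : F) ≠ 0 := by rw [show (4 : F) = 2 * 2 by norm_num]; exact mul_ne_zero h2' h2'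
    by_cases hy : y = 0
    · exact hsq (IsSquare.pow _ ⟨x, by rw [hy] at e; linear_combination -e⟩)
    · have := cen_norm (W := W) a b (x - b * y / 2) hy
      rw [show (x - b * y / 2) * (x - b * y / 2 + b * y) - a * y * y = -d by
        field_simp at e ⊢; linear_combination e] at this
      exact hc this
  have hb : b ≠ 0 := fun e => by
    rw [e, show (4 : F) = 2 * 2 by norm_num] at hdisc
    exact mul_ne_zero (mul_ne_zero h2' h2') ha (by linear_combination hdisc)
  have hk2 : Even k := by rw [hk, Nat.even_add_one, not_not] at hodd; exact hodd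
  have hk3 : 2 ≤ k := by obtain ⟨j, rfl⟩ := hk2; omega
  set y := a * a / (d + a * a / d - -2 / b * a * b)
  obtain ⟨β, b1, -, -⟩ := exists_pl h4 hk3 (neg_ne_zero.2 d0) y y y
  obtain ⟨Z, e, g1, c1⟩ := exists_cyc (V := Fin k → F) (pl_deg hk3 β (-d)).1
    (by rw [(pl_deg hk3 β (-d)).2]; simp)
  have hZ : (-1) ^ finrank F (Fin k → F) * LinearMap.det Z = -d := by
    rw [det_eq_charpoly, c1, pl_zero hk3, ← mul_assoc, neg_one_sq, one_mul]
  obtain ⟨Zi, h1, h3⟩ := exists_inv (z := Z) (right_ne_zero_of_mul (hZ ▸ neg_ne_zero.2 d0))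
  have hτ : tq a b (-2 / b) Z Zi = (a * a) • Zi + (-2 / b * a * b) • 1 := by
    rw [tq, show 1 + -2 / b * b - -2 / b * (-2 / b) * a = 0 by
      field_simp; linear_combination -hdisc, zero_smul, zero_add]
  have hinj : ∀ w, tq a b (-2 / b) Z Zi w = (d + a * a / d) • w → w = 0 := fun w hw => by
    rw [hτ] at hw
    have e1 : (a * a) • w = (d + a * a / d - -2 / b * a * b) • Z w := by
      have := congrArg Z hw
      have e2 : Z (Zi w) = w := LinearMap.congr_fun h3 w
      simp only [LinearMap.add_apply, LinearMap.smul_apply, Module.End.one_apply, map_add, map_smul,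
        e2] at this
      linear_combination (norm := module) this
    by_cases h0 : d + a * a / d - -2 / b * a * b = 0
    · rw [h0, zero_smul, smul_eq_zero] at e1
      exact e1.resolve_left (mul_ne_zero ha ha)
    · refine eval_ne_zero_iff.1 (c1 ▸ b1) w ?_
      rw [show y = _ from div_eq_inv_mul _ _, mul_smul, e1, smul_smul, inv_mul_cancel₀ h0, one_smul]
  refine quad_sum d0 hd hW (two_yq a b (-2 / b) h1)
    (yq_gen ha (div_ne_zero (neg_ne_zero.2 h2') hb) h1 h3 (e := e) ?_) (yq_eval d0 h1 h3 hinj)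
    (yq_eval (div_ne_zero (mul_ne_zero ha ha) d0) h1 h3 fun w hw => hinj w ?_)
    (hZ ▸ neg_ne_zero.2 d0) (hZ ▸ cen_sq (by omega) a b _)
  · rw [hτ]; exact gen_affine (g1.inv h1) (mul_ne_zero ha ha) _
  · rw [hw]
    congr 1
    field_simp
    ring

theorem quad_scalar (hs : finrank F W = 2) (a b : F) :
    ((a * a) • 1 : End F (W × W)) ∈ cls (qd W a b) ^ 4 := by
  have h1 : b • 1 - qd W a b ∈ cls (qd W a b) := by
    refine ⟨m2 1 0 0 ((-1 : F) • 1) * m2 1 (b • 1) 0 1, ?_, LinearMap.ext fun v => Prod.ext ?_ ?_⟩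
    · rw [map_mul, det_up, det_diag, LinearMap.det_smul, hs]; simp
    all_goals
      simp only [qd, m2_apply, Module.End.mul_apply, LinearMap.sub_apply, LinearMap.smul_apply,
        Module.End.one_apply, LinearMap.zero_apply, Prod.fst_sub, Prod.snd_sub, Prod.smul_fst,
        Prod.smul_snd]
      module
  have h2 : qd W a b * (b • 1 - qd W a b) = (-a) • 1 := LinearMap.ext fun v => by
    refine Prod.ext ?_ ?_ <;>
    · simp only [qd, m2_apply, Module.End.mul_apply, LinearMap.sub_apply, LinearMap.smul_apply,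
        Module.End.one_apply, LinearMap.zero_apply, Prod.fst_sub, Prod.snd_sub, Prod.smul_fst,
        Prod.smul_snd]
      module
  have h3 : ((-a) • 1 : End F (W × W)) ∈ cls (qd W a b) ^ 2 := by
    rw [pow_two, ← h2]; exact Set.mul_mem_mul (self_mem_cls _) h1
  have := Set.mul_mem_mul h3 h3
  rwa [← pow_add, smul_mul_smul_comm, neg_mul_neg, one_mul] at this

end Cfsg.Agent.H26.Cov
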