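import Mathlib
import Cfsg.Agent.H26.CovD

/-! Subspaces moved off themselves; the even-dimensional case. -/

set_option autoImplicit false

namespace Cfsg.Agent.H26.Cov

open Module Polynomial Cfsg.Agent.H76 Cfsg.Agent.H22.Lev
open scoped Pointwise

variable {F V W : Type*} [Field F] [AddCommGroup V] [Module F V] [AddCommGroup W] [Module F W]

theorem mem_sup_span {U : Submodule F V} {v x : V} : x ∈ U ⊔ F ∙ v ↔ ∃ c : F, x - c • v ∈ U := by
  refine ⟨fun h => ?_, fun ⟨c, hc⟩ => ?_⟩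
  · obtain ⟨u, hu, _, h1, rfl⟩ := Submodule.mem_sup.1 h
    obtain ⟨c, rfl⟩ := Submodule.mem_span_singleton.1 h1
    exact ⟨c, by simpa using hu⟩
  · rw [← sub_add_cancel x (c • v)]
    exact Submodule.add_mem_sup hc (Submodule.smul_mem _ _ (Submodule.mem_span_singleton_self v))

theorem scalar_mod {A : End F V} {U : Submodule F V} (hU : ∀ u ∈ U, A u ∈ U)
    (h : ∀ v, v ∉ U → A v ∈ U ⊔ F ∙ v) : ∃ c : F, ∀ v, A v - c • v ∈ U := by
  by_contra hne
  have : NSc (U.mapQ U A hU) := fun c hc => hne ⟨c, fun v => by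
    have := LinearMap.congr_fun hc (U.mkQ v)
    rw [← Submodule.Quotient.mk_eq_zero, Submodule.Quotient.mk_sub, sub_eq_zero]
    exact this⟩
  obtain ⟨v, hv⟩ := this.exists_vec
  obtain ⟨v, rfl⟩ := U.mkQ_surjective v
  refine hv ?_
  by_cases h0 : v ∈ U
  · rw [show U.mkQ v = 0 from (Submodule.Quotient.mk_eq_zero U).2 h0, map_zero]
    exact Submodule.zero_mem _
  · obtain ⟨c, hc⟩ := mem_sup_span.1 (h v h0)
    refine Submodule.mem_span_singleton.2 ⟨c, ?_⟩
    rw [← Submodule.Quotient.mk_eq_zero, Submodule.Quotient.mk_sub, sub_eq_zero] at hc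
    exact hc.symm

/-- `ι` embeds `W` as a subspace meeting its image under `A` trivially. -/
def Tr (A : End F V) (ι : W →ₗ[F] V) : Prop := ∀ w w', ι w + A (ι w') = 0 → w = 0 ∧ w' = 0

/-- the span of the subspace and its image -/
def spU (A : End F V) (ι : W →ₗ[F] V) : Submodule F V := LinearMap.range (ι.coprod (A ∘ₗ ι))

theorem mem_spU {A : End F V} {ι : W →ₗ[F] V} {v : V} : v ∈ spU A ι ↔ ∃ w w', v = ι w + A (ι w') :=
  ⟨fun ⟨x, hx⟩ => ⟨x.1, x.2, hx.symm⟩, fun ⟨w, w', h⟩ => ⟨(w, w'), h.symm⟩⟩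

theorem Tr.comp {A : End F V} {ι : W →ₗ[F] V} (h : Tr A ι) {W' : Type*} [AddCommGroup W']
    [Module F W'] (e : W' ≃ₗ[F] W) : Tr A (ι ∘ₗ e.toLinearMap) := fun w w' hw => by
  simpa using h (e w) (e w') hw

variable [FiniteDimensional F V] [FiniteDimensional F W]

theorem Tr.finrank {A : End F V} {ι : W →ₗ[F] V} (h : Tr A ι) :
    finrank F (spU A ι) = 2 * finrank F W := by
  rw [spU, LinearMap.finrank_range_of_inj ((injective_iff_map_eq_zero _).2 fun x hx =>
    Prod.ext (h x.1 x.2 hx).1 (h x.1 x.2 hx).2), finrank_prod, two_mul]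

theorem exists_notMem' {S : Submodule F V} (h : finrank F S < finrank F V) : ∃ v, v ∉ S := by
  obtain ⟨e, -, he⟩ := exists_notMem (W := S) (K := ⊤) (by rwa [finrank_top])
  exact ⟨e, he⟩

theorem finrank_sup_span_le (U : Submodule F V) (v : V) :
    finrank F (U ⊔ F ∙ v : Submodule F V) ≤ finrank F U + 1 :=
  (Submodule.finrank_add_le_finrank_add_finrank _ _).trans (by
    have := (finrank_span_le_card (R := F) ({v} : Set V))
    simp only [Set.toFinset_singleton, Finset.card_singleton] at this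
    omega)

theorem grow {A : End F V} {s : ℕ} {ι : (Fin s → F) →ₗ[F] V} (h : Tr A ι)
    (hn : 2 * s + 2 ≤ finrank F V)
    (hc : ∀ c : F, ∃ v, ∀ w, A v - c • v ≠ A (ι w) - c • ι w) :
    ∃ ι' : (Fin (s + 1) → F) →ₗ[F] V, Tr A ι' := by
  have hU := h.finrank
  rw [finrank_fin_fun] at hU
  set U := spU A ι
  have m1 : ∀ w, ι w ∈ U := fun w => mem_spU.2 ⟨w, 0, by simp⟩
  have m2 : ∀ w, A (ι w) ∈ U := fun w => mem_spU.2 ⟨0, w, by simp⟩
  by_cases h1 : ∃ v, v ∉ U ∧ A v ∉ U ⊔ F ∙ v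
  · obtain ⟨v, h2, h3⟩ := h1
    refine ⟨_, Tr.comp (ι := ι.coprod (LinearMap.toSpanSingleton F V v)) ?_
      (LinearEquiv.ofFinrankEq _ _ (by simp))⟩
    rintro ⟨w, a⟩ ⟨w', b⟩ e
    simp only [LinearMap.coprod_apply, LinearMap.toSpanSingleton_apply, map_add, map_smul] at e
    have hb : b = 0 := by_contra fun hb => h3 (mem_sup_span.2 ⟨-(a / b), by
      rw [← U.smul_mem_iff hb, show b • (A v - -(a / b) • v) = -(ι w + A (ι w')) by
        rw [smul_sub, smul_smul, show b * -(a / b) = -a by field_simp]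
        linear_combination (norm := module) e]
      exact U.neg_mem (U.add_mem (m1 w) (m2 w'))⟩)
    have ha : a = 0 := by_contra fun ha => h2 (by
      rw [← U.smul_mem_iff ha, show a • v = -(ι w + A (ι w')) by
        rw [hb] at e; linear_combination (norm := module) e]
      exact U.neg_mem (U.add_mem (m1 w) (m2 w')))
    obtain ⟨k1, k2⟩ := h w w' (by simpa [ha, hb] using e)
    simp [k1, k2, ha, hb]
  push Not at h1
  have hinv : ∀ u ∈ U, A u ∈ U := fun u hu => by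
    obtain ⟨v₁, hv₁⟩ := exists_notMem' (S := U) (by omega)
    obtain ⟨v₂, hv₂⟩ := exists_notMem' (S := U ⊔ F ∙ v₁)
      (by have := finrank_sup_span_le U v₁; omega)
    have key : ∀ v, v ∉ U → ∃ c : F, A u - c • v ∈ U := fun v hv => by
      obtain ⟨a, ha⟩ := mem_sup_span.1 (h1 v hv)
      obtain ⟨b, hb⟩ := mem_sup_span.1 (h1 (v + u) fun e => hv (by simpa using U.sub_mem e hu))
      refine ⟨b - a, ?_⟩
      convert U.add_mem (U.sub_mem hb ha) (U.smul_mem b hu) using 1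
      rw [map_add]; module
    obtain ⟨a, ha⟩ := key v₁ hv₁
    obtain ⟨b, hb⟩ := key v₂ fun e => hv₂ (Submodule.mem_sup_left e)
    have hb0 : b = 0 := by_contra fun hb0 => hv₂ (mem_sup_span.2 ⟨a / b, by
      rw [← U.smul_mem_iff hb0]
      convert U.sub_mem ha hb using 1
      rw [smul_sub, smul_smul, show b * (a / b) = a by field_simp]; module⟩)
    simpa [hb0] using hb
  obtain ⟨c, hcU⟩ := scalar_mod hinv h1
  have dec : ∀ v, ∃ w p, A (v - ι w) - c • (v - ι w) = ι p := fun v => by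
    obtain ⟨p, w, e⟩ := mem_spU.1 (hcU v)
    exact ⟨w, p + c • w, by rw [map_sub, map_add, map_smul]; linear_combination (norm := module) e⟩
  obtain ⟨v, hv, p, p0, hp⟩ : ∃ v, v ∉ U ∧ ∃ p, p ≠ 0 ∧ A v - c • v = ι p := by
    obtain ⟨v₀, hv₀⟩ := hc c
    obtain ⟨w₀, p₀, e₀⟩ := dec v₀
    have p0 : p₀ ≠ 0 := fun e => hv₀ w₀ (by
      rw [e, map_zero, map_sub] at e₀; linear_combination (norm := module) e₀)
    by_cases h2 : v₀ - ι w₀ ∈ U
    · obtain ⟨v₁, hv₁⟩ := exists_notMem' (S := U) (by omega)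
      obtain ⟨w₁, p₁, e₁⟩ := dec v₁
      have h3 : v₁ - ι w₁ ∉ U := fun e => hv₁ (by simpa using U.add_mem e (m1 w₁))
      by_cases h4 : p₁ = 0
      · exact ⟨v₀ - ι w₀ + (v₁ - ι w₁), fun e => h3 (by simpa using U.sub_mem e h2), p₀, p0, by
          rw [h4, map_zero] at e₁
          rw [map_add]; linear_combination (norm := module) e₀ + e₁⟩
      · exact ⟨_, h3, p₁, h4, e₁⟩
    · exact ⟨_, h2, p₀, p0, e₀⟩
  obtain ⟨y, hy, r, hr⟩ : ∃ y, y ∉ U ⊔ F ∙ v ∧ ∃ r, A y - c • y = ι r := by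
    obtain ⟨y, hy⟩ := exists_notMem' (S := U ⊔ F ∙ v) (by have := finrank_sup_span_le U v; omega)
    obtain ⟨w, r, e⟩ := dec y
    exact ⟨_, fun e => hy (by simpa using Submodule.add_mem _ e (Submodule.mem_sup_left (m1 w))),
      r, e⟩
  obtain ⟨ψ, -, hψ⟩ := exists_dual (W := (⊥ : Submodule F (Fin s → F))) p0
  have hψ0 : ψ ≠ 0 := fun e => by simp [e] at hψ
  refine ⟨_, Tr.comp (ι := ((ι ∘ₗ (LinearMap.ker ψ).subtype).coprod
    (LinearMap.toSpanSingleton F V v)).coprod (LinearMap.toSpanSingleton F V (ι p + y))) ?_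
    (LinearEquiv.ofFinrankEq _ _ (by
      have := Module.Dual.finrank_ker_add_one_of_ne_zero hψ0
      simp only [finrank_fin_fun, finrank_prod, finrank_self] at this ⊢
      omega))⟩
  rintro ⟨⟨⟨k, hk⟩, a⟩, b⟩ ⟨⟨⟨k', hk'⟩, a'⟩, b'⟩ e
  simp only [LinearMap.coprod_apply, LinearMap.toSpanSingleton_apply, map_add, map_smul,
    LinearMap.comp_apply, Submodule.subtype_apply] at e
  rw [LinearMap.mem_ker] at hk hk'
  have e1 : (a + c * a') • v + (b + c * b') • y =
      -(ι (k + b • p + a' • p + b' • r) + A (ι (k' + b' • p))) := by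
    simp only [map_add, map_smul]
    linear_combination (norm := module) e - a' • hp - b' • hr
  have hm := U.neg_mem (U.add_mem (m1 (k + b • p + a' • p + b' • r)) (m2 (k' + b' • p)))
  rw [← e1] at hm
  have hb : b + c * b' = 0 := by_contra fun hb => hy (mem_sup_span.2 ⟨-((a + c * a') / (b + c * b')), by
    rw [← U.smul_mem_iff hb]
    convert hm using 1
    rw [smul_sub, smul_smul, show (b + c * b') * -((a + c * a') / (b + c * b')) = -(a + c * a') by
      field_simp]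
    module⟩)
  have ha : a + c * a' = 0 := by_contra fun ha => hv (by
    rw [hb, zero_smul, add_zero] at hm; exact (U.smul_mem_iff ha).1 hm)
  rw [ha, hb, zero_smul, zero_smul, add_zero, eq_comm, neg_eq_zero] at e1
  obtain ⟨k1, k2⟩ := h _ _ e1
  have q1 : b' = 0 := by simpa [hk', hψ] using congrArg ψ k2
  have q2 : b = 0 := by simpa [q1] using hb
  have q3 : a' = 0 := by simpa [hk, hψ, q1, q2] using congrArg ψ k1
  have q4 : a = 0 := by simpa [q3] using ha
  simp only [q1, q2, q3, zero_smul, add_zero] at k1 k2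
  simp [k1, k2, q1, q2, q3, q4]

theorem exists_tr (A : End F V) : ∃ (s : ℕ) (ι : (Fin s → F) →ₗ[F] V), Tr A ι ∧
    (finrank F V ≤ 2 * s + 1 ∨ ∃ c : F, ∀ v, ∃ w, A v - c • v = A (ι w) - c • ι w) := by
  have key : ∀ k s (ι : (Fin s → F) →ₗ[F] V), Tr A ι → finrank F V ≤ s + k →
      ∃ (s : ℕ) (ι : (Fin s → F) →ₗ[F] V), Tr A ι ∧ (finrank F V ≤ 2 * s + 1 ∨
        ∃ c : F, ∀ v, ∃ w, A v - c • v = A (ι w) - c • ι w) := fun k => by
    induction k with
    | zero => exact fun s ι h hn => ⟨s, ι, h, Or.inl (by omega)⟩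
    | succ k ih =>
      intro s ι h hn
      by_contra hne
      obtain ⟨ι', h'⟩ := grow h (by by_contra e; exact hne ⟨s, ι, h, Or.inl (by omega)⟩)
        fun c => by by_contra! e; exact hne ⟨s, ι, h, Or.inr ⟨c, e⟩⟩
      exact hne (ih _ ι' h' (by omega))
  exact key (finrank F V) 0 0 (fun w w' _ => ⟨Subsingleton.elim _ _, Subsingleton.elim _ _⟩)
    (by omega)

theorem det_tri {Y : End F (V × W)} {Y₁ : End F V} {Y₂ : End F W} (h1 : ∀ u, Y (u, 0) = (Y₁ u, 0))
    (h2 : ∀ v, (Y v).2 = Y₂ v.2) :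
    LinearMap.det Y = LinearMap.det Y₁ * LinearMap.det Y₂ := by
  let N : End F (V × W) := LinearMap.inl F V W ∘ₗ LinearMap.fst F V W ∘ₗ Y ∘ₗ LinearMap.inr F V W ∘ₗ
    LinearMap.snd F V W
  have : Y = LinearMap.prodMap 1 Y₂ * (1 + N) * LinearMap.prodMap Y₁ 1 := LinearMap.ext fun v => by
    have e : Y v = Y (v.1, 0) + Y (0, v.2) := by rw [← map_add]; simp
    refine Prod.ext ?_ ?_
    · rw [e, h1]; simp [N]
    · rw [h2]; simp [N]
  rw [this, map_mul, map_mul, det_one_add (LinearMap.ext fun v => by simp [N, Prod.mk_zero_zero]),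
    LinearMap.det_prodMap, LinearMap.det_prodMap]
  simp [mul_comm]

variable {L : Type*} [AddCommGroup L] [Module F L] [FiniteDimensional F L]

theorem Md.det {A : End F ((W × L) × W)} {x : F} {α : End F W} (h : Md A x α) :
    LinearMap.det (sw F W L) * LinearMap.det A = x ^ finrank F L * LinearMap.det α := by
  rw [← map_mul, det_tri (Y₁ := LinearMap.fst F (W × L) W ∘ₗ (sw F W L * A) ∘ₗ LinearMap.inl F _ W)
    (Y₂ := α) (fun u => Prod.ext rfl (by simp [sw_apply, h.h2])) (fun v => h.h2 v),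
    det_tri (Y₁ := 1) (Y₂ := x • 1) (fun u => by simp [sw_apply, h.h1]) fun v => ?_]
  · simp
  · obtain ⟨u, hu⟩ := h.h4 v.1 v.2
    simp [sw_apply, hu]

theorem exists_md' (A : End F V) (ι : W →ₗ[F] V) (j : L →ₗ[F] V)
    (inj : ∀ w l w', ι w + j l + A (ι w') = 0 → w = 0 ∧ l = 0 ∧ w' = 0)
    (hd : finrank F V = 2 * finrank F W + finrank F L) {x : F}
    (hx : ∀ l, ∃ w', A (j l) = x • j l + A (ι w')) :
    ∃ (B : End F ((W × L) × W)) (α : End F W), Sim A B ∧ Md B x α ∧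
      ∀ w, ∃ l w', A (A (ι w)) = ι (α w) + j l + A (ι w') := by
  obtain ⟨e, α, h1, h2⟩ := exists_md A ι j inj hd hx
  refine ⟨_, α, sim_cj e.symm A, h2, fun w => ?_⟩
  have h3 := h2.h2 ((0, 0), w)
  rw [cj_apply, e.symm_symm, h1, map_zero, map_zero, zero_add, zero_add] at h3
  refine ⟨(e.symm (A (A (ι w)))).1.2, (e.symm (A (A (ι w)))).2, ?_⟩
  rw [← h1, ← h3, e.apply_symm_apply]

theorem even_cases {A : End F V} {ι : W →ₗ[F] V} (h : Tr A ι) (h0 : LinearMap.det A ≠ 0)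
    (hd : finrank F V = 2 * finrank F W) (hs : 0 < finrank F W) :
    (∃ (B : End F ((W × PUnit.{1}) × W)) (α : End F W), Sim A B ∧ Md B 1 α ∧ NSc α) ∨
      ∃ a b : F, a ≠ 0 ∧ Sim A (qd W a b) := by
  have md : ∀ ι : W →ₗ[F] V, Tr A ι → ∃ (B : End F ((W × PUnit.{1}) × W)) (α : End F W),
      Sim A B ∧ Md B 1 α ∧ ∀ w, ∃ w', A (A (ι w)) = ι (α w) + A (ι w') := fun ι h => by
    obtain ⟨B, α, h1, h2, h3⟩ := exists_md' A ι (0 : PUnit.{1} →ₗ[F] V)
      (fun w l w' e => ⟨(h w w' (by simpa using e)).1, rfl, (h w w' (by simpa using e)).2⟩)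
      (by rw [finrank_zero_of_subsingleton (M := PUnit.{1})]; exact hd) (x := 1) fun l => ⟨0, by simp⟩
    exact ⟨B, α, h1, h2, fun w => by simpa using h3 w⟩
  obtain ⟨B, α, h1, h2, h3⟩ := md ι h
  by_cases hα : NSc α
  · exact Or.inl ⟨B, α, h1, h2, hα⟩
  obtain ⟨a, rfl⟩ : ∃ a : F, α = a • 1 := by simpa [NSc] using hα
  have ha : a ≠ 0 := fun e => h2.det_ne (h1.det_eq ▸ h0) one_ne_zero (by
    rw [LinearMap.det_smul, e, zero_pow hs.ne', zero_mul])
  let m := ι.coprod (A ∘ₗ ι)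
  have hm : Function.Injective m := (injective_iff_map_eq_zero _).2 fun x hx =>
    Prod.ext (h x.1 x.2 hx).1 (h x.1 x.2 hx).2
  let e := LinearEquiv.ofBijective m ⟨hm, (LinearMap.injective_iff_surjective_of_finrank_eq_finrank
    (by rw [finrank_prod]; omega)).1 hm⟩
  have he : ∀ w w', e (w, w') = ι w + A (ι w') := fun _ _ => rfl
  let β : End F W := LinearMap.snd F W W ∘ₗ e.symm.toLinearMap ∘ₗ A ∘ₗ A ∘ₗ ι
  have hβ : ∀ w, A (A (ι w)) = a • ι w + A (ι (β w)) := fun w => by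
    obtain ⟨w', hw'⟩ := h3 w
    have : β w = w' := by
      change (e.symm (A (A (ι w)))).2 = w'
      rw [hw', ← he, e.symm_apply_apply]
    rw [this, hw']; simp
  by_cases hb : NSc β
  · obtain ⟨w₀, hw₀⟩ := hb.exists_vec
    obtain ⟨φ, p1, p2⟩ := exists_dual hw₀
    have p0 := p1 w₀ (Submodule.mem_span_singleton_self w₀)
    obtain ⟨B', α', k1, k2, k3⟩ := md (ι + φ.smulRight (A (ι (β w₀)) - ι (β w₀))) fun w w' e => by
      simp only [LinearMap.add_apply, LinearMap.smulRight_apply, map_add, map_smul, map_sub,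
        hβ (β w₀)] at e
      obtain ⟨q1, q2⟩ := h (w - φ w • β w₀ + (φ w' * a) • β w₀)
        (φ w • β w₀ + w' - φ w' • β w₀ + φ w' • β (β w₀)) (by
          simp only [map_add, map_smul, map_sub]
          linear_combination (norm := module) e)
      have r1 : φ w' = 0 := by simpa [p2, ha] using congrArg φ q1
      have r2 : φ w = 0 := by simpa [p2, r1] using congrArg φ q2
      simpa [r1, r2] using And.intro q1 q2
    refine Or.inl ⟨B', α', k1, k2, fun c hc => hw₀ ?_⟩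
    obtain ⟨w', e⟩ := k3 w₀
    rw [hc] at e
    simp only [LinearMap.add_apply, LinearMap.smulRight_apply, map_add, map_smul, map_sub,
      hβ (β w₀), hβ w₀, p0, zero_smul, add_zero, LinearMap.smul_apply, Module.End.one_apply] at e
    obtain ⟨q1, q2⟩ := h ((c - a) • w₀ + (φ w' * a) • β w₀)
      (w' - φ w' • β w₀ + φ w' • β (β w₀) - β w₀) (by
        simp only [map_add, map_smul, map_sub]
        linear_combination (norm := module) -e)
    have r1 : φ w' = 0 := by simpa [p2, p0, ha] using congrArg φ q1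
    simpa [r1, p2] using congrArg φ q2
  · obtain ⟨b, hb⟩ : ∃ b : F, β = b • 1 := by simpa [NSc] using hb
    refine Or.inr ⟨a, b, ha, Sim.symm ⟨e, fun v => ?_⟩⟩
    obtain ⟨w, w'⟩ := v
    simp only [qd, m2_apply, he, map_add, hβ, hb, LinearMap.smul_apply, Module.End.one_apply,
      LinearMap.zero_apply, map_smul, zero_add]
    module

variable [Fintype F]

theorem even_good' (h4 : 4 ≤ Fintype.card F) {A : End F V} {ι : W →ₗ[F] V} (h : Tr A ι)
    (h0 : LinearMap.det A ≠ 0) (hd : finrank F V = 2 * finrank F W) (hs : 2 ≤ finrank F W) :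
    ∃ d f', HasCyc A 2 ((X - C d) * f') ∧ f'.eval d ≠ 0 := by
  rcases even_cases h h0 hd (by omega) with ⟨B, α, h1, h2, h3⟩ | ⟨a, b, ha, h1⟩
  · obtain ⟨d, f, k1, k2⟩ := even_good h4 h2 (h1.det_eq ▸ h0) h3 hs
    exact ⟨d, f, k1.sim h1.symm, k2⟩
  · obtain ⟨d, f, k1, k2⟩ := quad_good h4 b ha hs
    exact ⟨d, f, k1.sim h1.symm, k2⟩

theorem even_avoid' (h4 : 4 ≤ Fintype.card F) {A : End F V} {ι : W →ₗ[F] V} (h : Tr A ι)
    (h0 : LinearMap.det A ≠ 0) (hd : finrank F V = 2 * finrank F W) (hs : 2 ≤ finrank F W) {c : F}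
    (hc : c ≠ 0) : ∃ f, HasCycG A 2 f ∧ f.eval c ≠ 0 := by
  rcases even_cases h h0 hd (by omega) with ⟨B, α, h1, h2, h3⟩ | ⟨a, b, ha, h1⟩
  · obtain ⟨f, k1, k2⟩ := even_avoid h4 h2 (h1.det_eq ▸ h0) h3 hs hc
    exact ⟨f, k1.sim h1.symm, k2⟩
  · obtain ⟨Y, v, k1, k2, k3, -⟩ := quad_avoid (W := W) h4 b ha hc
    exact ⟨_, HasCycG.sim ⟨Y, k1.mem_gcls (pow_ne_zero _ (neg_ne_zero.2 hc)), v, k2, rfl⟩ h1.symm,
      k3⟩

end Cfsg.Agent.H26.Cov
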