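import Mathlib
import Cfsg.Agent.H26.CovE

/-! Products of conjugacy classes in `SL(V)`: the even and odd cases. -/

set_option autoImplicit false

namespace Cfsg.Agent.H26.Cov

open Module Polynomial Cfsg.Agent.H76 Cfsg.Agent.H22.Lev
open scoped Pointwise

variable {F V W : Type*} [Field F] [AddCommGroup V] [Module F V] [AddCommGroup W] [Module F W]

/-- a scalar is a product of `k` conjugates -/
def Sc (A : End F V) (k : ℕ) : Prop := ∃ c : F, (c • 1 : End F V) ∈ cls A ^ k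

theorem Sc.sim {A : End F V} {B : End F W} {k : ℕ} (h : Sc A k) (s : Sim A B) : Sc B k := by
  obtain ⟨e, he⟩ := s
  obtain ⟨c, hc⟩ := h
  refine ⟨c, ?_⟩
  have := cj_mem_pow e k hc
  rwa [← eq_cj he, ← eq_cj (B := c • 1) (fun v => by simp)] at this

theorem Sc.smul {A : End F V} {k : ℕ} (h : Sc A k) (c : F) : Sc (c • A) k := by
  obtain ⟨d, hd⟩ := h
  exact ⟨c ^ k * d, by rw [mul_smul]; exact smul_mem_pow c k hd⟩

theorem NSc.smul {g : End F V} (h : NSc g) {c : F} (hc : c ≠ 0) : NSc (c • g) := fun d hd =>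
  h (c⁻¹ * d) (by rw [mul_smul, ← hd, smul_smul, inv_mul_cancel₀ hc, one_smul])

theorem NSc.inv {g g' : End F V} (h : NSc g) (e : g * g' = 1) : NSc g' := fun d hd => by
  rw [hd, mul_smul_comm, mul_one] at e
  by_cases h0 : d = 0
  · rw [h0, zero_smul] at e
    exact h 0 (by rw [← mul_one g, ← e, mul_zero, zero_smul])
  · exact h d⁻¹ (by rw [← e, smul_smul, inv_mul_cancel₀ h0, one_smul])

variable [FiniteDimensional F V] [FiniteDimensional F W]

theorem NS.sim {A : End F V} {B : End F W} {k : ℕ} (h : NS A k) (s : Sim A B) : NS B k := by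
  have hd := s.det_eq
  obtain ⟨e, he⟩ := s
  intro g hg hdet
  have := cj_mem_pow e k (h (e.symm.conjRingEquiv g) (hg.sim (sim_cj _ _))
    (by rw [det_cj, hdet, hd]))
  rwa [← eq_cj he, ← eq_cj (B := g) (fun v => by rw [cj_apply]; simp)] at this

theorem NS.smul {A : End F V} {k : ℕ} (h : NS A k) {c : F} (hc : c ≠ 0) : NS (c • A) k := by
  intro g hg hdet
  have := smul_mem_pow c k (h ((c ^ k)⁻¹ • g) (hg.smul (inv_ne_zero (pow_ne_zero _ hc))) (by
    rw [LinearMap.det_smul, hdet, LinearMap.det_smul, mul_pow, ← pow_mul, mul_comm _ k, pow_mul,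
      inv_pow, ← mul_assoc, inv_mul_cancel₀ (pow_ne_zero _ (pow_ne_zero _ hc)), one_mul]))
  rwa [smul_smul, mul_inv_cancel₀ (pow_ne_zero _ hc), one_smul] at this

theorem All.sc {A : End F V} (h : All A (finrank F V)) : Sc A (finrank F V) :=
  ⟨LinearMap.det A, h _ (by simp)⟩

theorem sim_inv {Y Z : End F V} {Y' Z' : End F W} {c : F} (hc : c ≠ 0) (s : Sim Y Y')
    (h : Y * Z = c • 1) (h' : Z' * Y' = c • 1) : Sim Z Z' := by
  obtain ⟨e, he⟩ := s
  refine ⟨e, fun v => ?_⟩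
  have h1 := LinearMap.congr_fun h v
  have h2 := LinearMap.congr_fun h' (e (Z v))
  simp only [End.mul_apply, LinearMap.smul_apply, End.one_apply] at h1 h2
  rw [← he, h1, map_smul, map_smul] at h2
  exact (smul_right_injective W hc h2).symm

theorem gen_prod {Y₁ : End F V} {Y₂ : End F W} {w₁ : V} {w₂ : W} (g1 : Gen Y₁ w₁ ⊤)
    (g2 : Gen Y₂ w₂ ⊤) (k : IsCoprime Y₁.charpoly Y₂.charpoly) :
    ∃ v, Gen (Y₁.prodMap Y₂) v ⊤ := by
  obtain ⟨v, h, -⟩ := glue (LinearMap.inl F V W) (LinearMap.snd F V W)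
    (fun v hv => ⟨v.1, Prod.ext rfl hv.symm⟩) (fun l => ⟨(0, l), rfl⟩) (Y := Y₁.prodMap Y₂)
    (fun w => by simp) (fun v => rfl) g1 g2 k (aeval_charpoly rfl _) (aeval_charpoly rfl _)
  exact ⟨v, h⟩

theorem gen_inv_smul {M N : End F V} {v : V} (h : Gen M v ⊤) (e : N * M = 1) {c : F} (hc : c ≠ 0) :
    Gen (c • N) v ⊤ := by simpa using gen_affine (h.inv e) hc 0

theorem charpoly_inv_two {M N : End F V} {v : V} (h : Gen M v ⊤) (e : N * M = 1) (e' : M * N = 1)
    {a b c : F} (ha : a ≠ 0) (hb : b ≠ 0) (hc : c ≠ 0) (hM : M.charpoly = (X - C a) * (X - C b)) :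
    (c • N).charpoly = (X - C (c / a)) * (X - C (c / b)) := by
  have hd : finrank F V = 2 := by
    rw [← M.charpoly_natDegree, hM, (monic_X_sub_C a).natDegree_mul (monic_X_sub_C b)]; simp
  refine (gen_inv_smul h e hc).charpoly_eq ((monic_X_sub_C _).mul (monic_X_sub_C _))
    (by rw [(monic_X_sub_C _).natDegree_mul (monic_X_sub_C _), hd]; simp) ?_
  have h1 := aeval_charpoly hM (N (N v))
  have h2 : ∀ u, M (N u) = u := fun u => LinearMap.congr_fun e' u
  simp only [map_mul, map_sub, aeval_X, aeval_C, End.mul_apply, LinearMap.sub_apply,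
    Module.algebraMap_end_apply, map_smul, h2, LinearMap.smul_apply] at h1 ⊢
  linear_combination (norm := skip) (c * c / (a * b)) • h1
  match_scalars <;> field_simp <;> ring

theorem eval_inv_ne {M N : End F V} (e' : M * N = 1) {a c : F} (ha : a ≠ 0) (hc : c ≠ 0)
    (h : M.charpoly.eval a ≠ 0) : (c • N).charpoly.eval (c / a) ≠ 0 := by
  rw [eval_ne_zero_iff] at h ⊢
  intro v hv
  apply h
  have h1 := congrArg M hv
  rw [LinearMap.smul_apply, map_smul, map_smul, ← End.mul_apply, e', End.one_apply] at h1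
  linear_combination (norm := skip) (-a / c) • h1
  match_scalars <;> field_simp <;> ring

/-- lifting a product of two conjugates over an invariant hyperplane -/
theorem lift_two {B : End F (V × F)} {B₁ : End F V} {x : F} (h1 : ∀ u, B (u, 0) = (B₁ u, 0))
    (h2 : ∀ v, (B v).2 = x * v.2) {f : F[X]} (hf : HasCycG B₁ 2 f) (hx : f.eval (x * x) ≠ 0) :
    HasCyc B 2 ((X - C (x * x)) * f) := by
  obtain ⟨Y, hY, v, g1, c1⟩ := hf
  have key : ∀ Y₁ ∈ gcls B₁, ∃ B' ∈ cls B, (∀ u, B' (u, 0) = (Y₁ u, 0)) ∧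
      ∀ v, (B' v).2 = x * v.2 := by
    intro Y₁ hY₁
    obtain ⟨z, z1, z2⟩ := sim_iff.1 hY₁
    obtain ⟨z', e1, e2⟩ := exists_inv z1
    set t := LinearMap.det z
    have hz : (z'.prodMap (t • 1 : End F F)) * z.prodMap (t⁻¹ • 1) = 1 := by
      simp only [LinearMap.prodMap_mul, e1, smul_mul_smul_comm, mul_inv_cancel₀ z1, one_smul,
        mul_one]
      rfl
    refine ⟨z.prodMap (t⁻¹ • 1) * B * z'.prodMap (t • 1), ⟨z.prodMap (t⁻¹ • 1), ?_, ?_⟩,
      fun u => ?_, fun v => ?_⟩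
    · rw [LinearMap.det_prodMap, LinearMap.det_smul]
      simpa using mul_inv_cancel₀ z1
    · rw [mul_assoc, hz, mul_one]
    · have := LinearMap.congr_fun (congrArg (· * z') z2) u
      simp only [mul_assoc Y₁, e2, mul_one, End.mul_apply] at this
      simp [h1, this]
    · simp [h2]
      field_simp
  rw [pow_two] at hY
  obtain ⟨Y₁, hY₁, Y₂, hY₂, rfl⟩ := hY
  obtain ⟨B₁', a1, a2, a3⟩ := key Y₁ hY₁
  obtain ⟨B₂', b1, b2, b3⟩ := key Y₂ hY₂
  obtain ⟨w, g2, c2⟩ := glue (LinearMap.inl F V F) (LinearMap.snd F V F)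
    (fun v hv => ⟨v.1, Prod.ext rfl hv.symm⟩) (fun l => ⟨(0, l), rfl⟩) (Y := B₁' * B₂')
    (Y₁ := Y₁ * Y₂) (Y₂ := (x * x) • 1) (fun w => by simp [a2, b2])
    (fun v => by simp [a3, b3, mul_assoc]) g1 (gen_one _) (coprime_X_sub_C hx).symm
    (aeval_charpoly c1 _) (aeval_charpoly (charpoly_line _) _)
  have m1 := c1 ▸ LinearMap.charpoly_monic (Y₁ * Y₂)
  refine ⟨_, by rw [pow_two]; exact Set.mul_mem_mul a1 b1, w, g2,
    g2.charpoly_eq ((monic_X_sub_C _).mul m1) ?_ (by rwa [mul_comm])⟩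
  rw [(monic_X_sub_C _).natDegree_mul m1, ← c1, LinearMap.charpoly_natDegree, finrank_prod,
    natDegree_X_sub_C, finrank_self, add_comm]

omit [FiniteDimensional F V] [FiniteDimensional F W] in
theorem Tr.inj3 {A : End F V} {ι : W →ₗ[F] V} (h : Tr A ι) {l : V} (hl : l ∉ spU A ι) (w : W)
    (c : F) (w' : W) (e : ι w + c • l + A (ι w') = 0) : w = 0 ∧ c = 0 ∧ w' = 0 := by
  have hc : c = 0 := by
    by_contra hc
    refine hl (mem_spU.2 ⟨-c⁻¹ • w, -c⁻¹ • w', ?_⟩)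
    simp only [map_smul]
    linear_combination (norm := skip) c⁻¹ • e
    match_scalars <;> field_simp <;> ring
  rw [hc, zero_smul, add_zero] at e
  exact ⟨(h _ _ e).1, hc, (h _ _ e).2⟩

theorem Tr.md {A : End F V} {ι : W →ₗ[F] V} (h : Tr A ι)
    (hd : Module.finrank F V = 2 * Module.finrank F W + 1)
    {l : V} (hl : l ∉ spU A ι) {x : F} {w₀ : W} (hx : A l = x • l + A (ι w₀)) :
    ∃ (B : End F ((W × F) × W)) (α : End F W), Sim A B ∧ Md B x α ∧
      ∀ w, ∃ (c : F) (w' : W), A (A (ι w)) = ι (α w) + c • l + A (ι w') :=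
  exists_md' A ι (LinearMap.toSpanSingleton F V l) (h.inj3 hl) (by simpa using hd) fun c =>
    ⟨c • w₀, by simp only [LinearMap.toSpanSingleton_apply, map_smul, hx]; module⟩

theorem Tr.dec {A : End F V} {ι : W →ₗ[F] V} (h : Tr A ι)
    (hd : Module.finrank F V = 2 * Module.finrank F W + 1)
    {l : V} (hl : l ∉ spU A ι) (v : V) : ∃ (w : W) (c : F) (w' : W), v = ι w + c • l + A (ι w') := by
  obtain ⟨u, hu, c, e⟩ := H22.Lev.dec (W := spU A ι) (K := ⊤) le_top
    (by rw [finrank_top, h.finrank, hd]) trivial hl (Submodule.mem_top (x := v))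
  obtain ⟨w, w', rfl⟩ := mem_spU.1 hu
  exact ⟨w, c, w', by rw [e]; module⟩

/-- a complement vector with prescribed eigenvalue when the span is not invariant -/
theorem Tr.exists_l {A : End F V} {ι : W →ₗ[F] V} (h : Tr A ι)
    (hd : Module.finrank F V = 2 * Module.finrank F W + 1) {w₀ : W} (hw : A (A (ι w₀)) ∉ spU A ι) {x : F}
    (hx : x ≠ 0) : ∃ l w₁ w₂ w₃, l ∉ spU A ι ∧ A l = x • l + A (ι w₁) ∧
      A (A (ι w₀)) = ι w₂ + l + A (ι w₃) := by
  obtain ⟨w₁, y, w₂, e⟩ := h.dec hd hw (A (A (A (ι w₀))))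
  refine ⟨A (A (ι w₀)) + x⁻¹ • ι w₁ + (x - y) • A (ι w₀),
    w₂ + x⁻¹ • w₁ - (x * (x - y)) • w₀, -x⁻¹ • w₁, -(x - y) • w₀, fun hl => hw ?_, ?_, ?_⟩
  · obtain ⟨a, b, hab⟩ := mem_spU.1 hl
    refine mem_spU.2 ⟨a - x⁻¹ • w₁, b - (x - y) • w₀, ?_⟩
    simp only [map_sub, map_smul]
    linear_combination (norm := module) hab
  · simp only [map_add, map_sub, map_smul, e]
    match_scalars <;> field_simp <;> ring
  · simp only [map_smul]
    module

variable [Fintype F]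

theorem even_scalar (h4 : 4 ≤ Fintype.card F) {A : End F ((W × PUnit.{1}) × W)} {α : End F W}
    (hA : Md A 1 α) (h0 : LinearMap.det A ≠ 0) (hα : NSc α) (hs : finrank F W = 2) : Sc A 4 := by
  have h1 := hA.det_ne h0 one_ne_zero
  set ε := LinearMap.det (sw F W PUnit.{1})
  set δ := LinearMap.det α
  have hε : ε * ε = 1 := det_sw
  have hε0 := left_ne_zero_of_mul_eq_one hε
  obtain ⟨d, d0, -, d2⟩ := exists_d h4 hε
  have e1 : ((X - C d) * (X - C (ε / d))).eval 0 = ε := by simp; field_simp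
  obtain ⟨β, b1, b2, -⟩ := exists_pl h4 le_rfl (mul_ne_zero (pow_ne_zero 2 h1) hε0) d (ε / d) d
  have hd : (X - C (ε / d)).eval d ≠ 0 := by
    simp only [eval_sub, eval_X, eval_C]
    exact sub_ne_zero.2 fun e => d2 (by rw [eq_div_iff d0] at e; exact e)
  have m3 := pl_deg (F := F) le_rfl β (δ ^ 2 * ε)
  have hdet : (pl 2 β (δ ^ 2 * ε)).eval 0 * ((X - C d) * (X - C (ε / d))).eval 0 = δ ^ 2 := by
    rw [pl_zero le_rfl, e1, mul_assoc, hε, mul_one]
  have k2 : IsCoprime ((X - C d) * (X - C (ε / d))) (pl 2 β (δ ^ 2 * ε)) :=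
    (coprime_X_sub_C b1).mul_left (coprime_X_sub_C b2)
  obtain ⟨Y, v, t1, t2, t3⟩ := md_main hA h1 hα (monic_X_sub_C (ε / d)) (by simp [hs]) hd m3.1
    (m3.2.trans hs.symm) hdet one_ne_zero (gen_unit _) (charpoly_unit _) isCoprime_one_right k2
    isCoprime_one_left
  rw [e1, one_pow, mul_one, hs, _root_.neg_one_sq, one_mul, hε] at t1
  have hY := t1.hasCyc one_ne_zero (c := 1) (map_one _) (by simp) t2
  rw [t3, mul_one, mul_assoc] at hY
  obtain ⟨P, G, p1, p2, p3, p4⟩ := exists_P hα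
  obtain ⟨G', q1, q2⟩ := exists_inv (z := G) (by rw [p4]; exact pow_ne_zero _ h1)
  have dG : LinearMap.det (δ ^ 2 • G') = δ ^ 2 := by
    have := congrArg LinearMap.det q1
    rw [map_mul, map_one, p4] at this
    rw [LinearMap.det_smul, hs]
    linear_combination δ ^ 2 * this
  obtain ⟨M₃, M₁, w₃, w₁, -, -, e, g3, c3, g1, c1, -⟩ := lev ((p2.inv q2).smul (pow_ne_zero 2 h1))
    m3.1 (m3.2.trans hs.symm) (monic_X_sub_C (ε / d)) (by simp [hs]) hd
    (by rw [dG]; exact pow_ne_zero _ h1) (dG.trans hdet.symm)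
  have d3 : LinearMap.det M₃ = δ ^ 2 * ε := by
    rw [det_eq_charpoly, c3, pl_zero le_rfl, hs]; ring
  have d1 : LinearMap.det M₁ = ε := by rw [det_eq_charpoly, c1, e1, hs]; ring
  obtain ⟨N₃, r1, r2⟩ := exists_inv (z := M₃) (by rw [d3]; exact mul_ne_zero (pow_ne_zero _ h1) hε0)
  obtain ⟨N₁, s1, s2⟩ := exists_inv (z := M₁) (d1 ▸ hε0)
  have hG : G = δ • N₁ * δ • N₃ := by
    calc G = G * (M₃ * (M₁ * N₁) * N₃) := by rw [s2, mul_one, r2, mul_one]
      _ = G * (δ ^ 2 • G') * N₁ * N₃ := by rw [e]; simp only [mul_assoc]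
      _ = _ := by rw [mul_smul_comm, q2, smul_mul_smul_comm, pow_two]; simp
  have dN : LinearMap.det (δ • N₃) = ε := by
    have := congrArg LinearMap.det r1
    rw [map_mul, map_one, d3] at this
    rw [LinearMap.det_smul, hs]
    linear_combination ε * this - δ ^ 2 * LinearMap.det N₃ * hε
  have hεd : ε / d ≠ 0 := div_ne_zero hε0 d0
  have k : IsCoprime (δ • N₃).charpoly (δ • N₁).charpoly := by
    rw [charpoly_inv_two g1 s1 s2 d0 hεd h1 c1]
    exact ((coprime_X_sub_C (eval_inv_ne r2 d0 h1 (c3 ▸ b1))).mul_left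
      (coprime_X_sub_C (eval_inv_ne r2 hεd h1 (c3 ▸ b2)))).symm
  obtain ⟨Y', v', u1, u2, u3⟩ := block hA hA (p1 ▸ one_ne_zero) (dN ▸ hε0) (hG ▸ p3) one_ne_zero
    (gen_inv_smul g3 r1 h1) (gen_unit _) (gen_inv_smul g1 s1 h1) rfl (charpoly_unit _) rfl
    isCoprime_one_right k isCoprime_one_left
  rw [p1, dN, one_pow, one_pow, one_mul, mul_one, hε] at u1
  obtain ⟨Y'', y1, v'', y2, y3⟩ := u1.hasCyc one_ne_zero (c := 1) (map_one _) (by simp) u2
  obtain ⟨Z, z1, z2⟩ := exists_inv (z := Y'') (by rw [det_of_mem_pow 2 y1]; exact pow_ne_zero _ h0)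
  obtain ⟨w, hw⟩ := gen_prod (gen_inv_smul g3 r1 h1) (gen_inv_smul g1 s1 h1) k
  have sZ : Sim (δ • Z) (M₃.prodMap M₁) := sim_inv h1
    (y2.sim_of_charpoly hw (by rw [y3, u3, mul_one, LinearMap.charpoly_prodMap]))
    (by rw [mul_smul_comm, z2]) (by
      rw [LinearMap.prodMap_mul, mul_smul_comm, mul_smul_comm, r2, s2]
      ext <;> simp)
  have hZ := hY.mem (Or.inr ⟨d, _, rfl, by rw [eval_mul]; exact mul_ne_zero hd b1⟩)
    (gen_inv_smul y2 z1 h1) (by rw [sZ.charpoly_eq, LinearMap.charpoly_prodMap, c3, c1]; ring)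
  refine ⟨δ, ?_⟩
  rw [show 4 = 2 + 2 from rfl, pow_add, ← z2, ← mul_smul_comm]
  exact Set.mul_mem_mul y1 hZ

theorem even_scalar' (h4 : 4 ≤ Fintype.card F) {A : End F V} {ι : W →ₗ[F] V} (h : Tr A ι)
    (h0 : LinearMap.det A ≠ 0) (hd : finrank F V = 2 * finrank F W) (hs : finrank F W = 2) :
    Sc A 4 := by
  rcases even_cases h h0 hd (by omega) with ⟨B, α, h1, h2, h3⟩ | ⟨a, b, ha, h1⟩
  · exact (even_scalar h4 h2 (h1.det_eq ▸ h0) h3 hs).sim h1.symm
  · exact Sc.sim ⟨_, quad_scalar hs a b⟩ h1.symm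

theorem odd_inv (h4 : 4 ≤ Fintype.card F) {A : End F V} {ι : W →ₗ[F] V} (h : Tr A ι)
    (h0 : LinearMap.det A ≠ 0) (hd : finrank F V = 2 * finrank F W + 1) (hs : 2 ≤ finrank F W)
    (hU : ∀ w, A (A (ι w)) ∈ spU A ι) : ∃ d f', HasCyc A 2 ((X - C d) * f') ∧ f'.eval d ≠ 0 := by
  set U := spU A ι
  have hA : ∀ u ∈ U, A u ∈ U := fun u hu => by
    obtain ⟨w, w', rfl⟩ := mem_spU.1 hu
    rw [map_add]
    exact U.add_mem (mem_spU.2 ⟨0, w, by simp⟩) (hU w')
  obtain ⟨l, hl⟩ := exists_notMem' (S := U) (by rw [h.finrank]; omega)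
  let m : (U × F) →ₗ[F] V := U.subtype.coprod (LinearMap.toSpanSingleton F V l)
  have hm : Function.Surjective m := fun v => by
    obtain ⟨w, c, w', e⟩ := h.dec hd hl v
    exact ⟨(⟨ι w + A (ι w'), mem_spU.2 ⟨w, w', rfl⟩⟩, c), by rw [e]; simp [m]; module⟩
  let e := LinearEquiv.ofBijective m ⟨(LinearMap.injective_iff_surjective_of_finrank_eq_finrank
    (by rw [finrank_prod, h.finrank, finrank_self, hd])).2 hm, hm⟩
  have he : ∀ (u : U) (c : F), e (u, c) = u + c • l := fun _ _ => rfl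
  obtain ⟨w₁, x, w₂, hx⟩ := h.dec hd hl (A l)
  have h1 : ∀ u : U, e.symm.conjRingEquiv A (u, 0) = (A.restrict hA u, 0) := fun u => by
    rw [cj_apply, e.symm_symm, e.symm_apply_eq, he, he]; simp
  have h2 : ∀ v, (e.symm.conjRingEquiv A v).2 = x * v.2 := fun v => by
    have : e.symm.conjRingEquiv A v = (A.restrict hA v.1 +
        v.2 • ⟨ι w₁ + A (ι w₂), mem_spU.2 ⟨w₁, w₂, rfl⟩⟩, x * v.2) := by
      obtain ⟨u, c⟩ := v
      rw [cj_apply, e.symm_symm, e.symm_apply_eq, he, he]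
      simp [hx]
      module
    rw [this]
  have hdet := det_tri (Y₂ := x • 1) h1 (fun v => (h2 v).trans rfl)
  rw [det_cj, LinearMap.det_smul, finrank_self, pow_one, map_one, mul_one] at hdet
  have hx0 : x ≠ 0 := right_ne_zero_of_mul (hdet ▸ h0)
  obtain ⟨f, k1, k2⟩ := even_avoid' h4 (A := A.restrict hA)
    (ι := ι.codRestrict U fun w => mem_spU.2 ⟨w, 0, by simp⟩)
    (fun w w' e => h w w' (congrArg Subtype.val e)) (left_ne_zero_of_mul (hdet ▸ h0)) h.finrank hs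
    (mul_ne_zero hx0 hx0)
  exact ⟨_, f, (lift_two h1 h2 k1 k2).sim (sim_cj e.symm A).symm, k2⟩

theorem odd_good' (h4 : 4 ≤ Fintype.card F) {A : End F V} {ι : W →ₗ[F] V} (h : Tr A ι)
    (h0 : LinearMap.det A ≠ 0) (hd : finrank F V = 2 * finrank F W + 1) (hs : 2 ≤ finrank F W) :
    ∃ d f', HasCyc A 2 ((X - C d) * f') ∧ f'.eval d ≠ 0 := by
  by_cases hU : ∀ w, A (A (ι w)) ∈ spU A ι
  · exact odd_inv h4 h h0 hd hs hU
  push Not at hU
  obtain ⟨w₀, hw₀⟩ := hU
  have fin : ∀ {B : End F ((W × F) × W)} {α : End F W}, Sim A B → Md B 1 α → NSc α →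
      ∃ d f', HasCyc A 2 ((X - C d) * f') ∧ f'.eval d ≠ 0 := fun s m hα => by
    obtain ⟨d, f, k1, k2⟩ := odd_good h4 m (s.det_eq ▸ h0) one_ne_zero hα hs
    exact ⟨d, f, k1.sim s.symm, k2⟩
  obtain ⟨l, w₁, w₂, w₃, hl, l1, l2⟩ := h.exists_l hd hw₀ one_ne_zero
  obtain ⟨B, α, s, m, hα⟩ := h.md hd hl l1
  by_cases hn : NSc α
  · exact fin s m hn
  obtain ⟨a, rfl⟩ : ∃ a : F, α = a • 1 := by simpa [NSc] using hn
  have ha : a ≠ 0 := fun e => m.det_ne (s.det_eq ▸ h0) one_ne_zero (by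
    rw [LinearMap.det_smul, e, zero_pow (by omega), zero_mul])
  obtain ⟨u, hu⟩ := exists_notMem' (S := F ∙ w₀)
    (lt_of_le_of_lt (finrank_span_le_card ({w₀} : Set W)) (by simp; omega))
  obtain ⟨c, u', e1⟩ := hα u
  obtain ⟨c₀, u₀, e0⟩ := hα w₀
  simp only [LinearMap.smul_apply, End.one_apply, map_smul] at e1 e0
  obtain ⟨-, hc₀, -⟩ := h.inj3 hl (a • w₀ - w₂) (c₀ - 1) (u₀ - w₃) (by
    simp only [map_sub, map_smul]
    linear_combination (norm := module) l2 - e0)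
  rw [sub_eq_zero.1 hc₀] at e0
  have hw : u - c • w₀ ≠ 0 := fun e => hu (by
    rw [sub_eq_zero.1 e]; exact Submodule.smul_mem _ _ (Submodule.mem_span_singleton_self _))
  have e2 : A (A (ι (u - c • w₀))) = a • ι (u - c • w₀) + A (ι (u' - c • u₀)) := by
    simp only [map_sub, map_smul, e1, e0]
    module
  generalize u - c • w₀ = w at hw e2
  generalize u' - c • u₀ = w' at e2
  have hl' : l + A (ι w) + a • ι w ∉ spU A ι := fun hl' => hl (by
    obtain ⟨p, p', hp⟩ := mem_spU.1 hl'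
    refine mem_spU.2 ⟨p - a • w, p' - w, ?_⟩
    simp only [map_sub, map_smul]
    linear_combination (norm := module) hp)
  obtain ⟨B', α', s', m', hα'⟩ := h.md hd hl' (x := 1) (w₀ := w₁ + w' + a • w - w) (by
    simp only [map_add, map_sub, map_smul, l1, e2]
    module)
  refine fin s' m' fun a' ha' => ?_
  obtain ⟨c₁, u₁, f1⟩ := hα' w
  obtain ⟨c₂, u₂, f2⟩ := hα' w₀
  simp only [ha', LinearMap.smul_apply, End.one_apply, map_smul] at f1 f2
  obtain ⟨g1, -, -⟩ := h.inj3 hl' ((a' - a) • w) c₁ (u₁ - w') (by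
    simp only [map_sub, map_smul]
    linear_combination (norm := module) e2 - f1)
  have g2 : a' = a := sub_eq_zero.1 ((smul_eq_zero.1 g1).resolve_right hw)
  obtain ⟨g3, -, -⟩ := h.inj3 hl' (a • w) (c₂ - 1) (u₂ - u₀ + w) (by
    simp only [map_add, map_sub, map_smul]
    rw [g2] at f2
    linear_combination (norm := module) e0 - f2)
  exact hw ((smul_eq_zero.1 g3).resolve_left ha)

end Cfsg.Agent.H26.Cov
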