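import Mathlib
import Cfsg.Agent.H26.CovF

/-! Products of conjugacy classes in `SL(V)`: maps with a large eigenspace. -/

set_option autoImplicit false

namespace Cfsg.Agent.H26.Cov

open Module Polynomial Cfsg.Agent.H76 Cfsg.Agent.H22.Lev
open scoped Pointwise

variable {F V W K T : Type*} [Field F] [AddCommGroup V] [Module F V] [AddCommGroup W] [Module F W]
  [AddCommGroup K] [Module F K] [AddCommGroup T] [Module F T]

/-- `A` fixes the image of `κ`, and the images of `κ`, `ι`, `A ι` are independent -/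
structure Rk (A : End F V) (ι : W →ₗ[F] V) (κ : K →ₗ[F] V) : Prop where
  fix : ∀ k, A (κ k) = κ k
  inj : ∀ k w w', κ k + ι w + A (ι w') = 0 → k = 0 ∧ w = 0 ∧ w' = 0

/-- non-scalar modulo `U` -/
def NScM (g : End F V) (U : Submodule F V) : Prop := ∀ c : F, ¬ ∀ v, g v - c • v ∈ U

/-- maps fixing a subspace of dimension `r` are products of `k` conjugates -/
def Rel (A : End F V) (r k : ℕ) : Prop :=
  ∀ U : Submodule F V, finrank F U = r → ∀ g : End F V, (∀ u ∈ U, g u = u) → NScM g U →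
    LinearMap.det g = LinearMap.det A ^ k → g ∈ cls A ^ k

theorem Rel.ns {A : End F V} {k : ℕ} (h : Rel A 0 k) : NS A k := fun g hg =>
  h ⊥ (finrank_bot F V) g (fun u hu => by rw [(Submodule.mem_bot F).1 hu, map_zero]) fun c hc =>
    hg c (LinearMap.ext fun v => sub_eq_zero.1 (hc v))

theorem prod_mem_gpow {B : End F W} (k : ℕ) : ∀ {M : End F W}, M ∈ gcls B ^ k →
    (1 : End F K).prodMap M ∈ gcls ((1 : End F K).prodMap B) ^ k := by
  induction k with
  | zero => intro M h; rw [pow_zero, Set.mem_one] at h ⊢; rw [h]; rfl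
  | succ k ih =>
    intro M h
    rw [pow_succ] at h ⊢
    obtain ⟨a, ha, b, ⟨e, he⟩, rfl⟩ := h
    refine ⟨_, ih ha, (1 : End F K).prodMap b,
      ⟨(LinearEquiv.refl F K).prodCongr e, fun v => by simp [he]⟩, ?_⟩
    simp only [LinearMap.prodMap_mul, mul_one]

variable [FiniteDimensional F V] [FiniteDimensional F W] [FiniteDimensional F K]
  [FiniteDimensional F T]

omit [FiniteDimensional F T] in
theorem exists_ext_inj {p q : T →ₗ[F] V} (hp : Function.Injective p) (hq : Function.Injective q) :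
    ∃ e : V ≃ₗ[F] V, ∀ t, e (p t) = q t := by
  obtain ⟨e, he⟩ := Submodule.exists_linearEquiv_restrict_eq
    ((LinearEquiv.ofInjective p hp).symm.trans (LinearEquiv.ofInjective q hq))
  refine ⟨e, fun t => ?_⟩
  have := he (LinearEquiv.ofInjective p hp t)
  rw [LinearEquiv.trans_apply, LinearEquiv.symm_apply_apply] at this
  exact this.symm

theorem surj_of_det {g : End F V} (h : LinearMap.det g ≠ 0) : Function.Surjective g :=
  LinearMap.injective_iff_surjective.1 (injective_of_det h)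

theorem Rk.agree {A : End F V} {ι : W →ₗ[F] V} {κ : K →ₗ[F] V} (h : Rk A ι κ) (hF : Full A)
    {g : End F V} {U : Submodule F V} (τ : T →ₗ[F] V)
    (ht : ∀ u ∈ U, ∀ t t', u + τ t + g (τ t') = 0 → t = 0 ∧ t' = 0)
    (d1 : finrank F U ≤ finrank F K) (d2 : finrank F T ≤ finrank F W) :
    ∃ A' ∈ cls A, (∀ u ∈ U, A' u = u) ∧ ∀ t, A' (τ t) = g (τ t) := by
  obtain ⟨i, hi⟩ := finrank_le_iff_exists_linearMap.1 d1
  obtain ⟨j, hj⟩ := finrank_le_iff_exists_linearMap.1 d2
  obtain ⟨e, he⟩ := exists_ext_inj (p := ((κ ∘ₗ i).coprod (ι ∘ₗ j)).coprod (A ∘ₗ ι ∘ₗ j))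
    (q := (U.subtype.coprod τ).coprod (g ∘ₗ τ))
    ((injective_iff_map_eq_zero _).2 fun v hv => by
      obtain ⟨a, b, c⟩ := h.inj _ _ _ hv
      exact Prod.ext (Prod.ext ((map_eq_zero_iff i hi).1 a) ((map_eq_zero_iff j hj).1 b))
        ((map_eq_zero_iff j hj).1 c))
    ((injective_iff_map_eq_zero _).2 fun v hv => by
      have hv' : (v.1.1 : V) + τ v.1.2 + g (τ v.2) = 0 := hv
      obtain ⟨b, c⟩ := ht _ v.1.1.2 _ _ hv'
      refine Prod.ext (Prod.ext (Subtype.ext ?_) b) c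
      rwa [b, c, map_zero, map_zero, add_zero, add_zero] at hv')
  refine ⟨e.conjRingEquiv A, mem_cls_of_full hF (sim_cj e A), fun u hu => ?_, fun t => ?_⟩
  · have h1 : e (κ (i ⟨u, hu⟩)) = u := by simpa using he ((⟨u, hu⟩, 0), 0)
    rw [cj_apply, ← h1, e.symm_apply_apply, h.fix]
  · have h1 : e (ι (j t)) = τ t := by simpa using he ((0, t), 0)
    have h2 : e (A (ι (j t))) = g (τ t) := by simpa using he ((0, 0), t)
    rw [cj_apply, ← h1, e.symm_apply_apply, h2, h1]

omit [FiniteDimensional F T] in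
theorem quot_fix {A B g : End F V} (h0 : LinearMap.det A ≠ 0) (hB : B ∈ cls A) {U : Submodule F V}
    (hU : ∀ u ∈ U, g u = u) {τ : T →ₗ[F] V} (b1 : ∀ u ∈ U, B u = u) (b2 : ∀ t, B (τ t) = g (τ t)) :
    ∃ g', g = B * g' ∧ ∀ u ∈ U ⊔ LinearMap.range τ, g' u = u := by
  obtain ⟨B', e1, e2⟩ := exists_inv (z := B) ((sim_of_mem hB).det_eq ▸ h0)
  refine ⟨B' * g, by rw [← mul_assoc, e2, one_mul], fun u hu => ?_⟩
  obtain ⟨a, ha, _, ⟨t, rfl⟩, rfl⟩ := Submodule.mem_sup.1 hu
  have : g (a + τ t) = B (a + τ t) := by rw [map_add, map_add, hU a ha, b1 a ha, b2]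
  rw [End.mul_apply, this, ← End.mul_apply, e1, End.one_apply]

theorem Rk.step {A : End F V} {ι : W →ₗ[F] V} {κ : K →ₗ[F] V} (h : Rk A ι κ) (hF : Full A)
    (h0 : LinearMap.det A ≠ 0) {g : End F V} (hg : LinearMap.det g ≠ 0) {U : Submodule F V}
    (hU : ∀ u ∈ U, g u = u) (τ : T →ₗ[F] V)
    (ht : ∀ u ∈ U, ∀ t t', u + τ t + g (τ t') = 0 → t = 0 ∧ t' = 0)
    (d1 : finrank F U ≤ finrank F K) (d2 : finrank F T ≤ finrank F W)
    (d3 : finrank F U + 2 * finrank F T < finrank F V) (d4 : 0 < finrank F T) :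
    ∃ A' ∈ cls A, ∃ g', g = A' * g' ∧ (∀ u ∈ U ⊔ LinearMap.range τ, g' u = u) ∧
      NScM g' (U ⊔ LinearMap.range τ) := by
  by_contra hne
  have key : ∀ B ∈ cls A, (∀ u ∈ U, B u = u) → (∀ t, B (τ t) = g (τ t)) →
      ∃ c : F, ∀ v, ∃ u ∈ U, ∃ t, g v - c • B v = u + g (τ t) := by
    intro B hB b1 b2
    obtain ⟨g', e, hg'⟩ := quot_fix h0 hB hU b1 b2
    have : ¬ NScM g' (U ⊔ LinearMap.range τ) := fun hc => hne ⟨B, hB, g', e, hg', hc⟩
    obtain ⟨c, hc⟩ := not_forall.1 this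
    rw [not_not] at hc
    refine ⟨c, fun v => ?_⟩
    obtain ⟨a, ha, _, ⟨t, rfl⟩, e'⟩ := Submodule.mem_sup.1 (hc v)
    refine ⟨a, ha, t, ?_⟩
    rw [← b1 a ha, ← b2, ← map_add, e', map_sub, map_smul, e, End.mul_apply]
  obtain ⟨A₁, a0, a1, a2⟩ := h.agree hF τ ht d1 d2
  obtain ⟨φ, p1, e, p2⟩ := exists_dual_ne_zero
    (S := U ⊔ LinearMap.range τ ⊔ LinearMap.range (g ∘ₗ τ)) (by
      have k1 := Submodule.finrank_add_le_finrank_add_finrank (U ⊔ LinearMap.range τ)
        (LinearMap.range (g ∘ₗ τ))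
      have k2 := Submodule.finrank_add_le_finrank_add_finrank U (LinearMap.range τ)
      have k3 := τ.finrank_range_le
      have k4 := (g ∘ₗ τ).finrank_range_le
      omega)
  have q1 : ∀ u ∈ U, φ u = 0 := fun u hu =>
    p1 u (Submodule.mem_sup_left (Submodule.mem_sup_left hu))
  have q2 : ∀ t, φ (τ t) = 0 := fun t =>
    p1 _ (Submodule.mem_sup_left (Submodule.mem_sup_right ⟨t, rfl⟩))
  have q3 : ∀ t, φ (g (τ t)) = 0 := fun t => p1 _ (Submodule.mem_sup_right ⟨t, rfl⟩)
  have : Nontrivial T := finrank_pos_iff.1 d4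
  obtain ⟨t₀, ht₀⟩ := exists_ne (0 : T)
  obtain ⟨A₂, b0, hb⟩ := exists_conj_tv A₁ (q2 t₀) (by rw [a2, q3])
  obtain ⟨c₁, k1⟩ := key A₁ a0 a1 a2
  obtain ⟨c₂, k2⟩ := key A₂ (cls_trans a0 b0) (fun u hu => by simp [hb, a1 u hu, q1 u hu])
    (fun t => by simp [hb, a2, q2, q3])
  have cmp : ∀ v, ∃ u ∈ U, ∃ t, (c₂ - c₁) • v + (c₂ * φ v) • τ t₀ = u + g (τ t) := fun v => by
    obtain ⟨y, rfl⟩ := surj_of_det ((sim_of_mem a0).det_eq ▸ h0) v
    obtain ⟨u, hu, t, e1⟩ := k1 y
    obtain ⟨u', hu', t', e2⟩ := k2 y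
    refine ⟨u - u', U.sub_mem hu hu', t - t' + (c₂ * φ y) • t₀, ?_⟩
    rw [hb, a2] at e2
    simp only [map_add, map_sub, map_smul]
    linear_combination (norm := module) e1 - e2
  obtain ⟨u, hu, t, e1⟩ := cmp (τ t₀)
  have r1 : c₂ = c₁ := by
    have := (ht u hu (-(c₂ - c₁) • t₀) t (by
      rw [q2] at e1
      simp only [map_smul]
      linear_combination (norm := module) -e1)).1
    exact sub_eq_zero.1 (neg_eq_zero.1 ((smul_eq_zero.1 this).resolve_right ht₀))
  obtain ⟨u, hu, t, e2⟩ := cmp e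
  have r2 : c₂ = 0 := by
    have := (ht u hu (-c₂ • t₀) t (by
      rw [p2, r1] at e2
      simp only [map_smul, r1]
      linear_combination (norm := module) -e2)).1
    exact neg_eq_zero.1 ((smul_eq_zero.1 this).resolve_right ht₀)
  obtain ⟨y, rfl⟩ := surj_of_det hg e
  obtain ⟨u, hu, t, e3⟩ := k2 y
  rw [r2, zero_smul, sub_zero] at e3
  rw [e3, map_add, q1 u hu, q3] at p2
  simp at p2

omit [FiniteDimensional F V] in
theorem NScM.exists_vec {g : End F V} {U : Submodule F V} (h : NScM g U) (hU : ∀ u ∈ U, g u = u) :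
    ∃ v, v ∉ U ∧ ∀ u ∈ U, ∀ t t' : F, u + LinearMap.toSpanSingleton F V v t +
      g (LinearMap.toSpanSingleton F V v t') = 0 → t = 0 ∧ t' = 0 := by
  obtain ⟨v, h1, h2⟩ : ∃ v, v ∉ U ∧ g v ∉ U ⊔ F ∙ v := by
    by_contra! hc
    obtain ⟨c, hc⟩ := scalar_mod (A := g) (fun u hu => by rwa [hU u hu]) hc
    exact h c hc
  refine ⟨v, h1, fun u hu t t' e => ?_⟩
  simp only [LinearMap.toSpanSingleton_apply, map_smul] at e
  have k : t' = 0 := by
    by_contra hc
    refine h2 (mem_sup_span.2 ⟨-t / t', ?_⟩)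
    convert U.smul_mem (-t'⁻¹) hu using 1
    linear_combination (norm := skip) t'⁻¹ • e
    match_scalars <;> field_simp <;> ring
  refine ⟨by_contra fun hc => h1 ?_, k⟩
  convert U.smul_mem (-t⁻¹) hu using 1
  rw [k, zero_smul, add_zero] at e
  linear_combination (norm := skip) t⁻¹ • e
  match_scalars <;> field_simp <;> ring

theorem det_quot {A B g : End F V} (h0 : LinearMap.det A ≠ 0) (hB : B ∈ cls A) {k : ℕ}
    (h : LinearMap.det (B * g) = LinearMap.det A ^ (k + 1)) :
    LinearMap.det g = LinearMap.det A ^ k := by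
  rw [map_mul, ← (sim_of_mem hB).det_eq, pow_succ'] at h
  exact mul_left_cancel₀ h0 h

theorem Rk.rel_succ {A : End F V} {ι : W →ₗ[F] V} {κ : K →ₗ[F] V} (h : Rk A ι κ) (hF : Full A)
    (h0 : LinearMap.det A ≠ 0) (hW : 0 < finrank F W) {r k : ℕ} (hr : Rel A (r + 1) k)
    (d1 : r ≤ finrank F K) (d2 : r + 2 < finrank F V) : Rel A r (k + 1) := by
  intro U hU g g1 g2 g3
  obtain ⟨v, hv, ht⟩ := g2.exists_vec g1
  obtain ⟨A', a1, g', rfl, a2, a3⟩ := h.step hF h0 (g3 ▸ pow_ne_zero _ h0) g1 _ ht (hU ▸ d1)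
    (by rwa [finrank_self]) (by rwa [finrank_self, hU]) (by simp)
  rw [pow_succ']
  refine Set.mul_mem_mul a1 (hr _ ?_ g' a2 a3 (det_quot h0 a1 g3))
  rw [← LinearMap.span_singleton_eq_range, Submodule.finrank_sup_span_singleton hv, hU]

theorem Rk.rel_down {A : End F V} {ι : W →ₗ[F] V} {κ : K →ₗ[F] V} (h : Rk A ι κ) (hF : Full A)
    (h0 : LinearMap.det A ≠ 0) (hW : 0 < finrank F W) {k : ℕ} (j : ℕ) : ∀ {r : ℕ},
    Rel A (r + j) k → r + j ≤ finrank F K → r + j + 1 < finrank F V → Rel A r (k + j) := by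
  induction j with
  | zero => intro r hr _ _; exact hr
  | succ j ih =>
    intro r hr d1 d2
    exact h.rel_succ hF h0 hW (ih (r := r + 1) (by rwa [add_right_comm]) (by omega) (by omega))
      (by omega) (by omega)

theorem full_prod (hK : 0 < finrank F K) (B : End F W) : Full ((1 : End F K).prodMap B) := by
  intro c _
  obtain ⟨P, hP⟩ := exists_det hK c
  exact ⟨P.prodMap 1, by rw [LinearMap.det_prodMap, hP, map_one, mul_one],
    by simp only [LinearMap.prodMap_mul, mul_one, one_mul]⟩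

omit [FiniteDimensional F V] [FiniteDimensional F W] [FiniteDimensional F K] in
theorem rk_prod {B : End F V} {ι : W →ₗ[F] V} (h : Tr B ι) :
    Rk ((1 : End F K).prodMap B) (LinearMap.inr F K V ∘ₗ ι) (LinearMap.inl F K V) :=
  ⟨fun k => by simp, fun k w w' e => by
    have e' := Prod.ext_iff.1 e
    simp only [LinearMap.inl_apply, LinearMap.comp_apply, LinearMap.inr_apply,
      LinearMap.prodMap_apply, Prod.mk_add_mk, map_zero, add_zero, zero_add, Prod.fst_zero,
      Prod.snd_zero] at e'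
    exact ⟨e'.1, h w w' e'.2⟩⟩

/-- the base of the induction for rank at least two -/
theorem rel_base [Fintype F] (h4 : 4 ≤ Fintype.card F) (hK : 0 < finrank F K) {B : End F V}
    {ι : W →ₗ[F] V} (h : Tr B ι) (h0 : LinearMap.det B ≠ 0) (hd : finrank F V = 2 * finrank F W)
    (hs : 2 ≤ finrank F W) : Rel ((1 : End F K).prodMap B) (finrank F K) 4 := by
  intro U hU g g1 g2 g3
  obtain ⟨i⟩ := FiniteDimensional.nonempty_linearEquiv_of_finrank_eq hU.symm
  obtain ⟨e, he⟩ := exists_ext_inj (p := LinearMap.inl F K V) (q := U.subtype ∘ₗ i.toLinearMap)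
    LinearMap.inl_injective (U.injective_subtype.comp i.injective)
  set g' := e.symm.conjRingEquiv g with hg'
  have k1 : ∀ k, g' (k, 0) = ((1 : End F K) k, 0) := fun k => by
    rw [cj_apply, e.symm_symm, e.symm_apply_eq]
    change g (e (LinearMap.inl F K V k)) = e (LinearMap.inl F K V k)
    rw [he]
    exact g1 _ (i k).2
  let G : End F V := LinearMap.snd F K V ∘ₗ g' ∘ₗ LinearMap.inr F K V
  let ρ : V →ₗ[F] K := LinearMap.fst F K V ∘ₗ g' ∘ₗ LinearMap.inr F K V
  have k2 : ∀ v, g' v = (v.1 + ρ v.2, G v.2) := fun v => by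
    have : v = (v.1, 0) + (0, v.2) := by simp
    rw [this, map_add, k1]
    simp [G, ρ, Prod.ext_iff]
  have hG : NSc G := fun c hc => g2 c fun v => by
    have : g v - c • v = e (LinearMap.inl F K V (g' (e.symm v) - c • e.symm v).1) := by
      rw [← e.symm_apply_eq, map_sub, map_smul]
      have : e.symm (g v) = g' (e.symm v) := by rw [cj_apply, e.symm_symm, e.apply_symm_apply]
      rw [this]
      refine Prod.ext rfl ?_
      simp [k2, hc]
    rw [this, he]
    exact (i _).2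
  have dG : LinearMap.det G = LinearMap.det B ^ (2 + 2) := by
    have := det_tri (Y₂ := G) k1 (fun v => by rw [k2])
    rw [det_cj, g3, LinearMap.det_prodMap, map_one, one_mul, one_mul] at this
    exact this.symm
  obtain ⟨f₁, a1, a2⟩ := even_avoid' h4 h h0 hd hs one_ne_zero
  obtain ⟨d, f', b1, b2⟩ := even_good' h4 h h0 hd hs
  obtain ⟨M₁, m1, M₂, m2, m3, hM⟩ := factorG a1 b1.toG b2 h0 hG dG
  obtain ⟨N, n1, -⟩ := exists_inv (z := (M₁ - 1) * M₂) (by
    rw [map_mul, det_of_mem_gpow 2 m2]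
    refine mul_ne_zero (det_ne_zero_of_injective ((injective_iff_map_eq_zero _).2 fun v hv => ?_))
      (pow_ne_zero _ h0)
    exact eval_ne_zero_iff.1 (m3 ▸ a2) v (by simpa [sub_eq_zero] using hv))
  let R : End F (K × V) := LinearMap.inl F K V ∘ₗ ρ ∘ₗ N ∘ₗ LinearMap.snd F K V
  have hR : R * R = 0 := LinearMap.ext fun v => by simp [R, Prod.mk_zero_zero]
  have e1 : (1 - R) * (1 + R) = 1 := by noncomm_ring [hR]
  have e2 : g' = (1 + R) * (1 : End F K).prodMap M₁ * (1 - R) * (1 : End F K).prodMap M₂ :=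
    LinearMap.ext fun v => by
      have := congrArg ρ (LinearMap.congr_fun n1 v.2)
      simp only [End.mul_apply, LinearMap.sub_apply, End.one_apply, map_sub] at this
      rw [k2, hM]
      simp only [R, End.mul_apply, LinearMap.add_apply, LinearMap.sub_apply, End.one_apply,
        LinearMap.comp_apply, LinearMap.prodMap_apply, LinearMap.inl_apply, LinearMap.snd_apply,
        Prod.mk_sub_mk, Prod.mk_add_mk, sub_zero, add_zero, ← this]
      congr 1
      abel
  rw [← gcls_eq (full_prod hK B)]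
  refine mem_gpow_of_sim (Y := g') ?_ (sim_cj e.symm g).symm
  rw [e2, show 4 = 2 + 2 from rfl, pow_add]
  refine Set.mul_mem_mul (mem_gpow_of_sim (prod_mem_gpow 2 m1) (sim_iff.2 ⟨1 + R, ?_, ?_⟩))
    (prod_mem_gpow 2 m2)
  · rw [det_one_add hR]; exact one_ne_zero
  · rw [mul_assoc _ (1 - R), e1, mul_one]

/-- rank at least two -/
theorem rk_big [Fintype F] (h4 : 4 ≤ Fintype.card F) (hK : 2 ≤ finrank F K) {B : End F V}
    {ι : W →ₗ[F] V} (h : Tr B ι) (h0 : LinearMap.det B ≠ 0) (hd : finrank F V = 2 * finrank F W)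
    (hs : 2 ≤ finrank F W) : NS ((1 : End F K).prodMap B) (finrank F (K × V)) ∧
      Sc ((1 : End F K).prodMap B) (finrank F (K × V)) := by
  have hb := rel_base (K := K) h4 (by omega) h h0 hd hs
  have hR := rk_prod (K := K) h
  have hF := full_prod (K := K) (by omega) B
  set A := (1 : End F K).prodMap B
  have hA : LinearMap.det A ≠ 0 := by rwa [LinearMap.det_prodMap, map_one, one_mul]
  have hn : finrank F (K × V) = finrank F K + 2 * finrank F W := by rw [finrank_prod, hd]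
  have h1 : NS A (4 + finrank F K) := (hR.rel_down hF hA (by omega) (finrank F K) (r := 0)
    (by rwa [zero_add]) (by omega) (by omega)).ns
  rcases hs.eq_or_lt with hs | hs
  · refine ⟨by rwa [hn, ← hs, add_comm], LinearMap.det A, ?_⟩
    obtain ⟨A', e1, e2⟩ := exists_inv hA
    have dA : LinearMap.det (LinearMap.det A • A') = LinearMap.det A ^ (4 + (finrank F K - 2) + 1) := by
      have := congrArg LinearMap.det e1
      rw [map_mul, map_one] at this
      rw [LinearMap.det_smul, show finrank F (K × V) = 4 + (finrank F K - 2) + 1 + 1 by omega,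
        pow_succ _ (_ + 1), mul_assoc, mul_comm _ (LinearMap.det A'), this, mul_one]
    have ht : ∀ u ∈ (⊥ : Submodule F (K × V)), ∀ t t', u + (A ∘ₗ LinearMap.inr F K V ∘ₗ ι) t +
        (LinearMap.det A • A') ((A ∘ₗ LinearMap.inr F K V ∘ₗ ι) t') = 0 → t = 0 ∧ t' = 0 := by
      intro u hu t t' e
      rw [(Submodule.mem_bot F).1 hu, LinearMap.comp_apply (g := _ ∘ₗ _) (x := t'),
        LinearMap.smul_apply, ← End.mul_apply, e1, End.one_apply] at e
      obtain ⟨-, a, b⟩ := hR.inj 0 (LinearMap.det A • t') t (by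
        rw [map_zero, map_smul, add_right_comm]; exact e)
      exact ⟨b, (smul_eq_zero.1 a).resolve_left hA⟩
    obtain ⟨A₁, a1, g', a2, a3, a4⟩ := hR.step hF hA (dA ▸ pow_ne_zero _ hA) (U := ⊥)
      (fun u hu => by rw [(Submodule.mem_bot F).1 hu, map_zero]) _ ht (by simp) le_rfl
      (by rw [finrank_bot]; omega) (by omega)
    have h2 : Rel A 2 (4 + (finrank F K - 2)) := hR.rel_down hF hA (by omega) _
      (by rwa [Nat.add_sub_cancel' hK]) (by omega) (by omega)
    have h3 := h2 _ (by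
      rw [bot_sup_eq, LinearMap.finrank_range_of_inj, hs]
      exact (injective_iff_map_eq_zero _).2 fun t e => (ht 0 (zero_mem _) t 0 (by
        rw [e, map_zero, map_zero, add_zero, add_zero])).1)
      g' a3 a4 (det_quot hA a1 (a2 ▸ dA))
    rw [show finrank F (K × V) = 4 + (finrank F K - 2) + 1 + 1 by omega, pow_succ', pow_succ',
      ← e2, ← mul_smul_comm, a2]
    exact Set.mul_mem_mul (self_mem_cls A) (Set.mul_mem_mul a1 h3)
  · have : Nontrivial W := finrank_pos_iff.1 (by omega : 0 < finrank F W)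
    obtain ⟨w, hw⟩ := exists_ne (0 : W)
    have h2 := all_of_ns h1 (fun c hc => hw (hR.inj 0 (-c • w) w (by
      rw [map_zero, map_smul, hc]; simp)).2.2) hA (by omega)
      (show 4 + finrank F K < finrank F (K × V) by omega)
    exact ⟨h2.ns, h2.sc⟩

theorem exists_prod {A : End F V} {ι : W →ₗ[F] V} (h : Tr A ι)
    (hA : ∀ v, ∃ w, A v - v = A (ι w) - ι w) : ∃ (K' : Submodule F V) (B : End F (spU A ι))
      (ι' : W →ₗ[F] spU A ι), Tr B ι' ∧ Sim A ((1 : End F K').prodMap B) := by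
  set U := spU A ι
  have hU : ∀ u ∈ U, A u ∈ U := fun u hu => by
    obtain ⟨w, hw⟩ := hA u
    rw [show A u = u + (ι (-w) + A (ι w)) by rw [map_neg]; linear_combination (norm := module) hw]
    exact U.add_mem hu (mem_spU.2 ⟨_, _, rfl⟩)
  obtain ⟨K', k1, k2⟩ := IsModularLattice.exists_disjoint_and_sup_eq
    (inf_le_right : U ⊓ LinearMap.ker (A - 1) ≤ _)
  have k3 : K' ≤ LinearMap.ker (A - 1) := k2 ▸ le_sup_right
  have hc : IsCompl K' U := by
    constructor
    · rw [Submodule.disjoint_def] at k1 ⊢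
      exact fun x hx hx' => k1 x ⟨hx', k3 hx⟩ hx
    · rw [codisjoint_iff, eq_top_iff]
      intro v _
      obtain ⟨w, hw⟩ := hA v
      have : v - ι w ∈ U ⊓ LinearMap.ker (A - 1) ⊔ K' := by
        rw [k2, LinearMap.mem_ker]
        simp only [LinearMap.sub_apply, map_sub, End.one_apply]
        linear_combination (norm := module) hw
      obtain ⟨a, ha, b, hb, e⟩ := Submodule.mem_sup.1 this
      exact Submodule.mem_sup.2 ⟨b, hb, a + ι w, U.add_mem ha.1 (mem_spU.2 ⟨w, 0, by simp⟩),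
        by linear_combination (norm := module) e⟩
  refine ⟨K', A.restrict hU, ι.codRestrict U fun w => mem_spU.2 ⟨w, 0, by simp⟩,
    fun w w' e => h w w' (congrArg Subtype.val e), Sim.symm ⟨K'.prodEquivOfIsCompl U hc, fun v => ?_⟩⟩
  have : A v.1 = v.1 := by simpa [sub_eq_zero] using k3 v.1.2
  simp [Submodule.coe_prodEquivOfIsCompl', this]

end Cfsg.Agent.H26.Cov
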