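import Mathlib
import Cfsg.Agent.H26.CovG

/-! Products of conjugacy classes in `SL(V)`: rank one, and dimension three. -/

set_option autoImplicit false

namespace Cfsg.Agent.H26.Cov

open Module Polynomial Cfsg.Agent.H76 Cfsg.Agent.H22.Lev
open scoped Pointwise

variable {F V W K : Type*} [Field F] [AddCommGroup V] [Module F V] [AddCommGroup W] [Module F W]
  [AddCommGroup K] [Module F K]

/-- a transvection or a homology -/
def Tv (A : End F V) : Prop :=
  ∃ (φ : Dual F V) (x e : V), φ e = 1 ∧ x ≠ 0 ∧ A = LinearMap.transvection φ x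

theorem Tv.sim {A : End F V} {B : End F W} (h : Tv A) (s : Sim A B) : Tv B := by
  obtain ⟨φ, x, y, h1, h2, rfl⟩ := h
  obtain ⟨e, he⟩ := s
  refine ⟨φ ∘ₗ e.symm.toLinearMap, e x, e y, by simpa using h1, by simpa using h2,
    LinearMap.ext fun v => ?_⟩
  rw [eq_cj he, cj_apply]
  simp [LinearMap.transvection.apply]

/-- a vector which is independent of its first two images -/
def Cy (A : End F V) (v : V) : Prop :=
  ∀ a b c : F, a • v + b • A v + c • A (A v) = 0 → a = 0 ∧ b = 0 ∧ c = 0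

theorem Cy.inv {A A' : End F V} {v : V} (h : Cy A v) (e : A' * A = 1) : Cy A' (A (A v)) := by
  intro a b c habc
  have h1 : ∀ u, A' (A u) = u := fun u => LinearMap.congr_fun e u
  simp only [h1] at habc
  obtain ⟨p, q, r⟩ := h c b a (by linear_combination (norm := module) habc)
  exact ⟨r, q, p⟩

theorem Cy.tr {A : End F V} {v : V} (h : Cy A v) : Tr A (LinearMap.toSpanSingleton F V v) ∧
    A (A (LinearMap.toSpanSingleton F V v 1)) ∉ spU A (LinearMap.toSpanSingleton F V v) := by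
  refine ⟨fun a b e => ?_, fun hc => ?_⟩
  · obtain ⟨p, q, -⟩ := h a b 0 (by simpa using e)
    exact ⟨p, q⟩
  · obtain ⟨a, b, e⟩ := mem_spU.1 hc
    simp only [LinearMap.toSpanSingleton_apply, map_smul, one_smul] at e
    obtain ⟨-, -, r⟩ := h a b (-1) (by linear_combination (norm := module) -e)
    simp at r

theorem tr_of_vec {A : End F V} {v : V} (h : A v ∉ F ∙ v) :
    Tr A (LinearMap.toSpanSingleton F V v) := fun a b e => by
  simp only [LinearMap.toSpanSingleton_apply, map_smul] at e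
  have hv : v ≠ 0 := fun e => h (by rw [e, map_zero]; exact zero_mem _)
  have hb : b = 0 := by
    by_contra hb
    refine h (Submodule.mem_span_singleton.2 ⟨-a / b, ?_⟩)
    linear_combination (norm := skip) (-b⁻¹) • e
    match_scalars <;> field_simp <;> ring
  rw [hb, zero_smul, add_zero] at e
  exact ⟨(smul_eq_zero.1 e).resolve_right hv, hb⟩

variable [FiniteDimensional F V] [FiniteDimensional F W] [FiniteDimensional F K]

theorem tv_sim {A B : End F V} (hA : Tv A) (hB : Tv B) (hd : LinearMap.det A = LinearMap.det B) :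
    Sim A B := by
  obtain ⟨φ, x, y, h1, h2, rfl⟩ := hA
  obtain ⟨ψ, x', y', k1, k2, rfl⟩ := hB
  have inj : ∀ x : V, x ≠ 0 → Function.Injective (LinearMap.toSpanSingleton F V x) := fun x hx =>
    (injective_iff_map_eq_zero _).2 fun t ht => (smul_eq_zero.1 ht).resolve_right hx
  obtain ⟨e, he⟩ := exists_ext_inj (inj x h2) (inj x' k2)
  have hx : e x = x' := by simpa using he 1
  set φ' := φ ∘ₗ e.symm.toLinearMap
  have p1 : φ' (e y) = 1 := by simpa [φ'] using h1
  have p2 : φ' x' = ψ x' := by simpa [φ', ← hx] using hd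
  refine Sim.trans (g := LinearMap.transvection φ' x')
    ⟨e, fun v => by simp [LinearMap.transvection.apply, φ', hx]⟩ ?_
  obtain ⟨u, u1, u2⟩ : ∃ u, ψ u = 1 ∧ φ' u ≠ 0 := by
    by_cases h : φ' y' = 0
    · exact ⟨y' + e y - ψ (e y) • y', by simp [k1], by simp [h, p1]⟩
    · exact ⟨y', k1, h⟩
  refine sim_iff.2 ⟨LinearMap.transvection (φ' - ψ) u, by simpa [u1] using u2,
    LinearMap.ext fun v => ?_⟩
  simp only [End.mul_apply, LinearMap.transvection.apply, LinearMap.sub_apply, map_add, map_smul,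
    p2, u1, smul_eq_mul]
  module

theorem hyp_form {g : End F V} {H : Submodule F V} (hH : finrank F H + 1 = finrank F V)
    (hg : ∀ u ∈ H, g u = u) : g = 1 ∨ Tv g := by
  obtain ⟨e, he⟩ := exists_notMem' (S := H) (by omega)
  obtain ⟨φ, p1, p2⟩ := exists_dual he
  have : g = LinearMap.transvection φ (g e - e) := LinearMap.ext fun v => by
    obtain ⟨w, hw, c, rfl⟩ := H22.Lev.dec (W := H) (K := ⊤) le_top (by rw [finrank_top, hH])
      trivial he (Submodule.mem_top (x := v))
    simp only [LinearMap.transvection.apply, map_add, map_smul, hg w hw, p1 w hw, p2, smul_eq_mul]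
    module
  by_cases h : g e - e = 0
  · left
    rw [this, h, LinearMap.transvection.of_right_eq_zero]; rfl
  · exact Or.inr ⟨φ, _, e, p2, h, this⟩

theorem tv_of_rank {A : End F V} {ι : W →ₗ[F] V} (hW : finrank F W = 1) (hA : A ≠ 1)
    (h : ∀ v, ∃ w, A v - v = A (ι w) - ι w) : Tv A := by
  refine (hyp_form (H := LinearMap.ker (A - 1)) ?_ fun u hu => by
    simpa [sub_eq_zero] using hu).resolve_left hA
  have h1 := (A - 1).finrank_range_add_finrank_ker
  have h2 : finrank F (LinearMap.range (A - 1)) ≤ 1 :=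
    (Submodule.finrank_mono (t := LinearMap.range ((A - 1) ∘ₗ ι)) (by
      rintro _ ⟨v, rfl⟩
      obtain ⟨w, hw⟩ := h v
      exact ⟨w, hw.symm⟩)).trans (hW ▸ LinearMap.finrank_range_le _)
  have h3 : finrank F (LinearMap.range (A - 1)) ≠ 0 := fun e => hA (by
    rwa [Submodule.finrank_eq_zero, LinearMap.range_eq_bot, sub_eq_zero] at e)
  omega

theorem Two.right {A B B' Y z : End F V} {r : F} (h : Two A B' r Y) (e : z * B = B' * z) :
    Two A B (r * LinearMap.det z) Y := by
  obtain ⟨z₁, z₂, A₁, B₁, h1, h2, h3, h4, h5⟩ := h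
  exact ⟨z₁, z₂ * z, A₁, B₁, h1, by rw [map_mul, h2]; ring, h3,
    by rw [mul_assoc, e, ← mul_assoc, h4, mul_assoc], h5⟩

theorem inv_mem_cls {A A' B' : End F V} (h : B' ∈ cls A') (e : A' * A = 1) :
    ∃ B ∈ cls A, B' * B = 1 := by
  obtain ⟨z, h1, h2⟩ := h
  obtain ⟨z', e1, e2⟩ := exists_inv (z := z) (h1 ▸ one_ne_zero)
  refine ⟨z * A * z', ⟨z, h1, by rw [mul_assoc, e1, mul_one]⟩, ?_⟩
  rw [← mul_assoc, ← mul_assoc, ← h2, mul_assoc z, e, mul_one, e2]

theorem pair3 {g B : End F V} {g' B' : End F ((F × F) × F)} {x y y₁ y₃ : F} {α β : End F F}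
    (s1 : Sim g g') (s2 : Sim B B') (m1 : Md g' x α) (m2 : Md B' y β) (hx : x * y ≠ 0)
    (h1 : y₁ ≠ 0) (hd : y₁ * (x * y) * y₃ = LinearMap.det g * LinearMap.det B)
    (n1 : y₁ ≠ x * y) (n2 : y₁ ≠ y₃) (n3 : x * y ≠ y₃) :
    ∃ Y v, Two g B 1 Y ∧ Gen Y v ⊤ ∧ Y.charpoly = (X - C y₁) * ((X - C (x * y)) * (X - C y₃)) := by
  have d1 := m1.det
  have d2 := m2.det
  have hε := det_sw (F := F) (W := F) (L := F)
  have hε0 := left_ne_zero_of_mul_eq_one hε
  rw [← s1.det_eq, finrank_self, pow_one, LinearMap.det_ring] at d1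
  rw [← s2.det_eq, finrank_self, pow_one, LinearMap.det_ring] at d2
  have hy : y₃ * y₁ = α 1 * β 1 := by
    apply mul_left_cancel₀ hx
    linear_combination hd + (LinearMap.det (sw F F F) * LinearMap.det B) * d1 + x * α 1 * d2 -
      LinearMap.det g * LinearMap.det B * hε
  obtain ⟨e, he⟩ := s1
  obtain ⟨z, z1, z2⟩ := sim_iff.1 (s2.trans (sim_cj e.symm B'))
  have cp : ∀ a b : F, a ≠ b → IsCoprime (X - C a) (X - C b : F[X]) := fun a b h =>
    coprime_X_sub_C (by simpa [sub_ne_zero] using h)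
  have dy : LinearMap.det (y₁ • 1 : End F F) = y₁ := by simp
  obtain ⟨Y, v, t1, t2, t3⟩ := block m1 m2 (P := 1) (Y₁ := y₁ • 1) (Y₃ := y₃ • 1) (by simp)
    (by rwa [dy]) (LinearMap.ext_ring (by
      have : α (β 1) = β 1 • α 1 := by rw [← map_smul, smul_eq_mul, mul_one]
      simp only [End.mul_apply, End.one_apply, LinearMap.smul_apply, this, smul_eq_mul, mul_one]
      linear_combination -hy))
    (inv_ne_zero (mul_ne_zero (mul_ne_zero hε0 h1) z1)) (gen_one _) (gen_one _) (gen_one _)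
    (charpoly_line _) (charpoly_line _) (charpoly_line _) (cp _ _ n1) (cp _ _ n2) (cp _ _ n3)
  have t4 := t1.cj e.symm
  rw [← eq_cj (B := g) (fun v => by rw [e.symm_apply_eq, he, e.apply_symm_apply])] at t4
  have t5 := t4.right z2
  obtain ⟨w, hw⟩ := gen_sim (sim_cj e.symm Y) t2
  refine ⟨_, w, ?_, hw, by rw [← (sim_cj e.symm Y).charpoly_eq, t3, mul_assoc]⟩
  convert t5 using 1
  rw [dy, map_one, finrank_self]
  field_simp

theorem md3 {g : End F V} (hg : NSc g) (h0 : LinearMap.det g ≠ 0) (h3 : finrank F V = 3) :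
    ∃ (g' : End F ((F × F) × F)) (x : F) (α : End F F), x ≠ 0 ∧ Sim g g' ∧ Md g' x α := by
  obtain ⟨v, hv⟩ := hg.exists_vec
  have h := tr_of_vec hv
  set ι := LinearMap.toSpanSingleton F V v
  have hd : finrank F V = 2 * finrank F F + 1 := by rw [h3, finrank_self]
  by_cases hU : ∀ w, g (g (ι w)) ∈ spU g ι
  · obtain ⟨l, hl⟩ := exists_notMem' (S := spU g ι) (by rw [h.finrank]; omega)
    obtain ⟨w₁, y, w₂, e⟩ := h.dec hd hl (g l)
    have hy : y ≠ 0 := fun hy => hl (by
      obtain ⟨u, hu⟩ := surj_of_det h0 l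
      obtain ⟨a, c, b, rfl⟩ := h.dec hd hl u
      rw [← hu, map_add, map_add, map_smul, e, hy, zero_smul, add_zero]
      exact add_mem (add_mem (mem_spU.2 ⟨0, a, by simp⟩)
        (Submodule.smul_mem _ _ (mem_spU.2 ⟨_, _, rfl⟩))) (hU b))
    obtain ⟨B, α, s, m, -⟩ := h.md hd (l := l + y⁻¹ • ι w₁) (fun hc => hl (by
      simpa using sub_mem hc (Submodule.smul_mem _ y⁻¹
        (mem_spU.2 ⟨w₁, 0, by simp⟩ : ι w₁ ∈ spU g ι)))) (x := y)
      (w₀ := w₂ + y⁻¹ • w₁) (by
        simp only [map_add, map_smul, e]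
        match_scalars <;> field_simp)
    exact ⟨B, y, α, hy, s, m⟩
  · push Not at hU
    obtain ⟨w₀, hw₀⟩ := hU
    obtain ⟨l, w₁, -, -, hl, l1, -⟩ := h.exists_l hd hw₀ one_ne_zero
    obtain ⟨B, α, s, m, -⟩ := h.md hd hl l1
    exact ⟨B, 1, α, one_ne_zero, s, m⟩

theorem Cy.md {A : End F V} {v : V} (h : Cy A v) (h3 : finrank F V = 3) {x : F} (hx : x ≠ 0) :
    ∃ (B : End F ((F × F) × F)) (α : End F F), Sim A B ∧ Md B x α := by
  have hd : finrank F V = 2 * finrank F F + 1 := by rw [h3, finrank_self]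
  obtain ⟨l, w₁, -, -, hl, l1, -⟩ := h.tr.1.exists_l hd h.tr.2 hx
  obtain ⟨B, α, s, m, -⟩ := h.tr.1.md hd hl l1
  exact ⟨B, α, s, m⟩

theorem Cy.gen {A : End F V} {v : V} (h : Cy A v) (h3 : finrank F V = 3) : Gen A v ⊤ := by
  refine ⟨trivial, le_top, fun S hv hS u _ => ?_⟩
  obtain ⟨a, c, b, rfl⟩ := h.tr.1.dec (by rw [h3, finrank_self]) h.tr.2 u
  have h1 : A v ∈ S := hS ⟨v, hv, rfl⟩
  have h2 : A (A v) ∈ S := hS ⟨_, h1, rfl⟩
  simp only [LinearMap.toSpanSingleton_apply, map_smul, one_smul]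
  exact add_mem (add_mem (S.smul_mem _ hv) (S.smul_mem _ h2)) (S.smul_mem _ h1)

theorem three_cases {A : End F V} (hA : NSc A) (h3 : finrank F V = 3) : (∃ v, Cy A v) ∨
    ∃ ι : F →ₗ[F] V, Tr A ι ∧ ∃ c : F, ∀ v, ∃ w, A v - c • v = A (ι w) - c • ι w := by
  obtain ⟨w, hw⟩ := hA.exists_vec
  have h := tr_of_vec hw
  have hd : finrank F V = 2 * finrank F F + 1 := by rw [h3, finrank_self]
  have inj := fun l hl => h.inj3 (l := l) hl
  simp only [LinearMap.toSpanSingleton_apply, map_smul] at inj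
  by_cases hU : A (A w) ∈ spU A (LinearMap.toSpanSingleton F V w)
  swap
  · refine Or.inl ⟨w, fun a b c e => ?_⟩
    obtain ⟨p, q, r⟩ := inj _ hU a c b (by linear_combination (norm := module) e)
    exact ⟨p, r, q⟩
  obtain ⟨p, q, e1⟩ := mem_spU.1 hU
  obtain ⟨l, hl⟩ := exists_notMem' (S := spU A (LinearMap.toSpanSingleton F V w))
    (by rw [h.finrank]; omega)
  obtain ⟨u₁, x, u₂, e2⟩ := h.dec hd hl (A l)
  simp only [LinearMap.toSpanSingleton_apply, map_smul] at e1 e2
  have key : ∀ a b c : F, c ≠ 0 → A (l + a • w + b • A w) = x • (l + a • w + b • A w) + c • w →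
      ∃ v, Cy A v := fun a b c hc e => by
    have hv : l + a • w + b • A w ∉ spU A (LinearMap.toSpanSingleton F V w) := fun hv => hl (by
      have := sub_mem hv (mem_spU.2 ⟨a, b, rfl⟩)
      simpa [add_assoc] using this)
    generalize l + a • w + b • A w = v at e hv
    refine ⟨v, fun a' b' c' e' => ?_⟩
    rw [e, map_add, map_smul, map_smul, e] at e'
    obtain ⟨r1, r2, r3⟩ := inj v hv (b' * c + c' * x * c) (a' + b' * x + c' * x * x) (c' * c)
      (by linear_combination (norm := module) e')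
    have k3 : c' = 0 := (mul_eq_zero.1 r3).resolve_right hc
    have k2 : b' = 0 := by simpa [k3, hc] using r1
    exact ⟨by simpa [k2, k3] using r2, k2, k3⟩
  by_cases c1 : u₁ + x * u₂ = 0
  swap
  · exact Or.inl (key (-u₂) 0 _ c1 (by simp only [map_add, map_smul, e1, e2]; module))
  by_cases c2 : p + x * q - x * x = 0
  swap
  · refine Or.inl (key (-(u₂ + q - x)) 1 _ c2 ?_)
    simp only [map_add, map_smul, e1, e2]
    linear_combination (norm := module) c1 • w
  refine Or.inr ⟨_, h, x, fun v => ?_⟩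
  obtain ⟨a, c, b, rfl⟩ := h.dec hd hl v
  refine ⟨a + c * u₂ + b * (q - x), ?_⟩
  simp only [LinearMap.toSpanSingleton_apply, map_add, map_smul, e1, e2]
  linear_combination (norm := module) (c * 1) • c1 • w + b • c2 • w

variable [Fintype F]

theorem tv_pow (h4 : 4 ≤ Fintype.card F) {A : End F V} (hA : Tv A) (hF : Full A)
    (h1 : LinearMap.det A = 1) (k : ℕ) : A ∈ cls A ^ (k + 1) := by
  induction k with
  | zero => rw [zero_add, pow_one]; exact self_mem_cls A
  | succ k ih =>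
    obtain ⟨a, a0, a1, -⟩ := exists_notMem3 h4 (0 : F) 1 1
    have hA' := hA
    obtain ⟨φ, x, y, p1, p2, e⟩ := hA'
    have p3 : φ x = 0 := by simpa [e] using h1
    have s : ∀ a : F, a ≠ 0 → Sim A (LinearMap.transvection φ (a • x)) := fun a ha =>
      tv_sim hA ⟨φ, _, y, p1, smul_ne_zero ha p2, rfl⟩ (by simp [h1, p3])
    have : A = LinearMap.transvection φ (a • x) * LinearMap.transvection φ ((1 - a) • x) :=
      LinearMap.ext fun v => by
        simp only [e, End.mul_apply, LinearMap.transvection.apply, map_add, map_smul, p3]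
        module
    rw [pow_succ]
    nth_rw 3 [this]
    exact Set.mul_mem_mul (mem_pow_of_full hF ih (s a a0))
      (mem_cls_of_full hF (s _ (sub_ne_zero.2 a1.symm)))

theorem tv_sc (h4 : 4 ≤ Fintype.card F) {A : End F V} (hA : Tv A) (hF : Full A)
    (h2 : 2 ≤ finrank F V) : Sc A (finrank F V) := by
  by_cases h1 : LinearMap.det A = 1
  · obtain ⟨k, hk⟩ := Nat.exists_eq_add_of_le' h2
    have hA' := hA
    obtain ⟨φ, x, y, p1, p2, e⟩ := hA'
    have p3 : φ x = 0 := by simpa [e] using h1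
    refine ⟨1, ?_⟩
    have : (1 : F) • (1 : End F V) = A * LinearMap.transvection φ (-x) :=
      LinearMap.ext fun v => by simp [e, LinearMap.transvection.apply, p3]
    rw [hk, this, pow_succ]
    exact Set.mul_mem_mul (tv_pow h4 hA hF h1 k) (mem_cls_of_full hF
      (tv_sim hA ⟨φ, _, y, p1, neg_ne_zero.2 p2, rfl⟩ (by simp [h1, p3])))
  · set δ := LinearMap.det A
    let b := Module.finBasis F V
    let E : ℕ → End F V := fun k => b.constr F fun i => if (i : ℕ) < k then δ • b i else b i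
    have hb : ∀ k i, E k (b i) = if (i : ℕ) < k then δ • b i else b i := fun k i =>
      b.constr_basis F _ i
    have hE : ∀ k, k ≤ finrank F V → E k ∈ cls A ^ k := by
      intro k
      induction k with
      | zero => intro _; rw [pow_zero, Set.mem_one]; exact b.ext fun i => by simp [hb]
      | succ k ih =>
        intro hk
        have : E (k + 1) = E k * LinearMap.transvection (b.coord ⟨k, hk⟩) ((δ - 1) • b ⟨k, hk⟩) :=
          b.ext fun i => by
            simp only [End.mul_apply, LinearMap.transvection.apply, map_add, map_smul, hb,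
              Basis.coord_apply, Basis.repr_self]
            by_cases hi : i = ⟨k, hk⟩
            · subst hi
              simp only [lt_irrefl, Nat.lt_succ_self, if_true, if_false, Finsupp.single_eq_same]
              module
            · have : ((i : ℕ) < k + 1) ↔ (i : ℕ) < k := by
                have : (i : ℕ) ≠ k := fun e => hi (Fin.ext e)
                omega
              simp only [this, Finsupp.single_eq_of_ne' hi, zero_smul, add_zero]
        rw [this, pow_succ]
        exact Set.mul_mem_mul (ih (by omega)) (mem_cls_of_full hF (tv_sim hA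
          ⟨_, _, b ⟨k, hk⟩, by simp, smul_ne_zero (sub_ne_zero.2 h1) (b.ne_zero _), rfl⟩
          (by simp [δ])))
    refine ⟨δ, ?_⟩
    convert hE _ le_rfl using 1
    exact b.ext fun i => by simp [hb]

/-- rank one -/
theorem rk_one (h4 : 4 ≤ Fintype.card F) {A : End F V} {ι : W →ₗ[F] V} {κ : K →ₗ[F] V}
    (h : Rk A ι κ) (hF : Full A) (hA : Tv A) (h0 : LinearMap.det A ≠ 0) (hW : 0 < finrank F W)
    (hd : finrank F V = finrank F K + 2) : NS A (finrank F V) := by
  have hb : Rel A (finrank F K) 2 := by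
    intro U hU g g1 g2 g3
    obtain ⟨v, hv, ht⟩ := g2.exists_vec g1
    obtain ⟨A', a0, a1, a2⟩ := h.agree hF _ ht hU.le (by rwa [finrank_self])
    obtain ⟨g', rfl, a3⟩ := quot_fix h0 a0 g1 a1 a2
    have dg := det_quot (k := 1) h0 a0 g3
    rw [pow_one] at dg
    rcases hyp_form (by
      rw [← LinearMap.span_singleton_eq_range, Submodule.finrank_sup_span_singleton hv, hU, hd])
      a3 with e | e
    · rw [e, mul_one]
      exact mem_pow_of_mem_cls (tv_pow h4 hA hF (by rw [← dg, e, map_one]) 1) a0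
    · rw [pow_two]
      exact Set.mul_mem_mul a0 (mem_cls_of_full hF (tv_sim hA e dg.symm))
  rw [hd, add_comm]
  exact (h.rel_down hF h0 hW (finrank F K) (r := 0) (by rwa [zero_add]) (by omega) (by omega)).ns

theorem rank_goal (h4 : 4 ≤ Fintype.card F) {A : End F V} {ι : W →ₗ[F] V} (h : Tr A ι)
    (hA : NSc A) (h0 : LinearMap.det A ≠ 0) {c : F}
    (hc : ∀ v, ∃ w, A v - c • v = A (ι w) - c • ι w)
    (hd : 2 * finrank F W + 2 ≤ finrank F V ∨ (finrank F W = 1 ∧ finrank F V = 3)) :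
    NS A (finrank F V) ∧ Sc A (finrank F V) := by
  have hW : 0 < finrank F W := by
    by_contra hW
    have : Subsingleton W := finrank_zero_iff.1 (by omega : finrank F W = 0)
    refine hA c (LinearMap.ext fun v => ?_)
    obtain ⟨w, hw⟩ := hc v
    simpa [Subsingleton.elim w 0, sub_eq_zero] using hw
  have hc0 : c ≠ 0 := fun e => by
    have : Nontrivial W := finrank_pos_iff.1 hW
    obtain ⟨w, hw⟩ := exists_ne (0 : W)
    obtain ⟨w', hw'⟩ := hc (A (ι w))
    simp only [e, zero_smul, sub_zero] at hw'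
    exact hw (h (-w') w (by rw [injective_of_det h0 hw', map_neg, neg_add_cancel])).2
  have h1 : Tr (c⁻¹ • A) ι := fun w w' e => by
    have := h w (c⁻¹ • w') (by simpa using e)
    exact ⟨this.1, (smul_eq_zero.1 this.2).resolve_left (inv_ne_zero hc0)⟩
  have h2 : ∀ v, ∃ w, (c⁻¹ • A) v - v = (c⁻¹ • A) (ι w) - ι w := fun v => by
    obtain ⟨w, hw⟩ := hc v
    refine ⟨w, ?_⟩
    simp only [LinearMap.smul_apply]
    linear_combination (norm := skip) c⁻¹ • hw
    match_scalars <;> field_simp <;> ring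
  obtain ⟨K', B, ι', b1, s⟩ := exists_prod h1 h2
  have hn := s.finrank_eq
  have hU := h1.finrank
  have d0 : LinearMap.det ((1 : End F K').prodMap B) ≠ 0 := by
    rw [← s.det_eq, LinearMap.det_smul]
    exact mul_ne_zero (pow_ne_zero _ (inv_ne_zero hc0)) h0
  have key : NS ((1 : End F K').prodMap B) (finrank F V) ∧
      Sc ((1 : End F K').prodMap B) (finrank F V) := by
    rw [hn]
    rw [finrank_prod] at hn
    by_cases hs : finrank F W = 1
    · have hF := full_prod (K := K') (by omega) B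
      have hT := (tv_of_rank hs (fun e => hA.smul (inv_ne_zero hc0) 1 (by rw [e, one_smul])) h2).sim s
      exact ⟨rk_one h4 (rk_prod b1) hF hT d0 hW (by rw [finrank_prod]; omega),
        tv_sc h4 hT hF (by rw [finrank_prod]; omega)⟩
    · exact rk_big h4 (by omega) b1 (by rwa [LinearMap.det_prodMap, map_one, one_mul] at d0) hU
        (by omega)
  have e : A = c • c⁻¹ • A := by rw [smul_smul, mul_inv_cancel₀ hc0, one_smul]
  rw [e]
  exact ⟨(key.1.sim s.symm).smul hc0, (key.2.sim s.symm).smul c⟩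

theorem three_ns (h4 : 4 ≤ Fintype.card F) {A : End F V} {v : V} (h : Cy A v)
    (h1 : LinearMap.det A = 1) (h3 : finrank F V = 3) : NS A 3 := by
  obtain ⟨d, d0, d1, d2⟩ := exists_notMem3 h4 (0 : F) 1 (-1)
  have d3 : d ≠ d⁻¹ := fun e => (mul_self_eq_one_iff.1 (by
    nth_rw 2 [e]; exact mul_inv_cancel₀ d0)).elim d1 d2
  have d4 : (1 : F) ≠ d⁻¹ := fun e => d1 (by rw [← inv_inv d, ← e, inv_one])
  obtain ⟨B, α, s, m⟩ := h.md h3 one_ne_zero
  obtain ⟨Y, w, t1, t2, t3⟩ := pair3 s s m m (by simp) d0 (y₃ := d⁻¹)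
    (by rw [h1]; field_simp) (by rwa [mul_one]) d3 (by rwa [mul_one])
  have hY := t1.hasCyc one_ne_zero (c := 1) (map_one _) (by simp) t2
  rw [t3, mul_one] at hY
  intro g hg hdet
  rw [h1, one_pow] at hdet
  obtain ⟨A', e1, e2⟩ := exists_inv (z := A) (h1 ▸ one_ne_zero)
  have dA : LinearMap.det A' = 1 := by
    have := congrArg LinearMap.det e1
    rwa [map_mul, h1, mul_one, map_one] at this
  obtain ⟨g', x, β, hx, s', m'⟩ := md3 hg (hdet ▸ one_ne_zero) h3
  obtain ⟨B', γ, s'', m''⟩ := (h.inv e1).md h3 (inv_ne_zero hx)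
  have hxx := mul_inv_cancel₀ hx
  obtain ⟨Y', w', u1, u2, u3⟩ := pair3 s' s'' m' m'' (by simp [hxx]) d0 (y₃ := d⁻¹)
    (by rw [hdet, dA, hxx]; field_simp) (by rwa [hxx]) d3 (by rwa [hxx])
  rw [hxx] at u3
  obtain ⟨Z, z1, z2⟩ := u1.exists one_ne_zero (c := 1) (map_one _) (by simp)
  obtain ⟨w'', hw''⟩ := gen_sim z2.symm u2
  have hZ := hY.mem (Or.inr ⟨d, _, rfl, by simp [sub_ne_zero, d1, d3]⟩) hw''
    (z2.charpoly_eq.trans u3)
  obtain ⟨Z', z3, z4⟩ := inv_mem_cls z1 e1
  rw [pow_succ, show g = g * Z * Z' by rw [mul_assoc, z4, mul_one]]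
  exact Set.mul_mem_mul hZ z3

theorem sc_irred {f : F[X]} (hf : Irreducible f) (hd : f.natDegree = 3) : Sc (cyc f) 3 := by
  have : Fact (Irreducible f) := ⟨hf⟩
  have : FiniteDimensional F (AdjoinRoot f) := (AdjoinRoot.powerBasis hf.ne_zero).finite
  have : Finite (AdjoinRoot f) := Module.finite_of_finite F
  have hr : finrank F (AdjoinRoot f) = 3 := by
    rw [(AdjoinRoot.powerBasis hf.ne_zero).finrank, AdjoinRoot.powerBasis_dim, hd]
  have hF : Full (cyc f) := fun c _ => by
    obtain ⟨κ, hκ⟩ := FiniteField.norm_surjective F (AdjoinRoot f) c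
    exact ⟨Algebra.lmul F _ κ, hκ, LinearMap.ext fun v => by simp [cyc_apply, mul_left_comm]⟩
  let σ := FiniteField.frobeniusAlgEquivOfAlgebraic F (AdjoinRoot f)
  have s : ∀ θ : AdjoinRoot f, Sim (LinearMap.mulLeft F θ)
      (LinearMap.mulLeft F (θ ^ Fintype.card F)) := fun θ =>
    ⟨σ.toLinearEquiv, fun v => by simp [σ, mul_pow]⟩
  have hN := FiniteField.algebraMap_norm_eq_prod_pow F (AdjoinRoot f) (AdjoinRoot.root f)
  rw [hr, Nat.card_eq_fintype_card] at hN
  refine ⟨Algebra.norm F (AdjoinRoot.root f), ?_⟩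
  rw [pow_succ, pow_two]
  convert Set.mul_mem_mul (Set.mul_mem_mul (self_mem_cls (cyc f)) (mem_cls_of_full hF (s _)))
    (mem_cls_of_full hF ((s _).trans (s _))) using 1
  refine LinearMap.ext fun v => ?_
  simp only [LinearMap.smul_apply, End.one_apply, End.mul_apply, cyc_apply, LinearMap.mulLeft_apply]
  rw [Algebra.smul_def, hN]
  simp only [Finset.prod_range_succ, Finset.prod_range_zero]
  ring

theorem sc_cube (h4 : 4 ≤ Fintype.card F) :
    Sc (Matrix.toLin' (!![1, 0, 0; 1, 1, 0; 0, 1, 1] : Matrix (Fin 3) (Fin 3) F)) 3 := by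
  have key : ∀ t c : F, t ≠ 0 → Matrix.toLin' !![1, 0, 0; t, 1, 0; c, t, 1] ∈
      cls (Matrix.toLin' (!![1, 0, 0; 1, 1, 0; 0, 1, 1] : Matrix (Fin 3) (Fin 3) F)) := by
    intro t c ht
    refine ⟨Matrix.toLin' !![t⁻¹, 0, 0; 0, 1, 0; 0, c * t⁻¹, t], ?_, ?_⟩
    · rw [LinearMap.det_toLin', Matrix.det_fin_three]
      simp [ht]
    · rw [End.mul_eq_comp, End.mul_eq_comp, ← Matrix.toLin'_mul, ← Matrix.toLin'_mul]
      congr 1
      ext i j
      fin_cases i <;> fin_cases j <;> simp [Matrix.mul_apply, Fin.sum_univ_three, ht, add_comm]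
  obtain ⟨t, t0, t1, -⟩ := exists_notMem3 h4 (0 : F) (-1) (-1)
  refine ⟨1, ?_⟩
  rw [pow_succ, pow_two]
  convert Set.mul_mem_mul (Set.mul_mem_mul (key 1 0 one_ne_zero) (key t 0 t0))
    (key (-1 - t) ((1 + t) ^ 2 - t) fun e => t1 (by linear_combination -e)) using 1
  rw [End.mul_eq_comp, End.mul_eq_comp, ← Matrix.toLin'_mul, ← Matrix.toLin'_mul, one_smul,
    End.one_eq_id, ← Matrix.toLin'_one]
  congr 1
  ext i j
  fin_cases i <;> fin_cases j <;> simp [Matrix.mul_apply, Fin.sum_univ_three] <;> ring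

theorem three_sc (h4 : 4 ≤ Fintype.card F) {A : End F V} {v : V} (h : Cy A v) (hA : NSc A)
    (h0 : LinearMap.det A ≠ 0) (h3 : finrank F V = 3) : Sc A 3 := by
  have hg := h.gen h3
  have hm := A.charpoly_monic
  have hd : A.charpoly.natDegree = 3 := A.charpoly_natDegree.trans h3
  have good : ∀ d f, A.charpoly = (X - C d) * f → f.eval d ≠ 0 → Sc A 3 := fun d f e hf => by
    have h1 : HasCyc A 1 ((X - C d) * f) := ⟨A, by rw [pow_one]; exact self_mem_cls A, v, hg, e⟩
    have := (all_of_ns (ns_of_cyc h1 h1 hf (Or.inr ⟨d, f, rfl, hf⟩) h0) hA h0 h3.ge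
      (show 1 + 1 < finrank F V by omega)).sc
    rwa [h3] at this
  by_cases hr : A.charpoly.roots = 0
  · exact (sc_irred ((hm.irreducible_iff_roots_eq_zero_of_degree_le_three (by omega)
      (by omega)).2 hr) hd).sim hg.sim_charpoly
  obtain ⟨d, hd1⟩ := Multiset.exists_mem_of_ne_zero hr
  obtain ⟨f, e1⟩ := dvd_iff_isRoot.2 (isRoot_of_mem_roots hd1)
  by_cases hf : f.eval d = 0
  swap
  · exact good d f e1 hf
  obtain ⟨f', rfl⟩ := dvd_iff_isRoot.2 hf
  have m2 : ((X - C d) * (X - C d) : F[X]).Monic := (monic_X_sub_C d).mul (monic_X_sub_C d)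
  rw [← mul_assoc] at e1
  have m3 : f'.Monic := m2.of_mul_monic_left (e1 ▸ hm)
  have n3 : f'.natDegree = 1 := by
    rw [e1, m2.natDegree_mul m3, (monic_X_sub_C d).natDegree_mul (monic_X_sub_C d),
      natDegree_X_sub_C] at hd
    omega
  obtain ⟨μ, rfl⟩ : ∃ μ, f' = X - C μ := ⟨-f'.coeff 0, by
    rw [map_neg, sub_neg_eq_add]; exact m3.eq_X_add_C n3⟩
  by_cases hμ : μ = d
  swap
  · exact good μ ((X - C d) * (X - C d)) (by rw [e1]; ring) (by simpa [sub_eq_zero] using hμ)
  subst hμ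
  have h1 : μ ≠ 0 := fun e => h0 (by rw [det_eq_charpoly, e1, e]; simp)
  have hJ : ∀ v, Matrix.toLin' (!![1, 0, 0; 1, 1, 0; 0, 1, 1] : Matrix (Fin 3) (Fin 3) F) v =
      ![v 0, v 0 + v 1, v 1 + v 2] := fun v => by
    ext i
    fin_cases i <;> simp [Matrix.mulVec, dotProduct, Fin.sum_univ_three]
  have hs := sc_cube h4
  generalize Matrix.toLin' (!![1, 0, 0; 1, 1, 0; 0, 1, 1] : Matrix (Fin 3) (Fin 3) F) = J at hJ hs
  have c1 : Cy (μ • J) ![1, 0, 0] := fun a b c e => by
    have e0 := congrFun e 0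
    have e1 := congrFun e 1
    have e2 := congrFun e 2
    simp [hJ, h1] at e0 e1 e2
    simp [e2, h1] at e1
    simp [e1, e2] at e0
    exact ⟨e0, e1, e2⟩
  have g1 := c1.gen (by simp)
  refine (hs.smul μ).sim (g1.sim_of_charpoly hg ?_)
  rw [e1]
  refine g1.charpoly_eq (e1 ▸ hm) (by rw [← e1, hd]; simp) ?_
  ext i
  fin_cases i <;> simp [hJ, Module.algebraMap_end_apply]

theorem goal (h4 : 4 ≤ Fintype.card F) {A : End F V} (hA : NSc A) (h1 : LinearMap.det A = 1)
    (h3 : 3 ≤ finrank F V) : NS A (finrank F V) ∧ Sc A (finrank F V) := by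
  have h0 : LinearMap.det A ≠ 0 := h1 ▸ one_ne_zero
  rcases h3.eq_or_lt with h3' | h3'
  · rcases three_cases hA h3'.symm with ⟨v, hv⟩ | ⟨ι, t, c, hc⟩
    · rw [← h3']
      exact ⟨three_ns h4 hv h1 h3'.symm, three_sc h4 hv hA h0 h3'.symm⟩
    · exact rank_goal h4 t hA h0 hc (Or.inr ⟨finrank_self F, h3'.symm⟩)
  obtain ⟨s, ι, t, hs⟩ := exists_tr A
  have hW : finrank F (Fin s → F) = s := by simp
  by_cases hn : 2 * s + 2 ≤ finrank F V
  · obtain ⟨c, hc⟩ := hs.resolve_left (by omega)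
    exact rank_goal h4 t hA h0 hc (Or.inl (by rwa [hW]))
  have hle : 2 * s ≤ finrank F V := by
    have := (spU A ι).finrank_le
    rwa [t.finrank, hW] at this
  have hN : NS A 4 := by
    obtain ⟨d, f, k1, k2⟩ : ∃ d f', HasCyc A 2 ((X - C d) * f') ∧ f'.eval d ≠ 0 := by
      rcases hle.eq_or_lt with e | e
      · exact even_good' h4 t h0 (by omega) (by omega)
      · exact odd_good' h4 t h0 (by omega) (by omega)
    exact ns_of_cyc k1 k1 k2 (Or.inr ⟨d, f, rfl, k2⟩) h0
  by_cases h5 : finrank F V = 4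
  · rw [h5]
    exact ⟨hN, even_scalar' h4 t h0 (by omega) (by omega)⟩
  · have := all_of_ns hN hA h0 h3 (show 4 < finrank F V by omega)
    exact ⟨this.ns, this.sc⟩

end Cfsg.Agent.H26.Cov
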