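import Mathlib
import Cfsg.Agent.H26.CovH

/-! The covering number of `PSL(n, q)`. -/

set_option autoImplicit false

namespace Cfsg.Agent.H26.Cov

open Module Polynomial Cfsg.Agent.H76 Cfsg.Agent.H22.Lev Matrix
open scoped Pointwise

variable {F : Type*} [Field F] {n : ℕ}

/-- the linear map of an element of `SL n` -/
noncomputable def ln (X : SpecialLinearGroup (Fin n) F) : End F (Fin n → F) :=
  Matrix.toLinAlgEquiv' (X : Matrix (Fin n) (Fin n) F)

theorem ln_mul (X Y : SpecialLinearGroup (Fin n) F) : ln (X * Y) = ln X * ln Y := by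
  simp [ln]

theorem ln_one : ln (1 : SpecialLinearGroup (Fin n) F) = 1 := by simp [ln]

theorem det_ln (X : SpecialLinearGroup (Fin n) F) : LinearMap.det (ln X) = 1 :=
  (LinearMap.det_toLin' _).trans X.2

theorem exists_ln {z : End F (Fin n → F)} (h : LinearMap.det z = 1) : ∃ Z, ln Z = z :=
  ⟨⟨LinearMap.toMatrix' z, by rw [LinearMap.det_toMatrix', h]⟩, Matrix.toLin'_toMatrix' z⟩

theorem mem_center_iff_ln {X : SpecialLinearGroup (Fin n) F} :
    X ∈ Subgroup.center (SpecialLinearGroup (Fin n) F) ↔ ∃ c : F, ln X = c • 1 := by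
  constructor
  · intro h
    obtain ⟨r, -, hr⟩ := Matrix.SpecialLinearGroup.mem_center_iff.1 h
    exact ⟨r, by rw [ln, ← hr, ← Algebra.algebraMap_eq_smul_one, ← AlgEquiv.commutes
      (Matrix.toLinAlgEquiv' (R := F) (n := Fin n)) r]; rfl⟩
  · rintro ⟨c, hc⟩
    refine Subgroup.mem_center_iff.2 fun g => Subtype.ext
      ((Matrix.toLinAlgEquiv' (R := F) (n := Fin n)).injective ?_)
    change ln (g * X) = ln (X * g)
    rw [ln_mul, ln_mul, hc, mul_smul_comm, smul_mul_assoc, mul_one, one_mul]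

theorem exists_list (X : SpecialLinearGroup (Fin n) F) (k : ℕ) : ∀ Y ∈ cls (ln X) ^ k,
    ∃ f : Fin k → SpecialLinearGroup (Fin n) F,
      Y = ln (List.ofFn fun i => f i * X * (f i)⁻¹).prod := by
  induction k with
  | zero => intro Y h; exact ⟨Fin.elim0, by simpa [ln_one] using h⟩
  | succ k ih =>
    intro Y h
    rw [pow_succ'] at h
    obtain ⟨a, ⟨z, h1, h2⟩, b, hb, rfl⟩ := h
    obtain ⟨f, rfl⟩ := ih b hb
    obtain ⟨Z, rfl⟩ := exists_ln h1
    refine ⟨Fin.cons Z f, ?_⟩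
    simp only [List.ofFn_succ, List.prod_cons, Fin.cons_zero, Fin.cons_succ, ln_mul, h2]
    rw [mul_assoc a, ← ln_mul, mul_inv_cancel, ln_one, mul_one]

theorem exists_fixed {X : SpecialLinearGroup (Fin n) F} {φ : Dual F (Fin n → F)} {x : Fin n → F}
    (hX : ln X = LinearMap.transvection φ x) (k : ℕ) :
    ∀ f : Fin k → SpecialLinearGroup (Fin n) F, ∃ S : Submodule F (Fin n → F),
      n ≤ finrank F S + k ∧ ∀ v ∈ S, ln (List.ofFn fun i => f i * X * (f i)⁻¹).prod v = v := by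
  induction k with
  | zero => intro f; exact ⟨⊤, by simp, fun v _ => by simp [ln_one]⟩
  | succ k ih =>
    intro f
    obtain ⟨S, h1, h2⟩ := ih fun i => f i.succ
    refine ⟨S ⊓ LinearMap.ker (φ ∘ₗ ln (f 0)⁻¹), ?_, fun v hv => ?_⟩
    · have := finrank_inf_ker S (φ ∘ₗ ln (f 0)⁻¹)
      omega
    · have h3 : φ (ln (f 0)⁻¹ v) = 0 := hv.2
      rw [List.ofFn_succ, List.prod_cons, ln_mul, End.mul_apply, h2 v hv.1, ln_mul, ln_mul, hX,
        End.mul_apply, End.mul_apply, LinearMap.transvection.apply, h3, zero_smul, add_zero,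
        ← End.mul_apply, ← ln_mul, mul_inv_cancel, ln_one, End.one_apply]

theorem mk_prod (X : SpecialLinearGroup (Fin n) F) {k : ℕ}
    (f : Fin k → SpecialLinearGroup (Fin n) F) :
    (List.ofFn fun i => (QuotientGroup.mk (f i) : ProjectiveSpecialLinearGroup (Fin n) F) *
      QuotientGroup.mk X * (QuotientGroup.mk (f i))⁻¹).prod =
      QuotientGroup.mk (List.ofFn fun i => f i * X * (f i)⁻¹).prod := by
  rw [← QuotientGroup.mk'_apply _ (List.prod _), map_list_prod, List.map_ofFn]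
  rfl

theorem exists_no_root [Fintype F] (hn : 2 ≤ n) {c : F} (hc : c ≠ 0) :
    ∃ β : F, ∀ t, (pl n β c).eval t ≠ 0 := by
  classical
  obtain ⟨β, hβ⟩ : ∃ β : F, β ∉ Finset.univ.image fun t : Fˣ => -((t : F) ^ n + c) / t := by
    by_contra! h
    have h1 := Finset.card_le_card (s := Finset.univ) fun β _ => h β
    have h2 := Finset.card_image_le (s := Finset.univ) (f := fun t : Fˣ => -((t : F) ^ n + c) / t)
    rw [Finset.card_univ] at h1 h2
    have h3 := Fintype.card_units F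
    have h4 := Fintype.card_pos (α := F)
    omega
  refine ⟨β, fun t ht => ?_⟩
  by_cases h0 : t = 0
  · rw [h0, pl_zero hn] at ht
    exact hc ht
  · refine hβ (Finset.mem_image.2 ⟨Units.mk0 t h0, Finset.mem_univ _, ?_⟩)
    rw [pl_eval] at ht
    rw [Units.val_mk0, div_eq_iff h0]
    linear_combination -ht

theorem cover [Fintype F] (h4 : 4 ≤ Fintype.card F) (hn : 3 ≤ n)
    (x : ProjectiveSpecialLinearGroup (Fin n) F) (hx : x ≠ 1)
    (g : ProjectiveSpecialLinearGroup (Fin n) F) :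
    ∃ f : Fin n → ProjectiveSpecialLinearGroup (Fin n) F,
      g = (List.ofFn fun i => f i * x * (f i)⁻¹).prod := by
  obtain ⟨X, rfl⟩ := QuotientGroup.mk_surjective x
  obtain ⟨G, rfl⟩ := QuotientGroup.mk_surjective g
  have hV : finrank F (Fin n → F) = n := by simp
  obtain ⟨h1, c, h2⟩ := goal h4 (A := ln X) (fun c hc => hx ((QuotientGroup.eq_one_iff _).2
    (mem_center_iff_ln.2 ⟨c, hc⟩))) (det_ln X) (by rwa [hV])
  rw [hV] at h1 h2
  by_cases hG : NSc (ln G)
  · obtain ⟨f, hf⟩ := exists_list X n _ (h1 _ hG (by rw [det_ln, det_ln, one_pow]))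
    refine ⟨fun i => f i, ?_⟩
    beta_reduce
    rw [mk_prod, QuotientGroup.eq, mem_center_iff_ln]
    exact ⟨1, by rw [ln_mul, ← hf, ← ln_mul, inv_mul_cancel, ln_one, one_smul]⟩
  · obtain ⟨f, hf⟩ := exists_list X n _ h2
    refine ⟨fun i => f i, ?_⟩
    beta_reduce
    rw [mk_prod, (QuotientGroup.eq_one_iff _).2 (mem_center_iff_ln.2 ⟨c, hf.symm⟩),
      QuotientGroup.eq_one_iff, mem_center_iff_ln]
    simpa [NSc] using hG

theorem sharp [Fintype F] (hn : 3 ≤ n) : ∃ x : ProjectiveSpecialLinearGroup (Fin n) F, x ≠ 1 ∧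
    ∃ g : ProjectiveSpecialLinearGroup (Fin n) F,
      ∀ f : Fin (n - 1) → ProjectiveSpecialLinearGroup (Fin n) F,
        g ≠ (List.ofFn fun i => f i * x * (f i)⁻¹).prod := by
  have hV : finrank F (Fin n → F) = n := by simp
  let i : Fin n := ⟨0, by omega⟩
  let j : Fin n := ⟨1, by omega⟩
  have hij : i ≠ j := by simp [i, j]
  obtain ⟨X, hX⟩ := exists_ln (z := LinearMap.transvection (LinearMap.proj i : Dual F (Fin n → F))
    (Pi.single j 1)) (by simp [hij])
  obtain ⟨β, hβ⟩ := exists_no_root (F := F) (n := n) (by omega)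
    (pow_ne_zero n (neg_ne_zero.2 one_ne_zero))
  have m := pl_deg (F := F) (s := n) (by omega) β ((-1) ^ n)
  obtain ⟨Z, -, -, hZ⟩ := exists_cyc (V := Fin n → F) m.1 (m.2.trans hV.symm)
  obtain ⟨G, rfl⟩ := exists_ln (z := Z)
    (by rw [det_eq_charpoly, hZ, pl_zero (by omega), hV, neg_one_sq])
  refine ⟨X, fun h => ?_, G, fun f hf => ?_⟩
  · obtain ⟨c, hc⟩ := mem_center_iff_ln.1 ((QuotientGroup.eq_one_iff _).1 h)
    have := congrFun (LinearMap.congr_fun (hX.symm.trans hc) (Pi.single i 1)) j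
    simp [LinearMap.transvection.apply, hij.symm] at this
  · choose f' hf' using fun i => QuotientGroup.mk_surjective (f i)
    simp only [← hf'] at hf
    rw [mk_prod, eq_comm, QuotientGroup.eq, mem_center_iff_ln] at hf
    obtain ⟨c, hc⟩ := hf
    obtain ⟨S, s1, s2⟩ := exists_fixed hX _ f'
    have : Nontrivial S := finrank_pos_iff.1 (by omega : 0 < finrank F S)
    obtain ⟨v, hv⟩ := exists_ne (0 : S)
    refine hv (Subtype.ext ((eval_ne_zero_iff (Y := ln G) (d := c)).1 (hZ ▸ hβ c) v.1 ?_))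
    rw [← mul_inv_cancel_left (List.ofFn fun i => f' i * X * (f' i)⁻¹).prod G, ln_mul, hc,
      mul_smul_comm, mul_one, LinearMap.smul_apply, s2 v v.2]

end Cfsg.Agent.H26.Cov
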