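import Cfsg.Agent.H26.DsTool

/-! Groups without divisibility among degrees and with a Frobenius quotient, general case. -/

set_option autoImplicit false

namespace Cfsg.Agent.H26.DS

open Cfsg Subgroup H24 H11 ND
open scoped commutatorElement Pointwise

variable {G : Type*} [Group G]

/-- The standing hypotheses. -/
structure HF (N K : Subgroup G) (p : ℕ) : Prop where
  nK : K.Normal
  hp : p.Prime
  nd : ∀ a ∈ charDegrees G, ∀ b ∈ charDegrees G, a ≠ 1 → a ∣ b → a = b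
  dv : ∀ d ∈ charDegrees N, d ≠ 1 → p ∣ d
  fc : ∃ χ, IsIrrCharacter G χ ∧ K ≤ charKer χ ∧ charDegree χ = N.index
  f1 : N.index ≠ 1
  KN : K ≤ N
  cK : ⁅N, N⁆ ≤ K
  qle : ¬ commutator G ≤ K
  pw : ∀ n ∈ N, n ^ p ∈ K
  fpf : ∀ g, g ∉ N → ∀ n ∈ N, ⁅g, n⁆ ∈ K → n ∈ K
  pN : ¬ p ∣ N.index
  cG : commutator G ≤ N
  cc : commutator G ≤ ⁅(⊤ : Subgroup G), commutator G⁆

theorem lin_le {A B C : Subgroup G} (μ : Lin A)
    (h : ∀ b ∈ B, ∀ c ∈ C, ∃ h', μ.hom ⟨⁅b, c⁆, h'⟩ = 1) {a : G} (ha : a ∈ ⁅B, C⁆) (h' : a ∈ A) :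
    μ.hom ⟨a, h'⟩ = 1 := by
  have : ⁅B, C⁆ ≤ μ.hom.ker.map A.subtype := commutator_le.2 fun b hb c hc =>
    (h b hb c hc).elim fun h1 h2 => ⟨_, h2, rfl⟩
  obtain ⟨b, hb, rfl⟩ := this ha
  exact hb

theorem cm_Q (x y : G) : ⁅x, y⁆ ∈ commutator G := commutatorElement_mem_commutator' x y

variable [Finite G] {N K : Subgroup G} [hN : N.Normal] {p : ℕ}

namespace HF

omit [Finite G] hN in
theorem nle (H : HF N K p) : ¬ N ≤ K := fun h => H.qle (H.cG.trans h)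

omit [Finite G] hN in
theorem fcd (H : HF N K p) : N.index ∈ charDegrees G :=
  H.fc.elim fun _ h => h.2.2 ▸ deg_mem_cd h.1

omit [Finite G] hN in
theorem exists_out (H : HF N K p) : ∃ x, x ∉ N := by
  by_contra! h
  exact H.f1 (index_eq_one.2 (eq_top_iff.2 fun x _ => h x))

theorem cyc (H : HF N K p) : IsCyclic (G ⧸ N) :=
  have := H.nK
  cyc_of_fpf (lt_of_le_not_ge H.KN H.nle) H.cK H.cG H.fpf

theorem dm (H : HF N K p) {θ : N → ℂ} (hθ : IsIrrCharacter N θ) :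
    (H14.inertia N θ).index * charDegree θ ∈ charDegrees G := deg_mem N H.cyc hθ

theorem cases (H : HF N K p) {d : ℕ} (hd : d ∈ charDegrees G) : d = 1 ∨ d = N.index ∨
    ∃ θ, IsIrrCharacter N θ ∧ charDegree θ ≠ 1 ∧ d = (H14.inertia N θ).index * charDegree θ := by
  have := Fintype.ofFinite N
  have := isSolvable_quotient_of_commutator_le N H.cG
  obtain ⟨χ, hχ, rfl⟩ := mem_cd.1 hd
  obtain ⟨θ, hθ, h⟩ := H14.exists_irr_under N hχ
  by_cases h1 : charDegree θ = 1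
  · have h2 := deg_dvd_index_mul N hχ hθ h
    rw [h1, mul_one] at h2
    exact or_iff_not_imp_left.2 fun h3 => Or.inl (H.nd _ hd _ H.fcd h3 h2)
  · exact Or.inr (Or.inr ⟨θ, hθ, h1, (H.nd _ (H.dm hθ) _ hd (fun e => h1 (Nat.eq_one_of_mul_eq_one_left e))
      (index_inertia_mul_deg_dvd N hχ hθ h)).symm⟩)

theorem exists_fix (H : HF N K p) {θ : N → ℂ} (hθ : IsIrrCharacter N θ) (h1 : charDegree θ ≠ 1) :
    ∃ x, x ∉ N ∧ x ∈ H14.inertia N θ := by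
  by_contra! h
  have h2 : H14.inertia N θ = N := le_antisymm (fun x hx => by_contra fun e => h x e hx)
    (H14.le_inertia N (isClassFunction_of_irr hθ))
  have h3 := H.dm hθ
  rw [h2] at h3
  exact h1 ((mul_eq_left₀ index_ne_zero_of_finite).1
    (H.nd _ H.fcd _ h3 H.f1 (Dvd.intro _ rfl)).symm)

theorem inv_of_fix (H : HF N K p) {μ : Lin N} {x : G} (hx : x ∉ N) (h : conjHom N x μ = μ) (g : G) :
    conjHom N g μ = μ := by
  have h1 := H.dm (isIrr_lin μ)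
  have h2 := H14.le_inertia N (isClassFunction_of_irr (isIrr_lin μ))
  rw [deg_lin, mul_one] at h1
  by_cases h3 : (H14.inertia N (lin μ)).index = 1
  · exact (mem_inertia_lin N).1 (index_eq_one.1 h3 ▸ mem_top g)
  have h4 := relIndex_mul_index h2
  rw [← H.nd _ h1 _ H.fcd h3 (index_dvd_of_le h2), mul_eq_right₀ index_ne_zero_of_finite] at h4
  exact (hx (relIndex_eq_one.1 h4 ((mem_inertia_lin N).2 h))).elim

theorem lin_Q (H : HF N K p) {μ : Lin N} {x : G} (hx : x ∉ N) (h : conjHom N x μ = μ) {q : G}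
    (hq : q ∈ commutator G) : μ.hom ⟨q, H.cG hq⟩ = 1 :=
  lin_le μ (fun g _ c hc => ⟨cm_mem N g (H.cG hc), by
    rw [← dl_apply N g μ (H.cG hc), dl_eq_one.2 (H.inv_of_fix hx h g)]; rfl⟩) (H.cc hq) _

omit [Finite G] in
theorem dcomm (H : HF N K p) (x y : G) (μ : Lin N) : dl N y (dl N x μ) = dl N x (dl N y μ) :=
  dl_comm (conjHom_of_mem N (H.cG (cm_Q x y)) μ)

theorem inj (H : HF N K p) {x : G} (hx : x ∉ N) {q : G} (hq : q ∈ commutator G)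
    (h : ⁅x, q⁆ ∈ ⁅N, N⁆) : q ∈ ⁅N, N⁆ := by
  let Λ := linOver ((commutator G).subgroupOf N)
  have h1 : Λ ≤ Λ.comap (dl N x) := fun μ hμ => by
    rw [mem_comap, dl_eq]; exact mul_mem (conjHom_mem_linOver x hμ) (inv_mem hμ)
  have h2 : Function.Injective (QuotientGroup.map Λ Λ (dl N x) h1) := by
    rw [← MonoidHom.ker_eq_bot_iff, eq_bot_iff]
    rintro ⟨μ⟩ hμ
    have h3 : dl N x μ ∈ Λ := (QuotientGroup.eq_one_iff _).1 hμ
    refine (QuotientGroup.eq_one_iff μ).2 fun a ha => lin_le μ (fun g _ c hc =>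
      ⟨cm_mem N g (H.cG hc), ?_⟩) (H.cc ha) a.2
    rw [← dl_apply N g μ (H.cG hc)]
    refine H.lin_Q hx (dl_eq_one.1 (Lin.ext fun n => ?_)) hc
    rw [H.dcomm, dl_apply N g _ n.2]
    exact h3 (cm_Q g n)
  refine lin_sep (H.cG hq) fun ν => ?_
  obtain ⟨⟨μ⟩, e⟩ := Finite.injective_iff_surjective.1 h2 (ν : Lin N ⧸ Λ)
  have h3 : ((dl N x μ)⁻¹ * ν).hom ⟨q, H.cG hq⟩ = 1 := QuotientGroup.eq.1 e hq
  rwa [Lin.mul_apply, Lin.inv_apply, dl_apply, lin_comm μ h, inv_one, one_mul] at h3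

theorem QV (H : HF N K p) {q : G} (hq : q ∈ commutator G) (h : q ∈ V0 N) : q ∈ ⁅N, N⁆ :=
  H.exists_out.elim fun x hx => H.inj hx hq ((mem_V0.1 h).2 x)

theorem mem_V0_of (H : HF N K p) {x : G} (hx : x ∉ N) {n : G} (hn : n ∈ N) (h : ⁅x, n⁆ ∈ ⁅N, N⁆) :
    n ∈ V0 N := by
  refine mem_V0.2 ⟨hn, fun g => H.inj hx (cm_Q g n) (lin_sep (cm_mem N x (cm_mem N g hn)) fun μ => ?_)⟩
  rw [← dl_apply N x μ (cm_mem N g hn), ← dl_apply N g _ hn, H.dcomm, dl_apply, dl_apply,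
    lin_comm μ (cm_mem _ g h)]

theorem hfpf (H : HF N K p) (x : G) (hx : x ∉ N) (n : G) (hn : n ∈ N) (h : ⁅x, n⁆ ∈ V0 N) :
    n ∈ V0 N := H.mem_V0_of hx hn (H.QV (cm_Q x n) h)

theorem dec' (H : HF N K p) {x : G} (hx : x ∉ N) {n : G} (hn : n ∈ N) :
    ∃ m ∈ N, ∃ v ∈ V0 N, n = ⁅x, m⁆ * v := exists_commutator_mul (cc_le_V0 N) (H.hfpf x hx) hn

theorem dec (H : HF N K p) {n : G} (hn : n ∈ N) : ∃ q ∈ commutator G, ∃ v ∈ V0 N, n = q * v := by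
  obtain ⟨x, hx⟩ := H.exists_out
  obtain ⟨m, -, v, hv, e⟩ := H.dec' hx hn
  exact ⟨_, cm_Q x m, v, hv, e⟩

theorem vanish (H : HF N K p) {θ : N → ℂ} (hθ : IsIrrCharacter N θ) (h1 : charDegree θ ≠ 1)
    (x : N) (hx : (x : G) ∉ V0 N) : θ x = 0 := by
  refine ((exists_inertia_le_or_vanish (V0_le N) (cc_le_V0 N) H.hfpf
    (isClassFunction_of_irr hθ)).resolve_left ?_) x hx
  rintro ⟨μ, -, h⟩
  obtain ⟨y, hy, h2⟩ := H.exists_fix (isIrr_lin_mul μ hθ) (by rwa [deg_lin_mul])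
  exact hy (h h2)

theorem fuse (H : HF N K p) {x m : G} (hx : x ∈ N) (hx' : x ∉ V0 N) (hm : m ∈ ⁅N, N⁆) :
    ∃ n ∈ N, n * x * n⁻¹ = x * m :=
  camina (cc_le_V0 N) (fun _ hθ hd => H.vanish hθ hd) hx hx' hm

omit [Finite G] in
theorem V0_le_K (H : HF N K p) : V0 N ≤ K := fun _ hx => H.exists_out.elim fun g hg =>
  H.fpf g hg _ (mem_V0.1 hx).1 (H.cK ((mem_V0.1 hx).2 g))

omit [Finite G] in
theorem exists_q (H : HF N K p) : ∃ q ∈ commutator G, q ∉ V0 N :=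
  SetLike.not_le_iff_exists.1 fun h => H.qle (h.trans H.V0_le_K)

theorem bl (H : HF N K p) {W : Subgroup G} [hW : W.Normal] {ν : Lin W}
    (hν : ∀ n ∈ N, conjHom W n ν = ν) {x : G} (hx : x ∉ N) (hxν : conjHom W x ν = ν) {z : G}
    (hz : ∀ n ∈ N, ⁅n, z⁆ ∈ W) (hxz : ⁅x, z⁆ ∈ W) {q : G} (hq : q ∈ commutator G) :
    ν.hom ⟨⁅q, z⁆, hz q (H.cG hq)⟩ = 1 := by
  have c : ∀ g, conjHom W g ν = ν → ∀ w (hw : w ∈ W),
      ν.hom ⟨g * w * g⁻¹, hW.conj_mem w hw g⟩ = ν.hom ⟨w, hw⟩ :=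
    fun g hg w hw => congrArg (fun μ : Lin W => μ.hom ⟨w, hw⟩) hg
  let h : Lin N := Lin.mk (MonoidHom.mk' (fun n => ν.hom ⟨⁅(n : G), z⁆, hz n n.2⟩) fun a b => by
    rw [mul_comm, ← c a (hν a a.2) _ (hz b b.2), ← map_mul]
    exact congrArg ν.hom (Subtype.ext (by
      simp only [coe_mul, commutatorElement_def]; group)))
  refine H.lin_Q (μ := h) hx (Lin.ext fun n => ?_) hq
  have h1 := hN.conj_mem _ n.2 x
  show ν.hom ⟨⁅x * n * x⁻¹, z⁆, hz _ h1⟩ = ν.hom ⟨⁅(n : G), z⁆, hz n n.2⟩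
  have h2 : (⟨x * ⁅(n : G), z⁆ * x⁻¹, hW.conj_mem _ (hz n n.2) x⟩ : W) =
      ⟨_, hW.conj_mem _ hxz (x * n * x⁻¹)⟩ * ⟨_, hz _ h1⟩ * (⟨_, hxz⟩ : W)⁻¹ :=
    Subtype.ext (by simp only [coe_mul, coe_inv, commutatorElement_def]; group)
  rw [← c x hxν _ (hz n n.2), h2, map_mul, map_mul, c _ (hν _ h1) _ hxz, map_inv,
    mul_inv_cancel_comm]

/-- The normal `p`-complement of `N`. -/
theorem exists_L (H : HF N K p) : ∃ L : Subgroup G, L.Normal ∧ L ≤ N ∧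
    (Nat.card L).Coprime p ∧ ∃ k, L.relIndex N = p ^ k := by
  obtain ⟨L, hL, h1, k, h2⟩ := exists_normal_complement_of_cd H.hp H.dv
  have key : ∀ x, x ∈ L.map N.subtype ↔ x ∈ N ∧ (orderOf x).Coprime p := by
    intro x
    constructor
    · rintro ⟨y, hy, rfl⟩
      refine ⟨y.2, h1.coprime_dvd_left ?_⟩
      have := orderOf_dvd_natCard (⟨y, hy⟩ : L)
      rwa [← Subgroup.orderOf_coe, ← Subgroup.orderOf_coe] at this
    · rintro ⟨h3, h4⟩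
      refine ⟨⟨x, h3⟩, mem_of_pow_coprime (h4.pow_right k) ?_ (h2 ▸ L.pow_index_mem _), rfl⟩
      rw [show (⟨x, h3⟩ : N) ^ orderOf x = 1 from Subtype.ext (pow_orderOf_eq_one x)]
      exact one_mem _
  refine ⟨L.map N.subtype, ⟨fun x hx h => ?_⟩, map_subtype_le L, ?_, k, ?_⟩
  · rw [key] at hx ⊢
    refine ⟨hN.conj_mem _ hx.1 h, ?_⟩
    rw [show h * x * h⁻¹ = MulAut.conj h x from rfl, MulEquiv.orderOf_eq]
    exact hx.2
  · rwa [card_map_of_injective N.subtype_injective]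
  · rw [← h2, relIndex, subgroupOf, comap_map_eq_self_of_injective N.subtype_injective]

variable {L : Subgroup G} [hL : L.Normal]

omit [Finite G] in
theorem P_le (H : HF N K p) {P : Subgroup G} (hP : IsPGroup p P) : P ≤ N := fun x hx => by
  obtain ⟨j, hj⟩ := pow_of_mem hP hx
  exact mem_of_pow_coprime ((H.hp.coprime_iff_not_dvd.2 H.pN).pow_left j)
    (by rw [hj]; exact one_mem _) (N.pow_index_mem x)

theorem decomp [Fact p.Prime] (H : HF N K p) (hLN : L ≤ N) {k : ℕ}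
    (hk : L.relIndex N = p ^ k) (P : Sylow p G) {n : G} (hn : n ∈ N) :
    ∃ a ∈ L, ∃ u ∈ (P : Subgroup G), a * u = n := by
  have h1 : (L ⊔ P).relIndex N = 1 := Nat.eq_one_of_dvd_coprimes
    (((H.hp.coprime_iff_not_dvd.2 P.not_dvd_index)).pow_left k)
    (hk ▸ relIndex_dvd_of_le_left N le_sup_left)
    ((relIndex_dvd_of_le_left N le_sup_right).trans
      (relIndex_dvd_index_of_le (H.P_le P.isPGroup')))
  exact mem_sup_of_normal_left.1 (relIndex_eq_one.1 h1 hn)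

omit [Finite G] hN hL in
theorem L_le (H : HF N K p) (hLN : L ≤ N) (hc : (Nat.card L).Coprime p) : L ≤ K :=
  fun x hx => mem_of_pow_coprime hc (by
    rw [show x ^ Nat.card L = 1 from congrArg Subtype.val (pow_card_eq_one' (x := (⟨x, hx⟩ : L)))]
    exact one_mem _) (H.pw x (hLN hx))

theorem exists_y [Fact p.Prime] (H : HF N K p) (hLN : L ≤ N)
    (hc : (Nat.card L).Coprime p) {k : ℕ} (hk : L.relIndex N = p ^ k) (P : Sylow p G) :
    ∃ y ∈ (P : Subgroup G), y ∉ K := by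
  by_contra! h
  refine H.nle fun n hn => ?_
  obtain ⟨a, ha, u, hu, rfl⟩ := H.decomp hLN hk P hn
  exact mul_mem (H.L_le hLN hc ha) (h u hu)

omit hL in
theorem pfpf (H : HF N K p) (hc : (Nat.card L).Coprime p) {x : G} (hx : x ∈ N)
    (hx' : x ∉ V0 N) {j : ℕ} (hj : x ^ p ^ j = 1) (m : G) (hm : m ∈ ⁅N, N⁆ ⊓ L)
    (h : Commute x m) : m = 1 := by
  obtain ⟨n, -, e⟩ := H.fuse hx hx' hm.1
  refine eq_one_of_coprime hc hm.2 (j := j) ?_
  have := congrArg (· ^ p ^ j) e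
  simp only [conj_pow, h.mul_pow, hj, mul_one, mul_inv_cancel, one_mul] at this
  exact this.symm

theorem exists_compl (H : HF N K p) (hLN : L ≤ N)
    (hc : (Nat.card L).Coprime p) {k : ℕ} (hk : L.relIndex N = p ^ k) :
    ∃ Y : Subgroup G, (∀ x : G, ∃ a ∈ ⁅N, N⁆ ⊓ L, ∃ y ∈ Y, x = a * y) ∧ (⁅N, N⁆ ⊓ L) ⊓ Y = ⊥ := by
  have : Fact p.Prime := ⟨H.hp⟩
  obtain ⟨P⟩ : Nonempty (Sylow p G) := inferInstance
  have hPN := H.P_le P.isPGroup'
  obtain ⟨y, hy, hy'⟩ := H.exists_y hLN hc hk P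
  have hM : (⁅N, N⁆ ⊓ L).Normal := inferInstance
  have h1 : ((⁅N, N⁆ ⊓ L) ⊔ (P : Subgroup G)).Normal := by
    refine ⟨fun x hx h => ?_⟩
    obtain ⟨m, hm, u, hu, rfl⟩ := mem_sup_of_normal_left.1 hx
    obtain ⟨t, ht, n, hn, rfl⟩ := mem_sup_of_normal_right.1
      (P.normalizer_sup_eq_top' hPN ▸ mem_top h)
    obtain ⟨a, ha, v, hv, e⟩ := H.decomp hLN hk P (inv_mem hn)
    have e' : n = v⁻¹ * a⁻¹ := by rw [← mul_inv_rev, e, inv_inv]
    have h2 : t * n * (m * u) * (t * n)⁻¹ = t * n * m * (t * n)⁻¹ *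
        (t * v⁻¹ * ⁅a⁻¹, u⁆ * (t * v⁻¹)⁻¹) * (t * (v⁻¹ * u * v) * t⁻¹) := by
      rw [e']; simp only [commutatorElement_def]; group
    rw [h2]
    refine mul_mem (mem_sup_left (mul_mem (hM.conj_mem _ hm _) (hM.conj_mem _ ⟨?_, ?_⟩ _)))
      (mem_sup_right ((mem_normalizer_iff.1 ht _).1 (mul_mem (mul_mem (inv_mem hv) hu) hv)))
    · exact commutator_mem_commutator (inv_mem (hLN ha)) (hPN hu)
    · exact cm_mem' L u (inv_mem ha)
  refine ⟨normalizer (P : Set G), fun x => ?_, eq_bot_iff.2 fun m hm => ?_⟩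
  · obtain ⟨t, ht, n, hn, e⟩ := mem_sup_of_normal_right.1
      (P.normalizer_sup_eq_top' (N := (⁅N, N⁆ ⊓ L) ⊔ (P : Subgroup G)) le_sup_right ▸ mem_top x⁻¹)
    obtain ⟨m, hm, u, hu, rfl⟩ := mem_sup_of_normal_left.1 hn
    refine ⟨u⁻¹ * m⁻¹ * u⁻¹⁻¹, hM.conj_mem _ (inv_mem hm) _, u⁻¹ * t⁻¹,
      mul_mem (inv_mem (le_normalizer hu)) (inv_mem ht), ?_⟩
    rw [← inv_inv x, ← e]; group
  · obtain ⟨j, hj⟩ := pow_of_mem P.isPGroup' hy
    refine H.pfpf hc (hPN hy) (fun e => hy' (H.V0_le_K e)) hj m hm.1 ?_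
    have h2 : ⁅m, y⁆ ∈ (P : Subgroup G) := mul_mem ((mem_normalizer_iff.1 hm.2 _).1 hy) (inv_mem hy)
    obtain ⟨i, hi⟩ := pow_of_mem P.isPGroup' h2
    exact (commutatorElement_eq_one_iff_commute.1
      (eq_one_of_coprime hc (cm_mem' L y hm.1.2) hi)).symm

theorem dvd_index (H : HF N K p) (hLN : L ≤ N)
    (hc : (Nat.card L).Coprime p) {k : ℕ} (hk : L.relIndex N = p ^ k) {M : Subgroup G} [M.Normal]
    (hM : M ≤ ⁅N, N⁆ ⊓ L) {μ : Lin M} (hμ : μ ≠ 1) : p ∣ (H14.inertia M (lin μ)).index := by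
  have : Fact p.Prime := ⟨H.hp⟩
  obtain ⟨P⟩ : Nonempty (Sylow p G) := inferInstance
  obtain ⟨y, hy, hy'⟩ := H.exists_y hLN hc hk P
  by_contra h
  obtain ⟨t, ht⟩ := H1.exists_conj_le_of_not_dvd_index P.isPGroup' h
  have h1 : t * y * t⁻¹ ∈ _ := ht (smul_mem_pointwise_smul _ (MulAut.conj t) _ hy)
  obtain ⟨j, hj⟩ := pow_of_mem P.isPGroup' hy
  refine hμ (lin_eq_one M (fun a ha => H.pfpf hc (j := j) (hN.conj_mem _ (H.P_le P.isPGroup' hy) t)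
    (fun e => hy' ?_) (by rw [conj_pow, hj, mul_one, mul_inv_cancel]) a (hM ha))
    ((mem_inertia_lin M).1 h1))
  simpa [mul_assoc] using H.nK.conj_mem _ (H.V0_le_K e) t⁻¹

theorem inertia_cd (H : HF N K p) (hLN : L ≤ N)
    (hc : (Nat.card L).Coprime p) {k : ℕ} (hk : L.relIndex N = p ^ k) {M : Subgroup G} [M.Normal]
    (hM : M = ⁅N, N⁆ ⊓ L) {μ : Lin M} (hμ : μ ≠ 1) :
    (H14.inertia M (lin μ)).index ∈ charDegrees G ∧ (H14.inertia M (lin μ)).index ≠ 1 ∧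
      ⁅H14.inertia M (lin μ), H14.inertia M (lin μ)⁆ ≤ M ∧ ¬ H14.inertia M (lin μ) ≤ N := by
  obtain ⟨Y, h1, h2⟩ := H.exists_compl hLN hc hk
  rw [← hM] at h1 h2
  have h3 := H.dvd_index hLN hc hk hM.le hμ
  have h4 : (H14.inertia M (lin μ)).index ≠ 1 := fun e =>
    H.hp.one_lt.ne' (Nat.dvd_one.1 (e ▸ h3))
  obtain ⟨h5, h6⟩ := ext_nd H.nd M Y h1 h2 μ fun e => h4 (index_eq_one.2 e)
  exact ⟨h5, h4, h6, fun h => H.pN (H.nd _ H.fcd _ h5 H.f1 (index_dvd_of_le h) ▸ h3)⟩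

omit hL in
theorem quot (H : HF N K p) (W : Subgroup G) [W.Normal] (hW : W ≤ K) :
    HF (N.map (QuotientGroup.mk' W)) (K.map (QuotientGroup.mk' W)) p := by
  have hs := QuotientGroup.mk'_surjective W
  have hk' : (QuotientGroup.mk' W).ker ≤ K := by rwa [QuotientGroup.ker_mk']
  have hi := index_map_eq N hs (hk'.trans H.KN)
  have hm : ∀ x, QuotientGroup.mk' W x ∈ K.map (QuotientGroup.mk' W) ↔ x ∈ K := fun x => by
    rw [← mem_comap, comap_map_eq_self hk']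
  refine ⟨H.nK.map _ hs, H.hp, fun a ha b hb => H.nd a (cd_quotient_subset W ha) b
    (cd_quotient_subset W hb), fun d hd => H.dv d (cd_subset_of_surjective _
      ((QuotientGroup.mk' W).subgroupMap_surjective N) hd), ?_, hi ▸ H.f1, map_mono H.KN, ?_, ?_,
      ?_, ?_, hi ▸ H.pN, ?_, ?_⟩
  · obtain ⟨χ, h1, h2, h3⟩ := H.fc
    obtain ⟨ψ, h4, h5⟩ := exists_irr_lift h1 W (hW.trans h2)
    refine ⟨ψ, h4, ?_, by rw [hi, ← h3]; exact deg_congr (h5 1)⟩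
    rintro _ ⟨k, hk, rfl⟩
    rw [mem_charKer_irr_iff h4]
    exact (h5 k).trans ((apply_eq_of_mem_charKer (h2 hk)).trans (h5 1).symm)
  · rw [← map_commutator]; exact map_mono H.cK
  · exact fun h => H.qle fun n hn => (hm n).1 (h (map_mk'_commutator W ▸ mem_map_of_mem _ hn))
  · rintro _ ⟨n, hn, rfl⟩
    rw [← map_pow, hm]; exact H.pw n hn
  · rintro g hg _ ⟨n, hn, rfl⟩
    obtain ⟨g, rfl⟩ := hs g
    rw [← map_commutatorElement, hm, hm]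
    exact H.fpf g (fun h => hg (mem_map_of_mem _ h)) n hn
  · rw [← map_mk'_commutator]; exact map_mono H.cG
  · rw [← map_mk'_commutator, ← map_top_of_surjective _ hs, ← map_commutator]
    exact map_mono H.cc

end HF

end Cfsg.Agent.H26.DS
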