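import Cfsg.Agent.H26.DsA

/-! The case where the derived subgroup of `N` is a `p'`-group. -/

set_option autoImplicit false

namespace Cfsg.Agent.H26.DS

open Cfsg Subgroup H24 H11 ND
open scoped commutatorElement Pointwise

variable {G : Type*} [Group G]

theorem le_of_index_eq [Finite G] {T S : Subgroup G} (h : T ≤ S) (e : S.index = T.index) :
    S ≤ T := by
  have h4 := relIndex_mul_index h
  rw [← e, mul_eq_right₀ index_ne_zero_of_finite] at h4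
  exact relIndex_eq_one.1 h4

theorem rne [Finite G] (T S : Subgroup G) : T.relIndex S ≠ 0 := index_ne_zero_of_finite

theorem idx_mul (T N : Subgroup G) : T.index * N.relIndex T = N.index * T.relIndex N := by
  have h1 := relIndex_mul_index (inf_le_left : T ⊓ N ≤ T)
  have h2 := relIndex_mul_index (inf_le_right : T ⊓ N ≤ N)
  rw [inf_relIndex_left] at h1
  rw [inf_relIndex_right] at h2
  rw [mul_comm, h1, mul_comm, h2]

theorem relIndex_eq_card (T N : Subgroup G) [N.Normal] :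
    N.relIndex T = Nat.card (T.map (QuotientGroup.mk' N)) := by
  rw [← relIndex_ker, QuotientGroup.ker_mk']

theorem exists_gen {N : Subgroup G} [N.Normal] (hc : IsCyclic (G ⧸ N)) (T : Subgroup G) :
    ∃ t ∈ T, orderOf (QuotientGroup.mk' N t) = N.relIndex T := by
  obtain ⟨⟨_, t, ht, rfl⟩, e⟩ :=
    IsCyclic.exists_ofOrder_eq_natCard (α := T.map (QuotientGroup.mk' N))
  exact ⟨t, ht, by rw [relIndex_eq_card, ← e, ← Subgroup.orderOf_coe]⟩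

theorem ord_dvd {N T : Subgroup G} [N.Normal] {t : G} (ht : t ∈ T) :
    orderOf (QuotientGroup.mk' N t) ∣ N.relIndex T := by
  have := orderOf_dvd_natCard (⟨_, mem_map_of_mem _ ht⟩ : T.map (QuotientGroup.mk' N))
  rwa [← Subgroup.orderOf_coe, ← relIndex_eq_card] at this

theorem pow_mem_iff (N : Subgroup G) [N.Normal] (t : G) (i : ℕ) :
    t ^ i ∈ N ↔ orderOf (QuotientGroup.mk' N t) ∣ i := by
  rw [orderOf_dvd_iff_pow_eq_one, ← map_pow, QuotientGroup.mk'_apply, QuotientGroup.eq_one_iff]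

theorem mk_comm {N : Subgroup G} [N.Normal] {x y : G} (h : ⁅x, y⁆ ∈ N) :
    Commute (QuotientGroup.mk' N x) (QuotientGroup.mk' N y) := by
  rw [← commutatorElement_eq_one_iff_commute, ← map_commutatorElement, QuotientGroup.mk'_apply,
    QuotientGroup.eq_one_iff]
  exact h

theorem index_dvd_card {H X : Type*} [Group H] [MulAction H X] [Finite X] (V : Subgroup H)
    (h : ∀ x : X, MulAction.stabilizer H x ≤ V) : V.index ∣ Nat.card X := by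
  classical
  have := Fintype.ofFinite (MulAction.orbitRel.Quotient H X)
  rw [Nat.card_congr (MulAction.selfEquivSigmaOrbits H X), Nat.card_sigma]
  exact Finset.dvd_sum fun ω _ => by
    rw [Nat.card_coe_set_eq, ← MulAction.index_stabilizer]; exact index_dvd_of_le (h _)

theorem dvd_card_sub_one [Finite G] {N V W : Subgroup G} [hW : W.Normal]
    (h : ∀ x ∈ N, x ∉ V → ∀ w ∈ W, Commute x w → w = 1) : V.relIndex N ∣ Nat.card W - 1 := by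
  classical
  have := Fintype.ofFinite W
  let _ : MulAction N {w : W // w ≠ 1} :=
    { smul := fun n w => ⟨MulAut.conjNormal (n : G) w.1, fun e => w.2 ((map_eq_one_iff _
        (MulAut.conjNormal (n : G)).injective).1 e)⟩
      one_smul := fun w => Subtype.ext (Subtype.ext (show 1 * (w.1 : G) * 1⁻¹ = w.1 by simp))
      mul_smul := fun a b w => Subtype.ext (Subtype.ext
        (show (a : G) * b * w.1 * ((a : G) * b)⁻¹ = a * (b * w.1 * (b : G)⁻¹) * (a : G)⁻¹ by group)) }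
  have h1 := index_dvd_card (X := {w : W // w ≠ 1}) (V.subgroupOf N) fun w n hn => by
    by_contra e
    refine w.2 (Subtype.ext (h n n.2 e _ w.1.2 (mul_inv_eq_iff_eq_mul.1 ?_)))
    exact congrArg (fun t : {w : W // w ≠ 1} => (t.1 : G)) hn
  rwa [Nat.card_eq_fintype_card, Fintype.card_subtype_compl, Fintype.card_subtype_eq,
    ← Nat.card_eq_fintype_card] at h1

theorem arith2 {s a b c v : ℕ} (hs : 1 < s) (hb : 0 < b) (hab : b < a) (hv : 1 < v)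
    (h1 : s ^ a - 1 = v * (s ^ c - 1)) (h2 : v ∣ s ^ b - 1) : False := by
  have p1 : ∀ n, n ≠ 0 → 1 < s ^ n := fun n hn => Nat.one_lt_pow hn hs
  have a1 := p1 a (by omega)
  have h3 := Nat.dvd_gcd (Dvd.intro _ h1.symm) h2
  rw [Nat.pow_sub_one_gcd_pow_sub_one] at h3
  have hc : c ≠ 0 := by rintro rfl; simp at h1; omega
  have h4 := Nat.gcd_eq_left (Dvd.intro_left _ h1.symm)
  have g0 : a.gcd b ≠ 0 := (Nat.gcd_pos_of_pos_right a hb).ne'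
  have c1 := p1 c hc
  have c2 := p1 _ (Nat.gcd_pos_of_pos_left a (Nat.pos_of_ne_zero hc)).ne'
  have c3 := p1 _ g0
  rw [Nat.pow_sub_one_gcd_pow_sub_one] at h4
  have h5 : c.gcd a = c := Nat.pow_right_injective hs (show s ^ _ = s ^ _ by omega)
  have half : ∀ d, d ∣ a → d ≠ a → 2 * d ≤ a := by
    rintro d ⟨k, rfl⟩ h
    rcases k with _ | _ | k
    · omega
    · omega
    · nlinarith
  have h6 := half c (h5 ▸ Nat.gcd_dvd_right c a) (by rintro rfl; nlinarith [Nat.sub_pos_of_lt a1])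
  have h7 := half _ (Nat.gcd_dvd_left a b) (by have := Nat.gcd_le_right a hb; omega)
  have h8 : s ^ a.gcd b * s ^ c ≤ s ^ a := by
    rw [← pow_add]; exact Nat.pow_le_pow_right hs.le (by omega)
  have h9 := Nat.mul_le_mul_right (s ^ c - 1) (Nat.le_of_dvd (Nat.sub_pos_of_lt c3) h3)
  rw [← h1] at h9
  zify [a1.le, c1.le, c3.le] at h8 h9 c1 c3
  nlinarith

/-- The elements moving a function by a linear character. -/
def orb (A : Subgroup G) [A.Normal] (ξ : A → ℂ) : Subgroup G where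
  carrier := {g | ∃ l : Lin A, H14.conjChar A ξ g = lin l * ξ}
  one_mem' := ⟨1, by rw [H14.conjChar_one, map_one, one_mul]⟩
  mul_mem' := by
    rintro a b ⟨l, ha⟩ ⟨l', hb⟩
    refine ⟨conjHom A b l * l', ?_⟩
    rw [← H14.conjChar_conjChar, ha, H14.conjChar_mul, hb, conjChar_lin, map_mul, mul_assoc]
  inv_mem' := by
    rintro a ⟨l, ha⟩
    refine ⟨(conjHom A a⁻¹ l)⁻¹, ?_⟩
    have h1 := congrArg (fun t => H14.conjChar A t a⁻¹) ha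
    simp only [H14.conjChar_conjChar, mul_inv_cancel, H14.conjChar_one, H14.conjChar_mul,
      conjChar_lin] at h1
    apply lin_mul_left_cancel (conjHom A a⁻¹ l)
    rw [← h1, ← mul_assoc, ← map_mul, mul_inv_cancel, map_one, one_mul]

theorem orb_mul {A : Subgroup G} [A.Normal] {ξ : A → ℂ} {g : G} (h : g ∈ orb A ξ) (β : Lin A) :
    g ∈ orb A (lin β * ξ) := by
  obtain ⟨l, e⟩ := h
  refine ⟨conjHom A g β * l * β⁻¹, ?_⟩
  rw [H14.conjChar_mul, e, conjChar_lin, ← mul_assoc, ← mul_assoc, ← map_mul, ← map_mul,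
    inv_mul_cancel_right]

theorem ov (A : Subgroup G) (ν : Lin A) : ν ∈ linOver ((⁅A, A⁆).subgroupOf A) :=
  fun a ha => lin_comm ν ha a.2

variable [Finite G] [Group.IsSolvable G] {N K : Subgroup G} [hN : N.Normal] {p : ℕ}

namespace HF

omit [Group.IsSolvable G] in
theorem exists_L' (H : HF N K p) (hc : (Nat.card ↥⁅N, N⁆).Coprime p) :
    ∃ L : Subgroup G, L.Normal ∧ L ≤ N ∧ (Nat.card L).Coprime p ∧ ⁅N, N⁆ = ⁅N, N⁆ ⊓ L ∧
      ∃ k, L.relIndex N = p ^ k := by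
  obtain ⟨L, h1, h2, h3, k, hk⟩ := H.exists_L
  refine ⟨L, h1, h2, h3, (inf_eq_left.2 fun x hx => ?_).symm, k, hk⟩
  refine mem_of_pow_coprime (hc.pow_right k) ?_
    (hk ▸ (L.subgroupOf N).pow_index_mem ⟨x, cc_le N hx⟩)
  rw [show x ^ Nat.card ↥⁅N, N⁆ = 1 from
    congrArg Subtype.val (pow_card_eq_one' (x := (⟨x, hx⟩ : ↥⁅N, N⁆)))]
  exact one_mem _

omit [Group.IsSolvable G] in
theorem fpf_cc (H : HF N K p) (hc : (Nat.card ↥⁅N, N⁆).Coprime p) (x : G) (hx : x ∈ N)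
    (hx' : x ∉ V0 N) (m : G) (hm : m ∈ ⁅N, N⁆) (h : Commute x m) : m = 1 := by
  obtain ⟨L, h1, h2, h3, h4, k, hk⟩ := H.exists_L' hc
  obtain ⟨Y, h5, h6⟩ := H.exists_compl h2 h3 hk
  rw [← h4] at h5 h6
  obtain ⟨a, ha, y, hy, rfl⟩ := h5 x
  have hyN : y ∈ N := (N.mul_mem_cancel_left (cc_le N ha)).1 hx
  have hyV : y ∉ V0 N := fun e => hx' (mul_mem (cc_le_V0 N ha) e)
  have h7 := (surj_iff ⁅N, N⁆ y⁻¹).2 fun w hw => by
    obtain ⟨n, hn, e⟩ := H.fuse hyN hyV hw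
    obtain ⟨b, hb, z, hz, rfl⟩ := h5 n
    have b1 : ⁅z, y⁆ ∈ ⁅N, N⁆ ⊓ Y := mem_inf.2 ⟨commutator_mem_commutator
      ((N.mul_mem_cancel_left (cc_le N hb)).1 hn) hyN,
      mul_mem (mul_mem (mul_mem hz hy) (inv_mem hz)) (inv_mem hy)⟩
    rw [h6, mem_bot, commutatorElement_eq_one_iff_mul_comm] at b1
    refine ⟨b, hb, ?_⟩
    rw [← inv_mul_cancel_left y w, ← e, mul_assoc b, b1, commutatorElement_def]
    group
  obtain ⟨n, hn, e⟩ := H.fuse hyN hyV ((inferInstance : (⁅N, N⁆).Normal).conj_mem _ ha y⁻¹)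
  have h8 := h7 (n⁻¹ * m * n⁻¹⁻¹) ((inferInstance : (⁅N, N⁆).Normal).conj_mem _ hm _) (by
    refine Commute.inv_left ?_
    have b1 : y = n⁻¹ * (a * y) * n⁻¹⁻¹ := by
      rw [show a * y = y * (y⁻¹ * a * y⁻¹⁻¹) by group, ← e]; group
    rw [b1]
    exact h.map (MulAut.conj n⁻¹))
  exact conj_eq_one_iff.1 h8

omit [Group.IsSolvable G] in
theorem icd (H : HF N K p) (hc : (Nat.card ↥⁅N, N⁆).Coprime p) {μ : Lin ↥⁅N, N⁆} (hμ : μ ≠ 1) :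
    ((H14.inertia _ (lin μ)).index ∈ charDegrees G ∧ (H14.inertia _ (lin μ)).index ≠ 1 ∧
      ⁅H14.inertia _ (lin μ), H14.inertia _ (lin μ)⁆ ≤ ⁅N, N⁆ ∧ ¬ H14.inertia _ (lin μ) ≤ N) ∧
      p ∣ (H14.inertia _ (lin μ)).index := by
  obtain ⟨L, h1, h2, h3, h4, k, hk⟩ := H.exists_L' hc
  exact ⟨H.inertia_cd h2 h3 hk h4 hμ, H.dvd_index h2 h3 hk h4.le hμ⟩

omit [Group.IsSolvable G] in
theorem le_symm (H : HF N K p) (hc : (Nat.card ↥⁅N, N⁆).Coprime p) {μ ν : Lin ↥⁅N, N⁆}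
    (hμ : μ ≠ 1) (hν : ν ≠ 1) (h : H14.inertia _ (lin μ) ≤ H14.inertia _ (lin ν)) :
    H14.inertia _ (lin ν) ≤ H14.inertia _ (lin μ) :=
  le_of_index_eq h (H.nd _ (H.icd hc hν).1.1 _ (H.icd hc hμ).1.1 (H.icd hc hν).1.2.1
    (index_dvd_of_le h))

omit [Group.IsSolvable G] in
theorem fix_V0 (H : HF N K p) (hc : (Nat.card ↥⁅N, N⁆).Coprime p) {μ : Lin ↥⁅N, N⁆} (hμ : μ ≠ 1)
    {x : G} (hx : x ∈ N) (h : conjHom _ x μ = μ) : x ∈ V0 N :=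
  by_contra fun h' => hμ (lin_eq_one _ (H.fpf_cc hc x hx h') h)

omit [Group.IsSolvable G] in
theorem fix_iff (H : HF N K p) (hc : (Nat.card ↥⁅N, N⁆).Coprime p) {μ : Lin ↥⁅N, N⁆} (hμ : μ ≠ 1)
    {x : G} (hx : x ∈ N) : conjHom _ x μ = μ ↔ x ∈ N1 N := by
  refine ⟨fun h => mem_N1.2 ⟨hx, fun ν => by_contra fun hν => ?_⟩, fun h => (mem_N1.1 h).2 μ⟩
  have h1 := H.fix_V0 hc hμ hx h
  have h2 : ∀ ν : Lin ↥⁅N, N⁆, H14.inertia _ (lin ν) ≤ H14.inertia _ (lin (dl _ x ν)) :=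
    fun ν t ht => (mem_inertia_lin _).2 (fix_dl (conjHom_of_mem _ (cm_swap ((mem_V0.1 h1).2 t)) ν)
      ((mem_inertia_lin _).1 ht))
  have h3 : dl _ x ν ≠ 1 := fun e => hν (dl_eq_one.1 e)
  have h4 : dl _ x (μ * ν) = dl _ x ν := by rw [map_mul, dl_eq_one.2 h, one_mul]
  have h5 : ν ≠ 1 := fun e => h3 (by rw [e, map_one])
  have h6 := (h2 ν).trans (h4 ▸ H.le_symm hc (fun e => h3 (by rw [← h4, e, map_one])) (h4 ▸ h3)
    (h2 (μ * ν)))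
  refine hν ((mem_inertia_lin _).1 (H.le_symm hc h5 hμ (fun t ht => (mem_inertia_lin _).2 ?_)
    ((mem_inertia_lin _).2 h)))
  have h7 := (mem_inertia_lin _).1 (h6 ht)
  rwa [map_mul, (mem_inertia_lin _).1 ht, mul_left_inj] at h7

theorem N1_le_V0 (H : HF N K p) (hc : (Nat.card ↥⁅N, N⁆).Coprime p) (hne : ⁅N, N⁆ ≠ ⊥) :
    N1 N ≤ V0 N := fun _ hx => (exists_lin_ne hne).elim fun μ hμ =>
  H.fix_V0 hc hμ (N1_le N hx) ((mem_N1.1 hx).2 μ)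

omit [Group.IsSolvable G] in
theorem idx (H : HF N K p) (hc : (Nat.card ↥⁅N, N⁆).Coprime p) {μ : Lin ↥⁅N, N⁆} (hμ : μ ≠ 1) :
    (H14.inertia _ (lin μ)).index * N.relIndex (H14.inertia _ (lin μ)) =
      N.index * (N1 N).relIndex N := by
  rw [idx_mul, ← inf_relIndex_right (H14.inertia _ _)]
  congr 2
  ext x
  exact ⟨fun h => (H.fix_iff hc hμ h.2).1 ((mem_inertia_lin _).1 h.1),
    fun h => ⟨(mem_inertia_lin _).2 ((mem_N1.1 h).2 μ), N1_le N h⟩⟩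

theorem exists_fix_of (H : HF N K p) (hc : (Nat.card ↥⁅N, N⁆).Coprime p) (hne : ⁅N, N⁆ ≠ ⊥)
    {z : G} (hz : ∀ i : ℕ, z ^ i ∈ N → z ^ i ∈ N1 N) :
    ∃ ν : Lin ↥⁅N, N⁆, ν ≠ 1 ∧ conjHom _ z ν = ν := by
  by_contra! h
  let _ := linAct ⁅N, N⁆
  let ρ := (MulDistribMulAction.toMulAut G (Lin ↥⁅N, N⁆)).rangeRestrict
  have hs : Function.Surjective ρ := MonoidHom.rangeRestrict_surjective _
  have : Finite _ := Finite.of_surjective _ hs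
  have h0 : ∀ g ∈ N1 N, ρ g = 1 := fun g hg => Subtype.ext (MulEquiv.ext fun ν =>
    (mem_N1.1 (inv_mem hg)).2 ν)
  have h1 : ∀ g ∈ N, ∀ ν : Lin ↥⁅N, N⁆, ν ≠ 1 → ρ g • ν = ν → g ∈ N1 N := fun g hg ν hν h' =>
    inv_mem_iff.1 ((H.fix_iff hc hν (inv_mem hg)).1 h')
  obtain ⟨μ, hμ⟩ := exists_lin_ne hne
  have := (inferInstance : (commutator G).Normal).map ρ hs
  have h2 : H5.Semireg ((commutator G).map ρ) (Lin ↥⁅N, N⁆) := by
    rintro ⟨_, q, hq, rfl⟩ h3 ν h4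
    exact by_contra fun hν => h3 (Subtype.ext (h0 q (h1 q (H.cG hq) ν hν h4)))
  have h3 := fp ((commutator G).map ρ) (ρ z) ?_ ?_ ?_ μ
  · exact hμ (orderOf_eq_one_iff.1 (Nat.eq_one_of_dvd_coprimes h2.coprime_card
      (orderOf_dvd_of_pow_eq_one h3) (orderOf_dvd_natCard μ)))
  · rintro i hi _ ⟨q, hq, rfl⟩ h4
    rw [← map_pow] at hi h4
    refine h0 q (cc_le_N1 N (H.QV hq (H.hfpf _ (fun h5 => hi (h0 _ (hz i h5))) q (H.cG hq)
      (H.N1_le_V0 hc hne (h1 _ (cm_mem N _ (H.cG hq)) μ hμ ?_)))))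
    rw [map_commutatorElement, commutatorElement_eq_one_iff_commute.2 h4, one_smul]
  · intro ν h4
    obtain ⟨q, hq, hq'⟩ := H.exists_q
    exact by_contra fun hν => hq' (H.N1_le_V0 hc hne (h1 q (H.cG hq) ν hν
      (h4 _ (mem_map_of_mem _ hq))))
  · exact fun ν h4 => by_contra fun hν => h ν hν (inv_inv z ▸ fix_inv h4)

omit [Group.IsSolvable G] in
theorem exists_comm (H : HF N K p) {x y : G} (hx : x ∉ N) (hy : y ∉ N) :
    ∃ n ∈ N, ⁅y, n * x * n⁻¹⁆ ∈ ⁅N, N⁆ := by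
  obtain ⟨m, hm, v, hv, e⟩ := H.dec' hy (H.cG (cm_Q x y))
  obtain ⟨n, hn, w, hw, e'⟩ := H.dec' hx (inv_mem hm)
  refine ⟨n, hn, H.QV (cm_Q _ _) ?_⟩
  let π := QuotientGroup.mk' (V0 N)
  have hπ : ∀ a, π a = 1 ↔ a ∈ V0 N := QuotientGroup.eq_one_iff
  have c := mk_comm (cc_le_V0 N (commutator_mem_commutator hm (H.cG (cm_Q y x))))
  have e1 := congrArg π e
  have e2 := congrArg π e'
  rw [map_mul, (hπ v).2 hv, mul_one] at e1
  rw [map_mul, (hπ w).2 hw, mul_one, map_inv, inv_eq_iff_eq_inv, ← map_inv] at e2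
  have e3 : ⁅y, n * x * n⁻¹⁆ = ⁅y, ⁅x, n⁆⁻¹⁆ * (⁅x, n⁆⁻¹ * ⁅y, x⁆ * ⁅x, n⁆⁻¹⁻¹) := by
    simp only [commutatorElement_def]; group
  rw [← hπ, e3, map_mul, map_mul, map_mul, map_inv _ ⁅x, n⁆⁻¹, map_commutatorElement π y, ← e2,
    ← map_commutatorElement, ← e1, c.eq, mul_inv_cancel_right, ← map_mul, ← commutatorElement_inv,
    inv_mul_cancel, map_one]

omit [Group.IsSolvable G] in
theorem idx_of_dvd (H : HF N K p) (hc : (Nat.card ↥⁅N, N⁆).Coprime p) {μ ν : Lin ↥⁅N, N⁆}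
    (hμ : μ ≠ 1) (hν : ν ≠ 1)
    (h : N.relIndex (H14.inertia _ (lin μ)) ∣ N.relIndex (H14.inertia _ (lin ν))) :
    (H14.inertia _ (lin ν)).index = (H14.inertia _ (lin μ)).index := by
  obtain ⟨k, hk⟩ := h
  have h1 := (H.idx hc hμ).trans (H.idx hc hν).symm
  rw [hk, mul_comm _ k, ← mul_assoc, mul_left_inj' (rne _ _)] at h1
  exact H.nd _ (H.icd hc hν).1.1 _ (H.icd hc hμ).1.1 (H.icd hc hν).1.2.1 ⟨k, h1⟩

omit [Group.IsSolvable G] in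
theorem exists_t (H : HF N K p) (hc : (Nat.card ↥⁅N, N⁆).Coprime p) {μ : Lin ↥⁅N, N⁆}
    (hμ : μ ≠ 1) : ∃ t, t ∉ N ∧ conjHom _ t μ = μ ∧
      orderOf (QuotientGroup.mk' N t) = N.relIndex (H14.inertia _ (lin μ)) := by
  obtain ⟨t, ht, e⟩ := exists_gen H.cyc (H14.inertia _ (lin μ))
  refine ⟨t, fun h => (H.icd hc hμ).1.2.2.2 (relIndex_eq_one.1 ?_), (mem_inertia_lin _).1 ht, e⟩
  rw [← e, ← Nat.dvd_one, ← pow_mem_iff, pow_one]
  exact h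

omit [Group.IsSolvable G] in
theorem ord_eq (H : HF N K p) (hc : (Nat.card ↥⁅N, N⁆).Coprime p) {μ : Lin ↥⁅N, N⁆}
    (hμ : μ ≠ 1) {t : G} (ht : conjHom _ t μ = μ) :
    orderOf (QuotientGroup.mk' (N1 N) t) = orderOf (QuotientGroup.mk' N t) := by
  refine Nat.dvd_antisymm ?_ ?_ <;> rw [← pow_mem_iff]
  · have h1 := (pow_mem_iff N t _).2 dvd_rfl
    exact (H.fix_iff hc hμ h1).1 ((mem_inertia_lin _).1 (pow_mem ((mem_inertia_lin _).2 ht) _))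
  · exact N1_le N ((pow_mem_iff (N1 N) t _).2 dvd_rfl)

theorem idx_eq (H : HF N K p) (hc : (Nat.card ↥⁅N, N⁆).Coprime p) {μ ν : Lin ↥⁅N, N⁆}
    (hμ : μ ≠ 1) (hν : ν ≠ 1) :
    (H14.inertia _ (lin ν)).index = (H14.inertia _ (lin μ)).index := by
  have hne : ⁅N, N⁆ ≠ ⊥ := fun e => hμ (Lin.ext fun x => by
    rw [show x = 1 from Subtype.ext (e.le x.2), map_one, map_one])
  obtain ⟨x, hx, h1, e1⟩ := H.exists_t hc hμ
  obtain ⟨y, hy, h2, e2⟩ := H.exists_t hc hν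
  obtain ⟨n, hn, h3⟩ := H.exists_comm hx hy
  have h4 : conjHom _ (n * x * n⁻¹) (conjHom _ n⁻¹ μ) = conjHom _ n⁻¹ μ := by
    rw [conjHom_conjHom, ← mul_assoc, inv_mul_cancel_left, ← conjHom_conjHom, h1]
  have e3 : orderOf (QuotientGroup.mk' N (n * x * n⁻¹)) = N.relIndex (H14.inertia _ (lin μ)) := by
    rw [map_mul, map_mul, map_inv, QuotientGroup.mk'_apply N n, (QuotientGroup.eq_one_iff n).2 hn,
      one_mul, inv_one, mul_one, e1]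
  have e4 := H.ord_eq hc (fun e => hμ ((conjHom_eq_one_iff _ _).1 e)) h4
  have e5 := H.ord_eq hc hν h2
  generalize n * x * n⁻¹ = x' at h3 e3 e4
  have c1 := (mk_comm (cc_le N h3)).orderOf_mul_pow_eq_lcm (orderOf_pos _).ne' (orderOf_pos _).ne'
  have c2 := (mk_comm (cc_le_N1 N h3)).orderOf_mul_pow_eq_lcm (orderOf_pos _).ne'
    (orderOf_pos _).ne'
  rw [e4, e5] at c2
  rw [← map_pow, ← map_pow, ← map_mul, e2, e3] at c1 c2
  obtain ⟨ω, h5, h6⟩ := H.exists_fix_of hc hne fun i hi => (pow_mem_iff _ _ i).2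
    (c2 ▸ c1 ▸ (pow_mem_iff _ _ i).1 hi)
  have h7 := ord_dvd (N := N) ((mem_inertia_lin _).2 h6)
  rw [c1] at h7
  rw [← H.idx_of_dvd hc hν h5 ((Nat.dvd_lcm_left _ _).trans h7),
    H.idx_of_dvd hc hμ h5 ((Nat.dvd_lcm_right _ _).trans h7)]

theorem exists_fix_mul (H : HF N K p) (hc : (Nat.card ↥⁅N, N⁆).Coprime p) {μ ν : Lin ↥⁅N, N⁆}
    (hμ : μ ≠ 1) (hν : ν ≠ 1) {s : G} (hs : conjHom _ s ν = ν) :
    ∃ n ∈ N, conjHom _ (s * n) μ = μ := by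
  obtain ⟨t, -, h1, e⟩ := H.exists_t hc hμ
  have h2 := (H.idx hc hμ).trans (H.idx hc hν).symm
  rw [H.idx_eq hc hμ hν, mul_right_inj' index_ne_zero_of_finite] at h2
  have := H.cyc
  obtain ⟨k, hk⟩ := mem_zpowers_of_pow_orderOf_eq_one (orderOf_dvd_iff_pow_eq_one.1
    (e ▸ h2 ▸ ord_dvd (N := N) ((mem_inertia_lin _).2 hs)))
  refine ⟨s⁻¹ * t ^ k, QuotientGroup.eq.1 hk.symm, ?_⟩
  rw [mul_inv_cancel_left]
  exact (mem_inertia_lin _).1 (zpow_mem ((mem_inertia_lin _).2 h1) k)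

theorem exists_fix_nonlin (H : HF N K p) (hc : (Nat.card ↥⁅N, N⁆).Coprime p)
    (hne : ⁅N, N⁆ ≠ ⊥) {φ : ↥⁅N, N⁆ → ℂ} (hφ : IsIrrCharacter _ φ) (h1 : charDegree φ ≠ 1) :
    ∃ x ∈ H14.inertia _ φ, ∀ a ∈ ⁅N, N⁆, ⁅x, a⁆ ∈ ⁅⁅N, N⁆, ⁅N, N⁆⁆ → a ∈ ⁅⁅N, N⁆, ⁅N, N⁆⁆ := by
  by_contra h
  have h0 : ∀ x ∈ H14.inertia _ φ, ∃ ν : Lin ↥⁅N, N⁆, ν ≠ 1 ∧ conjHom _ x ν = ν := fun x hx => by
    by_contra! e
    exact h ⟨x, hx, fun a ha => fpf_of_lin _ (fun ν e' => by_contra fun h' => e ν h' e') ha⟩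
  obtain ⟨μ, hμ⟩ := exists_lin_ne hne
  have h2 : H14.inertia _ φ ⊓ N ≤ N1 N := fun x hx => (h0 x hx.1).elim fun ν h' =>
    (H.fix_iff hc h'.1 hx.2).1 h'.2
  have h3 := relIndex_dvd_of_le_left N h2
  have h4 : N.relIndex (H14.inertia _ φ) ∣ N.relIndex (H14.inertia _ (lin μ)) := by
    rw [relIndex_eq_card, relIndex_eq_card]
    refine card_dvd_of_le ?_
    rintro _ ⟨x, hx, rfl⟩
    obtain ⟨ν, a1, a2⟩ := h0 x hx
    obtain ⟨n, hn, a3⟩ := H.exists_fix_mul hc hμ a1 a2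
    exact ⟨_, (mem_inertia_lin _).2 a3, (QuotientGroup.eq.2 (by simpa using hn)).symm⟩
  rw [inf_relIndex_right] at h3
  have h5 := Nat.mul_dvd_mul_left N.index h3
  rw [← H.idx hc hμ, ← idx_mul (H14.inertia _ φ) N] at h5
  have h6 := Nat.dvd_of_mul_dvd_mul_right (Nat.pos_of_ne_zero (rne _ _))
    (h5.trans (Nat.mul_dvd_mul_left _ h4))
  obtain ⟨d, hd, h7⟩ := index_inertia_dvd_cd _ hφ
  have h8 := (Nat.mul_dvd_mul_right h6 _).trans h7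
  obtain ⟨⟨a1, a2, -⟩, -⟩ := H.icd hc hμ
  rw [← H.nd _ a1 _ hd a2 ((Dvd.intro _ rfl).trans h8)] at h8
  nth_rewrite 2 [← mul_one (H14.inertia _ (lin μ)).index] at h8
  exact h1 (Nat.dvd_one.1 (Nat.dvd_of_mul_dvd_mul_left (pos_of_mem_cd a1) h8))

theorem lin_mul (H : HF N K p) (hc : (Nat.card ↥⁅N, N⁆).Coprime p)
    (hne : ⁅N, N⁆ ≠ ⊥) {φ : ↥⁅N, N⁆ → ℂ} (hφ : IsIrrCharacter _ φ) (h1 : charDegree φ ≠ 1)
    (μ : Lin ↥⁅N, N⁆) : lin μ * φ = φ := by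
  obtain ⟨x, hx, fx⟩ := H.exists_fix_nonlin hc hne hφ h1
  obtain ⟨y, hy, fy⟩ := H.exists_fix_nonlin hc hne (isIrr_lin_mul μ hφ) (by rwa [deg_lin_mul])
  obtain ⟨α, -, hα⟩ := conj_eq_of_fix (ov _ μ) hy
  have key : ∀ ξ, IsIrrCharacter _ ξ → ∀ w d, (∀ a ∈ ⁅N, N⁆, ⁅w, a⁆ ∈ ⁅⁅N, N⁆, ⁅N, N⁆⁆ →
      a ∈ ⁅⁅N, N⁆, ⁅N, N⁆⁆) → w ∈ H14.inertia ⁅N, N⁆ ξ → d ∈ orb _ ξ → ⁅d, w⁆ ∈ ⁅N, N⁆ →
      d ∈ H14.inertia _ ξ := fun ξ hξ w d fw hw ⟨β, hβ⟩ e =>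
    fix_of_comm (cc_le _) le_rfl fw (ov _ β) hw hβ (by
      have := mul_mem (H14.le_inertia _ (isClassFunction_of_irr hξ) e) hw
      rwa [commutatorElement_def, inv_mul_cancel_right] at this)
  by_cases h2 : ⁅y, x⁆ ∈ ⁅N, N⁆
  · exact uniq (cc_le _) le_rfl fy (ov _ μ) (key φ hφ x y fx hx ⟨α, hα⟩ h2) hy
  have hx' : x ∈ orb _ φ := ⟨1, by rw [map_one, one_mul]; exact hx⟩
  have hy' : y ∈ orb _ φ := ⟨α, hα⟩
  have hw : ⁅y, x⁆ ∈ orb _ φ := mul_mem (mul_mem (mul_mem hy' hx') (inv_mem hy')) (inv_mem hx')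
  have hN' := H.cG (cm_Q y x)
  have fw : ∀ a ∈ ⁅N, N⁆, ⁅⁅y, x⁆, a⁆ ∈ ⁅⁅N, N⁆, ⁅N, N⁆⁆ → a ∈ ⁅⁅N, N⁆, ⁅N, N⁆⁆ := fun a ha =>
    fpf_of_lin _ (fun ν e => by_contra fun hν => h2 (H.QV (cm_Q y x) (H.fix_V0 hc hν hN' e))) ha
  obtain ⟨γ, hγ⟩ := id hw
  obtain ⟨β, -, hβ⟩ := exists_fixed (cc_le _) le_rfl fw (ov _ γ) hγ
  have h3 : ∀ d ∈ orb _ φ, d ∈ H14.inertia _ (lin β * φ) := fun d hd => by
    obtain ⟨δ, hδ⟩ := orb_mul hd β
    exact fix_of_comm (cc_le _) le_rfl fw (ov _ δ) hβ hδ (key _ (isIrr_lin_mul β hφ) _ _ fw hβ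
      (orb_mul (mul_mem (mul_mem hd hw) (inv_mem hd)) β)
      (commutator_mem_commutator (hN.conj_mem _ hN' d) hN'))
  have h4 := h3 y hy'
  rw [uniq (cc_le _) le_rfl fx (ov _ β) hx (h3 x hx')] at h4
  exact uniq (cc_le _) le_rfl fy (ov _ μ) h4 hy

theorem cam (H : HF N K p) (hc : (Nat.card ↥⁅N, N⁆).Coprime p)
    (hne : ⁅N, N⁆ ≠ ⊥) {a w : G} (ha : a ∈ ⁅N, N⁆) (ha' : a ∉ ⁅⁅N, N⁆, ⁅N, N⁆⁆)
    (hw : w ∈ ⁅⁅N, N⁆, ⁅N, N⁆⁆) : ∃ b ∈ ⁅N, N⁆, b * a * b⁻¹ = a * w :=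
  camina le_rfl (fun _ hφ h1 => vanish_of_stab le_rfl fun μ _ => H.lin_mul hc hne hφ h1 μ) ha ha' hw

omit [Group.IsSolvable G] in
theorem exists_v {l : ℕ} (hl : l.Prime) (h : l ∣ (N1 N).relIndex N) {x : G}
    (o2 : orderOf (QuotientGroup.mk' (N1 N) x) = l ^ 2) :
    ∃ v ∈ N, v ∉ N1 N ∧ v ^ l ∈ N1 N ∧ ⁅x, v⁆ ∈ N1 N := by
  have : Fact l.Prime := ⟨hl⟩
  let π := QuotientGroup.mk' (N1 N)
  have hπ : ∀ a, π a = 1 ↔ a ∈ N1 N := QuotientGroup.eq_one_iff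
  let W : Subgroup (G ⧸ N1 N) :=
    { carrier := {a | (∃ n ∈ N, π n = a) ∧ a ^ l = 1}
      one_mem' := ⟨⟨1, one_mem _, map_one _⟩, one_pow _⟩
      mul_mem' := by
        rintro _ _ ⟨⟨a, ha, rfl⟩, h5⟩ ⟨⟨b, hb, rfl⟩, h6⟩
        exact ⟨⟨_, mul_mem ha hb, map_mul _ _ _⟩, by rw [(mk_comm (cc_le_N1 N
          (commutator_mem_commutator ha hb))).mul_pow, h5, h6, mul_one]⟩
      inv_mem' := by
        rintro _ ⟨⟨a, ha, rfl⟩, h5⟩
        exact ⟨⟨_, inv_mem ha, map_inv _ _⟩, by rw [inv_pow, h5, inv_one]⟩ }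
  have hW : W.Normal := ⟨by
    rintro _ ⟨⟨a, ha, rfl⟩, h5⟩ g
    obtain ⟨g, rfl⟩ := QuotientGroup.mk'_surjective _ g
    exact ⟨⟨_, hN.conj_mem a ha g, by simp [π]⟩, by rw [conj_pow, h5, mul_one, mul_inv_cancel]⟩⟩
  have h5 : W ≠ ⊥ := by
    rw [relIndex_eq_card] at h
    obtain ⟨⟨_, n, hn, rfl⟩, h6⟩ := exists_prime_orderOf_dvd_card' (G := N.map π) l h
    rw [← Subgroup.orderOf_coe] at h6
    exact fun e => hl.one_lt.ne' (h6.symm.trans (orderOf_eq_one_iff.2 (e.le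
      (show π n ∈ W from ⟨⟨n, hn, rfl⟩, h6 ▸ pow_orderOf_eq_one _⟩))))
  obtain ⟨⟨_, ⟨⟨v, hv, rfl⟩, b1⟩, b2⟩, b3⟩ := (Subgroup.ne_bot_iff_exists_ne_one).1
    (H1.inf_centralizer_ne_bot_of_isPGroup (p := l) (N := W) (P := zpowers (π x))
      (fun a => ⟨1, Subtype.ext (by rw [pow_one]; exact a.2.2)⟩)
      (IsPGroup.of_card (n := 2) (by rw [Nat.card_zpowers, o2]))
      (by rw [normalizer_eq_top_iff.2 hW]; exact le_top) h5)
  refine ⟨v, hv, fun e => b3 (Subtype.ext ((hπ v).2 e)), (hπ _).1 (map_pow π v l ▸ b1), (hπ _).1 ?_⟩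
  rw [map_commutatorElement, commutatorElement_eq_one_iff_mul_comm]
  exact b2 _ (mem_zpowers _)

omit [Group.IsSolvable G] in
theorem ac_fix (H : HF N K p) (hc : (Nat.card ↥⁅N, N⁆).Coprime p) {μ ν : Lin ↥⁅N, N⁆}
    (hμ : μ ≠ 1) (hν : ν ≠ 1) {h : G} (hh : h ∉ N) (h1 : conjHom _ h μ = μ)
    (h2 : conjHom _ h ν = ν) : H14.inertia _ (lin μ) ≤ H14.inertia _ (lin ν) := by
  let S := (centralizer {QuotientGroup.mk' ⁅N, N⁆ h}).comap (QuotientGroup.mk' _)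
  have hS : ∀ s, s ∈ S ↔ ⁅s, h⁆ ∈ ⁅N, N⁆ := mk_comm_iff _ h
  have h3 : ∀ ω : Lin ↥⁅N, N⁆, ω ≠ 1 → conjHom _ h ω = ω → H14.inertia _ (lin ω) ≤ S :=
    fun ω c1 c2 s hs => (hS s).2 ((H.icd hc c1).1.2.2.1 (commutator_mem_commutator hs
      ((mem_inertia_lin _).2 c2)))
  refine (le_inf le_rfl (h3 μ hμ h1)).trans (ac ⁅N, N⁆ ((conjHom _ h).eqLocus (MonoidHom.id _)) S
    (fun s hs ω hω => ?_) (fun s hs s' hs' ω _ => conjHom_of_mem _ ?_ ω)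
    (fun ω hω ω' _ c1 c2 c3 => inf_le_left.trans (H.le_symm hc c1 c2
      ((le_inf le_rfl (h3 ω c1 hω)).trans c3))) h1 h2 hμ hν)
  · exact (conj_comm (conjHom_of_mem _ ((hS s).1 hs) ω)).trans (congrArg _ hω)
  · exact H.inj hh (cm_Q s s') (cm_swap ((hS _).1
      (mul_mem (mul_mem (mul_mem hs hs') (inv_mem hs)) (inv_mem hs'))))

theorem not_dvd (H : HF N K p) (hc : (Nat.card ↥⁅N, N⁆).Coprime p) {μ : Lin ↥⁅N, N⁆}
    (hμ : μ ≠ 1) {l : ℕ} (hl : l.Prime) {x : G} (o1 : orderOf (QuotientGroup.mk' N x) = l ^ 2)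
    (f1 : conjHom _ x μ = μ) : ¬ l ∣ (N1 N).relIndex N := fun h => by
  have hne : ⁅N, N⁆ ≠ ⊥ := fun e => hμ (Lin.ext fun x => by
    rw [show x = 1 from Subtype.ext (e.le x.2), map_one, map_one])
  have o2 := (H.ord_eq hc hμ f1).trans o1
  obtain ⟨v, hv, b3, b1, b2⟩ := exists_v hl h o2
  have b4 := mk_comm b2
  have hπ : ∀ a, QuotientGroup.mk' (N1 N) a = 1 ↔ a ∈ N1 N := QuotientGroup.eq_one_iff
  rw [← hπ, map_pow] at b1
  obtain ⟨ν, hν, b5⟩ := H.exists_fix_of hc hne (z := x * v) fun i hi => by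
    have c1 : l ^ 2 ∣ i := by
      rw [pow_mem_iff, map_mul, QuotientGroup.mk'_apply N v, (QuotientGroup.eq_one_iff v).2 hv,
        mul_one, o1] at hi
      exact hi
    rw [← hπ, map_pow, map_mul, b4.mul_pow, orderOf_dvd_iff_pow_eq_one.1 (o2 ▸ c1), one_mul]
    exact orderOf_dvd_iff_pow_eq_one.1 ((orderOf_dvd_of_pow_eq_one b1).trans
      ((dvd_pow_self l two_ne_zero).trans c1))
  have b6 : x ^ l ∉ N := fun e => by
    rw [pow_mem_iff, o1] at e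
    exact (Nat.le_of_dvd hl.pos e).not_gt (by nlinarith [hl.one_lt])
  have b7 : conjHom _ (x ^ l) ν = ν := by
    have c1 : ((x * v) ^ l)⁻¹ * x ^ l ∈ N1 N := by
      rw [← hπ, map_mul, map_inv, map_pow, map_mul, b4.mul_pow, b1, mul_one, map_pow, inv_mul_cancel]
    rw [← mul_inv_cancel_left ((x * v) ^ l) (x ^ l), ← conjHom_conjHom,
      (mem_inertia_lin _).1 (pow_mem ((mem_inertia_lin _).2 b5) l), (mem_N1.1 c1).2]
  have b8 := (mem_inertia_lin _).1 (H.ac_fix hc hμ hν b6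
    ((mem_inertia_lin _).1 (pow_mem ((mem_inertia_lin _).2 f1) l)) b7 ((mem_inertia_lin _).2 f1))
  rw [← conjHom_conjHom, b8] at b5
  exact b3 ((H.fix_iff hc hν hv).1 b5)

theorem exists_l (H : HF N K p) (hc : (Nat.card ↥⁅N, N⁆).Coprime p) {μ : Lin ↥⁅N, N⁆}
    (hμ : μ ≠ 1) : ∃ (l : ℕ) (g : G), l.Prime ∧ g ∉ N ∧ g ^ l ∈ N ∧ conjHom _ g μ = μ ∧
      ((N1 N).relIndex N).Coprime l := by
  obtain ⟨t, -, h1, e⟩ := H.exists_t hc hμ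
  obtain ⟨⟨a1, -⟩, a4⟩ := H.icd hc hμ
  have h2 : ¬ N.relIndex (H14.inertia _ (lin μ)) ∣ (N1 N).relIndex N := by
    rintro ⟨k, hk⟩
    have h3 := H.idx hc hμ
    rw [hk, mul_comm _ k, ← mul_assoc, mul_left_inj' (rne _ _)] at h3
    exact H.pN (H.nd _ H.fcd _ a1 H.f1 ⟨k, h3⟩ ▸ a4)
  rw [Nat.dvd_iff_prime_pow_dvd_dvd, ← e] at h2
  push Not at h2
  obtain ⟨l, k, hl, h3, h4⟩ := h2
  have fx : ∀ i : ℕ, conjHom _ (t ^ i) μ = μ := fun i =>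
    (mem_inertia_lin _).1 (pow_mem ((mem_inertia_lin _).2 h1) i)
  have ord : ∀ j ≤ k, orderOf (QuotientGroup.mk' N (t ^ (orderOf (QuotientGroup.mk' N t) / l ^ j))) =
      l ^ j := fun j hj => by
    rw [map_pow, orderOf_pow_orderOf_div (orderOf_pos _).ne' ((pow_dvd_pow l hj).trans h3)]
  have k0 : 1 ≤ k := Nat.pos_of_ne_zero fun e => h4 (by rw [e, pow_zero]; exact one_dvd _)
  refine ⟨l, _, hl, fun h => ?_, (pow_mem_iff N _ l).2 (by rw [ord 1 k0, pow_one]), fx _,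
    (hl.coprime_iff_not_dvd.2 fun h => ?_).symm⟩
  · have := (pow_mem_iff N _ 1).1 (by rwa [pow_one])
    rw [ord 1 k0, pow_one] at this
    exact hl.one_lt.ne' (Nat.dvd_one.1 this)
  exact H.not_dvd hc hμ hl (ord 2 (by_contra fun e => h4 (by rwa [show k = 1 by omega, pow_one])))
    (fx _) h

theorem min_false (H : HF N K p) (hc : (Nat.card ↥⁅N, N⁆).Coprime p)
    (hW : ⁅⁅N, N⁆, ⁅N, N⁆⁆ ≠ ⊥) (hmin : ∀ U : Subgroup G, U.Normal → U ≤ ⁅⁅N, N⁆, ⁅N, N⁆⁆ →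
      U ≠ ⊥ → U = ⁅⁅N, N⁆, ⁅N, N⁆⁆) : False := by
  have hne : ⁅N, N⁆ ≠ ⊥ := fun h => hW (by rw [h, commutator_bot_left])
  have cam : ∀ a ∈ ⁅N, N⁆, a ∉ _ → ∀ w ∈ _, _ := fun a ha ha' w hw => H.cam hc hne ha ha' (w := w) hw
  have hWn : (⁅⁅N, N⁆, ⁅N, N⁆⁆).Normal := inferInstance
  have hMn : (⁅N, N⁆).Normal := inferInstance
  obtain ⟨s, P, hs, h1, h2, h3, h4, h5⟩ := H1.exists_pGroup_of_isSolvable hW
  obtain rfl := hmin P (H1.normal_of_top_le_normalizer (normalizer_eq_top_iff.2 hWn ▸ h5)) h4 h3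
  have : Fact s.Prime := ⟨hs⟩
  obtain ⟨c, hc1, hc2⟩ := H.exists_q
  by_cases hM : IsPGroup s ↥⁅N, N⁆
  swap
  · obtain ⟨q, hq, h6, h7⟩ : ∃ q, q.Prime ∧ q ∣ Nat.card ↥⁅N, N⁆ ∧ q ≠ s := by
      by_contra! h
      exact hM (IsPGroup.of_card (Nat.eq_prime_pow_of_unique_prime_dvd Nat.card_pos.ne'
        fun hq hd => h _ hq hd))
    have : Fact q.Prime := ⟨hq⟩
    obtain ⟨b, hb⟩ := exists_prime_orderOf_dvd_card' q h6
    obtain ⟨h8, h9⟩ := cam_coprime le_rfl (cc_le _) hW hs hq h7 h1 cam b.2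
      (by rw [Subgroup.orderOf_coe, hb])
    exact h8 (fpf_of_lin _ (fun ν e => by_contra fun hν => hc2 (H.fix_V0 hc hν (H.cG hc1) e)) b.2
      (h9 c hc1))
  have h6 : ⁅⁅N, N⁆, ⁅N, N⁆⁆ ≤ centralizer ((⁅N, N⁆ : Subgroup G) : Set G) :=
    (hmin _ inferInstance inf_le_left (H1.inf_centralizer_ne_bot_of_isPGroup h1 hM
      (by rw [normalizer_eq_top_iff.2 hWn]; exact le_top) hW)).ge.trans inf_le_right
  have h7 := cam_card le_rfl (H1.commutator_self_lt_of_isSolvable hne) h6 cam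
  generalize hW' : ⁅⁅N, N⁆, ⁅N, N⁆⁆ = W at *
  have hWM : W ≤ ⁅N, N⁆ := hW' ▸ cc_le _
  have hv : 1 < (V0 N).relIndex N := by
    have a1 : (V0 N).relIndex N ≠ 0 := index_ne_zero_of_finite
    have a2 : (V0 N).relIndex N ≠ 1 := fun h => hc2 (relIndex_eq_one.1 h (H.cG hc1))
    omega
  obtain ⟨μ, hμ⟩ := exists_lin_ne hne
  obtain ⟨l, g, hl, g1, g2, g3, g4⟩ := H.exists_l hc hμ
  obtain ⟨C, hC⟩ := count ⁅N, N⁆ N (N1 N) hl g2 (N1_le N) (cc_le_N1 N)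
    (fun _ h _ hx => H.fix_iff hc h hx) (fun _ h => H.exists_fix_mul hc h hμ g3) g4 hμ (V0 N)
    fun n => ⟨fun h => ⟨V0_le N h, cc_le_N1 N ((mem_V0.1 h).2 g)⟩,
      fun h => H.hfpf g g1 n h.1 (H.N1_le_V0 hc hne h.2)⟩
  have hD : (V0 N).relIndex N ∣ Nat.card W - 1 :=
    dvd_card_sub_one fun x hx hx' w hw => H.fpf_cc hc x hx hx' w (hWM hw)
  obtain ⟨n, hn⟩ := IsPGroup.iff_card.1 hM
  obtain ⟨b, hb⟩ := IsPGroup.iff_card.1 h1
  obtain ⟨a, -, ha⟩ := (Nat.dvd_prime_pow hs).1 (hn ▸ relIndex_dvd_card W ⁅N, N⁆)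
  have e2 : Nat.card (Lin ↥⁅N, N⁆) = s ^ a := by rw [card_lin, hW', ha]
  obtain ⟨c, -, hc'⟩ := (Nat.dvd_prime_pow hs).1 (e2 ▸ C.card_subgroup_dvd_card)
  rw [e2, hc'] at hC
  rw [ha, hb, Nat.pow_lt_pow_iff_right hs.one_lt] at h7
  exact arith2 hs.one_lt (Nat.pos_of_ne_zero fun h => hW (card_eq_one.1 (by rw [hb, h, pow_zero])))
    h7 hv hC (hb ▸ hD)

theorem metab (H : HF N K p) (hc : (Nat.card ↥⁅N, N⁆).Coprime p) : ⁅⁅N, N⁆, ⁅N, N⁆⁆ = ⊥ := by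
  by_contra h
  obtain ⟨W, ⟨h1, h2⟩, h3⟩ := exists_maximal_of_wellFoundedGT
    (fun W : Subgroup G => W.Normal ∧ W < ⁅⁅N, N⁆, ⁅N, N⁆⁆) ⟨⊥, inferInstance, bot_lt_iff_ne_bot.2 h⟩
  have hs := QuotientGroup.mk'_surjective W
  have := hN.map _ hs
  refine (H.quot W (h2.le.trans ((cc_le _).trans H.cK))).min_false ?_ ?_ fun U hU a1 a2 => ?_
  · rw [← map_commutator]
    exact hc.coprime_dvd_left (card_map_dvd _ _)
  · rw [← map_commutator, ← map_commutator, Ne, Subgroup.map_eq_bot_iff, QuotientGroup.ker_mk']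
    exact h2.not_ge
  · rw [← map_commutator, ← map_commutator] at a1 ⊢
    have a3 : U.comap (QuotientGroup.mk' W) ≤ ⁅⁅N, N⁆, ⁅N, N⁆⁆ := by
      have := comap_mono (f := QuotientGroup.mk' W) a1
      rwa [comap_map_eq_self (by rw [QuotientGroup.ker_mk']; exact h2.le)] at this
    rcases a3.eq_or_lt with a4 | a4
    · rw [← a4, map_comap_eq_self_of_surjective hs]
    · refine (a2 ?_).elim
      rw [← map_comap_eq_self_of_surjective hs U, Subgroup.map_eq_bot_iff, QuotientGroup.ker_mk']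
      exact h3 ⟨inferInstance, a4⟩ (QuotientGroup.le_comap_mk' W U)

theorem three_of_cop (H : HF N K p) (hc : (Nat.card ↥⁅N, N⁆).Coprime p) :
    ∃ m, ∀ d ∈ charDegrees G, d = 1 ∨ d = N.index ∨ d = m := by
  have := Fintype.ofFinite ↥⁅N, N⁆
  have key : ∀ d ∈ charDegrees G, d = 1 ∨ d = N.index ∨
      ∃ μ : Lin ↥⁅N, N⁆, μ ≠ 1 ∧ d = (H14.inertia _ (lin μ)).index := fun d hd => by
    obtain ⟨χ, hχ, rfl⟩ := mem_cd.1 hd
    by_cases h1 : ⁅N, N⁆ ≤ charKer χ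
    · exact or_iff_not_imp_left.2 fun h2 => Or.inl (H.nd _ hd _ H.fcd h2
        (deg_dvd_index_of_commutator_le hχ N h1))
    obtain ⟨x, hx, h2⟩ := SetLike.not_le_iff_exists.1 h1
    have h3 : (⟨x, hx⟩ : ↥⁅N, N⁆) ∉ charKer (fun n : ↥⁅N, N⁆ => χ n) := fun h => h2
      ((mem_charKer_irr_iff hχ).2 (apply_eq_of_mem_charKer (χ := fun n : ↥⁅N, N⁆ => χ n) h))
    rw [mem_charKer_iff_forall_constituent (isCharacter_restrict (isCharacter_of_irr hχ) _)] at h3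
    push Not at h3
    obtain ⟨φ, hφ, h4, h5⟩ := h3
    obtain ⟨μ, rfl⟩ := exists_eq_lin (isCharacter_of_irr hφ) ((deg_eq_one_iff_commutator_le hφ).2
      ((commutator_le_subgroupOf_iff.2 (H.metab hc).le).trans (by rw [bot_subgroupOf]; exact bot_le)))
    have hμ : μ ≠ 1 := fun e => h5 (by rw [charKer_lin, e]; rfl)
    obtain ⟨⟨h6, h7, -⟩, -⟩ := H.icd hc hμ
    exact Or.inr (Or.inr ⟨μ, hμ, (H.nd _ h6 _ hd h7
      ((Dvd.intro _ rfl).trans (index_inertia_mul_deg_dvd _ hχ hφ h4))).symm⟩)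
  by_cases h : ∃ ν : Lin ↥⁅N, N⁆, ν ≠ 1
  · obtain ⟨ν, hν⟩ := h
    exact ⟨_, fun d hd => (key d hd).imp_right (Or.imp_right fun ⟨μ, hμ, e⟩ =>
      e.trans (H.idx_eq hc hν hμ))⟩
  · exact ⟨1, fun d hd => (key d hd).imp_right (Or.imp_right fun ⟨μ, hμ, _⟩ => (h ⟨μ, hμ⟩).elim)⟩

end HF

end Cfsg.Agent.H26.DS
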