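import Cfsg.Agent.H26.DsGrp

/-! The case where `N` is nilpotent: central characters and first facts. -/

set_option autoImplicit false

namespace Cfsg.Agent.H26.DS

open Cfsg Subgroup H24 H11 ND
open scoped commutatorElement Pointwise

variable {G : Type*} [Group G]

/-- `θ` lies over the central character `ν`. -/
def Cen {W N : Subgroup G} (h : W ≤ N) (θ : N → ℂ) (ν : Lin W) : Prop :=
  ∀ (w : G) (hw : w ∈ W) (x : N), θ (⟨w, h hw⟩ * x) = ν.hom ⟨w, hw⟩ * θ x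

theorem fix_of_ov {W N : Subgroup G} [W.Normal] {ν : Lin W}
    (hν : ν ∈ linOver ((⁅W, N⁆).subgroupOf W)) (n : G) (hn : n ∈ N) : conjHom W n ν = ν :=
  dl_eq_one.1 (Lin.ext fun w => (dl_apply W n ν w.2).trans
    (hν (cm_swap (commutator_mem_commutator w.2 hn))))

theorem nil_le {N A B : Subgroup G} [N.Normal] [A.Normal] [B.Normal] [Group.IsNilpotent N]
    (hA : A ≤ N) (h : A ≤ B ⊔ ⁅A, N⁆) : A ≤ B := by
  by_contra hn
  have hs := QuotientGroup.mk'_surjective B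
  have : Group.IsNilpotent (N.map (QuotientGroup.mk' B)) :=
    Group.nilpotent_of_surjective _ ((QuotientGroup.mk' B).subgroupMap_surjective N)
  have a2 := H1.commutator_lt_of_isNilpotent (map_mono (f := QuotientGroup.mk' B) hA)
    (by rw [normalizer_eq_top_iff.2 (Normal.map inferInstance _ hs)]; exact le_top)
    (by rwa [Ne, Subgroup.map_eq_bot_iff, QuotientGroup.ker_mk'])
  have a3 := map_mono (f := QuotientGroup.mk' B) h
  rw [Subgroup.map_sup, QuotientGroup.map_mk'_self, bot_sup_eq, map_commutator] at a3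
  exact a2.not_ge a3

section Cen

variable [Finite G] {W N : Subgroup G} {h : W ≤ N} {θ : N → ℂ} {ν : Lin W}

theorem exists_cen (h : W ≤ N) (hθ : IsIrrCharacter N θ)
    (hW : (⁅W, N⁆).subgroupOf N ≤ charKer θ) : ∃ ν, Cen h θ ν := by
  obtain ⟨lam, e⟩ := exists_monoidHom_charCenter (χ := θ) (irr_deg hθ ▸ Nat.cast_ne_zero.2
    (deg_ne_zero hθ))
  have h1 : ∀ w : W, inclusion h w ∈ charCenter θ := fun w => (mem_charCenter_irr_iff hθ).2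
    fun g => hW (commutator_mem_commutator w.2 g.2)
  exact ⟨Lin.mk (lam.comp ((inclusion h).codRestrict _ h1)), fun w hw x => e ⟨_, h1 ⟨w, hw⟩⟩ x⟩

theorem Cen.ker (c : Cen h θ ν) (hθ : IsIrrCharacter N θ) {w : G} (hw : w ∈ W) :
    (⟨w, h hw⟩ : N) ∈ charKer θ ↔ ν.hom ⟨w, hw⟩ = 1 := by
  rw [mem_charKer_irr_iff hθ, ← mul_one (⟨w, h hw⟩ : N), c w hw, mul_eq_right₀
    (irr_deg hθ ▸ Nat.cast_ne_zero.2 (deg_ne_zero hθ)), Units.val_eq_one]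

theorem exists_cen' [W.Normal] (h : W ≤ N) (hν : ν ∈ linOver ((⁅W, N⁆).subgroupOf W)) :
    ∃ θ, IsIrrCharacter N θ ∧ Cen h θ ν := by
  have := Fintype.ofFinite W
  have := Fintype.ofFinite N
  obtain ⟨θ, hθ, h1⟩ := exists_over h (isIrr_lin ν)
  have h2 := congrFun (H14.clifford_invariant_of_le W N h hθ (isIrr_lin ν) h1
    fun n hn => (mem_inertia_lin W).2 (fix_of_ov hν n hn))
  generalize classInner (fun n : W => θ ⟨n, h n.2⟩) (lin ν) = e at h2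
  have h3 : θ 1 = e := (h2 1).trans (by simp [lin_apply])
  obtain ⟨ν', c⟩ := exists_cen h hθ fun u hu => (mem_charKer_irr_iff hθ).2 (by
    have h4 := commutator_le_left W N hu
    rw [h3]
    refine (h2 ⟨u, h4⟩).trans ?_
    rw [Pi.smul_apply, lin_apply, show ν.hom ⟨u, h4⟩ = 1 from hν hu]
    simp)
  refine ⟨θ, hθ, (?_ : ν' = ν) ▸ c⟩
  refine Lin.ext fun w => Units.ext (mul_right_cancel₀ (irr_deg hθ ▸ Nat.cast_ne_zero.2
    (deg_ne_zero hθ) : θ 1 ≠ 0) ?_)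
  rw [← c w w.2, mul_one, h2 w, h3, mul_comm]
  rfl

theorem Cen.conj (c : Cen h θ ν) {x : N} {g : G} (hg : ⁅g, (x : G)⁆ ∈ W) (h') :
    θ ⟨g * x * g⁻¹, h'⟩ = ν.hom ⟨_, hg⟩ * θ x := by
  rw [← c]
  exact congrArg θ (Subtype.ext (by simp [commutatorElement_def]))

theorem Cen.cm (c : Cen h θ ν) (hθ : IsIrrCharacter N θ) {x : N} (hx : θ x ≠ 0) {n : G}
    (hn : n ∈ N) (hg : ⁅n, (x : G)⁆ ∈ W) : ν.hom ⟨_, hg⟩ = 1 := by
  have h1 := c.conj hg (mul_mem (mul_mem hn x.2) (inv_mem hn))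
  rw [show θ ⟨n * x * n⁻¹, _⟩ = θ x from isClassFunction_of_irr hθ x ⟨n, hn⟩, eq_comm, mul_eq_right₀ hx] at h1
  exact Units.val_eq_one.1 h1

theorem Cen.inertia_le [hW : W.Normal] [N.Normal] (c : Cen h θ ν) (hθ : IsIrrCharacter N θ) :
    H14.inertia N θ ≤ H14.inertia W (lin ν) := fun t ht => (mem_inertia_lin W).2
  (Lin.ext fun w => Units.ext (mul_right_cancel₀ (irr_deg hθ ▸ Nat.cast_ne_zero.2
    (deg_ne_zero hθ) : θ 1 ≠ 0) (by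
      rw [conjHom_apply, ← c _ (hW.conj_mem _ w.2 t), ← c w w.2, mul_one, mul_one]
      exact (H14.mem_inertia' N).1 ht ⟨w, h w.2⟩)))

theorem Cen.ov [W.Normal] (c : Cen h θ ν) (hθ : IsIrrCharacter N θ) :
    ν ∈ linOver ((⁅W, N⁆).subgroupOf W) := fun a ha => lin_le ν (fun w hw n hn =>
  ⟨cm_mem' W n hw, (c.ker hθ _).1 (commutator_mem_charKer_of_mem_charCenter
    (isClassFunction_of_irr hθ) (z := ⟨w, h hw⟩) ⟨_, c w hw⟩ ⟨n, hn⟩)⟩) ha a.2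

theorem Cen.fr [hW : W.Normal] [hN : N.Normal] (c : Cen h θ ν) (hθ : IsIrrCharacter N θ) {p : ℕ}
    (hp : p.Prime) (hP : IsPGroup p W) (hf : ¬ p ∣ N.index)
    (hv : ∀ x : N, θ x ≠ 0 → ∀ g : G, ⁅g, (x : G)⁆ ∈ W) :
    H14.inertia W (lin ν) ≤ H14.inertia N θ := by
  have key : ∀ x : N, θ x ≠ 0 → ∀ t ∈ H14.inertia W (lin ν),
      θ ⟨t * x * t⁻¹, hN.conj_mem _ x.2 t⟩ = θ x := fun x hx t ht => by
    let φ : H14.inertia W (lin ν) →* ℂˣ := MonoidHom.mk' (fun s => ν.hom ⟨_, hv x hx s⟩)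
      fun a b => by
        rw [mul_comm, ← congrArg (fun μ : Lin W => μ.hom ⟨_, hv x hx b⟩) ((mem_inertia_lin W).1 a.2),
          conjHom_apply, ← map_mul]
        exact congrArg ν.hom (Subtype.ext (by simp only [coe_mul, commutatorElement_def]; group))
    have h1 : φ ⟨t, ht⟩ ^ N.index = 1 := by
      rw [← map_pow]; exact c.cm hθ hx (N.pow_index_mem t) _
    obtain ⟨j, hj⟩ := hP ⟨_, hv x hx t⟩
    have h2 : φ ⟨t, ht⟩ ^ p ^ j = 1 := by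
      show ν.hom _ ^ _ = 1
      rw [← map_pow, hj, map_one]
    have h3 : φ ⟨t, ht⟩ = 1 := orderOf_eq_one_iff.1 (Nat.eq_one_of_dvd_coprimes
      ((hp.coprime_iff_not_dvd.2 hf).pow_left j) (orderOf_dvd_of_pow_eq_one h2)
      (orderOf_dvd_of_pow_eq_one h1))
    rw [c.conj (hv x hx t), show ν.hom _ = 1 from h3, Units.val_one, one_mul]
  refine fun t ht => (H14.mem_inertia' N).2 fun x => ?_
  by_cases hx : θ x = 0
  · rw [hx]
    by_contra h1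
    refine h1 ((key _ h1 t⁻¹ (inv_mem ht)).symm.trans (Eq.trans ?_ hx))
    exact congrArg θ (Subtype.ext (by simp [mul_assoc]))
  · exact key x hx t ht

theorem Cen.mem_center (c : Cen h θ ν) (hθ : IsIrrCharacter N θ) {x : N}
    (hx : ∀ n ∈ N, ⁅n, (x : G)⁆ ∈ W) :
    x ∈ charCenter θ ↔ ∀ n (hn : n ∈ N), ν.hom ⟨_, hx n hn⟩ = 1 := by
  rw [mem_charCenter_irr_iff hθ]
  exact ⟨fun h1 n hn => (c.ker hθ _).1 (cm_swap (h1 ⟨n, hn⟩)),
    fun h1 n => cm_swap ((c.ker hθ (hx n n.2)).2 (h1 n n.2))⟩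

theorem ne_zero_of_center (hθ : IsIrrCharacter N θ) {x : N} (hx : x ∈ charCenter θ) : θ x ≠ 0 := by
  rw [← norm_ne_zero_iff, (mem_charCenter_iff (isCharacter_of_irr hθ)).1 hx, norm_ne_zero_iff,
    irr_deg hθ]
  exact Nat.cast_ne_zero.2 (deg_ne_zero hθ)

end Cen

/-- The nilpotent case. -/
structure HP (N K : Subgroup G) (p : ℕ) : Prop extends HF N K p where
  nil : Group.IsNilpotent N
  pd : ∀ θ, IsIrrCharacter N θ → ∃ a, charDegree θ = p ^ a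
  pQ : IsPGroup p (commutator G)
  ne : ⁅N, N⁆ ≠ ⊥

theorem cc_le_Q (N : Subgroup G) : ⁅N, N⁆ ≤ commutator G := commutator_mono le_top le_top

variable [Finite G] {N K : Subgroup G} [hN : N.Normal] {p : ℕ}

theorem HF.toHP (H : HF N K p) {L : Subgroup G} [hL : L.Normal] (hLN : L ≤ N) {k : ℕ}
    (hk : L.relIndex N = p ^ k) (hM : ⁅N, N⁆ ⊓ L = ⊥) (hc : (Nat.card L).Coprime p)
    (hne : ⁅N, N⁆ ≠ ⊥) : HP N K p := by
  have : Fact p.Prime := ⟨H.hp⟩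
  have h1 : ∀ x ∈ L, ∀ n ∈ N, n * x = x * n := fun x hx n hn =>
    commutatorElement_eq_one_iff_mul_comm.1 (mem_bot.1 (hM ▸ mem_inf.2
      ⟨commutator_mem_commutator hn (hLN hx), cm_mem L n hx⟩))
  have h2 : IsPGroup p (N ⧸ L.subgroupOf N) := IsPGroup.of_card hk
  have h3 : ∀ n ∈ N, n ^ p ^ k ∈ L := fun n hn => hk ▸ (L.subgroupOf N).pow_index_mem ⟨n, hn⟩
  refine ⟨H, ?_, fun θ hθ => ?_, fun q => ?_, hne⟩
  · have := h2.isNilpotent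
    refine Subgroup.isNilpotent_of_ker_le_center (QuotientGroup.mk' (L.subgroupOf N)) fun x hx => ?_
    rw [QuotientGroup.ker_mk'] at hx
    exact mem_center_iff.2 fun n => Subtype.ext (h1 x hx n n.2)
  · have h4 := deg_dvd_index_of_comm hθ (L.subgroupOf N) fun x hx y hy =>
      Subtype.ext (h1 y hy x x.2)
    rw [← relIndex, hk] at h4
    exact ((Nat.dvd_prime_pow H.hp).1 h4).imp fun _ h => h.2
  · have h4 := h3 q (H.cG q.2)
    refine ⟨k, Subtype.ext (mem_bot.1 (hM ▸ mem_inf.2 ⟨H.QV (pow_mem q.2 _) (by_contra fun e =>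
      hne (eq_bot_iff.2 fun m hm => ?_)), h4⟩))⟩
    obtain ⟨n, hn, e'⟩ := H.fuse (hLN h4) e hm
    rw [h1 _ h4 n hn, mul_inv_cancel_right] at e'
    exact left_eq_mul.1 e'

namespace HP

theorem nonlin (_ : HP N K p) {W : Subgroup G} (hW : W ≤ ⁅N, N⁆) {θ : N → ℂ}
    (hθ : IsIrrCharacter N θ) {ν : Lin W} (c : Cen (hW.trans (cc_le N)) θ ν) (hν : ν ≠ 1) :
    charDegree θ ≠ 1 := fun e => hν (Lin.ext fun w => (c.ker hθ w.2).1
  ((deg_eq_one_iff_commutator_le hθ).1 e (by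
    have := hW w.2
    rw [← Subgroup.map_subtype_commutator] at this
    obtain ⟨b, hb, e⟩ := this
    rwa [← show b = ⟨w, cc_le N (hW w.2)⟩ from Subtype.ext e])))

theorem fix_of_over (H : HP N K p) {W : Subgroup G} [W.Normal] (hW : W ≤ ⁅N, N⁆) {ν : Lin W}
    (h : ν ∈ linOver ((⁅W, N⁆).subgroupOf W)) (hν : ν ≠ 1) : ∃ x, x ∉ N ∧ conjHom W x ν = ν := by
  obtain ⟨θ, hθ, c⟩ := exists_cen' (hW.trans (cc_le N)) h
  obtain ⟨x, hx, h1⟩ := H.exists_fix hθ (H.nonlin hW hθ c hν)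
  exact ⟨x, hx, (mem_inertia_lin W).1 (c.inertia_le hθ h1)⟩

theorem cm_QV (H : HP N K p) {W : Subgroup G} [W.Normal] (hW : W ≤ ⁅N, N⁆) {z : G}
    (hz : ∀ g : G, ⁅g, z⁆ ∈ W) {q : G} (hq : q ∈ commutator G) : ⁅q, z⁆ ∈ ⁅W, N⁆ := by
  by_contra h
  obtain ⟨ν, h1, h2⟩ := exists_lin' (commutator_mono le_rfl (hW.trans (cc_le N))) (hz q) h
  have h3 : ν ∈ linOver ((⁅W, N⁆).subgroupOf W) := fun x hx => h1 x hx
  obtain ⟨x, hx, h4⟩ := H.fix_of_over hW h3 fun e => h2 (by rw [e]; rfl)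
  exact h2 (H.bl (fix_of_ov h3) hx h4 (fun n _ => hz n) (hz x) hq)

theorem QV3 (H : HP N K p) : ⁅commutator G, V0 N⁆ ≤ ⁅⁅N, N⁆, N⁆ :=
  commutator_le.2 fun _ hq _ hz => H.cm_QV le_rfl (mem_V0.1 hz).2 hq

theorem split (H : HP N K p) {A U : Subgroup G} [hU : U.Normal] (h1 : ⁅A, commutator G⁆ ≤ U)
    (h2 : ⁅A, V0 N⁆ ≤ U) : ⁅A, N⁆ ≤ U := commutator_le.2 fun a ha n hn => by
  obtain ⟨q, hq, v, hv, rfl⟩ := H.dec hn
  rw [show ⁅a, q * v⁆ = ⁅a, q⁆ * (q * ⁅a, v⁆ * q⁻¹) by simp only [commutatorElement_def]; group]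
  exact mul_mem (h1 (commutator_mem_commutator ha hq))
    (hU.conj_mem _ (h2 (commutator_mem_commutator ha hv)) q)

theorem cc_eq (H : HP N K p) : ⁅commutator G, commutator G⁆ = ⁅N, N⁆ := by
  have := H.nil
  refine le_antisymm (commutator_mono H.cG H.cG) (nil_le (cc_le N) fun m hm => ?_)
  obtain ⟨x, hx, hx'⟩ := H.exists_q
  obtain ⟨n, hn, e⟩ := H.fuse (H.cG hx) hx' hm
  obtain ⟨q, hq, v, hv, rfl⟩ := H.dec hn
  rw [← inv_mul_cancel_left x m, ← e, show x⁻¹ * (q * v * x * (q * v)⁻¹) =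
    (x⁻¹ * q) * ⁅x, v⁆⁻¹ * (x⁻¹ * q)⁻¹ * ⁅x⁻¹, q⁆ by simp only [commutatorElement_def]; group]
  exact mul_mem (mem_sup_right ((inferInstance : (⁅⁅N, N⁆, N⁆).Normal).conj_mem _
    (inv_mem (H.QV3 (commutator_mem_commutator hx hv))) _))
    (mem_sup_left (commutator_mem_commutator (inv_mem hx) hq))

theorem cV4 (H : HP N K p) : ⁅⁅N, N⁆, V0 N⁆ ≤ ⁅⁅⁅N, N⁆, N⁆, N⁆ := by
  conv_lhs => rw [← H.cc_eq]
  exact H90.commutator_commutator_le_of_rotate (commutator_mono H.QV3 H.cG)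
    (commutator_mono ((commutator_comm _ _).le.trans H.QV3) H.cG)

theorem c3_eq (H : HP N K p) : ⁅⁅N, N⁆, commutator G⁆ = ⁅⁅N, N⁆, N⁆ := by
  have := H.nil
  exact le_antisymm (commutator_mono le_rfl H.cG) (nil_le (commutator_le_right _ _)
    (H.split le_sup_left (H.cV4.trans le_sup_right)))

theorem c4_bot (H : HP N K p) (h : ⁅⁅⁅N, N⁆, N⁆, commutator G⁆ ≤ ⁅⁅⁅⁅N, N⁆, N⁆, N⁆, N⁆) :
    ⁅⁅⁅N, N⁆, N⁆, N⁆ = ⊥ := by
  have := H.nil
  refine eq_bot_iff.2 (nil_le (commutator_le_right _ _) ((H.split h ?_).trans le_sup_right))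
  conv_lhs => rw [← H.c3_eq]
  exact H90.commutator_commutator_le_of_rotate ((commutator_mono H.QV3 le_rfl).trans
    (H90.commutator_lcs_lcs_le N 2 1)) (commutator_mono ((commutator_comm _ _).le.trans H.cV4) H.cG)

theorem fpf3 (H : HP N K p) {x : G} (hx : x ∉ N) (h : ∀ u ∈ ⁅N, N⁆, ⁅x, u⁆ ∈ ⁅⁅N, N⁆, N⁆)
    {ν : Lin ↥⁅⁅N, N⁆, N⁆} (hν : ν ∈ linOver ((⁅⁅⁅N, N⁆, N⁆, N⁆).subgroupOf _))
    (e : conjHom _ x ν = ν) : ν = 1 := by
  refine Lin.ext fun w => lin_le ν (fun u hu q hq => ⟨H.c3_eq.le (commutator_mem_commutator hu hq),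
    ?_⟩) (H.c3_eq.ge w.2) w.2
  rw [← inv_eq_one, ← map_inv, ← H.bl (fix_of_ov hν) hx e
    (fun n hn => cm_swap (commutator_mem_commutator hu hn)) (h u hu) hq]
  exact congrArg ν.hom (Subtype.ext (commutatorElement_inv u q))

omit [Finite G] in
theorem VV3 : ⁅⁅V0 N, V0 N⁆, ⊤⁆ ≤ ⁅⁅N, N⁆, N⁆ := by
  have h : ⁅(⊤ : Subgroup G), V0 N⁆ ≤ ⁅N, N⁆ := commutator_le.2 fun g _ _ hv => (mem_V0.1 hv).2 g
  exact H90.commutator_commutator_le_of_rotate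
    (commutator_mono ((commutator_comm _ _).le.trans h) (V0_le N)) (commutator_mono h (V0_le N))

theorem pW (H : HP N K p) {W : Subgroup G} (hW : W ≤ ⁅N, N⁆) : IsPGroup p W :=
  H.pQ.to_le (hW.trans (cc_le_Q N))

theorem lev1 (H : HP N K p) {θ : N → ℂ} (hθ : IsIrrCharacter N θ) {μ : Lin ↥⁅N, N⁆}
    (c : Cen (cc_le N) θ μ) (hμ : μ ≠ 1) : H14.inertia N θ = H14.inertia _ (lin μ) ∧
      charDegree θ ^ 2 = (charCenter θ).index ∧ charCenter θ ≤ (V0 N).subgroupOf N := by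
  have h1 : ∀ x : N, θ x ≠ 0 → (x : G) ∈ V0 N := fun x hx => by_contra fun e =>
    hx (H.vanish hθ (H.nonlin le_rfl hθ c hμ) x e)
  refine ⟨le_antisymm (c.inertia_le hθ) (c.fr hθ H.hp (H.pW le_rfl) H.pN fun x hx =>
    (mem_V0.1 (h1 x hx)).2), H14.degree_sq_eq_index_of_vanish hθ _ le_rfl (fun x hx => ?_)
    (irr_deg hθ), fun x hx => h1 x (ne_zero_of_center hθ hx)⟩
  by_contra e
  exact hx ((c.mem_center hθ fun n hn => commutator_mem_commutator hn x.2).2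
    fun n hn => c.cm hθ e hn _)

theorem inv_of_dvd (H : HP N K p) {θ φ : N → ℂ} (hθ : IsIrrCharacter N θ) (hφ : IsIrrCharacter N φ)
    (h1 : charDegree θ ≠ 1) (h2 : H14.inertia N θ = ⊤) (h : charDegree θ ∣ charDegree φ) :
    H14.inertia N φ = ⊤ := by
  have h3 := H.dm hθ
  rw [h2, index_top, one_mul] at h3
  have h4 := H.nd _ h3 _ (H.dm hφ) h1 (h.mul_left _)
  obtain ⟨k, hk⟩ := h
  rw [hk, mul_comm _ k, ← mul_assoc, eq_comm, mul_eq_right₀ (deg_ne_zero hθ)] at h4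
  exact index_eq_one.1 (Nat.eq_one_of_mul_eq_one_right h4)

theorem inv_of_le (H : HP N K p) {μ ν : Lin ↥⁅N, N⁆}
    (hμ : μ ∈ linOver ((⁅⁅N, N⁆, N⁆).subgroupOf _)) (hν : ν ∈ linOver ((⁅⁅N, N⁆, N⁆).subgroupOf _))
    (hμ1 : μ ≠ 1) (hν1 : ν ≠ 1) (h1 : ∀ g, conjHom _ g μ = μ)
    (h : ∀ v (hv : v ∈ V0 N), (∀ n, ν.hom ⟨_, (mem_V0.1 hv).2 n⟩ = 1 ∨ n ∉ N) →
      ∀ n ∈ N, μ.hom ⟨_, (mem_V0.1 hv).2 n⟩ = 1) (g : G) : conjHom _ g ν = ν := by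
  obtain ⟨θ, hθ, c⟩ := exists_cen' (cc_le N) hμ
  obtain ⟨φ, hφ, d⟩ := exists_cen' (cc_le N) hν
  obtain ⟨a1, a2, -⟩ := H.lev1 hθ c hμ1
  obtain ⟨b1, b2, b3⟩ := H.lev1 hφ d hν1
  have h2 : charCenter φ ≤ charCenter θ := fun x hx =>
    (c.mem_center hθ fun n _ => (mem_V0.1 (b3 hx)).2 n).2 (h x (b3 hx) fun n =>
      or_iff_not_imp_right.2 fun hn => (d.mem_center hφ fun n _ => (mem_V0.1 (b3 hx)).2 n).1 hx n
        (not_not.1 hn))
  have h3 := index_dvd_of_le h2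
  rw [← a2, ← b2, Nat.pow_dvd_pow_iff two_ne_zero] at h3
  refine (mem_inertia_lin _).1 (b1 ▸ H.inv_of_dvd hθ hφ (H.nonlin le_rfl hθ c hμ1) ?_ h3 ▸ mem_top g)
  rw [a1]
  exact eq_top_iff.2 fun g _ => (mem_inertia_lin _).2 (h1 g)

theorem all_inv (H : HP N K p) {μ₀ : Lin ↥⁅N, N⁆}
    (h0 : μ₀ ∈ linOver ((⁅⁅N, N⁆, N⁆).subgroupOf _)) (h1 : μ₀ ≠ 1) (h2 : ∀ g, conjHom _ g μ₀ = μ₀)
    {μ : Lin ↥⁅N, N⁆} (hμ : μ ∈ linOver ((⁅⁅N, N⁆, N⁆).subgroupOf _)) (g : G) :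
    conjHom _ g μ = μ := by
  by_contra h
  have h3 : dl _ g μ ≠ 1 := fun e => h (dl_eq_one.1 e)
  have h4 : dl _ g μ ∈ linOver ((⁅⁅N, N⁆, N⁆).subgroupOf _) :=
    dl_eq _ g μ ▸ mul_mem (conjHom_mem_linOver g hμ) (inv_mem hμ)
  have h5 : ∀ v (hv : v ∈ V0 N), ∀ n ∈ N, (dl _ g μ).hom ⟨_, (mem_V0.1 hv).2 n⟩ = 1 := by
    intro v hv n hn
    obtain ⟨q, hq, u, hu, rfl⟩ := H.dec hn
    rw [dl_apply]
    refine hμ (show ⁅g, ⁅q * u, v⁆⁆ ∈ ⁅⁅N, N⁆, N⁆ from cm_swap ?_)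
    rw [← mk_comm_iff, show ⁅q * u, v⁆ = ⁅q, ⁅u, v⁆⁆ * ⁅u, v⁆ * ⁅q, v⁆ by
      simp only [commutatorElement_def]; group]
    refine mul_mem (mul_mem ?_ ?_) ?_ <;> rw [mk_comm_iff]
    · exact cm_mem' _ g (cm_swap (commutator_mem_commutator ((mem_V0.1 hv).2 u) (H.cG hq)))
    · exact VV3 (commutator_mem_commutator (commutator_mem_commutator hu hv) (mem_top g))
    · exact cm_mem' _ g (H.QV3 (commutator_mem_commutator hq hv))
  have h6 : ∀ t, conjHom _ t (dl _ g μ) = dl _ g μ := fun t => by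
    by_cases e : μ₀ * dl _ g μ = 1
    · rw [eq_inv_of_mul_eq_one_right e, map_inv, h2]
    have := H.inv_of_le h0 (mul_mem h0 h4) h1 e h2 (fun v hv h7 n hn => by
      have := (h7 n).resolve_right (not_not.2 hn)
      rwa [Lin.mul_apply, h5 v hv n hn, mul_one] at this) t
    rwa [map_mul, h2, mul_right_inj] at this
  exact h (H.inv_of_le h4 hμ h3 (fun e => h3 (by rw [e, map_one])) h6 (fun v hv _ => h5 v hv) g)

theorem pow_eq (H : HF N K p) {a b : ℕ} (ha : p ^ a ∈ charDegrees G) (hb : p ^ b ∈ charDegrees G)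
    (h1 : p ^ a ≠ 1) (h2 : p ^ b ≠ 1) : p ^ a = p ^ b :=
  (le_total a b).elim (fun h => H.nd _ ha _ hb h1 (pow_dvd_pow p h))
    fun h => (H.nd _ hb _ ha h2 (pow_dvd_pow p h)).symm

theorem exists_mu (H : HP N K p) :
    ∃ μ ∈ linOver ((⁅⁅N, N⁆, N⁆).subgroupOf ⁅N, N⁆), μ ≠ 1 := by
  have := H.nil
  obtain ⟨a, ha, h1⟩ := SetLike.not_le_iff_exists.1 fun h : ⁅N, N⁆ ≤ ⁅⁅N, N⁆, N⁆ =>
    H.ne (eq_bot_iff.2 (nil_le (cc_le N) (h.trans le_sup_right)))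
  obtain ⟨μ, h2, h3⟩ := exists_lin' (commutator_mono le_rfl (cc_le N)) ha h1
  exact ⟨μ, fun x hx => h2 x hx, fun e => h3 (by rw [e]; rfl)⟩

theorem caseB (H : HP N K p) {μ₀ : Lin ↥⁅N, N⁆}
    (h0 : μ₀ ∈ linOver ((⁅⁅N, N⁆, N⁆).subgroupOf _)) (h1 : μ₀ ≠ 1) (h2 : ∀ g, conjHom _ g μ₀ = μ₀) :
    ∃ m, ∀ d ∈ charDegrees G, d = 1 ∨ d = N.index ∨ d = m := by
  have := H.nil
  have h3 : ∀ x, ∀ u ∈ ⁅N, N⁆, ⁅x, u⁆ ∈ ⁅⁅N, N⁆, N⁆ := fun x u hu => by_contra fun e => by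
    obtain ⟨μ, a1, a2⟩ := exists_lin' (commutator_mono le_rfl (cc_le N)) (cm_mem _ x hu) e
    rw [← dl_apply _ x μ hu, dl_eq_one.2 (H.all_inv h0 h1 h2 (fun y hy => a1 y hy) x)] at a2
    exact a2 rfl
  have h4 : ⁅⁅N, N⁆, N⁆ = ⊥ := eq_bot_iff.2 (nil_le (commutator_le_right _ _)
    (le_sup_right.trans' fun w hw => by_contra fun e => by
      obtain ⟨ν, a1, a2⟩ := exists_lin' (commutator_mono le_rfl (commutator_le_right _ _)) hw e
      have a3 : ν ≠ 1 := fun e => a2 (by rw [e]; rfl)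
      obtain ⟨x, hx, a4⟩ := H.fix_of_over (commutator_le_left _ _) (fun y hy => a1 y hy) a3
      exact a3 (H.fpf3 hx (h3 x) (fun y hy => a1 y hy) a4)))
  have key : ∀ θ, IsIrrCharacter N θ → charDegree θ ≠ 1 → H14.inertia N θ = ⊤ := fun θ hθ h5 => by
    obtain ⟨μ, c⟩ := exists_cen (cc_le N) hθ (by rw [h4, bot_subgroupOf]; exact bot_le)
    rw [(H.lev1 hθ c fun e => h5 ((deg_eq_one_iff_commutator_le hθ).2 fun x hx =>
      (c.ker hθ (commutator_le_subgroupOf_iff.2 le_rfl hx)).2 (by rw [e]; rfl))).1]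
    exact eq_top_iff.2 fun g _ => (mem_inertia_lin _).2 (H.all_inv h0 h1 h2 (c.ov hθ) g)
  obtain ⟨θ, hθ, c⟩ := exists_cen' (cc_le N) h0
  have h5 := H.nonlin le_rfl hθ c h1
  refine ⟨charDegree θ, fun d hd => (H.cases hd).imp_right (Or.imp_right ?_)⟩
  rintro ⟨φ, hφ, h6, rfl⟩
  have h7 := H.dm hθ
  rw [key φ hφ h6, index_top, one_mul] at hd ⊢
  rw [key θ hθ h5, index_top, one_mul] at h7
  obtain ⟨a, ha⟩ := H.pd θ hθ
  obtain ⟨b, hb⟩ := H.pd φ hφ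
  rw [hb] at hd h6 ⊢
  rw [ha] at h7 h5 ⊢
  exact pow_eq H.toHF hd h7 h6 h5

end HP

end Cfsg.Agent.H26.DS
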