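import Cfsg.Agent.H26.DsC

/-! The case where `N` is nilpotent: the main analysis. -/

set_option autoImplicit false

namespace Cfsg.Agent.H26.DS

open Cfsg Subgroup H24 H11 ND
open scoped commutatorElement Pointwise

variable {G : Type*} [Group G]

theorem eq_of_mul {a b c d : ℕ} (h1 : a ∣ c) (h2 : b ∣ d) (h : a * b = c * d) (h0 : a * b ≠ 0) :
    b = d := by
  obtain ⟨k, rfl⟩ := h1
  obtain ⟨l, rfl⟩ := h2
  rw [mul_mul_mul_comm, eq_comm, mul_eq_left₀ h0] at h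
  rw [Nat.eq_one_of_mul_eq_one_left h, mul_one]

theorem exists_gen' {N : Subgroup G} [N.Normal] (hc : IsCyclic (G ⧸ N)) (T : Subgroup G) :
    ∃ t ∈ T, ∀ S : Subgroup G, N ≤ S → t ∈ S → T ≤ S := by
  obtain ⟨⟨_, t, ht, rfl⟩, e⟩ := IsCyclic.exists_generator (α := T.map (QuotientGroup.mk' N))
  refine ⟨t, ht, fun S h1 h2 s hs => ?_⟩
  obtain ⟨k, hk⟩ := e ⟨_, mem_map_of_mem _ hs⟩
  exact (S.mul_mem_cancel_left (inv_mem (zpow_mem h2 k))).1
    (h1 (QuotientGroup.eq.1 (congrArg Subtype.val hk)))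

theorem idx_sup [Finite G] (T N : Subgroup G) [N.Normal] :
    T.index = (T ⊔ N).index * T.relIndex N := by
  have h := idx_mul T N
  rw [← relIndex_mul_index (le_sup_right : N ≤ T ⊔ N), relIndex_sup_right, mul_assoc, mul_comm,
    mul_right_inj' (rne _ _)] at h
  exact h

/-- No invariant linear character on the first layer. -/
def CA (N : Subgroup G) [N.Normal] : Prop :=
  ∀ μ ∈ linOver ((⁅⁅N, N⁆, N⁆).subgroupOf ⁅N, N⁆), (∀ g, conjHom _ g μ = μ) → μ = 1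

/-- The elements of `V0 N` central modulo the third term. -/
def Z1 (N : Subgroup G) [N.Normal] : Subgroup G :=
  V0 N ⊓ (center (G ⧸ ⁅⁅N, N⁆, N⁆)).comap (QuotientGroup.mk' _)

theorem mem_Z1 {N : Subgroup G} [N.Normal] {x : G} :
    x ∈ Z1 N ↔ x ∈ V0 N ∧ ∀ h : G, ⁅h, x⁆ ∈ ⁅⁅N, N⁆, N⁆ := by
  rw [Z1, mem_inf, mem_comap, mem_center_iff]
  refine and_congr_right fun _ => ⟨fun H h => ?_, fun H h => ?_⟩
  · rw [← QuotientGroup.eq_one_iff, ← QuotientGroup.mk'_apply, map_commutatorElement,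
      commutatorElement_eq_one_iff_mul_comm]
    exact H _
  · obtain ⟨h, rfl⟩ := QuotientGroup.mk'_surjective _ h
    exact mk_comm (H h)

variable [Finite G] {N K : Subgroup G} [hN : N.Normal] {p : ℕ}

namespace HP

theorem lev_eq (H : HP N K p) {W : Subgroup G} [W.Normal] (hW : W ≤ ⁅N, N⁆) {r : ℕ}
    (h : ∀ θ ν, IsIrrCharacter N θ → Cen (hW.trans (cc_le N)) θ ν → ν ≠ 1 →
      H14.inertia N θ = H14.inertia W (lin ν) ∧ charDegree θ ^ 2 = r) :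
    (∀ μ ∈ linOver ((⁅W, N⁆).subgroupOf W), ∀ ν ∈ linOver ((⁅W, N⁆).subgroupOf W), μ ≠ 1 → ν ≠ 1 →
      H14.inertia W (lin μ) ≤ H14.inertia W (lin ν)) ∧ ∃ m, ∀ θ ν, IsIrrCharacter N θ →
      Cen (hW.trans (cc_le N)) θ ν → ν ≠ 1 → (H14.inertia N θ).index * charDegree θ = m := by
  have h1 : ∀ μ ∈ linOver ((⁅W, N⁆).subgroupOf W), ∀ ν ∈ linOver ((⁅W, N⁆).subgroupOf W), μ ≠ 1 →
      ν ≠ 1 → H14.inertia W (lin μ) ≤ H14.inertia W (lin ν) := fun μ hμ ν hν a1 a2 =>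
    (le_inf le_rfl le_top).trans (ac W _ ⊤ (fun s _ _ h => conjHom_mem_linOver s h)
      (fun s _ t _ _ h => fix_of_ov h _ (H.cG (cm_Q s t))) (fun μ hμ ν hν a1 a2 a3 => by
        obtain ⟨θ, hθ, c⟩ := exists_cen' (hW.trans (cc_le N)) hμ
        obtain ⟨φ, hφ, d⟩ := exists_cen' (hW.trans (cc_le N)) hν
        obtain ⟨b1, b2⟩ := h θ μ hθ c a1
        obtain ⟨b3, b4⟩ := h φ ν hφ d a2
        have b5 := Nat.pow_left_injective two_ne_zero (b2.trans b4.symm)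
        rw [inf_top_eq] at a3 ⊢
        have b6 := H.nd _ (H.dm hφ) _ (H.dm hθ) (fun e => H.nonlin hW hφ d a2
          (Nat.eq_one_of_mul_eq_one_left e)) (Nat.mul_dvd_mul (b1 ▸ b3 ▸ index_dvd_of_le a3) b5.symm.dvd)
        rw [b1, b3, b5, mul_left_inj' (deg_ne_zero hφ)] at b6
        exact le_of_index_eq a3 b6) hμ hν a1 a2)
  refine ⟨h1, ?_⟩
  by_cases e : ∃ θ ν, IsIrrCharacter N θ ∧ Cen (hW.trans (cc_le N)) θ ν ∧ ν ≠ 1
  · obtain ⟨φ, μ, a1, a2, a3⟩ := e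
    refine ⟨(H14.inertia N φ).index * charDegree φ, fun θ ν b1 b2 b3 => ?_⟩
    rw [(h θ ν b1 b2 b3).1, (h φ μ a1 a2 a3).1, le_antisymm (h1 _ (b2.ov b1) _ (a2.ov a1) b3 a3)
      (h1 _ (a2.ov a1) _ (b2.ov b1) a3 b3), Nat.pow_left_injective two_ne_zero
      ((h θ ν b1 b2 b3).2.trans (h φ μ a1 a2 a3).2.symm)]
  · exact ⟨0, fun θ ν b1 b2 b3 => (e ⟨θ, ν, b1, b2, b3⟩).elim⟩

theorem exists_g (H : HP N K p) (hA : CA N) : ∃ g : G, (∀ S : Subgroup G, N ≤ S → g ∈ S → ⊤ ≤ S) ∧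
    ∀ a ∈ ⁅N, N⁆, ⁅g, a⁆ ∈ ⁅⁅N, N⁆, N⁆ → a ∈ ⁅⁅N, N⁆, N⁆ := by
  obtain ⟨g, -, hg⟩ := exists_gen' H.cyc ⊤
  exact ⟨g, hg, fpf_of_over (commutator_mono le_rfl (cc_le N)) fun μ hμ e => hA μ hμ fun x =>
    (mem_inertia_lin _).1 (hg _ (fun n hn => (mem_inertia_lin _).2 (fix_of_ov hμ n hn))
      ((mem_inertia_lin _).2 e) (mem_top x))⟩

theorem VN3 (H : HP N K p) (hA : CA N) : ⁅V0 N, N⁆ ≤ ⁅⁅N, N⁆, N⁆ := by
  obtain ⟨g, -, hg⟩ := H.exists_g hA
  exact H.split ((commutator_comm _ _).le.trans H.QV3) fun a ha => hg a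
    (commutator_mono (V0_le N) (V0_le N) ha) (cm_swap (VV3 (commutator_mem_commutator ha (mem_top g))))

theorem levA (H : HP N K p) (hA : CA N) (θ : N → ℂ) (μ : Lin ↥⁅N, N⁆) (hθ : IsIrrCharacter N θ)
    (c : Cen (cc_le N) θ μ) (hμ : μ ≠ 1) :
    H14.inertia N θ = H14.inertia _ (lin μ) ∧ charDegree θ ^ 2 = (V0 N).relIndex N := by
  obtain ⟨h1, h2, h3⟩ := H.lev1 hθ c hμ
  refine ⟨h1, h2.trans (congrArg index (le_antisymm h3 fun x hx => ?_))⟩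
  exact (c.mem_center hθ fun n _ => (mem_V0.1 hx).2 n).2 fun n hn =>
    c.ov hθ (cm_swap (H.VN3 hA (commutator_mem_commutator hx hn)))

theorem exists_move (H : HP N K p) (hA : CA N) {μ : Lin ↥⁅N, N⁆}
    (hμ : μ ∈ linOver ((⁅⁅N, N⁆, N⁆).subgroupOf _)) (h1 : μ ≠ 1) {θ : N → ℂ}
    (hθ : IsIrrCharacter N θ) (h2 : ¬ (⁅⁅N, N⁆, N⁆).subgroupOf N ≤ charKer θ) :
    ∃ x ∈ H14.inertia N θ, conjHom _ x μ ≠ μ := by
  by_contra! h
  obtain ⟨φ, hφ, c⟩ := exists_cen' (cc_le N) hμ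
  obtain ⟨a1, a2⟩ := H.levA hA φ μ hφ c h1
  have h3 : charDegree θ ≠ 1 := fun e => h2 (le_trans (fun x hx => by
    have := commutator_le_left _ _ hx
    rw [← Subgroup.map_subtype_commutator] at this
    obtain ⟨b, hb, e⟩ := this
    rwa [← show b = x from Subtype.ext e]) ((deg_eq_one_iff_commutator_le hθ).1 e))
  have h4 := index_dvd_deg_sq_of_vanish ((V0 N).subgroupOf N) hθ (H.vanish hθ h3)
  rw [← relIndex, ← a2, Nat.pow_dvd_pow_iff two_ne_zero] at h4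
  have h5 : (H14.inertia N φ).index ∣ (H14.inertia N θ).index :=
    index_dvd_of_le fun x hx => a1.ge ((mem_inertia_lin _).2 (h x hx))
  have h6 := eq_of_mul h5 h4 (H.nd _ (H.dm hφ) _ (H.dm hθ) (fun e => H.nonlin le_rfl hφ c h1
    (Nat.eq_one_of_mul_eq_one_left e)) (Nat.mul_dvd_mul h5 h4)) (pos_of_mem_cd (H.dm hφ)).ne'
  have h7 := le_center_of_sq hθ (H.vanish hθ h3) (h6 ▸ a2)
  have h8 : ⁅⁅N, N⁆, N⁆ ≤ (charKer θ).map N.subtype := commutator_le.2 fun a ha n hn =>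
    ⟨_, (mem_charCenter_irr_iff hθ).1 (h7 (show (⟨a, cc_le N ha⟩ : N) ∈ _ from cc_le_V0 N ha))
      ⟨n, hn⟩, rfl⟩
  refine h2 fun x hx => ?_
  obtain ⟨b, hb, e⟩ := h8 hx
  rwa [← show b = x from Subtype.ext e]

theorem camA (H : HP N K p) (x : G) (hx : x ∈ commutator G) (hx' : x ∉ ⁅N, N⁆) (w : G)
    (hw : w ∈ ⁅N, N⁆) : ∃ y ∈ commutator G, y * x * y⁻¹ = x * w := by
  have := Fintype.ofFinite (commutator G)
  refine camina H.cc_eq.le (fun φ hφ h1 => vanish_of_fix (cc_le_Q N) H.cc_eq.le (· ∉ N)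
    (fun x hx a ha => H.inj hx ha) (fun x y _ _ => H14.le_inertia _ (isClassFunction_of_irr hφ)
      (cm_Q y x)) fun μ _ => ?_) hx hx' (H.cc_eq.ge hw)
  obtain ⟨θ, hθ, h2⟩ := exists_over H.cG (isIrr_lin_mul μ hφ)
  obtain ⟨x, hx, h3⟩ := H.exists_fix hθ fun e => h1 ((deg_lin_mul μ φ).symm.trans
    ((deg_eq_one_iff_commutator_le (isIrr_lin_mul μ hφ)).2 (le_trans
      (commutator_le_subgroupOf_iff.2 H.cc_eq.le) (le_ker_of_over H.cG (isIrr_lin_mul μ hφ) hθ h2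
        (le_trans (fun x hx => by
          have := mem_subgroupOf.1 hx
          rw [← Subgroup.map_subtype_commutator] at this
          obtain ⟨b, hb, e⟩ := this
          rwa [← show b = x from Subtype.ext e]) ((deg_eq_one_iff_commutator_le hθ).1 e))))))
  obtain ⟨n, hn, h4⟩ := frattini H.cG (isIrr_lin_mul μ hφ) hθ h2 h3
  exact ⟨_, fun e => hx ((N.mul_mem_cancel_right hn).1 e), h4⟩

theorem camB (H : HP N K p) (hA : CA N) (x : G) (hx : x ∈ ⁅N, N⁆) (hx' : x ∉ ⁅⁅N, N⁆, N⁆) (w : G)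
    (hw : w ∈ ⁅⁅N, N⁆, N⁆) : ∃ y ∈ commutator G, y * x * y⁻¹ = x * w := by
  have := Fintype.ofFinite (commutator G)
  have := Fintype.ofFinite ↥⁅N, N⁆
  have h3n : (⁅⁅N, N⁆, N⁆).Normal := inferInstance
  obtain ⟨μ₀, h0, h0'⟩ := H.exists_mu
  refine conj_of_osum (cc_le_Q N) (a := ⟨x, hx⟩)
    (b := ⟨x * w, mul_mem hx (commutator_le_left _ _ hw)⟩) fun ψ hψ => ?_
  by_cases h : (⁅⁅N, N⁆, N⁆).subgroupOf ⁅N, N⁆ ≤ charKer ψ
  · simp only [osum, Finset.sum_apply, H14.conjChar_apply]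
    refine Finset.sum_congr rfl fun q _ => ?_
    rw [← apply_mul_of_mem_charKer' (isClassFunction_of_irr hψ) (h (show (⟨q * w * (q : G)⁻¹,
      commutator_le_left _ _ (h3n.conj_mem w hw q)⟩ : ↥⁅N, N⁆) ∈ _ from h3n.conj_mem w hw q))]
    exact congrArg ψ (Subtype.ext (by simp only [coe_mul]; group))
  have key := vanish_of_fix (commutator_le_left ⁅N, N⁆ N) (commutator_mono le_rfl (cc_le N))
    (fun x => conjHom _ x μ₀ ≠ μ₀) (fun x hx => fpf_of_over (commutator_mono le_rfl (cc_le N))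
      fun μ hμ e => by_contra fun h1 => hx ((mem_inertia_lin _).1 ((H.lev_eq le_rfl (H.levA hA)).1
        μ hμ μ₀ h0 h1 h0' ((mem_inertia_lin _).2 e)))) (ξ := osum _ (commutator G) ψ)
    (fun x y _ _ => mem_inertia_osum (Or.inr (cm_Q y x))) fun μ hμ => by
      obtain ⟨θ, hθ, h2⟩ := exists_over (cc_le N) (isIrr_lin_mul μ hψ)
      obtain ⟨x, h3, h4⟩ := H.exists_move hA h0 h0' hθ fun e => h fun a ha => by
        have h5 := apply_eq_of_mem_charKer (le_ker_of_over (cc_le N) (isIrr_lin_mul μ hψ) hθ h2 e ha)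
        rw [Pi.mul_apply, Pi.mul_apply, lin_apply_one, lin_apply, show μ.hom a = 1 from hμ ha] at h5
        exact (mem_charKer_irr_iff hψ).2 (by simpa using h5)
      obtain ⟨n, hn, h5⟩ := frattini (cc_le N) (isIrr_lin_mul μ hψ) hθ h2 h3
      refine ⟨x * n, fun e => h4 ?_, ?_⟩
      · rw [← mul_inv_cancel_right x n, ← conjHom_conjHom, e, fix_of_ov h0 _ (inv_mem hn)]
      · rw [lin_mul_osum ψ fun q hq => fix_of_ov hμ q (H.cG hq)]
        exact mem_inertia_osum (Or.inl h5)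
  rw [key _ hx', key _ fun e => hx' ((mul_mem_cancel_right hw).1 e)]

theorem exists_c (H : HP N K p) (hA : CA N) :
    ∃ c, c ∉ N ∧ ∀ u ∈ ⁅N, N⁆, ⁅c, u⁆ ∈ ⁅⁅N, N⁆, N⁆ := by
  obtain ⟨μ₀, h0, h0'⟩ := H.exists_mu
  obtain ⟨c, h1, h2⟩ := H.fix_of_over le_rfl h0 h0'
  refine ⟨c, h1, fun u hu => by_contra fun e => ?_⟩
  obtain ⟨μ, a1, a2⟩ := exists_lin' (commutator_mono le_rfl (cc_le N)) (cm_mem _ c hu) e
  have a3 : μ ≠ 1 := fun e => a2 (by rw [e]; rfl)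
  rw [← dl_apply _ c μ hu, dl_eq_one.2 ((mem_inertia_lin _).1 ((H.lev_eq le_rfl (H.levA hA)).1
    μ₀ h0 μ (fun y hy => a1 y hy) h0' a3 ((mem_inertia_lin _).2 h2)))] at a2
  exact a2 rfl

theorem c4 (H : HP N K p) (hA : CA N) : ⁅⁅⁅N, N⁆, N⁆, N⁆ = ⊥ := by
  have : Fact p.Prime := ⟨H.hp⟩
  obtain ⟨c, h1, h2⟩ := H.exists_c hA
  have h := ds_sub H.pQ (by rw [H.cc_eq]; exact H.camA) (by rw [H.cc_eq, H.c3_eq]; exact H.camB hA)
    c (by rwa [H.cc_eq, H.c3_eq]) (by rw [H.cc_eq]; exact fun g hg => H.inj h1 hg)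
  rw [H.cc_eq, H.c3_eq] at h
  exact H.c4_bot (h.trans (commutator_mono (commutator_mono le_rfl H.cG) H.cG))

theorem V0_ab (H : HP N K p) (hA : CA N) {v w : G} (hv : v ∈ V0 N) (hw : w ∈ V0 N) :
    v * w = w * v := by
  obtain ⟨c, h1, h2⟩ := H.exists_c hA
  have h4 := H.c4 hA
  have h3 : ∀ a ∈ ⁅N, N⁆, ∀ u ∈ V0 N, a * u = u * a := fun a ha u hu =>
    commutatorElement_eq_one_iff_mul_comm.1 (h4.le (H.cV4 (commutator_mem_commutator ha hu)))
  refine commutatorElement_eq_one_iff_mul_comm.1 (h4.le (commutator_mono le_rfl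
    (commutator_le_right _ _) (fpf_of_lin _ (fun ν e => H.fpf3 h1 h2 (fun a ha => ?_) e)
    (H.VN3 hA (commutator_mem_commutator hv (V0_le N hw))) ?_)))
  · rw [show a = 1 from Subtype.ext (h4.le ha)]; exact one_mem _
  have a1 := h3 _ ((mem_V0.1 hv).2 c)
  have a2 := h3 _ ((mem_V0.1 hw).2 c)
  have a3 : c * ⁅v, w⁆ * c⁻¹ = ⁅⁅c, v⁆ * v, ⁅c, w⁆ * w⁆ := by
    simp only [commutatorElement_def]; group
  have a4 := a1 _ (mul_mem (cc_le_V0 N ((mem_V0.1 hw).2 c)) hw)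
  have a5 := a2 v hv
  have a6 := a1 _ (cc_le_V0 N (commutator_mem_commutator (V0_le N hv)
    (mul_mem (cc_le N ((mem_V0.1 hw).2 c)) (V0_le N hw))))
  have a7 := a2 _ (cc_le_V0 N (commutator_mem_commutator (V0_le N hv) (V0_le N hw)))
  rw [commutatorElement_def c, a3]
  generalize ⁅c, v⁆ = a at *
  generalize ⁅c, w⁆ = b at *
  rw [show ⁅a * v, b * w⁆ = a * ⁅v, b * w⁆ * a⁻¹ * (a * (b * w) * a⁻¹ * (b * w)⁻¹) by
    simp only [commutatorElement_def]; group, a6, a4, show ⁅v, b * w⁆ =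
    v * b * v⁻¹ * b⁻¹ * (b * ⁅v, w⁆ * b⁻¹) by simp only [commutatorElement_def]; group, ← a5, a7]
  simp [-commutatorElement_inv]

theorem Z1_cen (H : HP N K p) (hA : CA N) {z : G} (hz : z ∈ Z1 N) {n : G} (hn : n ∈ N) :
    n * z = z * n := by
  obtain ⟨q, hq, v, hv, rfl⟩ := H.dec hn
  rw [mul_assoc, H.V0_ab hA hv (mem_Z1.1 hz).1, ← mul_assoc, commutatorElement_eq_one_iff_mul_comm.1
    ((H.c4 hA).le (H.cm_QV (commutator_le_left _ _) (mem_Z1.1 hz).2 hq)), mul_assoc]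

theorem decZ (H : HP N K p) (hA : CA N) {v : G} (hv : v ∈ V0 N) :
    ∃ a ∈ ⁅N, N⁆, ∃ z ∈ Z1 N, v = a * z := by
  obtain ⟨g, h1, h2⟩ := H.exists_g hA
  obtain ⟨a, ha, w, hw, e⟩ := exists_commutator_mul (commutator_mono le_rfl (cc_le N)) h2
    ((mem_V0.1 hv).2 g)
  have h3 := mul_mem (inv_mem (cc_le_V0 N ha)) hv
  refine ⟨a, ha, a⁻¹ * v, mem_Z1.2 ⟨h3, fun h => (mk_comm_iff _ _ _).1 (h1 _ (fun n hn =>
    (mk_comm_iff _ _ _).2 (cm_swap (H.VN3 hA (commutator_mem_commutator h3 hn))))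
    ((mk_comm_iff _ _ _).2 ?_) (mem_top h))⟩, by group⟩
  convert (inferInstance : (⁅⁅N, N⁆, N⁆).Normal).conj_mem _ hw a⁻¹ using 1
  rw [eq_inv_mul_iff_mul_eq.2 e.symm]
  simp only [commutatorElement_def]; group

theorem levB (H : HP N K p) (hA : CA N) (θ : N → ℂ) (ν : Lin ↥⁅⁅N, N⁆, N⁆)
    (hθ : IsIrrCharacter N θ) (c : Cen ((commutator_le_left _ _).trans (cc_le N)) θ ν)
    (hν : ν ≠ 1) : H14.inertia N θ = H14.inertia _ (lin ν) ∧ charDegree θ ^ 2 = (Z1 N).relIndex N := by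
  have h1 : ∀ x : N, θ x ≠ 0 → (x : G) ∈ Z1 N := fun x hx => by
    obtain ⟨a, ha, z, hz, e⟩ := H.decZ hA (by_contra fun e =>
      hx (H.vanish hθ (H.nonlin (commutator_le_left _ _) hθ c hν) x e))
    rw [e]
    refine mul_mem (by_contra fun h => hν (Lin.ext fun w => ?_)) hz
    obtain ⟨y, hy, e'⟩ := H.camB hA a ha (fun h' => h (mem_Z1.2
      ⟨cc_le_V0 N ha, fun g => cm_mem _ g h'⟩)) w w.2
    have h2 : ⁅y, (x : G)⁆ = w := by
      rw [commutatorElement_def, e, ← mul_assoc, mul_assoc (y * a),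
        ← H.Z1_cen hA hz (inv_mem (H.cG hy)), ← mul_assoc, e', mul_inv_rev, mul_assoc,
        mul_inv_cancel_left, commutatorElement_eq_one_iff_mul_comm.1 ((H.c4 hA).le
          (commutator_mem_commutator w.2 (cc_le N ha))) |>.symm, mul_inv_cancel_right]
    rw [Lin.one_apply, ← c.cm hθ hx (H.cG hy) (h2 ▸ w.2)]
    exact congrArg ν.hom (Subtype.ext h2.symm)
  refine ⟨le_antisymm (c.inertia_le hθ) (c.fr hθ H.hp (H.pW (commutator_le_left _ _)) H.pN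
    fun x hx => (mem_Z1.1 (h1 x hx)).2), H14.degree_sq_eq_index_of_vanish hθ _ (fun x hx =>
    center_le_charCenter hθ (mem_center_iff.2 fun n => Subtype.ext (H.Z1_cen hA hx n.2)))
    (fun x hx => by_contra fun e => hx (h1 x e)) (irr_deg hθ)⟩

theorem caseA (H : HP N K p) (hA : CA N) : (∃ a b, ∀ d ∈ charDegrees G,
    d = 1 ∨ d = N.index ∨ d = a ∨ d = b) ∧ derivedSeries G 3 = ⊥ := by
  obtain ⟨a, ha⟩ := (H.lev_eq le_rfl (H.levA hA)).2
  obtain ⟨b, hb⟩ := (H.lev_eq (commutator_le_left _ _) (H.levB hA)).2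
  refine ⟨⟨a, b, fun d hd => (H.cases hd).imp_right (Or.imp_right ?_)⟩, eq_bot_iff.2 ?_⟩
  · rintro ⟨θ, hθ, h1, rfl⟩
    by_cases h : (⁅⁅N, N⁆, N⁆).subgroupOf N ≤ charKer θ
    · obtain ⟨μ, c⟩ := exists_cen (cc_le N) hθ h
      exact Or.inl (ha θ μ hθ c fun e => h1 ((deg_eq_one_iff_commutator_le hθ).2 fun x hx =>
        (c.ker hθ (commutator_le_subgroupOf_iff.2 le_rfl hx)).2 (by rw [e]; rfl)))
    · obtain ⟨ν, c⟩ := exists_cen ((commutator_le_left _ _).trans (cc_le N)) hθ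
        (by rw [H.c4 hA, bot_subgroupOf]; exact bot_le)
      exact Or.inr (hb θ ν hθ c fun e => h fun x hx => (c.ker hθ hx).2 (by rw [e]; rfl))
  · rw [← H.c4 hA, derivedSeries_succ, derivedSeries_succ, derivedSeries_one, H.cc_eq]
    exact H90.commutator_lcs_lcs_le N 1 1

theorem cX (H : HP N K p) (hP : IsPGroup p N) {T : Subgroup G} (h1 : ⁅T, T⁆ = ⊥) (h2 : ¬ T ≤ N)
    (h3 : ∀ d ∈ charDegrees G, d ≠ 1 → d ∣ T.index → d = T.index) {c : G} (hc : c ∈ commutator G)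
    (h4 : ∀ t ∈ T, ⁅t, c⁆ = 1) : c = 1 := by
  have : Fact p.Prime := ⟨H.hp⟩
  have := H.nil
  obtain ⟨t, ht, hg⟩ := exists_gen' H.cyc T
  have ht' : t ∉ N := fun e => h2 (hg N le_rfl e)
  have hS : T ⊓ N ≤ V0 N := fun s hs => H.mem_V0_of ht' hs.2 (by
    rw [h1.le (commutator_mem_commutator ht hs.1)]; exact one_mem _)
  have bd : ∀ θ, IsIrrCharacter N θ → ∀ S U : Subgroup G, ⁅S, S⁆ ≤ U →
      U.subgroupOf N ≤ charKer θ → charDegree θ ≤ S.relIndex N := fun θ hθ S U a1 a2 =>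
    deg_le_index_of_commutator_le hθ (S.subgroupOf N) (le_trans (commutator_le.2 fun a ha b hb =>
      a1 (commutator_mem_commutator ha hb)) a2)
  have key : ∀ θ, IsIrrCharacter N θ → charDegree θ ≠ 1 → t ∈ H14.inertia N θ →
      charDegree θ = (T ⊓ N).relIndex N := fun θ hθ a1 a2 => by
    have a3 := H14.le_inertia N (isClassFunction_of_irr hθ)
    have a4 := index_dvd_of_le (sup_le (hg _ a3 a2) a3)
    have a5 := bd θ hθ T ⊥ h1.le (by rw [bot_subgroupOf]; exact bot_le)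
    obtain ⟨a, ha⟩ := H.pd θ hθ
    obtain ⟨b, hb⟩ := hP.index (T.subgroupOf N)
    have a6 : charDegree θ ∣ T.relIndex N := by
      rw [relIndex, hb, ha] at a5 ⊢
      exact pow_dvd_pow _ ((Nat.pow_le_pow_iff_right H.hp.one_lt).1 a5)
    rw [inf_relIndex_right]
    refine eq_of_mul a4 a6 ?_ (pos_of_mem_cd (H.dm hθ)).ne'
    rw [← idx_sup]
    exact h3 _ (H.dm hθ) (fun e => a1 (Nat.eq_one_of_mul_eq_one_left e))
      (idx_sup T N ▸ Nat.mul_dvd_mul a4 a6)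
  have l1 : ∀ μ ∈ linOver ((⁅⁅N, N⁆, N⁆).subgroupOf ⁅N, N⁆), conjHom _ t μ = μ → μ = 1 := by
    intro μ hμ e
    by_contra hμ1
    obtain ⟨θ, hθ, d⟩ := exists_cen' (cc_le N) hμ
    obtain ⟨q, hq, hq'⟩ := H.exists_q
    refine hq' (hS (le_of_relIndex_le (S := T ⊓ N ⊔ zpowers q) le_sup_left
      (sup_le inf_le_right (zpowers_le_of_mem (H.cG hq))) ?_ (mem_sup_right (mem_zpowers q))))
    rw [← key θ hθ (H.nonlin le_rfl hθ d hμ1) ((H.lev1 hθ d hμ1).1.ge ((mem_inertia_lin _).2 e))]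
    exact bd θ hθ _ ⁅⁅N, N⁆, N⁆ (cm_sup_zpowers ((commutator_mono inf_le_left inf_le_left).trans
      (h1.le.trans bot_le)) fun s hs => H.QV3 (commutator_mem_commutator hq (hS hs)))
      fun x hx => (d.ker hθ (commutator_le_left _ _ hx)).2 (hμ hx)
  have l2 := fpf_of_over (commutator_mono le_rfl (cc_le N)) l1
  have hA : CA N := fun μ hμ e => l1 μ hμ (e t)
  have c3 := l2 c (H.inj ht' hc (by rw [h4 t ht]; exact one_mem _)) (by rw [h4 t ht]; exact one_mem _)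
  refine (H.c4 hA).le (commutator_mono le_rfl (commutator_le_right _ _) (fpf_of_lin _
    (fun ν e => by_contra fun hν => ?_) c3 (by rw [h4 t ht]; exact one_mem _)))
  obtain ⟨θ, hθ, d⟩ := exists_cen' ((commutator_le_left _ _).trans (cc_le N)) (ν := ν)
    fun a ha => by rw [show a = 1 from Subtype.ext ((H.c4 hA).le ha)]; exact one_mem _
  have l3 := le_of_relIndex_le hS (V0_le N) (by
    rw [← key θ hθ (H.nonlin (commutator_le_left _ _) hθ d hν)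
      ((H.levB hA θ ν hθ d hν).1.ge ((mem_inertia_lin _).2 e))]
    exact bd θ hθ _ ⊥ (commutator_le.2 fun a ha b hb => commutatorElement_eq_one_iff_mul_comm.2
      (H.V0_ab hA ha hb)) (by rw [bot_subgroupOf]; exact bot_le))
  exact H.ne (eq_bot_iff.2 (nil_le (cc_le N) (le_sup_right.trans' fun a ha => l2 a ha (by
    rw [h1.le (commutator_mem_commutator ht (l3 (cc_le_V0 N ha)).1)]; exact one_mem _))))

end HP

end Cfsg.Agent.H26.DS
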