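import Cfsg.Agent.H26.DsD

/-! Solvable groups without divisibility among degrees: at most four degrees, length three. -/

set_option autoImplicit false

namespace Cfsg.Agent.H26.DS

open Cfsg Subgroup H24 H11 ND
open scoped commutatorElement Pointwise

variable {G : Type*} [Group G] [Finite G] [Group.IsSolvable G]

theorem HF.cc_le_L {N K L : Subgroup G} [hN : N.Normal] [hL : L.Normal] {p : ℕ} (H : HF N K p)
    (hLN : L ≤ N) (hc : (Nat.card L).Coprime p) {k : ℕ} (hk : L.relIndex N = p ^ k)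
    (hne : ⁅N, N⁆ ⊓ L ≠ ⊥) : ⁅N, N⁆ ≤ L := by
  have : Fact p.Prime := ⟨H.hp⟩
  obtain ⟨P⟩ : Nonempty (Sylow p G) := inferInstance
  by_contra hn
  let π := QuotientGroup.mk' L
  have hs : Function.Surjective π := QuotientGroup.mk'_surjective L
  have hπ : ∀ x, π x = 1 ↔ x ∈ L := QuotientGroup.eq_one_iff
  have := hN.map π hs
  have h0 : Nat.card (N.map π) = p ^ k := by rw [← relIndex_eq_card, hk]
  have H' := (H.quot L (H.L_le hLN hc)).toHP (L := ⊥) bot_le (k := k)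
    (by rw [relIndex_bot_left, h0]) (inf_bot_eq _) (by rw [card_bot]; exact Nat.coprime_one_left p)
    (by rwa [← map_commutator, Ne, Subgroup.map_eq_bot_iff, QuotientGroup.ker_mk'])
  have key : ∀ μ : Lin ↥(⁅N, N⁆ ⊓ L), μ ≠ 1 → ∀ c, π c ∈ commutator (G ⧸ L) →
      (∀ t ∈ H14.inertia _ (lin μ), ⁅π t, π c⁆ = 1) → c ∈ L := fun μ hμ c h1 h2 => by
    obtain ⟨a1, a2, a3, a4⟩ := H.inertia_cd hLN hc hk rfl hμ
    refine (hπ c).1 (H'.cX (IsPGroup.of_card h0) (T := (H14.inertia _ (lin μ)).map π) ?_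
      (fun e => a4 ?_) (fun d hd b1 b2 => ?_) h1 ?_)
    · rw [← map_commutator, Subgroup.map_eq_bot_iff, QuotientGroup.ker_mk']
      exact a3.trans inf_le_right
    · rwa [map_le_iff_le_comap, comap_map_eq_self (by rwa [QuotientGroup.ker_mk'])] at e
    · have b3 := index_map_dvd (H14.inertia _ (lin μ)) hs
      exact Nat.dvd_antisymm b2 (H.nd d (cd_quotient_subset L hd) _ a1 b1 (b2.trans b3) ▸ b3)
    · rintro _ ⟨t, ht, rfl⟩
      exact h2 t ht
  let Q₁ := (P : Subgroup G) ⊓ (commutator (G ⧸ L)).comap π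
  have hQ : IsPGroup p Q₁ := P.isPGroup'.to_le inf_le_left
  have e1 : ∀ u ∈ Q₁, u ∈ L → u = 1 := fun u hu h =>
    (pow_of_mem hQ hu).elim fun _ hj => eq_one_of_coprime hc h hj
  have e2 : ∀ c ∈ commutator (G ⧸ L), ∃ u ∈ Q₁, π u = c := fun c h => by
    obtain ⟨c, h1, rfl⟩ := (map_mk'_commutator L).ge h
    obtain ⟨a, ha, u, hu, rfl⟩ := H.decomp hLN hk P (H.cG h1)
    rw [map_mul, (hπ a).2 ha, one_mul] at h ⊢
    exact ⟨u, ⟨hu, h⟩, rfl⟩
  let _ := linAct (⁅N, N⁆ ⊓ L)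
  obtain ⟨μ, hμ⟩ := exists_lin_ne hne
  have : Nontrivial (Lin ↥(⁅N, N⁆ ⊓ L)) := ⟨⟨μ, 1, hμ⟩⟩
  have hS : H5.Semireg Q₁ (Lin ↥(⁅N, N⁆ ⊓ L)) := fun u hu ν e => by_contra fun hν =>
    hu (Subtype.ext (e1 u u.2 (key ν hν u u.2.2 fun t ht => by
      rw [← map_commutatorElement, hπ]
      exact ((H.inertia_cd hLN hc hk rfl hν).2.2.1 (commutator_mem_commutator ht
        (inv_mem_iff.1 ((mem_inertia_lin _).2 e)))).2)))
  have h1 : ¬ ∀ a b : Q₁, a * b = b * a := fun h => H'.ne (H'.cc_eq ▸ eq_bot_iff.2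
    (commutator_le.2 fun a ha b hb => by
      obtain ⟨a, ha', rfl⟩ := e2 a ha
      obtain ⟨b, hb', rfl⟩ := e2 b hb
      rw [← map_commutatorElement, commutatorElement_eq_one_iff_mul_comm.2
        (congrArg Subtype.val (h ⟨a, ha'⟩ ⟨b, hb'⟩)), map_one]
      exact one_mem _))
  obtain h2 | ⟨rfl, -⟩ := hS.isCyclic_or_quaternion hQ
  · exact h1 h2.isMulCommutative.is_comm.comm
  have : Nontrivial Q₁ := not_subsingleton_iff_nontrivial.1 fun h => h1 fun _ _ => h.elim _ _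
  obtain ⟨n, hn0, hn⟩ := hQ.nontrivial_iff_card.1 this
  obtain ⟨s, h3⟩ := exists_prime_orderOf_dvd_card' (G := Q₁) 2 (hn ▸ dvd_pow_self 2 hn0.ne')
  have h4 : (s : G) ∉ L := fun e => by
    rw [show s = 1 from Subtype.ext (e1 s s.2 e), orderOf_one] at h3
    exact absurd h3 (by decide)
  refine h4 (key μ hμ s s.2.2 fun t _ => ?_)
  obtain ⟨u, hu, e⟩ := e2 _ ((inferInstance : (commutator (G ⧸ L)).Normal).conj_mem _ s.2.2 (π t))
  have h5 : (s : G) ^ 2 = 1 := congrArg Subtype.val (h3 ▸ pow_orderOf_eq_one s)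
  have h6 := hS.involution_unique h3 (t := ⟨u, hu⟩) (orderOf_eq_prime (Subtype.ext
    (e1 _ (pow_mem hu 2) ((hπ _).1 (by rw [coe_pow, map_pow, e, conj_pow, ← map_pow, h5, map_one, mul_one,
      mul_inv_cancel])))) fun e' => h4 ((hπ _).1 (by
        rw [show u = 1 from congrArg Subtype.val e', map_one, eq_comm, conj_eq_one_iff] at e
        exact e)))
  rw [commutatorElement_def, ← e, ← h6, mul_inv_cancel]

omit [Group.IsSolvable G] in
theorem fin4 {a b c : ℕ} (h : ∀ d ∈ charDegrees G, d = 1 ∨ d = a ∨ d = b ∨ d = c) :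
    Nat.card ↥(charDegrees G) ≤ 4 := by
  rw [Nat.card_coe_set_eq]
  refine (Set.ncard_le_ncard (t := {1, a, b, c}) h).trans ?_
  refine (Set.ncard_insert_le _ _).trans (Nat.succ_le_succ ((Set.ncard_insert_le _ _).trans
    (Nat.succ_le_succ ((Set.ncard_insert_le _ _).trans (by simp)))))

omit [Group.IsSolvable G] in
theorem fin3 {a b : ℕ} (h : ∀ d ∈ charDegrees G, d = 1 ∨ d = a ∨ d = b) :
    Nat.card ↥(charDegrees G) ≤ 4 ∧ derivedSeries G 3 = ⊥ :=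
  ⟨fin4 (c := 1) fun d hd => (h d hd).imp_right (Or.imp_right Or.inl),
    derivedSeries_three_of_ncard_le ((Set.ncard_le_ncard (t := {1, a, b}) h).trans
      ((Set.ncard_insert_le _ _).trans (Nat.succ_le_succ ((Set.ncard_insert_le _ _).trans
        (by simp)))))⟩

theorem HF.main {N K : Subgroup G} [N.Normal] {p : ℕ} (H : HF N K p) :
    Nat.card ↥(charDegrees G) ≤ 4 ∧ derivedSeries G 3 = ⊥ := by
  obtain ⟨L, h1, h2, h3, k, hk⟩ := H.exists_L
  by_cases h : ⁅N, N⁆ ≤ L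
  · exact (H.three_of_cop (h3.coprime_dvd_left (card_dvd_of_le h))).elim fun _ => fin3
  have h4 : ⁅N, N⁆ ⊓ L = ⊥ := by_contra fun e => h (H.cc_le_L h2 h3 hk e)
  have H' := H.toHP h2 hk h4 h3 fun e => h (e.le.trans bot_le)
  by_cases hA : CA N
  · obtain ⟨⟨a, b, h5⟩, h6⟩ := H'.caseA hA
    exact ⟨fin4 h5, h6⟩
  · unfold CA at hA
    push Not at hA
    obtain ⟨μ, a1, a2, a3⟩ := hA
    exact (H'.caseB a1 a3 a2).elim fun _ => fin3

theorem pcase (nd : ∀ a ∈ charDegrees G, ∀ b ∈ charDegrees G, a ≠ 1 → a ∣ b → a = b)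
    {K : Subgroup G} [K.Normal] {p a : ℕ} (hp : p.Prime) (ha : K.index = p ^ a) {χ : G → ℂ}
    (hχ : IsIrrCharacter G χ) (h3 : K ≤ charKer χ) (hf : charDegree χ ≠ 1) {d : ℕ}
    (hd : d ∈ charDegrees G) : d = 1 ∨ d = charDegree χ := by
  obtain ⟨L, hL, h1, k, hk⟩ := exists_normal_complement_of_cd hp fun d hd h5 => by_contra fun h6 =>
    hf ((mul_eq_left₀ (pos_of_mem_cd hd).ne').1 (nd d hd _ (mul_mem_cd_of_coprime K hd
      (deg_mem_cd_quotient hχ K h3) (ha ▸ (hp.coprime_iff_not_dvd.2 h6).symm.pow_right a)) h5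
      (Dvd.intro _ rfl)).symm)
  have hLK : L ≤ K := fun x hx => mem_of_pow_coprime (h1.pow_right a) (by
    rw [show x ^ Nat.card L = 1 from congrArg Subtype.val (pow_card_eq_one' (x := (⟨x, hx⟩ : L)))]
    exact one_mem _) (ha ▸ K.pow_index_mem x)
  have h0 : charDegree χ ∣ K.index := dvd_card_of_mem_cd (deg_mem_cd_quotient hχ K h3)
  obtain ⟨b, -, hb⟩ := (Nat.dvd_prime_pow hp).1 (ha ▸ h0)
  have h2 := comm_of_cd (G := L) fun e he => by_contra fun h4 => by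
    obtain ⟨θ, hθ, rfl⟩ := mem_cd.1 he
    have h5 := fun β => index_inertia_mul_mem_cd_of_hall L (hk ▸ h1.pow_right k) hθ (β := β)
    have h6 := h5 _ isIrrCharacter_one (by rw [charKer_one]; exact le_top)
    rw [deg_one, mul_one] at h6
    have h7 := deg_le_index_of_commutator_le hχ _ ((commutator_le_subgroupOf_iff.1
      (commutator_le_of_forall_deg _ fun β hβ h8 => (mul_eq_left₀ (pos_of_mem_cd h6).ne').1
        (nd _ h6 _ (mul_assoc _ _ (charDegree β) ▸ h5 β hβ h8) (fun e => h4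
          (Nat.eq_one_of_mul_eq_one_left e)) (Dvd.intro _ rfl)).symm)).trans (hLK.trans h3))
    obtain ⟨c, -, h8⟩ := (Nat.dvd_prime_pow hp).1
      (hk ▸ index_dvd_of_le (H14.le_inertia L (isClassFunction_of_irr hθ)))
    have h9 := nd _ (deg_mem_cd hχ) _ h6 hf (Dvd.dvd.mul_right (by
      rw [hb, h8] at h7 ⊢
      exact pow_dvd_pow _ ((Nat.pow_le_pow_iff_right hp.one_lt).1 h7)) _)
    exact h4 (Nat.eq_one_of_dvd_coprimes (h1.pow_right b) (deg_dvd_card hθ)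
      (hb ▸ h9 ▸ Dvd.intro_left _ rfl))
  obtain ⟨ψ, hψ, rfl⟩ := mem_cd.1 hd
  obtain ⟨c, -, h4⟩ := (Nat.dvd_prime_pow hp).1 (hk ▸ deg_dvd_index_of_comm hψ L fun x hx y hy =>
    congrArg Subtype.val (h2 ⟨x, hx⟩ ⟨y, hy⟩))
  refine or_iff_not_imp_left.2 fun h5 => (le_total b c).elim (fun h => (nd _ (deg_mem_cd hχ) _ hd hf
    ?_).symm) fun h => nd _ hd _ (deg_mem_cd hχ) h5 ?_ <;> rw [hb, h4] <;> exact pow_dvd_pow p h

theorem main (hnd : ∀ a ∈ charDegrees G, ∀ b ∈ charDegrees G, 1 < a → a < b → ¬ a ∣ b) :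
    Nat.card ↥(charDegrees G) ≤ 4 ∧ derivedSeries G 3 = ⊥ := by
  have nd : ∀ a ∈ charDegrees G, ∀ b ∈ charDegrees G, a ≠ 1 → a ∣ b → a = b := fun a ha b hb h1 h2 =>
    by_contra fun h => hnd a ha b hb (by have := pos_of_mem_cd ha; omega)
      (lt_of_le_of_ne (Nat.le_of_dvd (pos_of_mem_cd hb) h2) h) h2
  by_cases h0 : commutator G ≤ ⊥
  · refine fin3 (a := 1) (b := 1) fun d hd => Or.inl ?_
    obtain ⟨χ, hχ, rfl⟩ := mem_cd.1 hd
    exact (deg_eq_one_iff_commutator_le hχ).2 (h0.trans bot_le)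
  obtain ⟨I, hI, h1, h2⟩ : ∃ I : Subgroup G, I.Normal ∧ ¬ commutator G ≤ I ∧
      (commutator G ≤ ⁅(⊤ : Subgroup G), commutator G⁆ ∨ ⁅(⊤ : Subgroup G), commutator G⁆ ≤ I) := by
    by_cases h : commutator G ≤ ⁅(⊤ : Subgroup G), commutator G⁆
    · exact ⟨⊥, inferInstance, h0, Or.inl h⟩
    · exact ⟨_, inferInstance, h, Or.inr le_rfl⟩
  obtain ⟨K, hK, h3, h4, h5⟩ := exists_maximal_not_commutator_le I h1
  obtain ⟨p, f, hp, hf, ⟨χ, hχ, h6, rfl⟩, -, ⟨Z, hZ⟩ | ⟨N, hF⟩⟩ := dichotomy K h4 h5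
  · obtain ⟨a, ha⟩ := hZ.index_pow
    exact fin3 (b := 1) fun d hd => (pcase nd hp ha hχ h6 hf.ne' hd).imp_right Or.inl
  have := hF.normal
  have h7 : N.index ≠ 1 := hF.index_eq ▸ hf.ne'
  refine HF.main (N := N) (K := K) (p := p) ⟨hK, hp, nd, fun d hd h8 =>
    (FCase.mul_mem_cd_or_dvd hp hF hd).elim (fun h9 => (h8 ((mul_eq_left₀ (by omega)).1
      (nd _ (deg_mem_cd hχ) _ h9 hf.ne' (Dvd.intro _ rfl)).symm)).elim) And.left,
    ⟨χ, hχ, h6, hF.index_eq.symm⟩, h7, hF.le, hF.commutator_le, h4, hF.pow_mem, hF.fpf,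
    hF.index_eq ▸ hF.not_dvd, hF.commutator_le', h2.resolve_right fun h => h4 fun n hn => ?_⟩
  obtain ⟨g, hg⟩ : ∃ g, g ∉ N := by
    by_contra! e
    exact h7 (index_eq_one.2 (eq_top_iff.2 fun x _ => e x))
  exact hF.fpf g hg n (hF.commutator_le' hn) (h3 (h (commutator_mem_commutator (mem_top g) hn)))

end Cfsg.Agent.H26.DS
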