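import Cfsg.Agent.H26.DsLie
import Cfsg.Agent.H26.DsB
import Cfsg.Agent.H90.LieGroup

/-! A class bound for Camina `p`-groups with an automorphism. -/

set_option autoImplicit false

namespace Cfsg.Agent.H26.DS

open Subgroup H90 H90.NSeries Module ND
open scoped commutatorElement

variable {Γ : Type*} [Group Γ]

theorem count_lt [Finite Γ] {U B D : Subgroup Γ} [U.Normal] {x : Γ}
    (h : ∀ w ∈ B, ∃ y, y * x * y⁻¹ = x * w) (hx : x ∉ D) (hD : ∀ d ∈ D, ⁅d, x⁆ ∈ U) :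
    U.relIndex B < D.index := by
  let π := QuotientGroup.mk' U
  let C := (centralizer {π x}).comap π
  have h1 : D ≤ C := fun d hd => (mk_comm_iff U x d).2 (hD d hd)
  have h2 : U.relIndex B ≤ C.index := by
    rw [relIndex_eq_card]
    have h3 : ∀ w : B.map π, ∃ y, π y * π x * (π y)⁻¹ = π x * w := by
      rintro ⟨_, w, hw, rfl⟩
      obtain ⟨y, e⟩ := h w hw
      exact ⟨y, by rw [← map_inv, ← map_mul, ← map_mul, e, map_mul]⟩
    choose y hy using h3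
    refine Nat.card_le_card_of_injective (fun w => (y w : Γ ⧸ C)) fun a b e => Subtype.ext ?_
    have h4 := mem_centralizer_singleton_iff.1 (mem_comap.1 (QuotientGroup.eq.1 e))
    rw [map_mul, map_inv] at h4
    refine mul_left_cancel (a := π x) ?_
    rw [← hy, ← hy]
    calc _ = π (y a) * (π x * ((π (y a))⁻¹ * π (y b))) * (π (y b))⁻¹ := by group
      _ = _ := by rw [← h4]; group
  have h3 := relIndex_mul_index h1
  have h4 : D.relIndex C ≠ 1 := fun e => hx (relIndex_eq_one.1 e ((mk_comm_iff U x x).2 (by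
    rw [commutatorElement_self]; exact one_mem _)))
  have h5 := rne D C
  have h6 : 0 < C.index := Nat.pos_of_ne_zero index_ne_zero_of_finite
  have h7 : 2 ≤ D.relIndex C := by omega
  nlinarith

theorem mem_of_fpf [Finite Γ] (c : Γ →* Γ) (hc : ∀ g, g⁻¹ * c g ∈ commutator Γ → g ∈ commutator Γ)
    {K : Subgroup Γ} (h1 : commutator Γ ≤ K) (h2 : ∀ k ∈ K, c k ∈ K) {g : Γ}
    (h : g⁻¹ * c g ∈ K) : g ∈ K := by
  let π := Abelianization.of (G := Γ)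
  let δ : Abelianization Γ →* Abelianization Γ := Abelianization.map c / MonoidHom.id _
  have e : ∀ g, δ (π g) = π (g⁻¹ * c g) := fun g => by
    rw [map_mul, map_inv, mul_comm, ← div_eq_mul_inv]; rfl
  have hπ : ∀ g, π g = 1 ↔ g ∈ commutator Γ := fun g => QuotientGroup.eq_one_iff g
  have h3 : Function.Injective δ := (injective_iff_map_eq_one δ).2 (by
    rintro ⟨g⟩ hg
    exact (hπ g).2 (hc g ((hπ _).1 ((e g).symm.trans hg))))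
  have h4 : Set.MapsTo δ (K.map π) (K.map π) := by
    rintro _ ⟨k, hk, rfl⟩
    exact ⟨_, mul_mem (inv_mem hk) (h2 k hk), (e k).symm⟩
  obtain ⟨_, ⟨k, hk, rfl⟩, h5⟩ := ((Set.toFinite _).injOn_iff_bijOn_of_mapsTo h4).1 h3.injOn |>.surjOn
    (show δ (π g) ∈ K.map π from ⟨_, h, (e g).symm⟩)
  have h6 : k⁻¹ * g ∈ K := h1 ((hπ _).1 (by rw [map_mul, map_inv, h3 h5, inv_mul_cancel]))
  exact (K.mul_mem_cancel_left (inv_mem hk)).1 h6

section Layer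

variable (s : NSeries Γ) (p : ℕ) [Module (ZMod p) s.Lie]

/-- The homogeneous components. -/
noncomputable def Vi (i : ℕ) : Submodule (ZMod p) s.Lie := AddSubgroup.toZModSubmodule p
  { carrier := {v | ∃ x ∈ s.N i, s.cls i x = v}
    zero_mem' := ⟨1, one_mem _, cls_one i⟩
    add_mem' := by
      rintro _ _ ⟨x, hx, rfl⟩ ⟨y, hy, rfl⟩
      exact ⟨_, mul_mem hx hy, cls_mul hx hy⟩
    neg_mem' := by
      rintro _ ⟨x, hx, rfl⟩
      exact ⟨_, inv_mem hx, cls_inv hx⟩ }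

/-- The class of an element in its component. -/
noncomputable def cl (i : ℕ) (x : s.N i) : Vi s p i := ⟨s.cls i x, x, x.2, rfl⟩

variable {s p}

theorem cl_surj (i : ℕ) : Function.Surjective (cl s p i) := by
  rintro ⟨_, x, hx, rfl⟩
  exact ⟨⟨x, hx⟩, rfl⟩

theorem cl_mul {i : ℕ} (x y : s.N i) : cl s p i (x * y) = cl s p i x + cl s p i y :=
  Subtype.ext (cls_mul x.2 y.2)

theorem cl_eq_zero {i : ℕ} {x : s.N i} : cl s p i x = 0 ↔ (x : Γ) ∈ s.N (i + 1) :=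
  Subtype.ext_iff.trans (cls_eq_zero_iff x.2)

instance Vi_finite [Finite Γ] (i : ℕ) : Finite (Vi s p i) := Finite.of_surjective _ (cl_surj i)

variable (s p)

/-- The bracket between components. -/
noncomputable def brk (i j : ℕ) : Vi s p i →ₗ[ZMod p] Vi s p j →ₗ[ZMod p] Vi s p (i + j + 1) :=
  LinearMap.mk₂ (ZMod p) (fun u v => ⟨⁅u.1, v.1⁆, by
      obtain ⟨x, rfl⟩ := cl_surj i u
      obtain ⟨y, rfl⟩ := cl_surj j v
      exact ⟨_, s.comm_mem x.2 y.2, (lie_cls x.2 y.2).symm⟩⟩)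
    (fun _ _ _ => Subtype.ext (add_lie _ _ _))
    (fun r u v => Subtype.ext (ZMod.map_smul (brR v.1) r u.1))
    (fun _ _ _ => Subtype.ext (lie_add _ _ _))
    (fun r u v => Subtype.ext (ZMod.map_smul (brR.flip u.1) r v.1))

/-- The subgroup attached to a subspace of a component. -/
def pre (i : ℕ) (S : Submodule (ZMod p) (Vi s p i)) : Subgroup Γ where
  carrier := {x | ∃ hx : x ∈ s.N i, cl s p i ⟨x, hx⟩ ∈ S}
  one_mem' := ⟨one_mem _, by rw [cl_eq_zero.2 (one_mem _)]; exact zero_mem _⟩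
  mul_mem' := fun ⟨hx, h1⟩ ⟨hy, h2⟩ => ⟨mul_mem hx hy, (cl_mul (p := p) ⟨_, hx⟩ ⟨_, hy⟩).symm ▸ add_mem h1 h2⟩
  inv_mem' := fun {x} ⟨hx, h1⟩ => ⟨inv_mem hx, by
    rw [show cl s p i ⟨x⁻¹, inv_mem hx⟩ = -cl s p i ⟨x, hx⟩ from Subtype.ext (cls_inv hx)]
    exact neg_mem h1⟩

instance pre_normal (i : ℕ) (S : Submodule (ZMod p) (Vi s p i)) : (pre s p i S).Normal :=
  ⟨fun x ⟨hx, h1⟩ g => ⟨(s.normal i).conj_mem x hx g, by
    rwa [show cl s p i ⟨_, (s.normal i).conj_mem x hx g⟩ = cl s p i ⟨x, hx⟩ from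
      Subtype.ext (cls_conj hx g)]⟩⟩

variable {s p}

theorem brk_cl {i j : ℕ} (x : s.N i) (y : s.N j) :
    brk s p i j (cl s p i x) (cl s p j y) = cl s p _ ⟨_, s.comm_mem x.2 y.2⟩ :=
  Subtype.ext (lie_cls x.2 y.2)

theorem le_pre (i : ℕ) (S : Submodule (ZMod p) (Vi s p i)) : s.N (i + 1) ≤ pre s p i S :=
  fun _ hx => ⟨s.succ_le i hx, by rw [cl_eq_zero.2 hx]; exact zero_mem _⟩

theorem pre_le (i : ℕ) (S : Submodule (ZMod p) (Vi s p i)) : pre s p i S ≤ s.N i :=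
  fun _ hx => hx.1

theorem pre_index [Finite Γ] [Fact p.Prime] (i : ℕ) (S : Submodule (ZMod p) (Vi s p i)) :
    (pre s p i S).relIndex (s.N i) * p ^ finrank (ZMod p) S = p ^ finrank (ZMod p) (Vi s p i) := by
  let φ : s.N i →* Multiplicative (Vi s p i) :=
    MonoidHom.mk' (fun x => Multiplicative.ofAdd (cl s p i x)) fun x y => by rw [cl_mul, ofAdd_add]
  have h1 : (pre s p i S).subgroupOf (s.N i) = (AddSubgroup.toSubgroup S.toAddSubgroup).comap φ :=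
    Subgroup.ext fun x => ⟨fun h => h.2, fun h => ⟨x.2, h⟩⟩
  have h2 := S.toAddSubgroup.index_mul_card
  rw [natCard_eq_pow_finrank (K := ZMod p) (V := Vi s p i), Nat.card_zmod] at h2
  rw [relIndex, h1, index_comap_of_surjective _ (cl_surj i), AddSubgroup.index_toSubgroup, ← h2]
  have h3 := natCard_eq_pow_finrank (K := ZMod p) (V := S)
  rw [Nat.card_zmod] at h3
  rw [← h3]
  rfl

theorem succ_index [Finite Γ] [Fact p.Prime] (i : ℕ) :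
    (s.N (i + 1)).relIndex (s.N i) = p ^ finrank (ZMod p) (Vi s p i) := by
  rw [← pre_index i ⊥, finrank_bot, pow_zero, mul_one]
  congr 1
  exact le_antisymm (le_pre i _) fun x hx => cl_eq_zero.1 hx.2

theorem lay (κ : Dual (ZMod p) (Vi s p 3)) [Fact p.Prime]
    (ha : ∀ x, x ∉ s.N 1 → ∀ w ∈ s.N 1, ∃ y, y * x * y⁻¹ = x * w)
    (hb : ∀ x ∈ s.N 1, x ∉ s.N 2 → ∀ w ∈ s.N 2, ∃ y, y * x * y⁻¹ = x * w) :
    Lay (brk s p 0 0) (brk s p 1 0) ((brk s p 2 0).compr₂ κ) ((brk s p 1 1).compr₂ κ) := by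
  have key : ∀ i (x : s.N i), (∀ w ∈ s.N (i + 1), ∃ y, y * x * y⁻¹ = x * w) →
      Function.Surjective (brk s p i 0 (cl s p i x)) := fun i x h w => by
    obtain ⟨w, rfl⟩ := cl_surj _ w
    obtain ⟨y, e⟩ := h _ (inv_mem w.2)
    refine ⟨cl s p 0 ⟨y, s.mem_zero y⟩, (brk_cl _ _).trans (Subtype.ext ?_)⟩
    have e' : ⁅(x : Γ), y⁆ = x * w * (x : Γ)⁻¹ := by
      rw [commutatorElement_def, mul_assoc, mul_assoc, mul_assoc, mul_right_inj,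
        ← inv_inj, ← mul_assoc, mul_inv_rev, mul_inv_rev, mul_inv_rev, inv_inv, inv_inv, ← mul_assoc, e]
    exact (congrArg (s.cls _) e').trans (cls_conj w.2 x)
  refine ⟨fun x => Subtype.ext (lie_self x.1), fun x hx => ?_, fun x hx => ?_,
    fun x y z => Subtype.ext (jacobi' x.1 y.1 z.1), fun a x u => ?_, fun a => ?_⟩
  · obtain ⟨x, rfl⟩ := cl_surj _ x
    exact key 0 x (ha x fun e => hx (cl_eq_zero.2 e))
  · obtain ⟨x, rfl⟩ := cl_surj _ x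
    exact key 1 x (hb x x.2 fun e => hx (cl_eq_zero.2 e))
  · simp only [LinearMap.compr₂_apply]
    rw [← map_sub]
    refine congrArg κ (Subtype.ext ?_)
    show ⁅⁅a.1, x.1⁆, u.1⁆ - ⁅⁅a.1, u.1⁆, x.1⁆ = ⁅a.1, ⁅x.1, u.1⁆⁆
    rw [leibniz_lie a.1, ← lie_skew x.1, sub_eq_add_neg]
  · rw [LinearMap.compr₂_apply, show brk s p 1 1 a a = 0 from Subtype.ext (lie_self a.1), map_zero]

theorem core [Finite Γ] [Fact p.Prime] (hs : ∀ i, s.N (i + 1) = ⁅s.N i, ⊤⁆)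
    (ha : ∀ x, x ∉ s.N 1 → ∀ w ∈ s.N 1, ∃ y, y * x * y⁻¹ = x * w)
    (hb : ∀ x ∈ s.N 1, x ∉ s.N 2 → ∀ w ∈ s.N 2, ∃ y, y * x * y⁻¹ = x * w) (c : Γ →* Γ)
    (hci : Function.Injective c) (hc : ∀ i, ∀ x ∈ s.N i, c x ∈ s.N i) (c1 : ∀ a ∈ s.N 1, a⁻¹ * c a ∈ s.N 2)
    (c0 : ∀ g, g⁻¹ * c g ∈ s.N 1 → g ∈ s.N 1) : s.N 3 ≤ s.N 4 := by
  by_contra h
  have st : ∀ i, s.N i ≤ s.N (i + 1) → s.N (i + 1) ≤ s.N (i + 1 + 1) := fun i h =>
    (hs i).trans_le ((commutator_mono h le_rfl).trans (hs (i + 1)).ge)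
  obtain ⟨w, hw, hw'⟩ := SetLike.not_le_iff_exists.1 h
  obtain ⟨a₀, ha₀, ha₀'⟩ := SetLike.not_le_iff_exists.1 fun e => h (st 2 (st 1 e))
  obtain ⟨x₀, -, hx₀⟩ := SetLike.not_le_iff_exists.1 fun e => h (st 2 (st 1 (st 0 e)))
  have n1 : cl s p 1 ⟨a₀, ha₀⟩ ≠ 0 := fun e => ha₀' (cl_eq_zero.1 e)
  have n3 : cl s p 3 ⟨w, hw⟩ ≠ 0 := fun e => hw' (cl_eq_zero.1 e)
  have i0 : (s.N 1).index = p ^ finrank (ZMod p) (Vi s p 0) := by
    rw [← succ_index 0, s.zero, relIndex_top_right]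
  have p1 := (Fact.out : p.Prime).one_lt
  have d20 : finrank (ZMod p) (Vi s p 2) < finrank (ZMod p) (Vi s p 0) := by
    have h1 := count_lt (U := s.N 3) (D := s.N 2) (ha x₀ hx₀) (fun e => hx₀ (s.succ_le 1 e))
      fun d hd => s.comm_mem hd (s.mem_zero x₀)
    rw [← relIndex_mul_relIndex _ _ _ (s.succ_le 2) (s.succ_le 1), ← relIndex_mul_index (s.succ_le 1),
      i0, succ_index (p := p) 2, succ_index (p := p) 1, ← pow_add, ← pow_add,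
      Nat.pow_lt_pow_iff_right p1] at h1
    omega
  have hA : ∀ κ : Dual (ZMod p) (Vi s p 3), ((brk s p 2 0).compr₂ κ).flip.ker ≠ ⊥ := fun κ e => by
    have := rank_flip ((brk s p 2 0).compr₂ κ)
    rw [e, finrank_bot] at this
    omega
  by_cases hI : ∃ κ : Dual (ZMod p) (Vi s p 3), κ ≠ 0 ∧ (brk s p 1 1).compr₂ κ = 0
  · obtain ⟨κ, hκ, hω⟩ := hI
    have hl := lay κ ha hb
    rw [hω] at hl
    have h1 : (brk s p 2 0).compr₂ κ ≠ 0 := fun e => hκ (LinearMap.ext fun v => by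
      obtain ⟨v, rfl⟩ := cl_surj _ v
      refine ((hs 2).le.trans (commutator_le.2 fun b hb u _ => (?_ : _ ∈ pre s p 3 κ.ker)) v.2).2
      exact ⟨s.comm_mem hb (s.mem_zero u), (congrArg κ (brk_cl ⟨b, hb⟩ ⟨u, s.mem_zero u⟩).symm).trans
        (LinearMap.congr_fun₂ e _ _)⟩)
    obtain ⟨b, hb'⟩ := DFunLike.ne_iff.1 h1
    obtain ⟨u, hu⟩ := DFunLike.ne_iff.1 hb'
    obtain ⟨x, rfl⟩ := hl.a3 _ n1 b
    have h2 : finrank (ZMod p) ((brk s p 2 0).compr₂ κ).flip.ker ≤ finrank (ZMod p) (Vi s p 1) :=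
      hl.le_of_zero hu
    obtain ⟨y, hy, hy'⟩ := (Submodule.ne_bot_iff _).1 (hA κ)
    obtain ⟨y, rfl⟩ := cl_surj _ y
    have h3 : (y : Γ) ∉ s.N 1 := fun e => hy' (cl_eq_zero.2 e)
    have h4 := count_lt (U := pre s p 2 ((brk s p 2 0).compr₂ κ).ker) (ha y h3) h3 fun d hd =>
      ⟨s.comm_mem hd y.2, by
        refine (brk_cl (p := p) ⟨d, hd⟩ y).symm ▸ LinearMap.ext fun t => ?_
        have := hl.j4 (cl s p 1 ⟨d, hd⟩) (cl s p 0 y) t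
        rwa [show ((brk s p 2 0).compr₂ κ) _ (cl s p 0 y) = 0 from LinearMap.congr_fun hy _,
          sub_zero] at this⟩
    have h5 := pre_index 2 ((brk s p 2 0).compr₂ κ).ker
    have h6 := rank_flip ((brk s p 2 0).compr₂ κ)
    rw [← relIndex_mul_relIndex _ _ _ (pre_le 2 _) (s.succ_le 1), i0, succ_index (p := p) 1] at h4
    have h7 := Nat.mul_lt_mul_of_pos_right h4 (pow_pos (zero_lt_one.trans p1)
      (finrank (ZMod p) ((brk s p 2 0).compr₂ κ).ker))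
    rw [mul_right_comm, h5, ← pow_add, ← pow_add, Nat.pow_lt_pow_iff_right p1] at h7
    omega
  push Not at hI
  obtain ⟨κ, hκ⟩ := Projective.exists_dual_ne_zero (ZMod p) n3
  have : Nontrivial (Vi s p 1) := ⟨⟨_, _, n1⟩⟩
  have hl := lay κ ha hb
  refine hA κ (hl.ker_eq_bot fun a e => by_contra fun a0 => ?_)
  let ct : Vi s p 3 →ₗ[ZMod p] Vi s p 3 := ((mapEnd c hc).toAddMonoidHom.toZModLinearMap p).restrict
    (by rintro _ ⟨x, hx, rfl⟩; exact ⟨_, hc 3 x hx, (mapEnd_cls c hc hx).symm⟩)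
  have h1 : ∀ x : s.N 1, mapEnd c hc (s.cls 1 x) = s.cls 1 x := fun x => by
    rw [mapEnd_cls c hc x.2, ← mul_inv_cancel_left (x : Γ) (c x), cls_mul x.2
      (s.succ_le 1 (c1 x x.2)), cls_eq_zero (c1 x x.2), add_zero]
  have h2 : κ ∘ₗ ct = κ := sub_eq_zero.1 (by_contra fun e => hI _ e (LinearMap.ext₂ fun u v => by
    obtain ⟨u, rfl⟩ := cl_surj _ u
    obtain ⟨v, rfl⟩ := cl_surj _ v
    refine sub_eq_zero.2 (congrArg κ (Subtype.ext ?_))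
    exact (mapEnd_lie c hc _ _).trans (congrArg₂ _ (h1 u) (h1 v))))
  have h3 : ∀ z ∈ s.N 3, z⁻¹ * c z ∈ pre s p 3 κ.ker := fun z hz =>
    ⟨mul_mem (inv_mem hz) (hc 3 z hz), by
      have e1 : cl s p 3 ⟨z⁻¹ * c z, mul_mem (inv_mem hz) (hc 3 z hz)⟩ =
          -cl s p 3 ⟨z, hz⟩ + ct (cl s p 3 ⟨z, hz⟩) := Subtype.ext ((cls_mul (inv_mem hz)
        (hc 3 z hz)).trans (congrArg₂ _ (cls_inv hz) (mapEnd_cls c hc hz).symm))
      rw [e1, LinearMap.mem_ker, map_add, map_neg, ← LinearMap.comp_apply, h2, neg_add_cancel]⟩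
  obtain ⟨a, rfl⟩ := cl_surj _ a
  obtain ⟨g, hg⟩ := hb a a.2 (fun e => a0 (cl_eq_zero.2 e)) w (s.succ_le 2 hw)
  have h4 : ⁅g, (a : Γ)⁆ = a * w * (a : Γ)⁻¹ := by rw [commutatorElement_def, hg]
  have hU := pre_normal s p 3 κ.ker
  have h5 : ⁅g, (a : Γ)⁆ ∉ pre s p 3 κ.ker := fun e => by
    rw [h4, hU.mem_comm_iff, inv_mul_cancel_left] at e
    exact hκ e.2
  have h6 : ⁅g, (a : Γ)⁆ ∈ s.N 3 := h4 ▸ (s.normal 3).conj_mem w hw a
  let H : Subgroup Γ := pre s p 0 ((brk s p 2 0).compr₂ κ).flip.ker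
  have hH : ∀ y, y ∈ H ↔ ∀ b ∈ s.N 2, ⁅b, y⁆ ∈ pre s p 3 κ.ker := fun y =>
    ⟨fun ⟨h7, h8⟩ b hb => ⟨s.comm_mem hb h7, (congrArg κ (brk_cl ⟨b, hb⟩ ⟨y, h7⟩).symm).trans
      (LinearMap.congr_fun h8 _)⟩, fun h7 => ⟨s.mem_zero y, LinearMap.ext fun b => by
        obtain ⟨b, rfl⟩ := cl_surj _ b
        exact (congrArg κ (brk_cl b ⟨y, s.mem_zero y⟩)).trans (h7 b b.2).2⟩⟩
  have hg' : g ∈ H := ⟨s.mem_zero g, LinearMap.ext fun b => by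
    obtain ⟨u, rfl⟩ := hl.a3 _ a0 b
    have := hl.j4 (cl s p 1 a) (cl s p 0 ⟨g, s.mem_zero g⟩) u
    rw [e, brk_cl, cl_eq_zero.2 (cm_swap h6), map_zero, LinearMap.zero_apply, LinearMap.zero_apply,
      zero_sub, neg_eq_zero] at this
    exact this⟩
  have cU : ∀ z ∈ pre s p 3 κ.ker, c z ∈ pre s p 3 κ.ker := fun z hz =>
    (mul_mem_cancel_left (inv_mem hz)).1 (h3 z hz.1)
  have cH : ∀ y ∈ H, c y ∈ H := fun y hy => (hH _).2 fun b hb => by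
    obtain ⟨b, hb', rfl⟩ := (((Set.toFinite (s.N 2 : Set Γ)).injOn_iff_bijOn_of_mapsTo
      (hc 2)).1 hci.injOn).surjOn hb
    rw [← map_commutatorElement]
    exact cU _ ((hH y).1 hy b hb')
  have cm : ∀ y ∈ H, (c ⁅y, (a : Γ)⁆)⁻¹ * ⁅c y, (a : Γ)⁆ ∈ pre s p 3 κ.ker := fun y hy => by
    convert hU.conj_mem _ (cm_swap ((hH _).1 (cH y hy) _ (inv_mem (c1 a a.2)))) (c a) using 1
    rw [map_commutatorElement]
    simp only [commutatorElement_def]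
    group
  have e1 : s.N 1 = commutator Γ := (hs 0).trans (by rw [s.zero]; rfl)
  let K := H ⊓ (centralizer {QuotientGroup.mk' _ (a : Γ)}).comap
    (QuotientGroup.mk' (pre s p 3 κ.ker))
  have hK : ∀ y, y ∈ K ↔ y ∈ H ∧ ⁅y, (a : Γ)⁆ ∈ pre s p 3 κ.ker := fun y => by
    rw [mem_inf, mk_comm_iff]
  refine h5 ((hK g).1 (mem_of_fpf c (e1 ▸ c0) (e1 ▸ fun z hz => (hK z).2 ⟨le_pre 0 _ hz, ?_⟩)
    (fun k hk => (hK _).2 ⟨cH k hk.1, ?_⟩) ((hK _).2 ⟨mul_mem (inv_mem hg') (cH g hg'), ?_⟩))).2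
  · exact (mul_mem_cancel_left (inv_mem (cU _ ((hK k).1 hk).2))).1 (cm k hk.1)
  · convert hU.conj_mem _ (hU.conj_mem _ (mul_mem (h3 _ h6) (cm g hg')) ⁅g, (a : Γ)⁆) g⁻¹ using 1
    generalize c ⁅g, (a : Γ)⁆ = t
    simp only [commutatorElement_def]
    group
  · exact cm_swap ⟨s.comm_mem a.2 hz, (congrArg κ (brk_cl a ⟨z, hz⟩).symm).trans
      (LinearMap.congr_fun e _)⟩

end Layer

theorem ds [Finite Γ] {p : ℕ} [Fact p.Prime] (hp : IsPGroup p Γ) (s : NSeries Γ)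
    (hs : ∀ i, s.N (i + 1) = ⁅s.N i, ⊤⁆)
    (ha : ∀ x, x ∉ s.N 1 → ∀ w ∈ s.N 1, ∃ y, y * x * y⁻¹ = x * w)
    (hb : ∀ x ∈ s.N 1, x ∉ s.N 2 → ∀ w ∈ s.N 2, ∃ y, y * x * y⁻¹ = x * w) (c : Γ →* Γ)
    (hci : Function.Injective c) (hc : ∀ i, ∀ x ∈ s.N i, c x ∈ s.N i)
    (c1 : ∀ a ∈ s.N 1, a⁻¹ * c a ∈ s.N 2) (c0 : ∀ g, g⁻¹ * c g ∈ s.N 1 → g ∈ s.N 1) :
    s.N 3 ≤ s.N 4 := by
  by_cases h : s.N 1 ≤ s.N 2
  · have st : ∀ i, s.N i ≤ s.N (i + 1) → s.N (i + 1) ≤ s.N (i + 1 + 1) := fun i h =>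
      (hs i).trans_le ((commutator_mono h le_rfl).trans (hs (i + 1)).ge)
    exact st 2 (st 1 h)
  have h0 : ∀ x, x ^ p ∈ s.N 1 := fun x => by_contra fun hx => h fun w hw => by
    have h1 : ∀ w ∈ s.N 1, ∃ v ∈ s.N 1, s.cls 1 w = p • s.cls 1 v := fun w hw => by
      obtain ⟨y, e⟩ := ha _ hx w hw
      refine ⟨_, s.comm_mem (s.mem_zero y) (s.mem_zero x), ?_⟩
      rw [← cls_conj hw (x ^ p), ← e, ← commutatorElement_def,
        ← lie_cls (s.mem_zero y) (s.mem_zero _), ← lie_cls (s.mem_zero y) (s.mem_zero _),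
        cls_pow (s.mem_zero x), lie_nsmul]
    have h2 : ∀ k, ∀ w ∈ s.N 1, ∃ v ∈ s.N 1, s.cls 1 w = p ^ k • s.cls 1 v := fun k => by
      induction k with
      | zero => exact fun w hw => ⟨w, hw, by rw [pow_zero, one_smul]⟩
      | succ k ih =>
        intro w hw
        obtain ⟨v, hv, e⟩ := ih w hw
        obtain ⟨u, hu, e'⟩ := h1 v hv
        exact ⟨u, hu, by rw [e, e', pow_succ, mul_smul]⟩
    obtain ⟨k, hk⟩ := IsPGroup.iff_card.1 hp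
    obtain ⟨v, hv, e⟩ := h2 k w hw
    rw [← cls_pow hv, ← hk, pow_card_eq_one', cls_one] at e
    exact (cls_eq_zero_iff hw).1 e
  have h1 : ∀ i, ∀ x ∈ s.N i, p • s.cls i x = 0 := fun i x hx => by
    rcases i with _ | i
    · rw [← cls_pow hx, cls_eq_zero (h0 x)]
    let T : Subgroup Γ :=
      { carrier := {x | x ∈ s.N (i + 1) ∧ p • s.cls (i + 1) x = 0}
        one_mem' := ⟨one_mem _, by rw [cls_one, smul_zero]⟩
        mul_mem' := fun ⟨h1, h2⟩ ⟨h3, h4⟩ =>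
          ⟨mul_mem h1 h3, by rw [cls_mul h1 h3, smul_add, h2, h4, add_zero]⟩
        inv_mem' := fun ⟨h1, h2⟩ => ⟨inv_mem h1, by rw [cls_inv h1, smul_neg, h2, neg_zero]⟩ }
    refine ((hs i).le.trans (commutator_le.2 fun a ha g _ => (?_ : _ ∈ T)) hx).2
    refine ⟨s.comm_mem ha (s.mem_zero g), ?_⟩
    rw [show s.cls (i + 1) ⁅a, g⁆ = _ from (lie_cls ha (s.mem_zero g)).symm, ← lie_nsmul,
      ← cls_pow (s.mem_zero g), cls_eq_zero (h0 g), lie_zero]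
  let _ : Module (ZMod p) s.Lie := AddCommGroup.zmodModule fun v =>
    induction_on (P := fun v => p • v = 0) v h1 fun v w h2 h3 => by rw [smul_add, h2, h3, add_zero]
  exact core (p := p) hs ha hb c hci hc c1 c0

theorem ds_sub {G : Type*} [Group G] [Finite G] {p : ℕ} [Fact p.Prime] {Q : Subgroup G}
    [hQ : Q.Normal] (hp : IsPGroup p Q)
    (ha : ∀ x ∈ Q, x ∉ ⁅Q, Q⁆ → ∀ w ∈ ⁅Q, Q⁆, ∃ y ∈ Q, y * x * y⁻¹ = x * w)
    (hb : ∀ x ∈ ⁅Q, Q⁆, x ∉ ⁅⁅Q, Q⁆, Q⁆ → ∀ w ∈ ⁅⁅Q, Q⁆, Q⁆, ∃ y ∈ Q, y * x * y⁻¹ = x * w) (t : G)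
    (c1 : ∀ a ∈ ⁅Q, Q⁆, ⁅t, a⁆ ∈ ⁅⁅Q, Q⁆, Q⁆) (c0 : ∀ g ∈ Q, ⁅t, g⁆ ∈ ⁅Q, Q⁆ → g ∈ ⁅Q, Q⁆) :
    ⁅⁅⁅Q, Q⁆, Q⁆, Q⁆ ≤ ⁅⁅⁅⁅Q, Q⁆, Q⁆, Q⁆, Q⁆ := by
  have m : ∀ i (x : Q), x ∈ (lcsSeries Q).N i ↔ (x : G) ∈ Q.lowerCentralSeries i := fun i x => by
    rw [← top_subtype_lowerCentralSeries]
    exact ⟨fun h => ⟨x, h, rfl⟩, fun ⟨y, h, e⟩ => Subtype.ext e ▸ h⟩
  have h := ds hp (lcsSeries Q) (fun _ => rfl) (fun x hx w hw => ?_) (fun x hx hx' w hw => ?_)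
    (MulAut.conjNormal t).toMonoidHom (MulAut.conjNormal t).injective (map_mem_lcs _)
    (fun a h => (m 2 _).2 ?_) fun g h => (m 1 _).2 (c0 g g.2 ?_)
  · intro x hx
    exact (m 4 ⟨x, Q.lowerCentralSeries_antitone (Nat.zero_le 3) hx⟩).1 (h ((m 3 _).2 hx))
  · obtain ⟨y, hy, e⟩ := ha x x.2 (fun e => hx ((m 1 x).2 e)) w ((m 1 w).1 hw)
    exact ⟨⟨y, hy⟩, Subtype.ext e⟩
  · obtain ⟨y, hy, e⟩ := hb x ((m 1 x).1 hx) (fun e => hx' ((m 2 x).2 e)) w ((m 2 w).1 hw)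
    exact ⟨⟨y, hy⟩, Subtype.ext e⟩
  · exact (inferInstance : (⁅⁅Q, Q⁆, Q⁆).Normal).mem_comm (c1 a ((m 1 a).1 h))
  · exact (inferInstance : (⁅Q, Q⁆).Normal).mem_comm ((m 1 _).1 h)

end Cfsg.Agent.H26.DS
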