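import Cfsg.Agent.H26.DsPf

/-! Multilinear algebra behind the class bound for Camina groups. -/

set_option autoImplicit false

namespace Cfsg.Agent.H26.DS

open Module

variable {F V : Type*} [Field F] [Finite F] [AddCommGroup V] [Module F V] [Module.Finite F V]

theorem form_zero (S : Submodule F (End F V)) (h1 : ∀ r ∈ S, ∀ s ∈ S, r * s = s * r) (h0 : 1 ∈ S)
    (h2 : ∀ v : V, v ≠ 0 → ∀ w, ∃ r ∈ S, r v = w) (h3 : ∀ r ∈ S, ∀ v : V, v ≠ 0 → r v = 0 → r = 0)
    (ω : V →ₗ[F] V →ₗ[F] F) (ha : ∀ v, ω v v = 0)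
    (h4 : ∀ r ∈ S, ∀ s ∈ S, ∀ v w, ω (s (r v)) w - ω (r v) (s w) = ω (s v) (r w) - ω v (s (r w))) :
    ω = 0 := by
  rcases subsingleton_or_nontrivial V with h | h
  · exact Subsingleton.elim _ _
  obtain ⟨v₀, hv⟩ := exists_ne (0 : V)
  have hs : ∀ x y, ω y x = -ω x y := fun x y => by
    have := ha (x + y)
    simp only [map_add, LinearMap.add_apply, ha, zero_add, add_zero] at this
    exact eq_neg_of_add_eq_zero_left this
  have hc : ∀ r ∈ S, ∀ s ∈ S, ∀ v, r (s v) = s (r v) := fun r hr s hs v =>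
    LinearMap.congr_fun (h1 r hr s hs) v
  have hmul : ∀ r ∈ S, ∀ s ∈ S, r * s ∈ S := fun r hr s hs => by
    obtain ⟨t, ht, e⟩ := h2 v₀ hv (r (s v₀))
    have : t = r * s := LinearMap.ext fun v => by
      obtain ⟨u, hu, rfl⟩ := h2 v₀ hv v
      rw [hc t ht u hu, e, End.mul_apply, hc s hs u hu, hc r hr u hu]
    exact this ▸ ht
  have hpow : ∀ r ∈ S, ∀ k : ℕ, r ^ k ∈ S := fun r hr k => by
    induction k with
    | zero => exact h0
    | succ k ih => rw [pow_succ]; exact hmul _ ih _ hr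
  obtain ⟨p, hp⟩ := CharP.exists F
  have : Fact p.Prime := ⟨CharP.char_is_prime F p⟩
  have : CharP (End F V) p := charP_of_injective_algebraMap (algebraMap F (End F V)).injective p
  have : Finite V := Module.finite_of_finite F
  have : Finite (End F V) := Finite.of_injective _ DFunLike.coe_injective
  have hfr : Function.Surjective fun r : S => (⟨r.1 ^ p, hpow _ r.2 p⟩ : S) := by
    refine Finite.injective_iff_surjective.1 fun r s e => Subtype.ext (sub_eq_zero.1 ?_)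
    have e1 : (r.1 - s.1) ^ p = 0 := by
      rw [sub_pow_char_of_commute p (h1 _ r.2 _ s.2), sub_eq_zero]
      exact congrArg Subtype.val e
    by_contra hne
    have hinj : Function.Injective (r.1 - s.1 : End F V) := (injective_iff_map_eq_zero _).2
      fun v h => by_contra fun h' => hne (h3 _ (sub_mem r.2 s.2) v h' h)
    have := End.iterate_injective hinj p
    rw [e1] at this
    exact hv (this (by simp))
  have hder : ∀ s ∈ S, ∀ (k : ℕ) v w, ω ((s ^ (k + 1)) v) w - ω v ((s ^ (k + 1)) w) =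
      (k + 1 : ℕ) * (ω (s ((s ^ k) v)) w - ω ((s ^ k) v) (s w)) := fun s hs k => by
    induction k with
    | zero => simp
    | succ k ih =>
      intro v w
      have e1 := ih (s v) w
      have e2 := h4 _ (hpow s hs (k + 1)) s hs v w
      have e3 : ∀ j v, (s ^ (j + 1)) v = s ((s ^ j) v) := fun j v => by rw [pow_succ', End.mul_apply]
      have e4 : ∀ j v, (s ^ j) (s v) = s ((s ^ j) v) := fun j v => hc _ (hpow s hs j) s hs v
      simp only [e3, e4] at e1 e2 ⊢
      push_cast at e1 ⊢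
      linear_combination e1 - e2
  have hsa : ∀ s ∈ S, ∀ v w, ω (s v) w = ω v (s w) := fun s hs v w => by
    obtain ⟨r, hr⟩ := hfr ⟨s, hs⟩
    obtain ⟨k, hk⟩ := Nat.exists_eq_succ_of_ne_zero (Fact.out : p.Prime).ne_zero
    have := hder r.1 r.2 k v w
    rw [← Nat.succ_eq_add_one, ← hk, CharP.cast_eq_zero, zero_mul, sub_eq_zero,
      show r.1 ^ p = s from congrArg Subtype.val hr] at this
    exact this
  have hz : ∀ t ∈ S, ω v₀ (t v₀) = 0 := fun t ht => by
    by_cases h2' : p = 2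
    · obtain ⟨r, hr⟩ := hfr ⟨t, ht⟩
      rw [← show r.1 ^ p = t from congrArg Subtype.val hr, h2', sq, End.mul_apply, ← hsa _ r.2, ha]
    · have e1 := hsa t ht v₀ v₀
      rw [hs, neg_eq_iff_add_eq_zero, ← two_mul] at e1
      refine (mul_eq_zero.1 e1).resolve_left fun e => h2' ?_
      exact (Nat.prime_dvd_prime_iff_eq Fact.out Nat.prime_two).1
        ((CharP.cast_eq_zero_iff F p 2).1 (by exact_mod_cast e))
  ext v w
  obtain ⟨r, hr, rfl⟩ := h2 v₀ hv v
  obtain ⟨s, hs', rfl⟩ := h2 v₀ hv w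
  rw [hsa r hr]
  exact hz _ (hmul r hr s hs')

/-- The first four layers of a graded Lie algebra, the last one through a functional. -/
structure Lay {V₁ V₂ V₃ : Type*} [AddCommGroup V₁] [Module F V₁] [AddCommGroup V₂] [Module F V₂]
    [AddCommGroup V₃] [Module F V₃] (b : V₁ →ₗ[F] V₁ →ₗ[F] V₂) (c : V₂ →ₗ[F] V₁ →ₗ[F] V₃)
    (σ : V₃ →ₗ[F] V₁ →ₗ[F] F) (ω : V₂ →ₗ[F] V₂ →ₗ[F] F) : Prop where
  a1 : ∀ x, b x x = 0
  a2 : ∀ x, x ≠ 0 → Function.Surjective (b x)
  a3 : ∀ a, a ≠ 0 → Function.Surjective (c a)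
  j3 : ∀ x y z, c (b x y) z + c (b y z) x + c (b z x) y = 0
  j4 : ∀ a x u, σ (c a x) u - σ (c a u) x = ω a (b x u)
  w : ∀ a, ω a a = 0

variable {V₁ V₂ V₃ : Type*} [AddCommGroup V₁] [Module F V₁] [AddCommGroup V₂] [Module F V₂]
  [AddCommGroup V₃] [Module F V₃] [Module.Finite F V₁] [Module.Finite F V₂] [Module.Finite F V₃]
  {b : V₁ →ₗ[F] V₁ →ₗ[F] V₂} {c : V₂ →ₗ[F] V₁ →ₗ[F] V₃} {σ : V₃ →ₗ[F] V₁ →ₗ[F] F}
  {ω : V₂ →ₗ[F] V₂ →ₗ[F] F}

omit [Finite F] in
theorem rank_flip (σ : V₃ →ₗ[F] V₁ →ₗ[F] F) :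
    finrank F V₁ + finrank F σ.ker = finrank F V₃ + finrank F σ.flip.ker := by
  have h1 := σ.finrank_range_add_finrank_ker
  have h2 := σ.flip.finrank_range_add_finrank_ker
  have h3 : finrank F σ.flip.range = finrank F σ.range := by
    rw [← LinearMap.finrank_range_dualMap_eq_finrank_range σ,
      show σ.flip = σ.dualMap ∘ₗ Dual.eval F V₁ from rfl,
      LinearMap.range_comp_of_range_eq_top _ (LinearMap.range_eq_top.2 (bijective_dual_eval F V₁).2)]
  omega

omit [Finite F] [Module.Finite F V₁] [Module.Finite F V₂] [Module.Finite F V₃] in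
theorem Lay.skew (h : Lay b c σ ω) (x y : V₁) : b y x = -b x y := by
  have := h.a1 (x + y)
  simp only [map_add, LinearMap.add_apply, h.a1, zero_add, add_zero] at this
  exact eq_neg_of_add_eq_zero_left this

omit [Finite F] [Module.Finite F V₂] [Module.Finite F V₃] in
theorem Lay.rk (h : Lay b c σ ω) {x : V₁} (hx : x ≠ 0) :
    finrank F V₂ + finrank F (b x).ker = finrank F V₁ := by
  rw [← (b x).finrank_range_add_finrank_ker, LinearMap.range_eq_top.2 (h.a2 x hx), finrank_top]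

/-- The annihilator attached to `u`. -/
def An (c : V₂ →ₗ[F] V₁ →ₗ[F] V₃) (σ : V₃ →ₗ[F] V₁ →ₗ[F] F) (u : V₁) : Submodule F V₁ :=
  (c.compr₂ (σ.flip u)).flip.ker

omit [Finite F] [Module.Finite F V₁] [Module.Finite F V₂] [Module.Finite F V₃] in
theorem mem_An {u x : V₁} : x ∈ An c σ u ↔ ∀ a, σ (c a x) u = 0 :=
  LinearMap.mem_ker.trans LinearMap.ext_iff

omit [Finite F] [Module.Finite F V₁] [Module.Finite F V₂] [Module.Finite F V₃] in
theorem Lay.An_ab (h : Lay b c σ ω) {u : V₁} (hu : σ.flip u ≠ 0) {x y : V₁} (hx : x ∈ An c σ u)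
    (hy : y ∈ An c σ u) : b x y = 0 := by
  by_contra h0
  refine hu (LinearMap.ext fun w => ?_)
  obtain ⟨z, rfl⟩ := h.a3 _ h0 w
  have := congrArg (σ · u) (h.j3 x y z)
  simpa [mem_An.1 hx, mem_An.1 hy] using this

omit [Finite F] [Module.Finite F V₃] in
theorem Lay.An_eq (h : Lay b c σ ω) {u : V₁} (hu : σ.flip u ≠ 0) {y : V₁} (hy : y ∈ An c σ u)
    (h0 : y ≠ 0) : An c σ u = (b y).ker := by
  refine Submodule.eq_of_le_of_finrank_le (fun x hx => h.An_ab hu hy hx) ?_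
  have h1 := (c.compr₂ (σ.flip u)).flip.finrank_range_add_finrank_ker
  have h2 := (c.compr₂ (σ.flip u)).flip.range.finrank_le
  have h3 := h.rk h0
  rw [Subspace.dual_finrank_eq] at h2
  unfold An
  omega

omit [Finite F] [Module.Finite F V₃] in
theorem Lay.le_of_zero (h : Lay b c σ 0) {a x u : _} (h0 : σ (c a x) u ≠ 0) :
    finrank F σ.flip.ker ≤ finrank F V₂ := by
  have hu : σ.flip u ≠ 0 := fun e => h0 (LinearMap.congr_fun e _)
  have h1 : σ.flip.ker ≤ An c σ u := fun y hy => mem_An.2 fun a => by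
    have := h.j4 a y u
    rwa [show σ (c a u) y = 0 from LinearMap.congr_fun hy _, sub_zero] at this
  refine LinearMap.finrank_le_finrank_of_injective (f := b.flip x ∘ₗ σ.flip.ker.subtype)
    ((injective_iff_map_eq_zero _).2 fun y hy => Subtype.ext (by_contra fun e => h0 ?_))
  exact mem_An.1 ((h.An_eq hu (h1 y.2) e).ge hy) a

omit [Module.Finite F V₃] in
theorem Lay.ker_eq_bot (h : Lay b c σ ω) [Nontrivial V₂] (hω : ∀ a, ω a = 0 → a = 0) :
    σ.flip.ker = ⊥ := by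
  refine (Submodule.eq_bot_iff _).2 fun x hx => by_contra fun hx0 => ?_
  have : Nontrivial V₁ := ⟨⟨x, 0, hx0⟩⟩
  have hpf := two_mul_finrank_le b h.a1 h.a2
  have hs : ∀ x y, ω y x = -ω x y := fun x y => by
    have := h.w (x + y)
    simp only [map_add, LinearMap.add_apply, h.w, zero_add, add_zero] at this
    exact eq_neg_of_add_eq_zero_left this
  have k0 : ∀ y ∈ σ.flip.ker, ∀ w, σ w y = 0 := fun y hy w => LinearMap.congr_fun hy w
  have k1 : ∀ a u, σ (c a x) u = ω a (b x u) := fun a u => by rw [← h.j4, k0 x hx, sub_zero]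
  have nd : ∀ a, (∀ a', ω a' a = 0) → a = 0 := fun a e => hω a (LinearMap.ext fun a' => by
    rw [hs, e, neg_zero, LinearMap.zero_apply])
  obtain ⟨v, hv⟩ := exists_ne (0 : V₂)
  obtain ⟨u, rfl⟩ := h.a2 x hx0 v
  have hxu : x ∉ An c σ u := fun e => hv (nd _ fun a => by rw [← k1, mem_An.1 e])
  have hu : σ.flip u ≠ 0 := fun e => hxu (mem_An.2 fun a => LinearMap.congr_fun e _)
  have hA : ∀ y ∈ (b x).ker, ∀ y' ∈ (b x).ker, b y y' = 0 := by
    by_cases e : (b x).ker ≤ σ.flip.ker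
    · exact fun y hy y' hy' => nd _ fun a => by rw [← h.j4, k0 _ (e hy), k0 _ (e hy'), sub_zero]
    · obtain ⟨t, ht, ht'⟩ := SetLike.not_le_iff_exists.1 e
      rw [← h.An_eq ht' (mem_An.2 fun a => by rw [k1, LinearMap.mem_ker.1 ht, map_zero]) hx0]
      exact fun y hy y' hy' => h.An_ab ht' hy hy'
  have hA' : ∀ y ∈ (b x).ker, y ≠ 0 → (b x).ker = (b y).ker := fun y hy h0 =>
    Submodule.eq_of_le_of_finrank_le (hA y hy) (by have := h.rk hx0; have := h.rk h0; omega)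
  have hd : (b x).ker ⊓ An c σ u = ⊥ := (Submodule.eq_bot_iff _).2 fun y hy => by_contra fun h0 =>
    hxu ((h.An_eq hu hy.2 h0).ge (hA y hy.1 x (h.a1 x)))
  have ht : (b x).ker ⊔ An c σ u = ⊤ := by
    refine Submodule.eq_top_of_finrank_eq (le_antisymm (Submodule.finrank_le _) ?_)
    have e1 := Submodule.finrank_sup_add_finrank_inf_eq (b x).ker (An c σ u)
    have e2 := (c.compr₂ (σ.flip u)).flip.finrank_range_add_finrank_ker
    have e3 := (c.compr₂ (σ.flip u)).flip.range.finrank_le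
    have e4 := h.rk hx0
    rw [Subspace.dual_finrank_eq] at e3
    rw [hd, finrank_bot] at e1
    unfold An at e1 ⊢
    omega
  have dec : ∀ t, ∃ y ∈ (b x).ker, ∃ z ∈ An c σ u, y + z = t := fun t =>
    Submodule.mem_sup.1 (ht ▸ Submodule.mem_top)
  let β := LinearEquiv.ofBijective (b x ∘ₗ (An c σ u).subtype) ⟨(injective_iff_map_eq_zero _).2
    fun z hz => Subtype.ext ((Submodule.eq_bot_iff _).1 hd _ ⟨hz, z.2⟩), fun w => by
      obtain ⟨t, rfl⟩ := h.a2 x hx0 w
      obtain ⟨y, hy, z, hz, rfl⟩ := dec t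
      exact ⟨⟨z, hz⟩, by rw [map_add, LinearMap.mem_ker.1 hy, zero_add]; rfl⟩⟩
  let M : V₁ →ₗ[F] End F V₂ := b.compl₂ ((An c σ u).subtype ∘ₗ β.symm.toLinearMap)
  have hM : ∀ y (z : An c σ u), M y (b x z) = b y z := fun y z =>
    congrArg (fun t : An c σ u => b y t) (β.symm_apply_apply z)
  have sj : ∀ w, ∃ z : An c σ u, b x z = w := β.surjective
  have k2 : ∀ y ∈ (b x).ker, ∀ y' ∈ (b x).ker, ∀ z, c (b y z) y' = c (b y' z) y := by
    intro y hy y' hy' z
    have := h.j3 y z y'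
    rwa [hA y' hy' y hy, map_zero, LinearMap.zero_apply, add_zero, h.skew y' z, map_neg,
      LinearMap.neg_apply, add_neg_eq_zero] at this
  have k3 : ∀ y ∈ (b x).ker, ∀ a t, σ (c a y) t = ω (M y a) (b x t) := fun y hy a t => by
    obtain ⟨z, rfl⟩ := sj a
    rw [k2 x (h.a1 x) y hy, k1, hM]
  have := form_zero ((b x).ker.map M) ?_ ⟨x, h.a1 x, LinearMap.ext fun w => by
    obtain ⟨z, rfl⟩ := sj w
    exact hM x z⟩ ?_ ?_ ω h.w ?_
  · exact hv (hω _ (by rw [this]; rfl))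
  · rintro _ ⟨y, hy, rfl⟩ _ ⟨y', hy', rfl⟩
    refine LinearMap.ext fun w => sub_eq_zero.1 (hω _ (LinearMap.ext fun w' => ?_))
    obtain ⟨z, rfl⟩ := sj w
    obtain ⟨z', rfl⟩ := sj w'
    rw [End.mul_apply, End.mul_apply, map_sub, LinearMap.sub_apply, ← k3 y hy, ← k3 y' hy', hM, hM,
      k2 y hy y' hy', sub_self, LinearMap.zero_apply]
  · intro w hw w'
    obtain ⟨z, rfl⟩ := sj w
    obtain ⟨t, e⟩ := h.a2 z (fun e => hw (by rw [e, map_zero])) (-w')
    obtain ⟨y, hy, z', hz, rfl⟩ := dec t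
    refine ⟨_, ⟨y, hy, rfl⟩, ?_⟩
    rw [map_add, h.An_ab hu z.2 hz, add_zero] at e
    rw [hM, h.skew, e, neg_neg]
  · rintro _ ⟨y, hy, rfl⟩ w hw e
    obtain ⟨z, rfl⟩ := sj w
    by_cases h0 : y = 0
    · rw [h0, map_zero]
    · rw [hM] at e
      exact (hw ((hA' y hy h0).ge e)).elim
  · rintro _ ⟨y, hy, rfl⟩ _ ⟨y', hy', rfl⟩ w w'
    obtain ⟨z, rfl⟩ := sj w
    obtain ⟨z', rfl⟩ := sj w'
    have e1 := h.j3 y z z'
    rw [h.An_ab hu z.2 z'.2, map_zero, LinearMap.zero_apply, add_zero, h.skew y z', map_neg,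
      LinearMap.neg_apply, add_neg_eq_zero] at e1
    have e2 := h.j4 (b y z) y' z'
    have e3 := h.j4 (b y z') y' z
    rw [k3 y' hy'] at e2 e3
    rw [e1] at e2
    simp only [hM]
    rw [hs (M y' (b y z')) (b x z), hs (b y z') (b y' z)]
    linear_combination e2 - e3

end Cfsg.Agent.H26.DS
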