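import Mathlib

/-! Spaces of nondegenerate alternating forms over a finite field. -/

set_option autoImplicit false

namespace Cfsg.Agent.H26.DS

open Matrix

theorem quad_zero {F ι : Type*} [Field F] [Fintype ι] {A : Matrix ι ι F}
    (h1 : ∀ i j, A j i = -A i j) (h2 : ∀ i, A i i = 0) (v : ι → F) : v ⬝ᵥ A *ᵥ v = 0 := by
  simp only [dotProduct, mulVec, Finset.mul_sum]
  rw [← Finset.sum_product']
  refine Finset.sum_involution (fun a _ => a.swap) (fun a _ => ?_) (fun a _ h e => h ?_)
    (fun a _ => by simp) fun a _ => rfl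
  · simp only [Prod.fst_swap, Prod.snd_swap, h1 a.1 a.2]; ring
  · rw [show a.2 = a.1 from congrArg Prod.fst e, h2, zero_mul, mul_zero]

theorem isSquare_det {F : Type*} [Field F] (n : ℕ) : ∀ (ι : Type) [Fintype ι] [DecidableEq ι],
    Fintype.card ι = n → ∀ A : Matrix ι ι F, (∀ i j, A j i = -A i j) → (∀ i, A i i = 0) →
      IsSquare A.det := by
  induction n using Nat.strong_induction_on with
  | _ n ih =>
  intro ι _ _ hn A hs hd
  by_cases h0 : A = 0
  · subst h0
    rcases isEmpty_or_nonempty ι with h | h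
    · rw [det_isEmpty]; exact IsSquare.one
    · rw [det_zero]; exact IsSquare.zero
  obtain ⟨i, j, hij⟩ : ∃ i j, A i j ≠ 0 := by
    by_contra! h
    exact h0 (ext h)
  have hne : i ≠ j := fun e => hij (e ▸ hd i)
  let p : ι → Prop := fun k => k = i ∨ k = j
  let e : Fin 2 ≃ {k // p k} := Equiv.ofBijective ![⟨i, .inl rfl⟩, ⟨j, .inr rfl⟩] ⟨by
    intro a b h
    fin_cases a <;> fin_cases b
    exacts [rfl, (hne (congrArg Subtype.val h)).elim, (hne (congrArg Subtype.val h).symm).elim,
      rfl], by
    rintro ⟨k, rfl | rfl⟩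
    exacts [⟨0, rfl⟩, ⟨1, rfl⟩]⟩
  have h3 : (toBlock A p p).det = A i j * A i j := by
    rw [← det_submatrix_equiv_self e, det_fin_two]
    show A i i * A j j - A i j * A j i = _
    rw [hd, hs i j]; ring
  have : Invertible (toBlock A p p) := invertibleOfIsUnitDet _ (h3 ▸ (mul_ne_zero hij hij).isUnit)
  rw [det_toBlock A p, det_fromBlocks₁₁, h3]
  have t1 : ∀ q r : ι → Prop, (toBlock A q r)ᵀ = -toBlock A r q := fun q r => by
    ext a b; exact hs _ _
  have t2 : (⅟(toBlock A p p))ᵀ = -⅟(toBlock A p p) := by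
    rw [invOf_eq_nonsing_inv, transpose_nonsing_inv, t1]
    exact inv_eq_left_inv (by rw [neg_mul_neg, ← invOf_eq_nonsing_inv, invOf_mul_self])
  have t3 : (toBlock A (fun a => ¬ p a) p * ⅟(toBlock A p p) * toBlock A p fun a => ¬ p a)ᵀ =
      -(toBlock A (fun a => ¬ p a) p * ⅟(toBlock A p p) * toBlock A p fun a => ¬ p a) := by
    rw [transpose_mul, transpose_mul, t1, t1, t2]
    simp only [Matrix.mul_neg, Matrix.neg_mul, neg_neg, Matrix.mul_assoc]
  refine IsSquare.mul ⟨_, rfl⟩ (ih _ ?_ _ rfl _ (fun a b => ?_) fun a => ?_)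
  · rw [← hn]
    exact Fintype.card_subtype_lt (x := i) (not_not.2 (.inl rfl))
  · have e1 := congrFun (congrFun t3 a) b
    rw [transpose_apply, Matrix.neg_apply] at e1
    rw [Matrix.sub_apply, Matrix.sub_apply, e1, toBlock_apply, toBlock_apply, hs]
    ring
  · have : ∀ v, v ⬝ᵥ (toBlock A (fun a => ¬ p a) p * ⅟(toBlock A p p) *
        toBlock A p fun a => ¬ p a) *ᵥ v = 0 := fun v => by
      rw [← mulVec_mulVec, ← mulVec_mulVec, dotProduct_mulVec, ← mulVec_transpose, t1, neg_mulVec,
        neg_dotProduct, neg_eq_zero]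
      generalize toBlock A p (fun a => ¬ p a) *ᵥ v = w
      have := quad_zero (A := toBlock A p p) (fun _ _ => hs _ _) (fun _ => hd _)
        (⅟(toBlock A p p) *ᵥ w)
      rwa [mulVec_mulVec, mul_invOf_self, one_mulVec, dotProduct_comm] at this
    have := this (Pi.single a 1)
    rw [single_one_dotProduct, mulVec_single_one] at this
    rw [Matrix.sub_apply, sub_eq_zero]
    exact (hd _).trans this.symm

theorem isSquare_det' {R : Type*} {ι : Type} [CommRing R] [IsDomain R] [IsIntegrallyClosed R] [Fintype ι]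
    [DecidableEq ι] (B : Matrix ι ι R) (hB : ∀ i j, B j i = -B i j) (hB0 : ∀ i, B i i = 0) :
    IsSquare B.det := by
  obtain ⟨q, hq⟩ := isSquare_det _ _ rfl (B.map (algebraMap R (FractionRing R)))
    (fun i j => by rw [map_apply, map_apply, hB, map_neg]) fun i => by rw [map_apply, hB0, map_zero]
  rw [← RingHom.mapMatrix_apply, ← RingHom.map_det, ← sq] at hq
  obtain ⟨P, rfl⟩ := IsIntegrallyClosed.exists_algebraMap_eq_of_isIntegral_pow (R := R) (x := q)
    two_pos (by rw [← hq]; exact isIntegral_algebraMap)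
  exact ⟨P, IsFractionRing.injective R (FractionRing R) (by rw [hq, map_mul, sq])⟩

open MvPolynomial in
theorem two_mul_finrank_le {F V W : Type*} [Field F] [Finite F] [AddCommGroup V] [Module F V]
    [AddCommGroup W] [Module F W] [Module.Finite F V] [Module.Finite F W] [Nontrivial V]
    (br : V →ₗ[F] V →ₗ[F] W) (h1 : ∀ x, br x x = 0) (h2 : ∀ x, x ≠ 0 → Function.Surjective (br x)) :
    2 * Module.finrank F W ≤ Module.finrank F V := by
  classical
  have := Fintype.ofFinite F
  by_contra hlt
  let b := Module.finBasis F V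
  let c := Module.finBasis F W
  have hs : ∀ x y, br y x = -br x y := fun x y => by
    have := h1 (x + y)
    simp only [map_add, LinearMap.add_apply, h1, zero_add, add_zero] at this
    exact eq_neg_of_add_eq_zero_left this
  let B : Matrix (Fin (Module.finrank F V)) (Fin (Module.finrank F V))
      (MvPolynomial (Fin (Module.finrank F W)) F) :=
    Matrix.of fun i j => ∑ k, C (c.repr (br (b i) (b j)) k) * X k
  have hB : ∀ i j, B j i = -B i j := fun i j => by
    simp only [B, of_apply, hs (b i) (b j), map_neg, Finsupp.neg_apply, neg_mul, Finset.sum_neg_distrib]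
  have hB0 : ∀ i, B i i = 0 := fun i => by simp [B, h1]
  obtain ⟨P, hP⟩ := isSquare_det' B hB hB0
  have hdeg : B.det.totalDegree ≤ Module.finrank F V := by
    have hB1 : ∀ i j, (B i j).totalDegree ≤ 1 := fun i j => by
      show (∑ k, C (c.repr (br (b i) (b j)) k) * X k : MvPolynomial _ F).totalDegree ≤ 1
      refine totalDegree_finsetSum_le fun k _ => (totalDegree_mul _ _).trans ?_
      rw [totalDegree_C, totalDegree_X]
    clear_value B
    rw [det_apply']
    refine totalDegree_finsetSum_le fun σ _ => (totalDegree_mul _ _).trans ?_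
    rw [← map_intCast (C : F →+* _), totalDegree_C, zero_add]
    refine (totalDegree_finsetProd _ _).trans ?_
    refine (Finset.sum_le_card_nsmul _ _ 1 fun i _ => hB1 _ _).trans ?_
    simp
  have hdeg' : P.totalDegree < Fintype.card (Fin (Module.finrank F W)) := by
    rw [Fintype.card_fin]
    by_cases h : P = 0
    · rw [h, totalDegree_zero]; omega
    · rw [hP, totalDegree_mul_of_isDomain h h] at hdeg
      omega
  obtain ⟨p, hp⟩ := CharP.exists F
  have h3 := char_dvd_card_solutions p hdeg'
  have h4 : ∀ μ, eval μ P = 0 ↔ μ = 0 := fun μ => by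
    rw [← mul_self_eq_zero, ← map_mul, ← hP, RingHom.map_det, RingHom.mapMatrix_apply]
    constructor
    · intro h
      obtain ⟨v, hv, h5⟩ := exists_vecMul_eq_zero_iff.2 h
      have h6 : (c.constr F μ) ∘ₗ br (b.equivFun.symm v) = 0 := b.ext fun j => by
        have := congrFun h5 j
        simp only [vecMul, dotProduct, map_apply, B, of_apply, map_sum, map_mul, eval_C, eval_X,
          Pi.zero_apply] at this
        rw [LinearMap.comp_apply, Module.Basis.equivFun_symm_apply, map_sum, LinearMap.sum_apply,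
          map_sum, LinearMap.zero_apply, ← this]
        refine Finset.sum_congr rfl fun i _ => ?_
        rw [map_smul, LinearMap.smul_apply, map_smul, Module.Basis.constr_apply_fintype]
        rfl
      funext k
      obtain ⟨y, hy⟩ := h2 _ ((map_ne_zero_iff _ b.equivFun.symm.injective).2 hv) (c k)
      have := LinearMap.congr_fun h6 y
      rwa [LinearMap.comp_apply, hy, Module.Basis.constr_basis] at this
    · rintro rfl
      have : Nonempty (Fin (Module.finrank F V)) := ⟨⟨0, Module.finrank_pos⟩⟩
      rw [show B.map (eval 0) = 0 by ext i j; simp [B], det_zero]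
  rw [Fintype.card_congr (Equiv.subtypeEquivRight h4), Fintype.card_subtype_eq] at h3
  exact (CharP.char_is_prime F p).one_lt.ne' (Nat.dvd_one.1 h3)

end Cfsg.Agent.H26.DS
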