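import Cfsg.Agent.H26.NdD
import Cfsg.Agent.H14.ExtraChar

/-! Tools on inertia groups, stabilizers of linear characters and vanishing. -/

set_option autoImplicit false

namespace Cfsg.Agent.H26.DS

open Cfsg Subgroup H24 H11 ND
open scoped commutatorElement Pointwise

variable {G : Type*} [Group G]

theorem deg_mem [Finite G] (N : Subgroup G) [N.Normal] (hc : IsCyclic (G ⧸ N)) {θ : N → ℂ}
    (hθ : IsIrrCharacter N θ) : (H14.inertia N θ).index * charDegree θ ∈ charDegrees G := by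
  have hNT := H14.le_inertia N (isClassFunction_of_irr hθ)
  have h1 : IsCyclic (H14.inertia N θ ⧸ N.subgroupOf (H14.inertia N θ)) :=
    isCyclic_of_injective (QuotientGroup.map _ N (H14.inertia N θ).subtype le_rfl) (by
      rw [← MonoidHom.ker_eq_bot_iff, eq_bot_iff]
      rintro ⟨x⟩ hx
      exact (QuotientGroup.eq_one_iff x).2 ((QuotientGroup.eq_one_iff (x : G)).1 hx))
  obtain ⟨ψ, hψ, h⟩ := exists_extension_of_isCyclic _ h1 (isIrr_subgroupOf hNT hθ)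
    ((H14.inertia_eq_top_iff _).2 fun g n =>
      (H14.mem_inertia' N).1 g.2 ⟨n, Subgroup.mem_subgroupOf.1 n.2⟩)
  have h' : (fun n : N => ψ ⟨n, hNT n.2⟩) = θ := funext fun n => congrFun h ⟨⟨n, hNT n.2⟩, n.2⟩
  have h2 := index_mul_mem_cd_of_extension N _ hNT (isCharacter_of_irr hψ) (by rw [h']; exact hθ)
    (by rw [h']) isIrrCharacter_one (by rw [charKer_one]; exact le_top)
  rwa [deg_congr (ψ := θ) (congrFun h' 1), deg_one, mul_one] at h2

/-- The action of `G` on the linear characters of a normal subgroup. -/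
@[reducible] def linAct (A : Subgroup G) [A.Normal] : MulDistribMulAction G (Lin A) where
  smul g μ := conjHom A g⁻¹ μ
  one_smul μ := by show conjHom A 1⁻¹ μ = μ; rw [inv_one, conjHom_one]
  mul_smul a b μ := by
    show conjHom A (a * b)⁻¹ μ = conjHom A a⁻¹ (conjHom A b⁻¹ μ)
    rw [conjHom_conjHom, mul_inv_rev]
  smul_mul a μ ν := map_mul (conjHom A a⁻¹) μ ν
  smul_one a := map_one (conjHom A a⁻¹)

theorem fix_inv {A : Subgroup G} [A.Normal] {x : G} {μ : Lin A} (h : conjHom A x μ = μ) :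
    conjHom A x⁻¹ μ = μ := (mem_inertia_lin A).1 (inv_mem ((mem_inertia_lin A).2 h))

theorem cyc_of_fpf [Finite G] {K N : Subgroup G} [K.Normal] [N.Normal] (hK : K < N)
    (hab : ⁅N, N⁆ ≤ K) (hG : commutator G ≤ N) (hf : ∀ g, g ∉ N → ∀ n ∈ N, ⁅g, n⁆ ∈ K → n ∈ K) :
    IsCyclic (G ⧸ N) := by
  let _ := linAct N
  let _ := H5.restrictAction (A := G) (linOver (K.subgroupOf N)) fun a _ h => conjHom_mem_linOver _ h
  let ρ := MulDistribMulAction.toMulAut G (linOver (K.subgroupOf N))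
  obtain ⟨a, ha, ha'⟩ := SetLike.exists_of_lt hK
  obtain ⟨μ, hμ, h1⟩ := exists_lin' hab ha ha'
  have : Nontrivial (linOver (K.subgroupOf N)) := ⟨⟨⟨μ, fun x hx => hμ x hx⟩, 1, fun e =>
    h1 (by rw [show μ = 1 from congrArg Subtype.val e]; rfl)⟩⟩
  have h2 : ∀ g, g ∉ N → ∀ ν, ρ g ν = ν → ν = 1 := fun g hg ν e => Subtype.ext
    (eq_one_of_conjHom_eq hK.le hab (hf g⁻¹ fun h => hg (inv_mem_iff.1 h)) ν.2
      (congrArg Subtype.val e))
  have h3 : ρ.ker = N := by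
    ext g
    refine ⟨fun h => by_contra fun hg => ?_, fun h => MulEquiv.ext fun ν =>
      Subtype.ext (conjHom_of_mem N (inv_mem h) _)⟩
    obtain ⟨ν, hν⟩ := exists_ne (1 : linOver (K.subgroupOf N))
    exact hν (h2 g hg ν (by rw [h]; rfl))
  have : IsMulCommutative ρ.range := ⟨⟨by
    rintro ⟨_, a, rfl⟩ ⟨_, b, rfl⟩
    refine Subtype.ext (commutatorElement_eq_one_iff_mul_comm.1 ?_)
    show ⁅ρ a, ρ b⁆ = 1
    rw [← map_commutatorElement, ← MonoidHom.mem_ker, h3]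
    exact hG (commutatorElement_mem_commutator' a b)⟩⟩
  have h4 : H5.Semireg ρ.range (linOver (K.subgroupOf N)) := by
    rintro ⟨_, g, rfl⟩ hg ν e
    exact h2 g (fun h => hg (Subtype.ext (h3.ge h))) ν e
  have := h4.isCyclic_of_comm
  exact isCyclic_of_surjective _ ((QuotientGroup.quotientKerEquivRange ρ).symm.trans
    (QuotientGroup.quotientMulEquivOfEq h3)).surjective

/-- The twisted commutator map on linear characters. -/
def dl (A : Subgroup G) [A.Normal] (x : G) : Lin A →* Lin A := conjHom A x / MonoidHom.id _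

theorem dl_eq (A : Subgroup G) [A.Normal] (x : G) (μ : Lin A) :
    dl A x μ = conjHom A x μ * μ⁻¹ := div_eq_mul_inv _ _

theorem dl_apply (A : Subgroup G) [A.Normal] (x : G) (μ : Lin A) {a : G} (ha : a ∈ A) :
    (dl A x μ).hom ⟨a, ha⟩ = μ.hom ⟨⁅x, a⁆, cm_mem A x ha⟩ := by rw [dl_eq, lin_cm]

theorem dl_eq_one {A : Subgroup G} [A.Normal] {x : G} {μ : Lin A} :
    dl A x μ = 1 ↔ conjHom A x μ = μ := div_eq_one

theorem conj_comm {A : Subgroup G} [A.Normal] {x y : G} {μ : Lin A}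
    (h : conjHom A ⁅x, y⁆ μ = μ) : conjHom A y (conjHom A x μ) = conjHom A x (conjHom A y μ) := by
  conv_rhs => rw [← h]
  simp only [conjHom_conjHom, commutatorElement_def, inv_mul_cancel_right]

theorem fix_dl {A : Subgroup G} [A.Normal] {x y : G} {μ : Lin A} (h : conjHom A ⁅x, y⁆ μ = μ)
    (hy : conjHom A y μ = μ) : conjHom A y (dl A x μ) = dl A x μ := by
  rw [dl_eq, map_mul, map_inv, conj_comm h, hy]

theorem dl_comm {A : Subgroup G} [A.Normal] {x y : G} {μ : Lin A} (h : conjHom A ⁅x, y⁆ μ = μ) :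
    dl A y (dl A x μ) = dl A x (dl A y μ) := by
  simp only [dl_eq, map_mul, map_inv, conj_comm h, mul_inv, inv_inv]
  ac_rfl

/-- An antichain of stabilizers in a group acting commutatively is constant. -/
theorem ac (A : Subgroup G) [A.Normal] (Λ : Subgroup (Lin A)) (S : Subgroup G)
    (h1 : ∀ s ∈ S, ∀ μ ∈ Λ, conjHom A s μ ∈ Λ)
    (h2 : ∀ s ∈ S, ∀ t ∈ S, ∀ μ ∈ Λ, conjHom A ⁅s, t⁆ μ = μ)
    (key : ∀ μ ∈ Λ, ∀ ν ∈ Λ, μ ≠ 1 → ν ≠ 1 → H14.inertia A (lin μ) ⊓ S ≤ H14.inertia A (lin ν) →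
      H14.inertia A (lin ν) ⊓ S ≤ H14.inertia A (lin μ))
    {μ ν : Lin A} (hμ : μ ∈ Λ) (hν : ν ∈ Λ) (hμ1 : μ ≠ 1) (hν1 : ν ≠ 1) :
    H14.inertia A (lin μ) ⊓ S ≤ H14.inertia A (lin ν) := by
  have hfix : ∀ μ ∈ Λ, ∀ t ∈ S, H14.inertia A (lin μ) ⊓ S ≤ H14.inertia A (lin (dl A t μ)) :=
    fun μ hμ t ht x hx => (mem_inertia_lin A).2 (fix_dl (h2 t ht x hx.2 μ hμ)
      ((mem_inertia_lin A).1 hx.1))
  have hd : ∀ μ ∈ Λ, ∀ t ∈ S, dl A t μ ∈ Λ := fun μ hμ t ht =>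
    dl_eq A t μ ▸ mul_mem (h1 t ht μ hμ) (inv_mem hμ)
  have hinv : ∀ μ : Lin A, H14.inertia A (lin μ⁻¹) = H14.inertia A (lin μ) := fun μ => by
    ext x
    rw [mem_inertia_lin, mem_inertia_lin, map_inv, inv_inj]
  by_contra hne
  have h3 : μ * ν ≠ 1 := fun e => hne (by rw [eq_inv_of_mul_eq_one_left e, hinv]; exact inf_le_left)
  have h4 : H14.inertia A (lin (μ * ν)) ⊓ S ≤ H14.inertia A (lin μ) := by
    rintro t ⟨ht, ht'⟩
    refine (mem_inertia_lin _).2 (dl_eq_one.1 (by_contra fun h5 => hne fun x hx => ?_))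
    have h6 : dl A t μ = (dl A t ν)⁻¹ := by
      rw [eq_inv_iff_mul_eq_one, ← map_mul, dl_eq_one]
      exact (mem_inertia_lin _).1 ht
    have h7 := hfix μ hμ t ht' hx
    rw [h6, hinv] at h7
    exact key ν hν _ (hd ν hν t ht') hν1 (fun e => h5 (by rw [h6, e, inv_one]))
      (hfix ν hν t ht') ⟨h7, hx.2⟩
  refine hne fun x hx => (mem_inertia_lin _).2 ?_
  have h5 := (mem_inertia_lin _).1 (key _ (mul_mem hμ hν) μ hμ h3 hμ1 h4 hx)
  rwa [map_mul, (mem_inertia_lin _).1 hx.1, mul_right_inj] at h5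

theorem fpf_of_over [Finite G] {A B : Subgroup G} [A.Normal] [B.Normal] (hB : ⁅A, A⁆ ≤ B) {x : G}
    (h : ∀ μ ∈ linOver (B.subgroupOf A), conjHom A x μ = μ → μ = 1) (a : G) (ha : a ∈ A)
    (hc : ⁅x, a⁆ ∈ B) : a ∈ B := by
  let δ : linOver (B.subgroupOf A) → linOver (B.subgroupOf A) := fun μ => ⟨dl A x μ,
    dl_eq A x μ ▸ mul_mem (conjHom_mem_linOver x μ.2) (inv_mem μ.2)⟩
  have h1 : Function.Injective δ := fun μ ν e => Subtype.ext (mul_inv_eq_one.1
    (h _ (mul_mem μ.2 (inv_mem ν.2)) (dl_eq_one.1 (by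
      rw [map_mul, map_inv, mul_inv_eq_one]; exact congrArg Subtype.val e))))
  by_contra hn
  obtain ⟨ν, h2, h3⟩ := exists_lin' hB ha hn
  obtain ⟨μ, e⟩ := Finite.injective_iff_surjective.1 h1 ⟨ν, fun x hx => h2 x hx⟩
  rw [← show dl A x μ = ν from congrArg Subtype.val e, dl_apply] at h3
  exact h3 (μ.2 hc)

section Torsor

variable [Finite G] {A B : Subgroup G} [A.Normal] [B.Normal]

theorem uniq (h1 : B ≤ A) (h2 : ⁅A, A⁆ ≤ B) {x : G} (hx : ∀ a ∈ A, ⁅x, a⁆ ∈ B → a ∈ B)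
    {ξ : A → ℂ} {μ : Lin A} (hμ : μ ∈ linOver (B.subgroupOf A)) (e : x ∈ H14.inertia A ξ)
    (e' : x ∈ H14.inertia A (lin μ * ξ)) : lin μ * ξ = ξ :=
  mem_linStab_of_conjHom h1 h2 hx (l := 1) (by rw [map_one, one_mul]; exact e) hμ (by
    rw [H14.mem_inertia, H14.conjChar_mul, conjChar_lin, (H14.mem_inertia A).1 e] at e'
    exact e')

omit [Finite G] in
theorem conj_eq_of_fix {ξ : A → ℂ} {μ : Lin A} (hμ : μ ∈ linOver (B.subgroupOf A)) {y : G}
    (e : y ∈ H14.inertia A (lin μ * ξ)) :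
    ∃ α ∈ linOver (B.subgroupOf A), H14.conjChar A ξ y = lin α * ξ := by
  rw [H14.mem_inertia, H14.conjChar_mul, conjChar_lin] at e
  refine ⟨(conjHom A y μ)⁻¹ * μ, mul_mem (inv_mem (conjHom_mem_linOver y hμ)) hμ, ?_⟩
  rw [map_mul, mul_assoc, ← e, ← mul_assoc, ← map_mul, inv_mul_cancel, map_one, one_mul]

theorem fix_of_comm (h1 : B ≤ A) (h2 : ⁅A, A⁆ ≤ B) {x y : G} (hx : ∀ a ∈ A, ⁅x, a⁆ ∈ B → a ∈ B)
    {ξ : A → ℂ} {α : Lin A} (hα : α ∈ linOver (B.subgroupOf A)) (e : x ∈ H14.inertia A ξ)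
    (e' : H14.conjChar A ξ y = lin α * ξ) (hc : y * x * y⁻¹ ∈ H14.inertia A ξ) :
    y ∈ H14.inertia A ξ := by
  rw [H14.mem_inertia, e']
  refine uniq h1 h2 hx hα e ?_
  rw [← e', H14.mem_inertia_conjChar]
  exact hc

theorem exists_fixed (h1 : B ≤ A) (h2 : ⁅A, A⁆ ≤ B) {x : G} (hx : ∀ a ∈ A, ⁅x, a⁆ ∈ B → a ∈ B)
    {ξ : A → ℂ} {α : Lin A} (hα : α ∈ linOver (B.subgroupOf A))
    (e : H14.conjChar A ξ x = lin α * ξ) :
    ∃ β ∈ linOver (B.subgroupOf A), x ∈ H14.inertia A (lin β * ξ) := by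
  let δ : linOver (B.subgroupOf A) → linOver (B.subgroupOf A) := fun μ => ⟨dl A x μ,
    dl_eq A x μ ▸ mul_mem (conjHom_mem_linOver x μ.2) (inv_mem μ.2)⟩
  have h3 : Function.Injective δ := fun μ ν e => Subtype.ext (mul_inv_eq_one.1
    (eq_one_of_conjHom_eq h1 h2 hx (mul_mem μ.2 (inv_mem ν.2)) (dl_eq_one.1 (by
      rw [map_mul, map_inv, mul_inv_eq_one]; exact congrArg Subtype.val e))))
  obtain ⟨β, hβ⟩ := Finite.injective_iff_surjective.1 h3 ⟨α⁻¹, inv_mem hα⟩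
  have h4 : conjHom A x β * α = β := by
    have : dl A x β = α⁻¹ := congrArg Subtype.val hβ
    rw [dl_eq, mul_inv_eq_iff_eq_mul] at this
    rw [this, mul_right_comm, inv_mul_cancel, one_mul]
  refine ⟨β, β.2, ?_⟩
  rw [H14.mem_inertia, H14.conjChar_mul, conjChar_lin, e, ← mul_assoc, ← map_mul, h4]

omit [A.Normal] [B.Normal] in
theorem vanish_of_stab (h2 : ⁅A, A⁆ ≤ B) {ξ : A → ℂ}
    (h : ∀ μ ∈ linOver (B.subgroupOf A), lin μ * ξ = ξ) (x : A) (hx : (x : G) ∉ B) : ξ x = 0 := by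
  obtain ⟨μ, h3, h4⟩ := exists_lin' h2 x.2 hx
  have h5 := congrFun (h μ fun y hy => h3 y hy) x
  rw [Pi.mul_apply, mul_left_eq_self₀, lin_apply, Units.val_eq_one] at h5
  exact h5.resolve_left h4

/-- A family of functions each fixed by a fixed point free element vanishes off `B`. -/
theorem vanish_of_fix (h1 : B ≤ A) (h2 : ⁅A, A⁆ ≤ B) (X : G → Prop)
    (hX : ∀ x, X x → ∀ a ∈ A, ⁅x, a⁆ ∈ B → a ∈ B) {ξ : A → ℂ}
    (hc : ∀ x y, X x → X y → ⁅y, x⁆ ∈ H14.inertia A ξ)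
    (h : ∀ μ ∈ linOver (B.subgroupOf A), ∃ x, X x ∧ x ∈ H14.inertia A (lin μ * ξ)) (a : A)
    (ha : (a : G) ∉ B) : ξ a = 0 := by
  refine vanish_of_stab h2 (fun μ hμ => ?_) a ha
  obtain ⟨x, hx, e⟩ := h 1 (one_mem _)
  rw [map_one, one_mul] at e
  obtain ⟨y, hy, e'⟩ := h μ hμ
  obtain ⟨α, hα, e''⟩ := conj_eq_of_fix hμ e'
  refine uniq h1 h2 (hX y hy) hμ (fix_of_comm h1 h2 (hX x hx) hα e e'' ?_) e'
  simpa [commutatorElement_def] using mul_mem (hc x y hx hy) e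

end Torsor

theorem exists_over [Finite G] {A N : Subgroup G} (h : A ≤ N) [Fintype A] {ψ : A → ℂ}
    (hψ : IsIrrCharacter A ψ) :
    ∃ θ, IsIrrCharacter N θ ∧ classInner (fun a : A => θ ⟨a, h a.2⟩) ψ ≠ 0 := by
  have := Fintype.ofFinite G
  have := Fintype.ofFinite N
  obtain ⟨χ, hχ, h1⟩ := H14.exists_irr_over A hψ
  obtain ⟨θ, h2, -, h3⟩ := exists_between h (isClassFunction_of_irr hχ) h1
  exact ⟨θ, h2, h3⟩

theorem frattini [Finite G] {A N : Subgroup G} [A.Normal] [N.Normal] (h : A ≤ N) [Fintype A]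
    {ψ : A → ℂ} (hψ : IsIrrCharacter A ψ) {θ : N → ℂ} (hθ : IsIrrCharacter N θ)
    (h1 : classInner (fun a : A => θ ⟨a, h a.2⟩) ψ ≠ 0) {x : G} (hx : x ∈ H14.inertia N θ) :
    ∃ n ∈ N, x * n ∈ H14.inertia A ψ := by
  have := Fintype.ofFinite N
  obtain ⟨t, ht, e⟩ := H14.clifford_conj_of_le A N h hθ (H14.isIrr_conjChar A hψ x) hψ (by
    rw [← H14.inner_conjChar_conjChar A _ _ x⁻¹, H14.conjChar_conjChar, mul_inv_cancel,
      H14.conjChar_one]
    convert h1 using 2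
    exact funext fun a => congrFun ((H14.mem_inertia N).1 (inv_mem hx)) ⟨a, h a.2⟩) h1
  exact ⟨t, ht, by rw [H14.mem_inertia, ← H14.conjChar_conjChar, e]⟩

theorem le_ker_of_over [Finite G] {A N U : Subgroup G} (h : A ≤ N) [Fintype A]
    {ψ : A → ℂ} (hψ : IsIrrCharacter A ψ) {θ : N → ℂ} (hθ : IsIrrCharacter N θ)
    (h1 : classInner (fun a : A => θ ⟨a, h a.2⟩) ψ ≠ 0) (hU : U.subgroupOf N ≤ charKer θ) :
    U.subgroupOf A ≤ charKer ψ := fun x hx => by
  have h2 : IsCharacter A fun a : A => θ (inclusion h a) :=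
    isCharacter_comp (isCharacter_of_irr hθ) _
  refine charKer_le_of_constituent h2 hψ h1 ?_
  rw [charKer_comp (isCharacter_of_irr hθ)]
  exact hU hx

/-- Orbit sums. -/
noncomputable def osum (A Q : Subgroup G) [A.Normal] [Fintype Q] (ψ : A → ℂ) : A → ℂ :=
  ∑ q : Q, H14.conjChar A ψ q

theorem mem_inertia_osum {A Q : Subgroup G} [A.Normal] [hQ : Q.Normal] [Fintype Q] {ψ : A → ℂ}
    {x : G} (hx : x ∈ H14.inertia A ψ ∨ x ∈ Q) : x ∈ H14.inertia A (osum A Q ψ) := by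
  have e : H14.conjChar A (osum A Q ψ) x = ∑ q : Q, H14.conjChar A ψ (q * x) := by
    funext a
    simp only [osum, H14.conjChar_apply, Finset.sum_apply, mul_assoc, mul_inv_rev]
  rw [H14.mem_inertia, e]
  rcases hx with hx | hx
  · refine Fintype.sum_equiv (MulAut.conjNormal x⁻¹).toEquiv _ _ fun q => ?_
    refine (?_ : _ = H14.conjChar A ψ (x * _)).trans (H14.conjChar_mul_of_mem A hx _)
    congr 1
    simp [mul_assoc]
  · exact Fintype.sum_equiv (Equiv.mulRight ⟨x, hx⟩) _ _ fun q => rfl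

theorem lin_mul_osum {A Q : Subgroup G} [A.Normal] [Fintype Q] (ψ : A → ℂ) {μ : Lin A}
    (h : ∀ q ∈ Q, conjHom A q μ = μ) : lin μ * osum A Q ψ = osum A Q (lin μ * ψ) := by
  rw [osum, osum, Finset.mul_sum]
  exact Finset.sum_congr rfl fun q _ => by rw [H14.conjChar_mul, conjChar_lin, h q q.2]

theorem conj_of_osum [Finite G] {A Q : Subgroup G} [hA : A.Normal] [Fintype Q] (h : A ≤ Q) {a b : A}
    (e : ∀ ψ, IsIrrCharacter A ψ → osum A Q ψ a = osum A Q ψ b) :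
    ∃ q ∈ Q, q * (a : G) * q⁻¹ = b := by
  classical
  have := Fintype.ofFinite A
  have := Fintype.ofFinite (IrrCharacter A)
  let F : A → ℂ := fun x => if ∃ q ∈ Q, q * (x : G) * q⁻¹ = b then 1 else 0
  have h1 : ∀ (x : A) (t : G) (h' : _), t ∈ Q → F ⟨t * x * t⁻¹, h'⟩ = F x := fun x t h' ht => by
    refine if_congr ⟨fun ⟨q, hq, e⟩ => ⟨q * t, mul_mem hq ht, by rw [← e]; group⟩,
      fun ⟨q, hq, e⟩ => ⟨q * t⁻¹, mul_mem hq (inv_mem ht), by rw [← e]; group⟩⟩ rfl rfl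
  have h2 : IsClassFunction A F := fun x t => h1 _ _ (hA.conj_mem _ (Subtype.prop _) _) (h (Subtype.prop _))
  have h3 : ∀ x, osum A Q F x = Fintype.card Q * F x := fun x => by
    rw [osum, Finset.sum_apply]
    refine (Finset.sum_congr rfl (g := fun _ => F x) fun (q : Q) _ => h1 x q _ q.2).trans ?_
    simp
  have h4 : ∀ x, osum A Q F x = ∑ χ : IrrCharacter A, classInner F χ * osum A Q χ x := fun x => by
    conv_lhs => rw [classFun_eq_sum h2]
    simp only [osum, Finset.sum_apply, H14.conjChar_apply, Pi.smul_apply, smul_eq_mul,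
      Finset.mul_sum]
    exact Finset.sum_comm
  have h5 : osum A Q F a = osum A Q F b := by
    rw [h4, h4]; exact Finset.sum_congr rfl fun χ _ => by rw [e _ χ.2]
  rw [h3, h3, mul_right_inj' (by exact_mod_cast Fintype.card_ne_zero)] at h5
  by_contra hn
  simp only [F, if_neg hn, if_pos (⟨1, one_mem Q, by simp⟩ : ∃ q ∈ Q, q * (b : G) * q⁻¹ = b)] at h5
  exact zero_ne_one h5

theorem le_center_of_sq {H : Type*} [Group H] [Finite H] {χ : H → ℂ} (hχ : IsIrrCharacter H χ)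
    {V : Subgroup H} (h : ∀ x, x ∉ V → χ x = 0) (hd : charDegree χ ^ 2 = V.index) :
    V ≤ charCenter χ := by
  classical
  have := Fintype.ofFinite H
  have h1 := sum_norm_sq_eq_card hχ
  have h2 : ‖χ 1‖ = charDegree χ := by rw [irr_deg hχ, Complex.norm_natCast]
  rw [← Finset.sum_filter_of_ne (p := (· ∈ V)) fun x _ hx => by_contra fun e => hx (by simp [h x e]),
    ← V.card_mul_index, ← hd, Nat.card_eq_fintype_card, Fintype.card_subtype] at h1
  have h3 := (Finset.sum_eq_sum_iff_of_le (s := Finset.univ.filter (· ∈ V))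
    (f := fun g => ‖χ g‖ ^ 2) (g := fun _ => (charDegree χ : ℝ) ^ 2) fun g _ => by
      refine pow_le_pow_left₀ (norm_nonneg _) ?_ 2
      simpa [irr_deg hχ] using norm_apply_le (isCharacter_of_irr hχ) g).1 (by
    rw [h1]; simp)
  intro x hx
  rw [mem_charCenter_iff (isCharacter_of_irr hχ), h2]
  exact (pow_left_inj₀ (norm_nonneg _) (Nat.cast_nonneg _) two_ne_zero).1
    (h3 x (Finset.mem_filter.2 ⟨Finset.mem_univ _, hx⟩))

/-- A Frobenius complement has a fixed point. -/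
theorem fp {A Λ : Type*} [Group A] [CommGroup Λ] [MulDistribMulAction A Λ] [Finite A]
    (U : Subgroup A) [hU : U.Normal] (z : A)
    (h1 : ∀ i : ℕ, z ^ i ≠ 1 → ∀ u ∈ U, Commute (z ^ i) u → u = 1)
    (h2 : ∀ l : Λ, (∀ u ∈ U, u • l = l) → l = 1) (h4 : ∀ l : Λ, z • l = l → l = 1) (l : Λ) :
    l ^ Nat.card U = 1 := by
  classical
  have := Fintype.ofFinite U
  have a1 : ∀ m : Λ, ∏ u : U, (u : A) • m = 1 := fun m => h2 _ fun v hv => by
    rw [Finset.smul_prod']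
    exact Fintype.prod_equiv (Equiv.mulLeft (⟨v, hv⟩ : U)) _ _ fun u => (mul_smul v (u : A) m).symm
  have a2 : ∀ m : Λ, ∏ i ∈ Finset.range (orderOf z), z ^ i • m = 1 := fun m => h4 _ (by
    have e1 := Finset.prod_range_succ (fun i => z ^ i • m) (orderOf z)
    rw [Finset.prod_range_succ', pow_orderOf_eq_one, pow_zero, mul_left_inj] at e1
    rw [Finset.smul_prod', ← e1]
    exact Finset.prod_congr rfl fun i _ => by rw [pow_succ', mul_smul])
  have a3 : ∏ u : U, ∏ i ∈ Finset.range (orderOf z), ((u : A) * z ^ i * (u : A)⁻¹) • l = 1 :=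
    Finset.prod_eq_one fun u _ => by
      simp only [mul_smul]
      rw [← Finset.smul_prod', a2, smul_one]
  rw [Finset.prod_comm, Finset.prod_eq_single 0 ?_ fun h => (h (Finset.mem_range.2
    (orderOf_pos z))).elim] at a3
  · simpa using a3
  · intro i hi hi'
    have b1 := (surj_iff U (z ^ i)).1 (h1 i (pow_ne_one_of_lt_orderOf hi' (Finset.mem_range.1 hi)))
    let f : U → U := fun u => ⟨⁅(u : A), z ^ i⁆, cm_mem' U _ u.2⟩
    have b2 : Function.Surjective f := fun w => by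
      obtain ⟨a, ha, e⟩ := b1 _ (inv_mem w.2)
      exact ⟨⟨a, ha⟩, Subtype.ext (by
        show ⁅a, z ^ i⁆ = w
        rw [← commutatorElement_inv, ← e, inv_inv])⟩
    rw [← a1 (z ^ i • l)]
    refine Fintype.prod_bijective f ⟨Finite.injective_iff_surjective.2 b2, b2⟩ _ _ fun u => ?_
    rw [← mul_smul]
    congr 1
    simp [f, commutatorElement_def]

end Cfsg.Agent.H26.DS
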