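import Cfsg.Agent.H50.E72Defs

/-! Generation of the alternating group of degree 13 by two elements of order three. -/

set_option autoImplicit false
set_option maxRecDepth 100000

namespace Cfsg.Agent.H26.E72EmbA2

open Equiv Equiv.Perm MulAction Cfsg.Agent.H50.E72

def a13 : Perm (Fin 13) := c[0, 3, 6] * c[1, 9, 12]

theorem a13_type : a13.cycleType = {3, 3} := by decide +kernel

theorem ab_pow : (a13 * b13) ^ 13 = 1 := by decide +kernel

theorem ab_trans : ∀ x : Fin 13, ∃ k : Fin 13, ((a13 * b13) ^ (k : ℕ)) 0 = x := by decide +kernel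

theorem comm_type : ((a13 * b13 * a13⁻¹ * b13⁻¹) ^ 7).cycleType = {3} := by decide +kernel

theorem a13_sign : a13 ∈ alternatingGroup (Fin 13) := by
  rw [mem_alternatingGroup]; decide +kernel

theorem alt_le : alternatingGroup (Fin 13) ≤ Subgroup.closure {a13, b13} := by
  set G : Subgroup (Perm (Fin 13)) := Subgroup.closure {a13, b13} with hG
  have ha : a13 ∈ G := Subgroup.subset_closure (by simp)
  have hb : b13 ∈ G := Subgroup.subset_closure (by simp)
  have h0 : ∀ x : Fin 13, ∃ g : G, g • (0 : Fin 13) = x := fun x => by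
    obtain ⟨k, hk⟩ := ab_trans x
    exact ⟨⟨(a13 * b13) ^ (k : ℕ), G.pow_mem (G.mul_mem ha hb) _⟩, hk⟩
  have : IsPretransitive G (Fin 13) := ⟨fun x y => by
    obtain ⟨g, rfl⟩ := h0 x
    obtain ⟨h, rfl⟩ := h0 y
    exact ⟨h * g⁻¹, by simp [mul_smul]⟩⟩
  have hp : IsPreprimitive G (Fin 13) := IsPreprimitive.of_prime_card (by simp; norm_num)
  exact alternatingGroup_le_of_isPreprimitive_of_isThreeCycle_mem hp comm_type
    (G.pow_mem (G.mul_mem (G.mul_mem (G.mul_mem ha hb) (G.inv_mem ha)) (G.inv_mem hb)) 7)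

theorem embA2 : EmbA2Stmt := by
  intro b hb
  refine ⟨⟨a13, a13_sign⟩, a13_type, ?_, ?_⟩
  · apply Subtype.ext
    simp only [SubmonoidClass.coe_pow, Subgroup.coe_mul, hb, Subgroup.coe_one]
    exact ab_pow
  · rw [eq_top_iff]
    rintro x -
    have hx := alt_le x.2
    have : Subgroup.closure {a13, b13} = (Subgroup.closure
        ({⟨a13, a13_sign⟩, b} : Set (alternatingGroup (Fin 13)))).map (Subgroup.subtype _) := by
      rw [MonoidHom.map_closure]
      simp [Set.image_insert_eq, hb]
    rw [this] at hx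
    obtain ⟨y, hy, hyx⟩ := hx
    have : y = x := Subtype.ext hyx
    exact this ▸ hy

end Cfsg.Agent.H26.E72EmbA2
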