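import Cfsg.Agent.H11.ElDefs

/-!
# An involution of a `J₁` inverting a member of the class fixes an even number of members
-/

set_option autoImplicit false
open Subgroup Cfsg.Agent.H11.EL

namespace Cfsg.Agent.H26.ElJ1

universe u

section
variable {G : Type u} [Group G]

theorem ex_ne [Finite G] {A : Subgroup G} (hA : Nat.card A = 11) :
    ∃ a ∈ A, a ≠ 1 ∧ orderOf a = 11 := by
  haveI : Fact (Nat.Prime 11) := ⟨by norm_num⟩
  obtain ⟨a, ha⟩ := exists_prime_orderOf_dvd_card' (G := A) 11 (by rw [hA])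
  have h : orderOf (a : G) = 11 := by rw [Subgroup.orderOf_coe, ha]
  refine ⟨a, a.2, ?_, h⟩
  intro h1
  rw [h1, orderOf_one] at h
  exact absurd h (by norm_num)

theorem not_inv {a : G} (ha : orderOf a = 11) (h : a⁻¹ = a) : False := by
  have h2 : a ^ 2 = 1 := by rw [pow_two]; nth_rewrite 1 [← h]; exact inv_mul_cancel a
  have := orderOf_dvd_of_pow_eq_one h2
  rw [ha] at this
  exact absurd this (by norm_num)

theorem comm_of {E : Subgroup G} (hE : ∀ x ∈ E, x * x = 1) {x y : G} (hx : x ∈ E) (hy : y ∈ E) :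
    x * y = y * x := by
  have h1 := hE _ (E.mul_mem hx hy)
  have hx' : x⁻¹ = x := inv_eq_of_mul_eq_one_right (hE x hx)
  have hy' : y⁻¹ = y := inv_eq_of_mul_eq_one_right (hE y hy)
  have : (x * y)⁻¹ = x * y := inv_eq_of_mul_eq_one_right h1
  rw [← this, mul_inv_rev, hx', hy']

/-- the action of a subgroup centralising `y` on the members normalised by `y` -/
def act {D : Set (Subgroup G)} (h : Cls D) (y : G) (E : Subgroup G)
    (hc : ∀ e ∈ E, e * y = y * e) : MulAction E {B : Subgroup G // B ∈ Fx D y} where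
  smul e B := ⟨cj (e : G) B.1, h.conj _ B.2.1 _, by
    rw [← cj_eq_iff, ← cj_mul, ← hc e e.2, cj_mul, cj_eq_iff.2 B.2.2]⟩
  one_smul B := Subtype.ext (cj_one B.1)
  mul_smul g k B := Subtype.ext (cj_mul (g : G) (k : G) B.1)

end

theorem j1 (b : Base.{u}) : J1Stmt.{u} := by
  intro G _ _ D y A hD hS
  obtain ⟨hA, hyy, hyA, J, hJ, hAJ, hyJ⟩ := hS
  have ja := b.ja J hJ
  have mb := b.mb D hD
  obtain ⟨a, haA, ha1, ha⟩ := ex_ne (hD.card A hA)
  have hy1 : y ≠ 1 := by
    intro h
    have := hyA a haA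
    rw [h] at this
    apply not_inv ha
    simpa using this.symm
  have hyo : orderOf y = 2 := orderOf_eq_prime (by rw [pow_two, hyy]) hy1
  obtain ⟨E, hEJ, hyE, hE8, hE⟩ := ja.e8 y hyJ hyo
  by_contra hodd
  letI := act hD y E (fun e he => comm_of hE he hyE)
  haveI : Fact (Nat.Prime 2) := ⟨Nat.prime_two⟩
  have hp : IsPGroup 2 E := IsPGroup.of_card (n := 3) (by rw [hE8]; norm_num)
  have hnd : ¬ 2 ∣ Nat.card {B : Subgroup G // B ∈ Fx D y} := by
    intro h
    exact hodd (even_iff_two_dvd.2 h)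
  obtain ⟨B, hB⟩ := hp.nonempty_fixed_point_of_prime_not_dvd_card _ hnd
  have hBD : B.1 ∈ D := B.2.1
  have hN : ∀ e ∈ E, e ∈ Nm B.1 := by
    intro e he
    rw [← cj_eq_iff]
    exact congrArg Subtype.val (hB ⟨e, he⟩)
  obtain ⟨c, hcB, -, hc⟩ := ex_ne (hD.card _ hBD)
  have hdi : ∀ e ∈ E, e ∈ Ct B.1 ∨ Ex e B.1 (-1) := by
    intro e he
    rcases mb.tri _ hBD e (hN e he) with h | h | ⟨i, hi, hn⟩
    · exact Or.inl h
    · exact Or.inr h
    · exfalso
      apply hn
      have h1 := hi c hcB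
      have h2 := hi (c ^ i) (B.1.zpow_mem hcB i)
      have h3 : e * (e * c * e⁻¹) * e⁻¹ = c := by
        have : e⁻¹ = e := inv_eq_of_mul_eq_one_right (hE e he)
        rw [this]
        calc e * (e * c * e) * e = (e * e) * c * (e * e) := by simp only [mul_assoc]
          _ = c := by rw [hE e he]; simp
      rw [h1, h2, ← zpow_mul] at h3
      have h4 : c ^ (i ^ 2 - 1) = 1 := by
        rw [zpow_sub, pow_two, h3]; simp
      have := (orderOf_dvd_iff_zpow_eq_one).2 h4
      rw [hc] at this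
      exact_mod_cast this
  have hu : ∃ u ∈ E, u ≠ 1 ∧ u ∈ Ct B.1 := by
    have hx : ∃ x ∈ E, x ≠ 1 ∧ x ≠ y := by
      by_contra hcon
      push Not at hcon
      have hsub : (E : Set G) ⊆ {1, y} := by
        intro x hx
        by_cases h : x = 1
        · exact Or.inl h
        · exact Or.inr (hcon x hx h)
      have h1 := Set.ncard_le_ncard hsub (Set.toFinite _)
      have h2 : ({1, y} : Set G).ncard ≤ 2 := (Set.ncard_insert_le _ _).trans (by simp)
      have h3 : (E : Set G).ncard = 8 := hE8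
      omega
    obtain ⟨x, hxE, hx1, hxy⟩ := hx
    rcases hdi x hxE with h | h
    · exact ⟨x, hxE, hx1, h⟩
    rcases hdi y hyE with h' | h'
    · exact ⟨y, hyE, hy1, h'⟩
    refine ⟨x * y, E.mul_mem hxE hyE, ?_, ?_⟩
    · intro h1
      apply hxy
      have := eq_inv_of_mul_eq_one_left h1
      rw [this]
      exact inv_eq_of_mul_eq_one_right hyy
    · rw [mem_centralizer_iff]
      intro d hd
      have h1 := h' d hd
      have h2 := h (d ^ (-1 : ℤ)) (B.1.zpow_mem hd _)
      have h3 : x * y * d * (x * y)⁻¹ = d := by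
        calc x * y * d * (x * y)⁻¹ = x * (y * d * y⁻¹) * x⁻¹ := by group
          _ = d := by rw [h1, h2]; simp
      calc d * (x * y) = (x * y * d * (x * y)⁻¹) * (x * y) := by rw [h3]
        _ = x * y * d := by group
  obtain ⟨u, huE, hu1, huB⟩ := hu
  have huo : orderOf u = 2 := orderOf_eq_prime (by rw [pow_two, hE u huE]) hu1
  obtain ⟨g, -, hg⟩ := ja.cls y hyJ u (hEJ huE) hyo huo
  have hyN : y ∈ Nm A := by
    rw [mem_normalizer_iff]
    intro h
    constructor
    · intro hh
      rw [hyA h hh]; exact A.zpow_mem hh _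
    · intro hh
      have h1 := hyA _ hh
      have h2 : y * (y * h * y⁻¹) * y⁻¹ = h := by
        have : y⁻¹ = y := inv_eq_of_mul_eq_one_right hyy
        rw [this]
        calc y * (y * h * y) * y = (y * y) * h * (y * y) := by simp only [mul_assoc]
          _ = h := by rw [hyy]; simp
      rw [h2] at h1
      rw [h1]; exact A.zpow_mem hh _
  have huN : u ∈ Nm (cj g A) := by
    rw [← cj_eq_iff, ← cj_mul, ← hg]
    have : g * y * g⁻¹ * g = g * y := by group
    rw [this, cj_mul, cj_eq_iff.2 hyN]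
  have hcen := mb.cen _ hBD _ (hD.conj A hA g) u huB huN
  rw [mem_centralizer_iff] at hcen
  have hmem : g * a * g⁻¹ ∈ B.1 ⊔ cj g A := by
    apply (le_sup_right : cj g A ≤ B.1 ⊔ cj g A)
    rw [mem_cj]
    simpa [mul_assoc] using haA
  have h1 := hcen _ hmem
  have h2 := hyA a haA
  apply not_inv ha
  rw [← hg] at h1
  have h3 : a * y = y * a := by
    have : g * (a * y) * g⁻¹ = g * (y * a) * g⁻¹ := by
      calc g * (a * y) * g⁻¹ = g * a * g⁻¹ * (g * y * g⁻¹) := by group
        _ = g * y * g⁻¹ * (g * a * g⁻¹) := h1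
        _ = g * (y * a) * g⁻¹ := by group
    simpa using this
  rw [← h3] at h2
  simpa using h2.symm

end Cfsg.Agent.H26.ElJ1
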