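import Cfsg.Agent.H98.GbL
import Cfsg.Agent.H19.SymCount

/-! Project GB (S4536): the piece CA. -/

set_option autoImplicit false
open Cfsg Finset

namespace Cfsg.Agent.H26.GbCa

open Cfsg.Agent.H98.GB

universe u

theorem num (p a k w : ℕ) (hp : 2 ≤ p) (hk : k ≤ p - 1) (hak : a * k ≤ p - 1) (hw : w ≠ 0) :
    a * H19.bk k w + 1 ≤ p ^ w := by
  obtain ⟨v, rfl⟩ := Nat.exists_eq_succ_of_ne_zero hw
  have h1 := H19.bk_le_sum k (w := v + 1) hw
  have h2 := H19.sum_bk_le k v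
  have h3 : (k + 1) ^ v ≤ p ^ v := Nat.pow_le_pow_left (by omega) v
  have h4 : a * H19.bk k (v + 1) ≤ (p - 1) * p ^ v := by
    calc a * H19.bk k (v + 1) ≤ a * (k * p ^ v) :=
          Nat.mul_le_mul_left _ (h1.trans (Nat.mul_le_mul_left _ (h2.trans h3)))
      _ = a * k * p ^ v := by ring
      _ ≤ (p - 1) * p ^ v := Nat.mul_le_mul_right _ hak
  have h5 : 1 ≤ p ^ v := Nat.one_le_pow _ _ (by omega)
  obtain ⟨r, rfl⟩ : ∃ r, p = r + 1 := ⟨p - 1, by omega⟩
  simp only [Nat.add_sub_cancel] at h4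
  rw [Nat.succ_eq_add_one, pow_succ]
  nlinarith

theorem ord_le {F : Type u} [Field F] [Fintype F] (p : ℕ) [hp : Fact p.Prime]
    (hpF : p ≠ ringChar F) : orderOf (Fintype.card F : ZMod p) ≤ p - 1 := by
  have hq : (Fintype.card F : ZMod p) ≠ 0 := by
    rw [Ne, ZMod.natCast_eq_zero_iff]
    intro h
    obtain ⟨n, hr, hc⟩ := FiniteField.card F (ringChar F)
    rw [hc] at h
    exact hpF ((Nat.prime_dvd_prime_iff_eq hp.out hr).1 (hp.out.dvd_of_dvd_pow h))
  have h1 := ZMod.pow_card_sub_one_eq_one hq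
  exact Nat.le_of_dvd (by have := hp.out.two_le; omega) (orderOf_dvd_of_pow_eq_one h1)

theorem cyc (Q : ℕ) [NeZero Q] (B : AddSubgroup (ZMod Q)) :
    ∃ c, ∀ c', c' ∈ B ↔ c' ∈ AddSubgroup.zmultiples c := by
  obtain ⟨c, hc⟩ := IsAddCyclic.exists_generator (α := B)
  refine ⟨c.1, fun c' => ⟨fun h => ?_, fun h => ?_⟩⟩
  · obtain ⟨k, hk⟩ := AddSubgroup.mem_zmultiples_iff.1 (hc ⟨c', h⟩)
    exact AddSubgroup.mem_zmultiples_iff.2 ⟨k, by simpa using congrArg Subtype.val hk⟩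
  · exact (AddSubgroup.zmultiples_le_of_mem c.2) h

theorem ca (hN : NUMAStmt) (hL : LABStmt.{u}) (hI : IDXStmt.{u}) (hF : FIXStmt.{u}) :
    CAStmt.{u} := by
  classical
  intro F _ _ _ C n hn Λ0 hΛ hB
  have L := hL F C
  obtain ⟨B, act, X, hmem, hact, hX, hfix⟩ := hF F C n hn Λ0 hΛ hB
  have hBq : ∀ c ∈ B, C.qL * c = c := fun c hc => by
    have := (hmem c).1 hc
    simp only [Ctx.A', mem_filter] at this
    exact this.2.1
  have hBu : ∀ c ∈ B, C.uu * c = c := fun c hc => by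
    have := (hmem c).1 hc
    simp only [Ctx.A', mem_filter] at this
    exact this.2.2.1
  have hneg : ∀ c ∈ B, ∀ φ, C.tw c φ = φ → C.tw (-c) φ = φ := fun c hc φ h => by
    conv_lhs => rw [← h]
    rw [L.tw_tw _ _ _ (hBq _ (B.neg_mem hc)) (hBq _ hc), neg_add_cancel, L.tw_zero]
  have hadd : ∀ c ∈ B, ∀ c' ∈ B, ∀ φ, C.tw c φ = φ → C.tw c' φ = φ → C.tw (c + c') φ = φ :=
    fun c hc c' hc' φ h h' => by
      rw [← L.tw_tw _ _ _ (hBq _ hc) (hBq _ hc'), h', h]
  -- the subgroups `K i`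
  let K : {Γ // C.II Λ0 Γ} → Subgroup (Multiplicative B) := fun i =>
    { carrier := {g | ∀ φ, C.lp φ = i.1 → C.tw (Multiplicative.toAdd g).1 φ = φ}
      one_mem' := fun φ _ => by simpa using L.tw_zero φ
      mul_mem' := fun {a b} ha hb φ hφ => by
        simpa using hadd _ (Multiplicative.toAdd a).2 _ (Multiplicative.toAdd b).2 φ
          (ha φ hφ) (hb φ hφ)
      inv_mem' := fun {a} ha φ hφ => by
        simpa using hneg _ (Multiplicative.toAdd a).2 φ (ha φ hφ) }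
  have hKmem : ∀ i g, g ∈ K i ↔ ∀ φ, C.lp φ = i.1 → C.tw (Multiplicative.toAdd g).1 φ = φ :=
    fun i g => Iff.rfl
  have hKle : ∀ (g : Multiplicative B) i, K i ≤ K (g • i) := by
    intro g i h hh
    rw [hKmem] at hh ⊢
    intro φ hφ
    rw [(hact g i).1] at hφ
    set c := (Multiplicative.toAdd g).1 with hc
    set d := (Multiplicative.toAdd h).1 with hd
    have hcB : c ∈ B := (Multiplicative.toAdd g).2
    have hdB : d ∈ B := (Multiplicative.toAdd h).2
    have h1 : C.lp (C.tw (-c) φ) = i.1 := by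
      rw [L.lp_tw _ _ (hBq _ (B.neg_mem hcB)), hBu _ (B.neg_mem hcB), hφ,
        L.tw_tw _ _ _ (hBq _ (B.neg_mem hcB)) (hBq _ hcB), neg_add_cancel, L.tw_zero]
    have h2 := congrArg (C.tw c) (hh _ h1)
    rw [L.tw_tw _ _ _ (hBq _ hdB) (hBq _ (B.neg_mem hcB)),
      L.tw_tw _ _ _ (hBq _ hcB) (hBq _ (B.add_mem hdB (B.neg_mem hcB))),
      L.tw_tw _ _ _ (hBq _ hcB) (hBq _ (B.neg_mem hcB)), add_neg_cancel, L.tw_zero] at h2
    rwa [show c + (d + -c) = d by ring] at h2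
  have hKinv : ∀ (g : Multiplicative B) i, K (g • i) = K i := fun g i =>
    le_antisymm (by simpa using hKle g⁻¹ (g • i)) (hKle g i)
  have hKst : ∀ i, K i ≤ MulAction.stabilizer (Multiplicative B) i := by
    intro i g hg
    rw [MulAction.mem_stabilizer_iff]
    apply Subtype.ext
    rw [(hact g i).1]
    exact (hKmem i g).1 hg i.1 i.2.1
  choose a ha hidx using fun i : {Γ // C.II Λ0 Γ} => hI F C i.1 i.2.1
  -- the map to `L`
  let f : Multiplicative B → C.L := fun g => (Multiplicative.toAdd g).1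
  have hf : Function.Injective f := fun g h e => by
    apply Multiplicative.toAdd.injective
    exact Subtype.ext e
  have hcard : ∀ i, Nat.card (MulAction.stabilizer (Multiplicative B) i) ≤
      a i * Nat.card (K i) := by
    intro i
    let B' : AddSubgroup C.L :=
      { carrier := {c | c ∈ B ∧ C.tw c i.1 = i.1}
        zero_mem' := ⟨B.zero_mem, L.tw_zero _⟩
        add_mem' := fun {x y} hx hy => ⟨B.add_mem hx.1 hy.1, hadd _ hx.1 _ hy.1 _ hx.2 hy.2⟩
        neg_mem' := fun {x} hx => ⟨B.neg_mem hx.1, hneg _ hx.1 _ hx.2⟩ }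
    have hB' : ∀ c, c ∈ B' ↔ c ∈ B ∧ C.tw c i.1 = i.1 := fun c => Iff.rfl
    have h1 := hidx i B' fun c hc => ⟨hBq _ hc.1, hBu _ hc.1, hc.2⟩
    have e1 : Nat.card (MulAction.stabilizer (Multiplicative B) i) = Nat.card B' := by
      have : (B' : Set C.L) = f '' (MulAction.stabilizer (Multiplicative B) i : Set _) := by
        ext c
        simp only [SetLike.mem_coe, hB', Set.mem_image, MulAction.mem_stabilizer_iff]
        constructor
        · rintro ⟨h1, h2⟩
          refine ⟨Multiplicative.ofAdd ⟨c, h1⟩, Subtype.ext ?_, rfl⟩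
          rw [(hact _ i).1]
          exact h2
        · rintro ⟨g, hg, rfl⟩
          refine ⟨(Multiplicative.toAdd g).2, ?_⟩
          have := congrArg Subtype.val hg
          rwa [(hact _ i).1] at this
      rw [← SetLike.coe_sort_coe B', this, Nat.card_coe_set_eq,
        Set.ncard_image_of_injective _ hf, ← Nat.card_coe_set_eq, SetLike.coe_sort_coe]
    have e2 : Nat.card (K i) = {c | c ∈ B' ∧ ∀ φ, C.lp φ = i.1 → C.tw c φ = φ}.ncard := by
      have : {c | c ∈ B' ∧ ∀ φ, C.lp φ = i.1 → C.tw c φ = φ} = f '' (K i : Set _) := by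
        ext c
        simp only [SetLike.mem_coe, hB', Set.mem_image, Set.mem_ofPred_eq, hKmem]
        constructor
        · rintro ⟨⟨h1, -⟩, h2⟩
          exact ⟨Multiplicative.ofAdd ⟨c, h1⟩, h2, rfl⟩
        · rintro ⟨g, hg, rfl⟩
          exact ⟨⟨(Multiplicative.toAdd g).2, hg _ i.2.1⟩, hg⟩
      rw [this, Set.ncard_image_of_injective _ hf, ← Nat.card_coe_set_eq, SetLike.coe_sort_coe]
    rw [e1, e2]
    exact h1
  let y : {Γ // C.II Λ0 Γ} → ℕ := fun i => C.p ^ H19.wgt (C.eG i.1) (Λ0 i.1)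
  have hy : ∀ (g : Multiplicative B) i, y (g • i) = y i := fun g i => by
    simp only [y]
    rw [(hact g i).2.2.1, (hact g i).2.2.2.2]
  have hnum : ∀ i, a i * (X i).card + 1 ≤ y i := fun i => by
    rw [hX]
    exact num _ _ _ _ C.hp.two_le (L.eG_le _) ((ha i).le.trans (ord_le C.p C.hpF)) i.2.2
  have main := hN (Multiplicative B) {Γ // C.II Λ0 Γ} X K a y (fun g i => (hact g i).2.1) hKinv
    hy hKst hcard hnum
  have hA1 : (C.A1 Λ0 : Set C.L) = f '' ((⨅ i, K i : Subgroup (Multiplicative B)) : Set _) := by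
    ext c
    simp only [Ctx.A1, coe_filter, Set.mem_ofPred_eq, Set.mem_image, SetLike.mem_coe,
      Subgroup.mem_iInf, hKmem, ← hmem]
    constructor
    · rintro ⟨h1, h2⟩
      exact ⟨Multiplicative.ofAdd ⟨c, h1⟩, fun i φ hφ => h2 φ (hφ ▸ i.2), rfl⟩
    · rintro ⟨g, hg, rfl⟩
      exact ⟨(Multiplicative.toAdd g).2, fun φ hφ => hg ⟨_, hφ⟩ φ rfl⟩
  refine ⟨?_, ?_⟩
  · let B1 : AddSubgroup C.L :=
      { carrier := {c | c ∈ B ∧ ∀ φ, C.II Λ0 (C.lp φ) → C.tw c φ = φ}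
        zero_mem' := ⟨B.zero_mem, fun φ _ => L.tw_zero _⟩
        add_mem' := fun {x y} hx hy => ⟨B.add_mem hx.1 hy.1, fun φ hφ =>
          hadd _ hx.1 _ hy.1 _ (hx.2 φ hφ) (hy.2 φ hφ)⟩
        neg_mem' := fun {x} hx => ⟨B.neg_mem hx.1, fun φ hφ => hneg _ hx.1 _ (hx.2 φ hφ)⟩ }
    obtain ⟨c, hc⟩ := cyc C.Q B1
    refine ⟨c, fun c' => ?_⟩
    rw [← hc]
    simp only [Ctx.A1, mem_filter, ← hmem]
    rfl
  · have e1 : ∑ c ∈ C.A' Λ0, C.fixB n Λ0 c = ∑ ν : Multiplicative B, fixN X ν := by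
      symm
      refine Finset.sum_bij (fun g _ => f g) (fun g _ => (hmem _).1 (Multiplicative.toAdd g).2)
        (fun g _ h _ e => hf e) (fun c hc => ⟨Multiplicative.ofAdd ⟨c, (hmem c).2 hc⟩,
          mem_univ _, rfl⟩) fun g _ => hfix g
    have e2 : #(C.A1 Λ0) = Nat.card (⨅ i, K i : Subgroup (Multiplicative B)) := by
      rw [← Set.ncard_coe_finset, hA1, Set.ncard_image_of_injective _ hf, ← Nat.card_coe_set_eq,
        SetLike.coe_sort_coe]
    have e3 : C.p ^ C.ww Λ0 = ∏ i, y i := by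
      simp only [y]
      rw [Finset.prod_pow_eq_pow_sum]
      congr 1
      unfold Ctx.ww
      rw [← Finset.sum_subtype (univ.filter fun Γ => C.II Λ0 Γ) (by simp)
        fun Γ => H19.wgt (C.eG Γ) (Λ0 Γ)]
      symm
      refine Finset.sum_subset (fun Γ hΓ => ?_) fun Γ h1 h2 => ?_
      · simp only [mem_filter, mem_univ, true_and] at hΓ ⊢
        exact hΓ.1
      · by_contra h3
        exact h2 (mem_filter.2 ⟨mem_univ _, (mem_filter.1 h1).2, h3⟩)
    rw [e1, e2, e3]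
    exact main

end Cfsg.Agent.H26.GbCa
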