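import Cfsg.Agent.H44.K5Defs

/-! Project K5: piece UNI. -/

set_option autoImplicit false

namespace Cfsg.Agent.H26.K5Uni

open Cfsg.Agent.H44.K5 Matrix

/-- a block triangular matrix -/
def blk {n : ℕ} (r : Fin n → ℤ) (M : Matrix (Fin n) (Fin n) ℤ) : Matrix (Fin (n + 1)) (Fin (n + 1)) ℤ :=
  Matrix.of fun i j => Fin.cases (Fin.cases 1 r j) (fun i => Fin.cases 0 (M i) j) i

@[simp] theorem b00 {n : ℕ} (r : Fin n → ℤ) (M : Matrix (Fin n) (Fin n) ℤ) : blk r M 0 0 = 1 := rfl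
@[simp] theorem b0s {n : ℕ} (r : Fin n → ℤ) (M : Matrix (Fin n) (Fin n) ℤ) (j : Fin n) :
    blk r M 0 j.succ = r j := rfl
@[simp] theorem bs0 {n : ℕ} (r : Fin n → ℤ) (M : Matrix (Fin n) (Fin n) ℤ) (i : Fin n) :
    blk r M i.succ 0 = 0 := rfl
@[simp] theorem bss {n : ℕ} (r : Fin n → ℤ) (M : Matrix (Fin n) (Fin n) ℤ) (i j : Fin n) :
    blk r M i.succ j.succ = M i j := rfl

theorem det_blk {n : ℕ} (r : Fin n → ℤ) (M : Matrix (Fin n) (Fin n) ℤ) : (blk r M).det = M.det := by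
  rw [det_succ_column_zero, Fin.sum_univ_succ]
  simp only [b00, bs0, mul_zero, zero_mul, Finset.sum_const_zero, add_zero, Fin.val_zero, pow_zero,
    mul_one, one_mul, Fin.succAbove_zero]
  rfl

theorem quad {n : ℕ} (A U : Matrix (Fin n) (Fin n) ℤ) (x : Fin n → ℤ) :
    x ⬝ᵥ (Uᵀ * A * U) *ᵥ x = (U *ᵥ x) ⬝ᵥ A *ᵥ (U *ᵥ x) := by
  rw [← mulVec_mulVec, ← mulVec_mulVec, dotProduct_mulVec, vecMul_transpose]

theorem pos {n : ℕ} (A U : Matrix (Fin n) (Fin n) ℤ) (hU : U.det ≠ 0)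
    (h : ∀ x : Fin n → ℤ, x ≠ 0 → 0 < x ⬝ᵥ A *ᵥ x) (x : Fin n → ℤ) (hx : x ≠ 0) :
    0 < x ⬝ᵥ (Uᵀ * A * U) *ᵥ x := by
  rw [quad]
  exact h _ fun e => hx (eq_zero_of_mulVec_eq_zero hU e)

theorem uni (herm : HermStmt) : UniStmt := by
  intro n
  induction n with
  | zero => exact fun _ A _ _ _ => ⟨1, Subsingleton.elim _ _⟩
  | succ n ih =>
    intro hn A hs hp hd
    obtain ⟨U, hU, hb⟩ := herm n A hs hp
    have hpB := pos A U hU.ne_zero hp
    have hdB : (Uᵀ * A * U).det = 1 := by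
      rw [det_mul, det_mul, det_transpose, hd, mul_one]
      exact Int.isUnit_mul_self hU
    have hsB : (Uᵀ * A * U)ᵀ = Uᵀ * A * U := by
      rw [transpose_mul, transpose_mul, transpose_transpose, hs, Matrix.mul_assoc]
    obtain ⟨B, hB⟩ : ∃ B, B = Uᵀ * A * U := ⟨_, rfl⟩
    rw [← hB] at hb hpB hdB hsB
    have sy : ∀ i j, B i j = B j i := fun i j => by
      conv_lhs => rw [← hsB]
      rfl
    have h0 : 0 < B 0 0 := by
      simpa using hpB (Pi.single 0 1) (by simp)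
    have h1 : B 0 0 = 1 := by
      by_contra hne
      have h2 : (2 : ℤ) ^ (n + 1) ≤ B 0 0 ^ (n + 1) := pow_le_pow_left₀ (by norm_num) (by omega) _
      rw [hd] at hb
      have h3 : n ≤ 4 := by omega
      generalize B 0 0 ^ (n + 1) = t at h2 hb
      interval_cases n <;> norm_num at h2 hb <;> omega
    let C : Matrix (Fin n) (Fin n) ℤ := Matrix.of fun i j => B i.succ j.succ - B 0 i.succ * B 0 j.succ
    have hE : (blk (fun j => -B 0 j.succ) 1)ᵀ * B * blk (fun j => -B 0 j.succ) 1 = blk 0 C := by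
      ext i j
      refine Fin.cases ?_ (fun i => ?_) i <;> refine Fin.cases ?_ (fun j => ?_) j <;>
        simp [Matrix.mul_apply, Fin.sum_univ_succ, one_apply, h1, C, sy _ 0] <;> ring
    have dE : (blk (fun j : Fin n => -B 0 j.succ) 1).det = 1 := by rw [det_blk, det_one]
    have dC : C.det = 1 := by
      rw [← det_blk 0 C, ← hE, det_mul, det_mul, det_transpose, dE, hdB]; rfl
    obtain ⟨V, hV⟩ := ih (by omega) C (by
      ext i j
      simp only [C, transpose_apply, of_apply]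
      rw [sy j.succ, mul_comm]) (fun x hx => by
      have := pos B _ (by rw [dE]; exact one_ne_zero) hpB (Fin.cons 0 x) (fun e => hx (by
        ext i
        simpa using congrFun e i.succ))
      rw [hE] at this
      simpa [dotProduct, mulVec, Fin.sum_univ_succ] using this) dC
    refine ⟨U * blk (fun j => -B 0 j.succ) 1 * blk 0 V, ?_⟩
    have e : (U * blk (fun j => -B 0 j.succ) 1 * blk 0 V)ᵀ * A * (U * blk (fun j => -B 0 j.succ) 1 * blk 0 V)
        = (blk 0 V)ᵀ * ((blk (fun j => -B 0 j.succ) 1)ᵀ * (Uᵀ * A * U) * blk (fun j => -B 0 j.succ) 1)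
          * blk 0 V := by
      simp only [transpose_mul, Matrix.mul_assoc]
    rw [e, ← hB, hE]
    ext i j
    refine Fin.cases ?_ (fun i => ?_) i <;> refine Fin.cases ?_ (fun j => ?_) j
    · simp [Matrix.mul_apply, Fin.sum_univ_succ]
    · simp [Matrix.mul_apply, Fin.sum_univ_succ, one_apply, (Fin.succ_ne_zero j).symm]
    · simp [Matrix.mul_apply, Fin.sum_univ_succ, one_apply]
    · have := congrFun (congrFun hV i) j
      simpa [Matrix.mul_apply, Fin.sum_univ_succ, one_apply] using this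

end Cfsg.Agent.H26.K5Uni
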