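import Cfsg.Agent.H26.NdB

/-! The case where the derived subgroup of `N` is a `p'`-group. -/

set_option autoImplicit false

namespace Cfsg.Agent.H26.ND

open Cfsg Subgroup H24 H11
open scoped commutatorElement Pointwise

variable {G : Type*} [Group G]

/-- The elements of `N` fixing all linear characters of `N'`. -/
def N1 (N : Subgroup G) [N.Normal] : Subgroup G :=
  N ⊓ ⨅ μ : Lin ↥⁅N, N⁆, H14.inertia ⁅N, N⁆ (lin μ)

theorem mem_N1 {N : Subgroup G} [N.Normal] {x : G} :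
    x ∈ N1 N ↔ x ∈ N ∧ ∀ μ, conjHom ⁅N, N⁆ x μ = μ := by
  simp only [N1, mem_inf, mem_iInf, mem_inertia_lin]

instance N1_normal (N : Subgroup G) [hN : N.Normal] : (N1 N).Normal := ⟨fun x hx h => by
  rw [mem_N1] at hx ⊢
  refine ⟨hN.conj_mem _ hx.1 h, fun μ => ?_⟩
  rw [← conjHom_conjHom, ← conjHom_conjHom, hx.2, conjHom_conjHom, mul_inv_cancel, conjHom_one]⟩

theorem cc_le_N1 (N : Subgroup G) [N.Normal] : ⁅N, N⁆ ≤ N1 N := fun _ hx =>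
  mem_N1.2 ⟨cc_le N hx, fun μ => conjHom_of_mem _ hx μ⟩

theorem N1_le (N : Subgroup G) [N.Normal] : N1 N ≤ N := inf_le_left

variable [Finite G] [Group.IsSolvable G] {N K : Subgroup G} [hN : N.Normal] {p l : ℕ} {g : G}

omit [Group.IsSolvable G] in
theorem Hyp.exists_L' (H : Hyp N K p l g) (hc : (Nat.card ↥⁅N, N⁆).Coprime p) :
    ∃ L : Subgroup G, L.Normal ∧ L ≤ N ∧ (Nat.card L).Coprime p ∧ ⁅N, N⁆ = ⁅N, N⁆ ⊓ L ∧
      ∃ k, L.relIndex N = p ^ k := by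
  obtain ⟨L, h1, h2, h3, k, hk⟩ := H.exists_L
  refine ⟨L, h1, h2, h3, (inf_eq_left.2 fun x hx => ?_).symm, k, hk⟩
  refine mem_of_pow_coprime (hc.pow_right k) ?_
    (hk ▸ (L.subgroupOf N).pow_index_mem ⟨x, cc_le N hx⟩)
  rw [show x ^ Nat.card ↥⁅N, N⁆ = 1 from
    congrArg Subtype.val (pow_card_eq_one' (x := (⟨x, hx⟩ : ↥⁅N, N⁆)))]
  exact one_mem _

theorem Hyp.fpf_cc (H : Hyp N K p l g) (hc : (Nat.card ↥⁅N, N⁆).Coprime p) {x : G} (hx : x ∈ N)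
    (hx' : x ∉ V0 N) (m : G) (hm : m ∈ ⁅N, N⁆) (h : Commute x m) : m = 1 := by
  obtain ⟨L, h1, h2, h3, h4, k, hk⟩ := H.exists_L' hc
  obtain ⟨Y, h5, h6⟩ := H.exists_compl h2 h3 hk
  rw [← h4] at h5 h6
  obtain ⟨a, ha, y, hy, rfl⟩ := h5 x
  have hyN : y ∈ N := (N.mul_mem_cancel_left (cc_le N ha)).1 hx
  have hyV : y ∉ V0 N := fun e => hx' (mul_mem (cc_le_V0 N ha) e)
  have h7 := (surj_iff ⁅N, N⁆ y⁻¹).2 fun w hw => by
    obtain ⟨n, hn, e⟩ := H.fuse hyN hyV hw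
    obtain ⟨b, hb, z, hz, rfl⟩ := h5 n
    have b1 : ⁅z, y⁆ ∈ ⁅N, N⁆ ⊓ Y := mem_inf.2 ⟨commutator_mem_commutator
      ((N.mul_mem_cancel_left (cc_le N hb)).1 hn) hyN,
      mul_mem (mul_mem (mul_mem hz hy) (inv_mem hz)) (inv_mem hy)⟩
    rw [h6, mem_bot, commutatorElement_eq_one_iff_mul_comm] at b1
    refine ⟨b, hb, ?_⟩
    rw [← inv_mul_cancel_left y w, ← e, mul_assoc b, b1, commutatorElement_def]
    group
  obtain ⟨n, hn, e⟩ := H.fuse hyN hyV ((inferInstance : (⁅N, N⁆).Normal).conj_mem _ ha y⁻¹)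
  have h8 := h7 (n⁻¹ * m * n⁻¹⁻¹) ((inferInstance : (⁅N, N⁆).Normal).conj_mem _ hm _) (by
    refine Commute.inv_left ?_
    have b1 : y = n⁻¹ * (a * y) * n⁻¹⁻¹ := by
      rw [show a * y = y * (y⁻¹ * a * y⁻¹⁻¹) by group, ← e]; group
    rw [b1]
    exact h.map (MulAut.conj n⁻¹))
  exact conj_eq_one_iff.1 h8

theorem Hyp.inertia_cd' (H : Hyp N K p l g) (hc : (Nat.card ↥⁅N, N⁆).Coprime p)
    {μ : Lin ↥⁅N, N⁆} (hμ : μ ≠ 1) :
    (H14.inertia _ (lin μ)).index ∈ charDegrees G ∧ p ∣ (H14.inertia _ (lin μ)).index := by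
  obtain ⟨L, h1, h2, h3, h4, k, hk⟩ := H.exists_L' hc
  exact ⟨(H.inertia_cd h2 h3 hk h4 hμ).1, H.dvd_index h2 h3 hk h4.le hμ⟩

theorem Hyp.inertia_inf (H : Hyp N K p l g) (hc : (Nat.card ↥⁅N, N⁆).Coprime p)
    {μ ν : Lin ↥⁅N, N⁆} (hμ : μ ≠ 1) (hν : ν ≠ 1) :
    H14.inertia _ (lin μ) ⊓ N = H14.inertia _ (lin ν) ⊓ N := by
  have key : ∀ {μ ν : Lin ↥⁅N, N⁆}, μ ≠ 1 → ν ≠ 1 →
      H14.inertia _ (lin μ) ⊓ N ≤ H14.inertia _ (lin ν) ⊓ N →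
      H14.inertia _ (lin μ) ⊓ N = H14.inertia _ (lin ν) ⊓ N := by
    intro μ ν hμ hν hle
    refine le_antisymm hle (le_of_relIndex_le hle inf_le_right (le_of_eq ?_))
    have h1 := relIndex_dvd_of_le_left N hle
    rw [inf_relIndex_right, inf_relIndex_right, H.relIndex_inertia _ le_rfl hμ,
      H.relIndex_inertia _ le_rfl hν] at h1 ⊢
    obtain ⟨h2, h3⟩ := H.inertia_cd' hc hν
    exact (H.nd _ h2 _ (H.inertia_cd' hc hμ).1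
      (fun e => H.hp.one_lt.ne' (Nat.dvd_one.1 (e ▸ h3))) h1).symm
  by_contra hne
  have hfix : ∀ (μ : Lin ↥⁅N, N⁆) (t : G), t ∈ N → H14.inertia _ (lin μ) ⊓ N ≤
      H14.inertia _ (lin (conjHom _ t μ * μ⁻¹)) ⊓ N := by
    rintro μ t ht x ⟨hx, hx'⟩
    refine ⟨(mem_inertia_lin _).2 ?_, hx'⟩
    have h1 := (mem_inertia_lin _).1 hx
    rw [map_mul, map_inv, h1, conjHom_conjHom, show t * x = ⁅t, x⁆ * x * t by
      simp only [commutatorElement_def]; group, ← conjHom_conjHom, ← conjHom_conjHom,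
      conjHom_of_mem _ (commutator_mem_commutator ht hx'), h1]
  have hinv : ∀ μ : Lin ↥⁅N, N⁆, H14.inertia _ (lin μ⁻¹) = H14.inertia _ (lin μ) := fun μ => by
    ext x
    rw [mem_inertia_lin, mem_inertia_lin, map_inv, inv_inj]
  have hle : ∀ {μ ν : Lin ↥⁅N, N⁆}, μ ≠ 1 → ν ≠ 1 →
      H14.inertia _ (lin μ) ⊓ N ≠ H14.inertia _ (lin ν) ⊓ N →
      H14.inertia _ (lin (μ * ν)) ⊓ N ≤ H14.inertia _ (lin μ) ⊓ N := by
    rintro μ ν hμ hν hne t ⟨ht, ht'⟩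
    refine ⟨(mem_inertia_lin _).2 (mul_inv_eq_one.1 (by_contra fun h1 => ?_)), ht'⟩
    have h2 : conjHom _ t μ * μ⁻¹ = (conjHom _ t ν * ν⁻¹)⁻¹ := by
      have := (mem_inertia_lin _).1 ht
      rw [map_mul] at this
      rw [eq_inv_iff_mul_eq_one, mul_mul_mul_comm, this, ← mul_inv, mul_inv_cancel]
    refine hne ((key hμ h1 (hfix μ t ht')).trans ?_)
    rw [h2, hinv]
    exact (key hν (fun e => h1 (by rw [h2, e, inv_one])) (hfix ν t ht')).symm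
  have h3 : μ * ν ≠ 1 := fun e => hne (by rw [eq_inv_of_mul_eq_one_left e, hinv])
  have h1 := hle hμ hν hne
  have h2 := hle hν hμ (Ne.symm hne)
  rw [mul_comm] at h2
  exact hne ((key h3 hμ h1).symm.trans (key h3 hν h2))

theorem Hyp.fix_iff (H : Hyp N K p l g) (hc : (Nat.card ↥⁅N, N⁆).Coprime p)
    {μ : Lin ↥⁅N, N⁆} (hμ : μ ≠ 1) {x : G} (hx : x ∈ N) : conjHom _ x μ = μ ↔ x ∈ N1 N := by
  refine ⟨fun h => mem_N1.2 ⟨hx, fun ν => ?_⟩, fun h => (mem_N1.1 h).2 μ⟩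
  by_cases hν : ν = 1
  · rw [hν, map_one]
  · exact (mem_inertia_lin _).1 ((H.inertia_inf hc hμ hν).le ⟨(mem_inertia_lin _).2 h, hx⟩).1

theorem Hyp.N1_index (H : Hyp N K p l g) (hc : (Nat.card ↥⁅N, N⁆).Coprime p)
    {μ : Lin ↥⁅N, N⁆} (hμ : μ ≠ 1) : (N1 N).relIndex N = (H14.inertia _ (lin μ)).index := by
  rw [← H.relIndex_inertia _ le_rfl hμ, ← inf_relIndex_right (H14.inertia _ _)]
  congr 1
  ext x
  exact ⟨fun h => ⟨(mem_inertia_lin _).2 ((mem_N1.1 h).2 μ), N1_le N h⟩,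
    fun h => (H.fix_iff hc hμ h.2).1 ((mem_inertia_lin _).1 h.1)⟩

theorem Hyp.N1_le_V0 (H : Hyp N K p l g) (hc : (Nat.card ↥⁅N, N⁆).Coprime p)
    (hne : ⁅N, N⁆ ≠ ⊥) : N1 N ≤ V0 N := fun x hx => by
  obtain ⟨μ, hμ⟩ := exists_lin_ne hne
  by_contra h
  exact hμ (lin_eq_one _ (H.fpf_cc hc (N1_le N hx) h) ((mem_N1.1 hx).2 μ))

theorem Hyp.eq_of_ab (H : Hyp N K p l g) (hc : (Nat.card ↥⁅N, N⁆).Coprime p)
    (hab : ⁅⁅N, N⁆, ⁅N, N⁆⁆ = ⊥) {d : ℕ} (hd : d ∈ charDegrees G) (hp : p ∣ d) :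
    d = (N1 N).relIndex N := by
  have := Fintype.ofFinite ↥⁅N, N⁆
  obtain ⟨χ, hχ, rfl⟩ := mem_cd.1 hd
  have h1 : ¬ ⁅N, N⁆ ≤ charKer χ := fun h => H.pN (hp.trans (deg_dvd_index_of_commutator_le hχ N h))
  obtain ⟨x, hx, h2⟩ := SetLike.not_le_iff_exists.1 h1
  have h3 : (⟨x, hx⟩ : ↥⁅N, N⁆) ∉ charKer (fun n : ↥⁅N, N⁆ => χ n) := fun h => h2
    ((mem_charKer_irr_iff hχ).2 (apply_eq_of_mem_charKer (χ := fun n : ↥⁅N, N⁆ => χ n) h))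
  rw [mem_charKer_iff_forall_constituent (isCharacter_restrict (isCharacter_of_irr hχ) _)] at h3
  push Not at h3
  obtain ⟨φ, hφ, h4, h5⟩ := h3
  obtain ⟨μ, rfl⟩ := exists_eq_lin (isCharacter_of_irr hφ) ((deg_eq_one_iff_commutator_le hφ).2
    ((commutator_le_subgroupOf_iff.2 hab.le).trans (by rw [bot_subgroupOf]; exact bot_le)))
  have hμ : μ ≠ 1 := fun e => h5 (by rw [charKer_lin, e]; rfl)
  obtain ⟨h6, h7⟩ := H.inertia_cd' hc hμ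
  rw [H.N1_index hc hμ]
  exact (H.nd _ h6 _ hd (fun e => H.hp.one_lt.ne' (Nat.dvd_one.1 (e ▸ h7)))
    ((Dvd.intro _ rfl).trans (index_inertia_mul_deg_dvd _ hχ hφ h4))).symm

theorem Hyp.fpf_N1 (H : Hyp N K p l g) (hc : (Nat.card ↥⁅N, N⁆).Coprime p) {x : G} (hx : x ∈ N)
    (hx' : x ∉ N1 N) (a : G) (ha : a ∈ ⁅N, N⁆) (h : ⁅x, a⁆ ∈ ⁅⁅N, N⁆, ⁅N, N⁆⁆) :
    a ∈ ⁅⁅N, N⁆, ⁅N, N⁆⁆ :=
  fpf_of_lin _ (fun _ e => by_contra fun hμ => hx' ((H.fix_iff hc hμ hx).1 e)) ha h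

theorem Hyp.exists_fix_nonlin (H : Hyp N K p l g) (hc : (Nat.card ↥⁅N, N⁆).Coprime p)
    (hne : ⁅N, N⁆ ≠ ⊥) {φ : ↥⁅N, N⁆ → ℂ} (hφ : IsIrrCharacter _ φ) (h1 : charDegree φ ≠ 1) :
    ∃ x ∈ N, x ∉ N1 N ∧ H14.conjChar _ φ x = φ := by
  by_contra! h
  obtain ⟨μ, hμ⟩ := exists_lin_ne hne
  obtain ⟨h6, h7⟩ := H.inertia_cd' hc hμ
  rw [← H.N1_index hc hμ] at h6 h7
  have h2 : H14.inertia _ φ ⊓ N ≤ N1 N := fun x hx => by_contra fun e => h x hx.2 e hx.1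
  have h3 := relIndex_dvd_of_le_left N h2
  rw [inf_relIndex_right] at h3
  obtain ⟨d, hd, h4⟩ := index_inertia_dvd_cd _ hφ
  have h5 := (Nat.mul_dvd_mul_right (h3.trans (relIndex_dvd_index _ N)) _).trans h4
  rw [← H.nd _ h6 _ hd (fun e => H.hp.one_lt.ne' (Nat.dvd_one.1 (e ▸ h7)))
    ((Dvd.intro _ rfl).trans h5)] at h5
  nth_rewrite 2 [← mul_one ((N1 N).relIndex N)] at h5
  exact h1 (Nat.dvd_one.1 (Nat.dvd_of_mul_dvd_mul_left (pos_of_mem_cd h6) h5))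

theorem Hyp.lin_mul (H : Hyp N K p l g) (hc : (Nat.card ↥⁅N, N⁆).Coprime p)
    (hne : ⁅N, N⁆ ≠ ⊥) {φ : ↥⁅N, N⁆ → ℂ} (hφ : IsIrrCharacter _ φ) (h1 : charDegree φ ≠ 1)
    (μ : Lin ↥⁅N, N⁆) : lin μ * φ = φ := by
  obtain ⟨x, hx, hx', e⟩ := H.exists_fix_nonlin hc hne hφ h1
  obtain ⟨y, hy, hy', e'⟩ := H.exists_fix_nonlin hc hne (isIrr_lin_mul μ hφ) (by rwa [deg_lin_mul])
  have ov : ∀ ν : Lin ↥⁅N, N⁆, ν ∈ linOver ((⁅⁅N, N⁆, ⁅N, N⁆⁆).subgroupOf ⁅N, N⁆) :=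
    fun ν a ha => lin_comm ν ha a.2
  rw [H14.conjChar_mul, conjChar_lin] at e'
  have h2 : H14.conjChar _ φ y = lin ((conjHom _ y μ)⁻¹ * μ) * φ := by
    rw [map_mul, mul_assoc, ← e', ← mul_assoc, ← map_mul, inv_mul_cancel, map_one, one_mul]
  have h3 : (conjHom _ y μ)⁻¹ * μ ∈ linStab φ := by
    refine mem_linStab_of_conjHom (cc_le _) le_rfl (H.fpf_N1 hc hx hx') (l := 1)
      (by rw [e, map_one, one_mul]) (ov _) ?_
    rw [← conjChar_lin]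
    conv_lhs => rw [← e]
    rw [← H14.conjChar_mul, ← h2, H14.conjChar_conjChar, show y * x = ⁅y, x⁆ * x * y by
      simp only [commutatorElement_def]; group, ← H14.conjChar_conjChar, ← H14.conjChar_conjChar,
      H14.conjChar_of_mem _ (isClassFunction_of_irr hφ) (commutator_mem_commutator hy hx), e]
  rw [mem_linStab.1 h3] at h2
  exact mem_linStab_of_conjHom (cc_le _) le_rfl (H.fpf_N1 hc hy hy') (l := 1)
    (by rw [h2, map_one, one_mul]) (ov _) (by rw [← e', h2])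

theorem Hyp.cam (H : Hyp N K p l g) (hc : (Nat.card ↥⁅N, N⁆).Coprime p)
    (hne : ⁅N, N⁆ ≠ ⊥) {a w : G} (ha : a ∈ ⁅N, N⁆) (ha' : a ∉ ⁅⁅N, N⁆, ⁅N, N⁆⁆)
    (hw : w ∈ ⁅⁅N, N⁆, ⁅N, N⁆⁆) : ∃ b ∈ ⁅N, N⁆, b * a * b⁻¹ = a * w := by
  refine camina le_rfl (fun φ hφ h1 x hx => ?_) ha ha' hw
  obtain ⟨μ, -, h2⟩ := exists_lin' le_rfl x.2 hx
  have h3 := congrFun (H.lin_mul hc hne hφ h1 μ) x
  rw [Pi.mul_apply, mul_left_eq_self₀, lin_apply, Units.val_eq_one] at h3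
  exact h3.resolve_left h2

omit [Group.IsSolvable G] in
theorem Hyp.quot (H : Hyp N K p l g) (W : Subgroup G) [W.Normal] (hW : W ≤ ⁅N, N⁆) :
    Hyp (N.map (QuotientGroup.mk' W)) (K.map (QuotientGroup.mk' W)) p l (QuotientGroup.mk' W g) := by
  have hs := QuotientGroup.mk'_surjective W
  have hk : (QuotientGroup.mk' W).ker ≤ N := by
    rw [QuotientGroup.ker_mk']; exact hW.trans (cc_le N)
  have hk' : (QuotientGroup.mk' W).ker ≤ K := by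
    rw [QuotientGroup.ker_mk']; exact hW.trans H.cK
  have hi := index_map_eq N hs hk
  have hm : ∀ x, QuotientGroup.mk' W x ∈ K.map (QuotientGroup.mk' W) ↔ x ∈ K := fun x => by
    rw [← mem_comap, comap_map_eq_self hk']
  refine ⟨H.nK.map _ hs, H.hp, H.hl, fun a ha b hb => H.nd a (cd_quotient_subset W ha) b
    (cd_quotient_subset W hb), fun d hd => H.dv d (cd_subset_of_surjective _
      ((QuotientGroup.mk' W).subgroupMap_surjective N) hd), fun d hd => hi ▸ H.cop d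
      (cd_quotient_subset W hd), ?_, hi ▸ H.ld, ?_, ?_, ?_, ?_, hi ▸ H.pN, ?_⟩
  · rw [← map_pow]; exact mem_map_of_mem _ H.gl
  · rw [← map_commutator]; exact map_mono H.cK
  · exact fun h => H.nle fun n hn => (hm n).1 (h (mem_map_of_mem _ hn))
  · rintro _ ⟨n, hn, rfl⟩
    rw [← map_pow, hm]; exact H.pw n hn
  · rintro _ ⟨n, hn, rfl⟩
    rw [← map_commutatorElement, hm, hm]; exact H.fpf n hn
  · rw [← map_mk'_commutator]; exact map_mono H.cG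

end Cfsg.Agent.H26.ND
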