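import Cfsg.Agent.H24.TwoDeg
import Cfsg.Agent.H3.Fitting
import Cfsg.Agent.H3.Frattini

/-! Solvable groups with squarefree character degrees. -/

set_option autoImplicit false

universe u

namespace Cfsg.Agent.H26.SqF

open Cfsg Subgroup H24
open scoped commutatorElement

variable {G : Type*} [Group G]

/-- Normal stabilizers of linear characters of the same index coincide (coprime action). -/
theorem inertia_eq [Finite G] (A K : Subgroup G) [A.Normal] [K.Normal]
    (hK : ∀ g ∈ K, ∀ μ : Lin A, conjHom A g μ = μ)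
    (hc : (Nat.card A).Coprime K.index) {m : ℕ}
    (h : ∀ μ : Lin A, H14.inertia A (lin μ) ≠ ⊤ →
      (H14.inertia A (lin μ)).Normal ∧ (H14.inertia A (lin μ)).index = m)
    {μ ν : Lin A} (hμ : H14.inertia A (lin μ) ≠ ⊤) (hν : H14.inertia A (lin ν) ≠ ⊤) :
    H14.inertia A (lin μ) = H14.inertia A (lin ν) := by
  have key : ∀ {μ ν : Lin A}, H14.inertia A (lin μ) ≠ ⊤ → H14.inertia A (lin ν) ≠ ⊤ →
      H14.inertia A (lin μ) ≤ H14.inertia A (lin ν) →
      H14.inertia A (lin μ) = H14.inertia A (lin ν) := by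
    intro μ ν hμ hν hle
    have h1 := Subgroup.relIndex_mul_index hle
    rw [(h μ hμ).2, (h ν hν).2] at h1
    have h2 : m ≠ 0 := (h μ hμ).2 ▸ Subgroup.index_ne_zero_of_finite
    exact le_antisymm hle (Subgroup.relIndex_eq_one.1 ((mul_eq_right₀ h2).1 h1))
  by_contra hne
  have hfix : ∀ {μ : Lin A} (t : G), H14.inertia A (lin μ) ≠ ⊤ →
      H14.inertia A (lin μ) ≤ H14.inertia A (lin (conjHom A t μ * μ⁻¹)) := by
    intro μ t hμ x hx
    have h1 := (h μ hμ).1.conj_mem x hx t
    rw [mem_inertia_lin] at hx h1 ⊢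
    rw [map_mul, map_inv, hx, conjHom_conjHom]
    congr 1
    conv_rhs => rw [← h1, conjHom_conjHom, inv_mul_cancel_right]
  have hcop : ∀ {μ : Lin A} (t : G), H14.inertia A (lin (conjHom A t μ * μ⁻¹)) = ⊤ →
      conjHom A t μ = μ := by
    intro μ t ht
    have h1 : ∀ n : ℕ, conjHom A (t ^ n) μ = (conjHom A t μ * μ⁻¹) ^ n * μ := by
      intro n
      induction n with
      | zero => simp [conjHom_one]
      | succ n ih =>
        have h2 := (mem_inertia_lin A).1 (ht ▸ Subgroup.mem_top t :
          t ∈ H14.inertia A (lin (conjHom A t μ * μ⁻¹)))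
        rw [pow_succ, ← conjHom_conjHom, ih, map_mul, map_pow, h2, pow_succ, mul_assoc,
          inv_mul_cancel_right]
    have h2 := h1 K.index
    rw [hK _ (K.pow_index_mem t), eq_comm, mul_eq_right] at h2
    have h3 : (conjHom A t μ * μ⁻¹) ^ Nat.card A = 1 := by
      refine Lin.ext fun x => ?_
      rw [Lin.pow_apply, ← map_pow, pow_card_eq_one', map_one, Lin.one_apply]
    exact mul_inv_eq_one.1 (orderOf_eq_one_iff.1 (Nat.eq_one_of_dvd_coprimes hc
      (orderOf_dvd_of_pow_eq_one h3) (orderOf_dvd_of_pow_eq_one h2)))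
  have hle : ∀ {μ ν : Lin A}, H14.inertia A (lin μ) ≠ ⊤ → H14.inertia A (lin ν) ≠ ⊤ →
      H14.inertia A (lin μ) ≠ H14.inertia A (lin ν) →
      H14.inertia A (lin (μ * ν)) ≤ H14.inertia A (lin μ) := by
    intro μ ν hμ hν hne t ht
    rw [mem_inertia_lin] at ht ⊢
    apply hcop
    by_contra h1
    have h2 : conjHom A t μ * μ⁻¹ = (conjHom A t ν * ν⁻¹)⁻¹ := by
      rw [map_mul] at ht
      rw [eq_inv_iff_mul_eq_one, mul_mul_mul_comm, ht, ← mul_inv, mul_inv_cancel]
    have h3 : H14.inertia A (lin (conjHom A t ν * ν⁻¹)) =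
        H14.inertia A (lin (conjHom A t μ * μ⁻¹)) := by
      ext x
      rw [mem_inertia_lin, mem_inertia_lin, h2, map_inv, inv_inj]
    exact hne ((key hμ h1 (hfix t hμ)).trans (h3 ▸ (key hν (h3 ▸ h1) (hfix t hν)).symm))
  have h1 := hle hμ hν hne
  have h2 := hle hν hμ (Ne.symm hne)
  rw [mul_comm] at h2
  have h3 : H14.inertia A (lin (μ * ν)) ≠ ⊤ := fun h => hμ (eq_top_iff.2 (h ▸ h1))
  exact hne ((key h3 hμ h1).symm.trans (key h3 hν h2))

theorem pow_sqfree {p k d : ℕ} (hp : p.Prime) (hd : Squarefree d) (h : p ^ k ∣ d) :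
    p ^ k = 1 ∨ p ^ k = p := by
  rcases k with _ | _ | k
  · simp
  · simp
  · exact absurd (hd p ((Dvd.intro (p ^ k) (by ring)).trans h)) (by
      rw [Nat.isUnit_iff]; exact hp.one_lt.ne')

/-- A `p`-group acting on an abelian `p'`-section has order at most `p`. -/
theorem index_dvd [Finite G] (h : ∀ d ∈ charDegrees G, Squarefree d) (A : Subgroup G) [A.Normal]
    (hab : ∀ a ∈ A, ∀ b ∈ A, a * b = b * a) {p k : ℕ} (hp : p.Prime)
    (hc : (Nat.card A).Coprime p) (hk : (centralizer (A : Set G)).index = p ^ k) :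
    (centralizer (A : Set G)).index ∣ p := by
  have : Fact p.Prime := ⟨hp⟩
  set C := centralizer (A : Set G)
  have hK : ∀ g ∈ C, ∀ μ : Lin A, conjHom A g μ = μ := fun g hg μ => Lin.ext fun n => by
    rw [conjHom_apply]
    congr 1
    exact Subtype.ext (by show g * n * g⁻¹ = n; rw [← hg n n.2, mul_inv_cancel_right])
  have hle : ∀ μ : Lin A, C ≤ H14.inertia A (lin μ) := fun μ g hg =>
    (mem_inertia_lin A).2 (hK g hg μ)
  have hT : ∀ μ : Lin A, H14.inertia A (lin μ) ≠ ⊤ →
      (H14.inertia A (lin μ)).Normal ∧ (H14.inertia A (lin μ)).index = p := by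
    intro μ hμ
    obtain ⟨j, -, hj⟩ := (Nat.dvd_prime_pow hp).1 (hk ▸ index_dvd_of_le (hle μ))
    obtain ⟨d, hd, h1⟩ := index_inertia_dvd_cd A (isIrr_lin μ)
    have h2 : (H14.inertia A (lin μ)).index = p := by
      rcases pow_sqfree hp (h d hd) (hj ▸ (Dvd.intro _ rfl).trans h1) with h3 | h3
      · exact absurd (index_eq_one.1 (hj.trans h3)) hμ
      · exact hj.trans h3
    refine ⟨?_, h2⟩
    have hq : IsPGroup p (G ⧸ C) := IsPGroup.of_card hk
    have := hq.isNilpotent
    have h3 : ((H14.inertia A (lin μ)).map (QuotientGroup.mk' C)).index = p := by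
      rw [index_map_eq _ (QuotientGroup.mk'_surjective C) (by rw [QuotientGroup.ker_mk']; exact hle μ),
        h2]
    have h4 : ((H14.inertia A (lin μ)).map (QuotientGroup.mk' C)).Normal :=
      H3.coatom_normal_of_isNilpotent (H3.isCoatom_of_index_prime (h3 ▸ hp))
    rw [← comap_map_eq_self (f := QuotientGroup.mk' C) (H := H14.inertia A (lin μ))
      (by rw [QuotientGroup.ker_mk']; exact hle μ)]
    infer_instance
  by_cases h0 : ∃ μ : Lin A, H14.inertia A (lin μ) ≠ ⊤
  · obtain ⟨μ, hμ⟩ := h0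
    have h1 : H14.inertia A (lin μ) ≤ C := fun g hg a ha =>
      (comm_of_forall_conjHom A hab (fun ν => (mem_inertia_lin A).1 (by
        by_cases hν : H14.inertia A (lin ν) = ⊤
        · rw [hν]; exact mem_top _
        · rw [inertia_eq A C hK (hk ▸ hc.pow_right k) hT hν hμ]; exact hg)) ha).symm
    rw [← (hT μ hμ).2]
    exact index_dvd_of_le h1
  · push Not at h0
    have h1 : C = ⊤ := eq_top_iff.2 fun g _ a ha =>
      (comm_of_forall_conjHom A hab (fun ν => (mem_inertia_lin A).1 (h0 ν ▸ mem_top _)) ha).symm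
    rw [h1, index_top]; exact one_dvd _

theorem commutator_le_of_cyclic (P : Subgroup G) [hP : P.Normal] [IsCyclic P] :
    commutator G ≤ centralizer (P : Set G) := by
  obtain ⟨x, hx⟩ := IsCyclic.exists_generator (α := P)
  rw [commutator_def, commutator_le]
  intro g _ k _ y hy
  obtain ⟨a, ha⟩ := hx ⟨_, hP.conj_mem _ x.2 g⁻¹⟩
  obtain ⟨b, hb⟩ := hx ⟨_, hP.conj_mem _ x.2 k⁻¹⟩
  obtain ⟨c, hc⟩ := hx ⟨y, hy⟩
  have ha' : (x : G) ^ a = g⁻¹ * x * g⁻¹⁻¹ := congrArg Subtype.val ha
  have hb' : (x : G) ^ b = k⁻¹ * x * k⁻¹⁻¹ := congrArg Subtype.val hb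
  have hc' : (x : G) ^ c = y := congrArg Subtype.val hc
  have h1 : g⁻¹ * (k⁻¹ * x * k⁻¹⁻¹) * g⁻¹⁻¹ = k⁻¹ * (g⁻¹ * x * g⁻¹⁻¹) * k⁻¹⁻¹ := by
    conv_lhs => rw [← hb', ← conj_zpow, ← ha']
    conv_rhs => rw [← ha', ← conj_zpow, ← hb']
    rw [← zpow_mul, ← zpow_mul, mul_comm]
  have h2 : Commute (x : G) ⁅g, k⁆ := by
    show (x : G) * (g * k * g⁻¹ * k⁻¹) = g * k * g⁻¹ * k⁻¹ * x
    calc (x : G) * (g * k * g⁻¹ * k⁻¹)
        = g * k * (k⁻¹ * (g⁻¹ * x * g⁻¹⁻¹) * k⁻¹⁻¹) * g⁻¹ * k⁻¹ := by group
      _ = _ := by rw [← h1]; group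
  rw [← hc']
  exact (h2.zpow_left c).eq

/-- The second derived group centralizes every minimal normal subgroup. -/
theorem cent_min [Finite G] [Group.IsSolvable G] (h : ∀ d ∈ charDegrees G, Squarefree d)
    (V : Subgroup G) [hV : V.Normal] (h0 : V ≠ ⊥)
    (hm : ∀ M : Subgroup G, M.Normal → M ≤ V → M = ⊥ ∨ M = V) :
    derivedSeries G 2 ≤ centralizer (V : Set G) := by
  obtain ⟨hab, q, hq, hexp⟩ := H3.minimal_normal_elementary V inferInstance h0 hm
  have hab' : ∀ a ∈ V, ∀ b ∈ V, a * b = b * a := fun a ha b hb =>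
    congrArg Subtype.val (hab.is_comm.comm (⟨a, ha⟩ : V) ⟨b, hb⟩)
  have hVq : IsPGroup q V := fun x => ⟨1, Subtype.ext (by simpa using hexp x x.2)⟩
  let f := (MulAut.conjNormal (H := V)).rangeRestrict
  have hf : Function.Surjective f := MonoidHom.rangeRestrict_surjective _
  have hker : f.ker = centralizer (V : Set G) := by
    ext g
    rw [MonoidHom.mem_ker, Subtype.ext_iff, mem_centralizer_iff]
    constructor
    · intro e a ha
      have : g * a * g⁻¹ = a := congrArg Subtype.val (DFunLike.congr_fun e (⟨a, ha⟩ : V))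
      exact (mul_inv_eq_iff_eq_mul.1 this).symm
    · intro e
      ext a
      show g * a * g⁻¹ = a
      rw [← e a a.2, mul_inv_cancel_right]
  have : Finite (MulAut.conjNormal (H := V)).range := Finite.of_surjective f hf
  have : Group.IsSolvable (MulAut.conjNormal (H := V)).range := Group.isSolvable_of_surjective hf
  have key : ∀ p : Nat.Primes, Nat.card (pCore (p : ℕ) (MulAut.conjNormal (H := V)).range) ∣ p := by
    rintro ⟨p, hp⟩
    have : Fact p.Prime := ⟨hp⟩
    show Nat.card (pCore p _) ∣ p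
    set P := pCore p (MulAut.conjNormal (H := V)).range
    have := H3.pCore_characteristic p (MulAut.conjNormal (H := V)).range
    have hP : IsPGroup p P := H3.pCore_isPGroup p _
    have hB : (P.comap f).map f = P := map_comap_eq_self_of_surjective hf P
    by_cases hpq : p = q
    · subst hpq
      obtain ⟨n, hn⟩ := IsPGroup.iff_card.1 hVq
      have hd : p ∣ Nat.card V := by
        rcases n with _ | n
        · exact absurd (card_eq_one.1 (by simpa using hn)) h0
        · rw [hn]; exact dvd_pow_self _ (Nat.succ_ne_zero n)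
      obtain ⟨v, hv, hv1⟩ := hP.exists_fixed_point_of_prime_dvd_card_of_fixed_point V hd
        (a := 1) (fun g => map_one (g.1.1 : MulAut V))
      have h1 : V ⊓ centralizer (P.comap f : Set G) = V := by
        refine (hm _ inferInstance inf_le_left).resolve_left fun e => hv1 ?_
        have : (v : G) ∈ V ⊓ centralizer (P.comap f : Set G) := ⟨v.2, fun g hg => by
          have : g * v * g⁻¹ = v := congrArg Subtype.val (hv ⟨f g, hg⟩)
          exact mul_inv_eq_iff_eq_mul.1 this⟩
        rw [e, mem_bot] at this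
        exact (Subtype.ext this).symm
      have h2 : P.comap f ≤ f.ker := hker ▸ le_centralizer_iff.1 (h1.ge.trans inf_le_right)
      rw [← hB, (Subgroup.map_eq_bot_iff _).2 h2, card_bot]
      exact one_dvd _
    · have hVB : V ≤ P.comap f := fun v hv => by
        have : v ∈ f.ker := hker ▸ fun a ha => hab' a ha v hv
        show f v ∈ P
        rw [this]; exact one_mem _
      have hC : centralizer (V.subgroupOf (P.comap f) : Set (P.comap f)) =
          f.ker.subgroupOf (P.comap f) := by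
        rw [hker]
        ext g
        exact ⟨fun e a ha => congrArg Subtype.val (e ⟨a, hVB ha⟩ ha),
          fun e a ha => Subtype.ext (e a ha)⟩
      have hi : (centralizer (V.subgroupOf (P.comap f) : Set (P.comap f))).index = Nat.card P := by
        rw [hC]
        exact (relIndex_ker _ f).trans (by rw [hB])
      obtain ⟨k, hk⟩ := IsPGroup.iff_card.1 hP
      have : Fact q.Prime := ⟨hq⟩
      obtain ⟨n, hn⟩ := IsPGroup.iff_card.1 hVq
      rw [← hi]
      refine index_dvd (fun d hd => ?_) _ (fun a ha b hb => Subtype.ext (hab' a ha b hb)) hp ?_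
        (hi.trans hk)
      · obtain ⟨e, he, h1⟩ := exists_cd_dvd_of_normal _ hd
        exact (h e he).squarefree_of_dvd h1
      · rw [Nat.card_congr (subgroupOfEquivOfLe hVB).toEquiv, hn]
        exact ((Nat.coprime_primes hq hp).2 (Ne.symm hpq)).pow_left n
  have h1 : commutator (MulAut.conjNormal (H := V)).range ≤
      centralizer (fittingSubgroup (MulAut.conjNormal (H := V)).range : Set _) := by
    rw [← le_centralizer_iff, H3.fitting_eq_iSup_pCore, iSup_le_iff]
    intro p
    have : Fact (p : ℕ).Prime := ⟨p.2⟩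
    have := H3.pCore_characteristic p (MulAut.conjNormal (H := V)).range
    have := isCyclic_of_card_dvd_prime (key p)
    exact le_centralizer_iff.1 (commutator_le_of_cyclic _)
  have h2 : derivedSeries (MulAut.conjNormal (H := V)).range 2 = ⊥ := by
    rw [derivedSeries_succ, derivedSeries_one, commutator_eq_bot_iff_le_centralizer]
    exact h1.trans (centralizer_le (h1.trans (H3.centralizer_fitting_le _)))
  rw [← hker, ← Subgroup.map_eq_bot_iff, map_derivedSeries_eq hf, h2]

theorem nilp (G : Type u) [Group G] [Finite G] : Group.IsSolvable G →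
    (∀ d ∈ charDegrees G, Squarefree d) → Group.IsNilpotent (derivedSeries G 2) := by
  refine H1.card_induction (P := fun G _ _ => Group.IsSolvable G →
    (∀ d ∈ charDegrees G, Squarefree d) → Group.IsNilpotent (derivedSeries G 2)) ?_ G
  intro G _ _ ih hs h
  rcases subsingleton_or_nontrivial G with h0 | h0
  · infer_instance
  obtain ⟨V, hV, h1, hm⟩ := H3.exists_minimal_normal G
  have h2 := ih (G ⧸ V) (H1.card_quotient_lt h1) inferInstance fun d hd => h d (cd_quotient_subset _ hd)
  rw [← map_derivedSeries_eq (QuotientGroup.mk'_surjective V)] at h2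
  refine Subgroup.isNilpotent_of_ker_le_center ((QuotientGroup.mk' V).subgroupMap (derivedSeries G 2)) ?_
  intro x hx
  have h3 : (x : G) ∈ V := (QuotientGroup.eq_one_iff _).1 (congrArg Subtype.val hx)
  exact mem_center_iff.2 fun g => Subtype.ext (cent_min h V h1 hm g.2 x h3).symm

theorem two_of_nilp [Finite G] [hn : Group.IsNilpotent G] (h : ∀ d ∈ charDegrees G, Squarefree d) :
    derivedSeries G 2 = ⊥ := by
  have hN : ∀ {p : ℕ} [Fact p.Prime] (P : Sylow p G), (P : Subgroup G).Normal :=
    fun P => inferInstance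
  classical
  let e := Sylow.directProductOfNormal hN
  rw [eq_bot_iff]
  intro x hx
  rw [mem_bot, ← e.symm.map_eq_one_iff]
  funext p P
  have : Fact (p : ℕ).Prime := ⟨Nat.prime_of_mem_primeFactors p.2⟩
  have h1 : derivedSeries P 2 = ⊥ := derivedSeries_two_of_cd (m := p) fun d hd => by
    obtain ⟨c, hc, h2⟩ := exists_cd_dvd_of_normal (P : Subgroup G) hd
    obtain ⟨θ, hθ, rfl⟩ := mem_cd.1 hd
    obtain ⟨k, hk⟩ := exists_deg_eq_pow_of_isPGroup P.isPGroup' hθ
    rw [hk] at h2 ⊢
    exact pow_sqfree this.out (h c hc) h2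
  let π : G →* P := (Pi.evalMonoidHom _ P).comp ((Pi.evalMonoidHom _ p).comp e.symm.toMonoidHom)
  have h2 := map_derivedSeries_le_derivedSeries π 2 (mem_map_of_mem π hx)
  rw [h1, mem_bot] at h2
  exact h2

theorem four [Finite G] [Group.IsSolvable G] (h : ∀ d ∈ charDegrees G, Squarefree d) :
    derivedSeries G 4 = ⊥ := by
  have := nilp G inferInstance h
  have h1 := two_of_nilp (G := derivedSeries G 2) fun d hd => by
    obtain ⟨c, hc, h2⟩ := exists_cd_dvd_of_normal _ hd
    exact (h c hc).squarefree_of_dvd h2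
  have h2 := congrArg (map (derivedSeries G 2).subtype) h1
  rw [derivedSeries_succ (derivedSeries G 2), derivedSeries_one (derivedSeries G 2), map_commutator,
    Subgroup.map_subtype_commutator, Subgroup.map_bot] at h2
  exact h2

end Cfsg.Agent.H26.SqF
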