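import Cfsg.Agent.H26.NdC
import Cfsg.Agent.H26.SqFree
import Cfsg.Agent.H5.Semiregular
import Cfsg.Agent.H24.DegGraph

/-! The group `N` is metabelian, and all degrees divisible by `p` agree. -/

set_option autoImplicit false

namespace Cfsg.Agent.H26.ND

open Cfsg Subgroup H24 H11
open scoped commutatorElement Pointwise

variable {G : Type*} [Group G]

theorem card_lin (M : Subgroup G) [Finite M] : Nat.card (Lin M) = (⁅M, M⁆).relIndex M := by
  rw [card_Lin, relIndex, ← Subgroup.map_subtype_commutator, subgroupOf,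
    comap_map_eq_self_of_injective M.subtype_injective]

theorem cam_coprime [Finite G] {M W : Subgroup G} [hM : M.Normal] [hW : W.Normal]
    (e : ⁅M, M⁆ ≤ W) (hWM : W ≤ M) (hne : W ≠ ⊥) {s q : ℕ} (hs : s.Prime) (hq : q.Prime)
    (hsq : q ≠ s) (hp : IsPGroup s W)
    (cam : ∀ a ∈ M, a ∉ W → ∀ w ∈ W, ∃ b ∈ M, b * a * b⁻¹ = a * w) {b : G} (hb : b ∈ M)
    (ho : orderOf b = q) : b ∉ W ∧ ∀ c ∈ commutator G, ⁅c, b⁆ ∈ W := by
  have : Fact q.Prime := ⟨hq⟩
  have h0 : ∀ w ∈ W, w ^ q = 1 → w = 1 := fun w hw h => by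
    obtain ⟨j, hj⟩ := pow_of_mem hp hw
    exact orderOf_eq_one_iff.1 (Nat.eq_one_of_dvd_coprimes
      (((Nat.coprime_primes hq hs).2 hsq).pow_right j) (orderOf_dvd_of_pow_eq_one h)
      (orderOf_dvd_of_pow_eq_one hj))
  have hbq : b ^ q = 1 := ho ▸ pow_orderOf_eq_one b
  have h1 : b ∉ W := fun h => hq.one_lt.ne' (by rw [← ho, h0 b h hbq, orderOf_one])
  have h2 : ∀ w ∈ W, Commute b w → w = 1 := fun w hw h => by
    obtain ⟨n, -, e⟩ := cam b hb h1 w hw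
    have := congrArg (· ^ q) e
    simp only [conj_pow, h.mul_pow, hbq, mul_one, mul_inv_cancel, one_mul] at this
    exact h0 w hw this.symm
  have h3 : ∀ a ∈ M, ∃ w ∈ W, ∃ c ∈ M ⊓ centralizer {b}, a = w * c := fun a ha => by
    obtain ⟨w, hw, e'⟩ := (surj_iff W b).1 h2 _ (e (commutator_mem_commutator hb ha))
    refine ⟨w, hw, w⁻¹ * a, mem_inf.2 ⟨mul_mem (inv_mem (hWM hw)) ha,
      mem_centralizer_singleton_iff.2 ?_⟩, by group⟩
    calc w⁻¹ * a * b = w⁻¹ * ⁅b, a⁆⁻¹ * b * a := by simp only [commutatorElement_def]; group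
      _ = _ := by rw [e']; simp only [commutatorElement_def]; group
  have h4 : ∀ c ∈ M ⊓ centralizer {b}, ∀ d ∈ M ⊓ centralizer {b}, c * d = d * c :=
    fun c hc d hd => commutatorElement_eq_one_iff_mul_comm.1 (h2 _
      (e (commutator_mem_commutator hc.1 hd.1)) (mem_centralizer_singleton_iff.1
        (mul_mem (mul_mem (mul_mem (mem_inf.1 hc).2 (mem_inf.1 hd).2) (inv_mem (mem_inf.1 hc).2))
          (inv_mem (mem_inf.1 hd).2))).symm)
  have h5 : ∀ d ∈ M ⊓ centralizer {b}, d ≠ 1 → W ⊓ centralizer {d} = ⊥ := fun d hd hd1 => by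
    have a1 : d ∉ W := fun h => hd1 (h2 d h (mem_centralizer_singleton_iff.1 hd.2).symm)
    have a2 := (surj_iff W d⁻¹).2 fun w hw => by
      obtain ⟨n, hn, e'⟩ := cam d hd.1 a1 w hw
      obtain ⟨u, hu, c, hc, rfl⟩ := h3 n hn
      refine ⟨u, hu, ?_⟩
      rw [← inv_mul_cancel_left d w, ← e', mul_assoc u, h4 c hc d hd, commutatorElement_def]
      group
    exact eq_bot_iff.2 fun w hw => a2 w hw.1
      (Commute.inv_left (mem_centralizer_singleton_iff.1 hw.2).symm)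
  have hn : M ⊓ centralizer {b} ≤ normalizer (W : Set G) := by
    rw [normalizer_eq_top_iff.2 hW]; exact le_top
  have hbD : b ∈ M ⊓ centralizer {b} := mem_inf.2 ⟨hb, mem_centralizer_singleton_iff.2 rfl⟩
  have h6 : ∀ h : G, QuotientGroup.mk' W (h * b * h⁻¹) ∈ zpowers (QuotientGroup.mk' W b) := by
    intro h
    obtain ⟨w, hw, c, hc, e'⟩ := h3 _ (hM.conj_mem b hb h)
    have a1 : QuotientGroup.mk' W (h * b * h⁻¹) = QuotientGroup.mk' W c := by
      rw [e', map_mul, QuotientGroup.mk'_apply, (QuotientGroup.eq_one_iff w).2 hw, one_mul]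
    have a2 : c ^ q = 1 := h2 _ (by
      rw [← QuotientGroup.eq_one_iff, ← QuotientGroup.mk'_apply, map_pow, ← a1, ← map_pow, conj_pow,
        hbq, mul_one, mul_inv_cancel, map_one])
      (Commute.pow_right (mem_centralizer_singleton_iff.1 hc.2).symm q)
    rw [a1]
    by_cases a3 : c = 1
    · rw [a3, map_one]; exact one_mem _
    let := H5.conjAction _ W hn
    have := (Subgroup.nontrivial_iff_ne_bot W).2 hne
    obtain ⟨k, hk⟩ := (H5.semireg_conjAction hn h5).mem_zpowers_of_commute hq (x := ⟨c, hc⟩)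
      (y := ⟨b, hbD⟩) (by rw [← Subgroup.orderOf_coe]; exact orderOf_eq_prime a2 a3)
      (by rw [← Subgroup.orderOf_coe]; exact ho) (Subtype.ext (h4 c hc b hbD))
    exact ⟨k, by rw [← show b ^ k = c from congrArg Subtype.val hk, map_zpow]⟩
  have h7 : (zpowers (QuotientGroup.mk' W b)).Normal := ⟨by
    rintro _ ⟨k, rfl⟩ h
    obtain ⟨h, rfl⟩ := QuotientGroup.mk'_surjective W h
    have := zpow_mem (h6 h) k
    rwa [map_mul, map_mul, map_inv, conj_zpow] at this⟩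
  refine ⟨h1, fun c hc => ?_⟩
  have h8 := SqF.commutator_le_of_cyclic (zpowers (QuotientGroup.mk' W b))
    (map_mk'_commutator W ▸ mem_map_of_mem (QuotientGroup.mk' W) hc) _ (mem_zpowers _)
  rw [← QuotientGroup.eq_one_iff, ← QuotientGroup.mk'_apply, map_commutatorElement,
    commutatorElement_eq_one_iff_mul_comm, h8]

theorem cam_card [Finite G] {M W : Subgroup G} (e : ⁅M, M⁆ ≤ W) (hWM : W < M)
    (hc : W ≤ centralizer (M : Set G))
    (cam : ∀ a ∈ M, a ∉ W → ∀ w ∈ W, ∃ b ∈ M, b * a * b⁻¹ = a * w) :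
    Nat.card W < W.relIndex M := by
  obtain ⟨a, ha, ha'⟩ := SetLike.exists_of_lt hWM
  let φ : M →* G := MonoidHom.mk' (fun b => ⁅(b : G), a⁆) fun b c => by
    have h1 : ⁅(b : G) * c, a⁆ = b * ⁅(c : G), a⁆ * (b : G)⁻¹ * ⁅(b : G), a⁆ := by
      simp only [commutatorElement_def]; group
    have h2 := hc (e (commutator_mem_commutator c.2 ha))
    show ⁅(b : G) * c, a⁆ = _
    rw [h1, h2 b b.2, mul_inv_cancel_right, h2 _ (hWM.le (e (commutator_mem_commutator b.2 ha)))]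
  have h1 : W ≤ φ.range := fun w hw => by
    obtain ⟨b, hb, e'⟩ := cam a ha ha' w hw
    refine ⟨⟨b, hb⟩, ?_⟩
    show b * a * b⁻¹ * a⁻¹ = w
    rw [e', hc hw a ha, mul_inv_cancel_right]
  have h2 : W.subgroupOf M ≤ φ.ker := fun w hw =>
    commutatorElement_eq_one_iff_mul_comm.2 (hc hw a ha).symm
  have h3 := relIndex_mul_index h2
  have h4 : (W.subgroupOf M).relIndex φ.ker ≠ 1 := fun h =>
    ha' (relIndex_eq_one.1 h (show (⟨a, ha⟩ : M) ∈ φ.ker from commutatorElement_self a))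
  have h5 : 0 < (W.subgroupOf M).relIndex φ.ker := Nat.pos_of_ne_zero index_ne_zero_of_finite
  have h6 := card_le_of_le h1
  have h7 : 0 < Nat.card W := Nat.card_pos
  rw [index_ker] at h3
  rw [relIndex, ← h3]
  have h8 : 2 ≤ (W.subgroupOf M).relIndex φ.ker := by omega
  nlinarith

variable [Finite G] [Group.IsSolvable G] {N K : Subgroup G} [hN : N.Normal] {p l : ℕ} {g : G}

omit [Finite G] [Group.IsSolvable G] in
theorem Hyp.cm_mem (H : Hyp N K p l g) {N₀ : Subgroup G} [N₀.Normal] (h1 : ⁅N, N⁆ ≤ N₀)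
    (h2 : (N₀.relIndex N).Coprime l) {n : G} (hn : n ∈ N) (h : ⁅g, n⁆ ∈ V0 N) : ⁅g, n⁆ ∈ N₀ := by
  refine mem_of_pow_coprime h2 ((N₀.subgroupOf N).pow_index_mem ⟨_, V0_le N h⟩) (h1 ?_)
  have h3 := (mem_V0.1 h).2 g
  rw [← QuotientGroup.eq_one_iff, ← QuotientGroup.mk'_apply] at h3 ⊢
  rw [map_commutatorElement, map_commutatorElement, commutatorElement_eq_one_iff_commute] at h3
  rw [map_pow, map_commutatorElement, ← commutatorElement_pow_left_of_commute h3, ← map_pow,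
    ← map_commutatorElement, QuotientGroup.mk'_apply, QuotientGroup.eq_one_iff]
  exact commutator_mem_commutator H.gl hn

theorem Hyp.min_false (H : Hyp N K p l g) (hc : (Nat.card ↥⁅N, N⁆).Coprime p)
    (hW : ⁅⁅N, N⁆, ⁅N, N⁆⁆ ≠ ⊥) (hmin : ∀ U : Subgroup G, U.Normal → U ≤ ⁅⁅N, N⁆, ⁅N, N⁆⁆ →
      U ≠ ⊥ → U = ⁅⁅N, N⁆, ⁅N, N⁆⁆) : False := by
  have hne : ⁅N, N⁆ ≠ ⊥ := fun h => hW (by rw [h, commutator_bot_left])
  have cam : ∀ a ∈ ⁅N, N⁆, a ∉ _ → ∀ w ∈ _, _ := fun a ha ha' w hw => H.cam hc hne ha ha' (w := w) hw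
  have hWn : (⁅⁅N, N⁆, ⁅N, N⁆⁆).Normal := inferInstance
  have hMn : (⁅N, N⁆).Normal := inferInstance
  obtain ⟨s, P, hs, h1, h2, h3, h4, h5⟩ := H1.exists_pGroup_of_isSolvable hW
  obtain rfl := hmin P (H1.normal_of_top_le_normalizer (normalizer_eq_top_iff.2 hWn ▸ h5)) h4 h3
  have : Fact s.Prime := ⟨hs⟩
  by_cases hM : IsPGroup s ↥⁅N, N⁆
  swap
  · obtain ⟨q, hq, h6, h7⟩ : ∃ q, q.Prime ∧ q ∣ Nat.card ↥⁅N, N⁆ ∧ q ≠ s := by
      by_contra! h
      exact hM (IsPGroup.of_card (Nat.eq_prime_pow_of_unique_prime_dvd Nat.card_pos.ne'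
        fun hq hd => h _ hq hd))
    have : Fact q.Prime := ⟨hq⟩
    obtain ⟨b, hb⟩ := exists_prime_orderOf_dvd_card' q h6
    obtain ⟨h8, h9⟩ := cam_coprime le_rfl (cc_le _) hW hs hq h7 h1 cam b.2
      (by rw [Subgroup.orderOf_coe, hb])
    refine H.nle fun n hn => H.fpf n hn (H.V0_le_K (H.N1_le_V0 hc hne (by_contra fun h => h8 ?_)))
    exact H.fpf_N1 hc (ND.cm_mem N g hn) h b b.2 (h9 _ (commutatorElement_mem_commutator' g n))
  have h6 : ⁅⁅N, N⁆, ⁅N, N⁆⁆ ≤ centralizer ((⁅N, N⁆ : Subgroup G) : Set G) :=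
    (hmin _ inferInstance inf_le_left (H1.inf_centralizer_ne_bot_of_isPGroup h1 hM
      (by rw [normalizer_eq_top_iff.2 hWn]; exact le_top) hW)).ge.trans inf_le_right
  have h7 := cam_card le_rfl (H1.commutator_self_lt_of_isSolvable hne) h6 cam
  generalize hW' : ⁅⁅N, N⁆, ⁅N, N⁆⁆ = W at *
  have hWM : W ≤ ⁅N, N⁆ := hW' ▸ cc_le _
  let V := N ⊓ (centralizer {QuotientGroup.mk' (V0 N) g}).comap (QuotientGroup.mk' (V0 N))
  have hV : ∀ N₀ : Subgroup G, N₀.Normal → ⁅N, N⁆ ≤ N₀ → N₀ ≤ V0 N → (N₀.relIndex N).Coprime l →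
      ∀ n, n ∈ V ↔ n ∈ N ∧ ⁅g, n⁆ ∈ N₀ := fun N₀ _ a1 a2 a3 n => by
    rw [mem_inf, mk_comm_iff]
    exact and_congr_right fun hn => ⟨fun h => H.cm_mem a1 a3 hn (cm_swap h), fun h => cm_swap (a2 h)⟩
  have hv : 1 < V.relIndex N := by
    have a1 : V.relIndex N ≠ 0 := index_ne_zero_of_finite
    have a2 : V.relIndex N ≠ 1 := fun h => H.nle fun n hn => H.fpf n hn (H.V0_le_K (cm_swap
      ((mk_comm_iff _ g n).1 (relIndex_eq_one.1 h hn).2)))
    omega
  obtain ⟨μ, hμ⟩ := exists_lin_ne hne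
  obtain ⟨ν, hν⟩ := exists_lin_ne hW
  have c1 : ((N1 N).relIndex N).Coprime l :=
    H.N1_index hc hμ ▸ (H.cop_inertia _ le_rfl hμ).coprime_dvd_right H.ld
  obtain ⟨C, hC⟩ := count ⁅N, N⁆ N (N1 N) H.hl H.gl (N1_le N) (cc_le_N1 N)
    (fun _ h _ hx => H.fix_iff hc h hx) (fun _ h => H.exists_fix _ le_rfl h) c1 hμ V
    (hV _ inferInstance (cc_le_N1 N) (H.N1_le_V0 hc hne) c1)
  have d0 : ∀ ν : Lin W, ν ≠ 1 → ∀ x ∈ N, conjHom W x ν = ν → x ∈ V0 N := fun ν hν x hx h => by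
    by_contra h'
    exact hν (lin_eq_one W (fun a ha => H.fpf_cc hc hx h' a (hWM ha)) h)
  have d1 : ∀ ν : Lin W, ν ≠ 1 → ∀ x ∈ N,
      (conjHom W x ν = ν ↔ x ∈ N ⊓ centralizer (W : Set G)) := fun ν hν x hx => by
    refine ⟨fun h => mem_inf.2 ⟨hx, fun w hw => ?_⟩, fun h => (mem_inertia_lin W).1
      (H14.centralizer_le_inertia W _ h.2)⟩
    have a1 := mem_V0.1 (d0 ν hν x hx h)
    have a2 := hmin (W ⊓ centralizer {x}) ⟨fun u hu t => mem_inf.2 ⟨hWn.conj_mem _ hu.1 t,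
      mem_centralizer_singleton_iff.2 ?_⟩⟩ inf_le_left fun e => hν (lin_eq_one W (fun a ha h' =>
        mem_bot.1 (e ▸ mem_inf.2 ⟨ha, mem_centralizer_singleton_iff.2 h'.symm⟩)) h)
    · exact mem_centralizer_singleton_iff.1 (a2.ge hw).2
    · have b1 := h6 hu.1 _ (a1.2 t⁻¹)
      have b2 := mem_centralizer_singleton_iff.1 hu.2
      calc t * u * t⁻¹ * x = t * (u * ⁅t⁻¹, x⁆ * x) * t⁻¹ := by
            simp only [commutatorElement_def]; group
        _ = t * (⁅t⁻¹, x⁆ * x * u) * t⁻¹ := by rw [← b1, mul_assoc _ u, b2, ← mul_assoc _ x]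
        _ = _ := by simp only [commutatorElement_def]; group
  have c2 : ((N ⊓ centralizer (W : Set G)).relIndex N).Coprime l := by
    have : N ⊓ centralizer (W : Set G) = H14.inertia W (lin ν) ⊓ N := by
      ext x
      exact ⟨fun h => mem_inf.2 ⟨(mem_inertia_lin W).2 ((d1 ν hν x h.1).2 h), h.1⟩,
        fun h => (d1 ν hν x h.2).1 ((mem_inertia_lin W).1 h.1)⟩
    rw [this, inf_relIndex_right, H.relIndex_inertia W hWM hν]
    exact (H.cop_inertia _ hWM hν).coprime_dvd_right H.ld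
  have c3 : ⁅N, N⁆ ≤ N ⊓ centralizer (W : Set G) := le_inf (cc_le N) (le_centralizer_iff.1 h6)
  obtain ⟨D, hD⟩ := count W N (N ⊓ centralizer (W : Set G)) H.hl H.gl inf_le_left c3 d1
    (fun _ h => H.exists_fix _ hWM h) c2 hν V
    (hV _ inferInstance c3 (fun x hx => d0 ν hν x hx.1 ((d1 ν hν x hx.1).2 hx)) c2)
  have e1 : Nat.card (Lin W) = Nat.card W := by
    rw [card_lin, commutator_eq_bot_iff_le_centralizer.2 (h6.trans (centralizer_le hWM)),
      relIndex_bot_left]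
  obtain ⟨n, hn⟩ := IsPGroup.iff_card.1 hM
  obtain ⟨b, hb⟩ := IsPGroup.iff_card.1 h1
  obtain ⟨a, -, ha⟩ := (Nat.dvd_prime_pow hs).1 (hn ▸ relIndex_dvd_card W ⁅N, N⁆)
  have e2 : Nat.card (Lin ↥⁅N, N⁆) = s ^ a := by rw [card_lin, hW', ha]
  rw [hb] at e1
  obtain ⟨c, -, hc'⟩ := (Nat.dvd_prime_pow hs).1 (e2 ▸ C.card_subgroup_dvd_card)
  obtain ⟨d, -, hd'⟩ := (Nat.dvd_prime_pow hs).1 (e1 ▸ D.card_subgroup_dvd_card)
  rw [e2, hc'] at hC
  rw [e1, hd'] at hD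
  rw [ha, hb, Nat.pow_lt_pow_iff_right hs.one_lt] at h7
  refine arith hs (Nat.pos_of_ne_zero fun h => hW (card_eq_one.1 (by rw [hb, h, pow_zero]))) h7 hv
    hC hD

theorem Hyp.metab (H : Hyp N K p l g) (hc : (Nat.card ↥⁅N, N⁆).Coprime p) :
    ⁅⁅N, N⁆, ⁅N, N⁆⁆ = ⊥ := by
  by_contra h
  obtain ⟨W, ⟨h1, h2⟩, h3⟩ := exists_maximal_of_wellFoundedGT
    (fun W : Subgroup G => W.Normal ∧ W < ⁅⁅N, N⁆, ⁅N, N⁆⁆) ⟨⊥, inferInstance, bot_lt_iff_ne_bot.2 h⟩
  have hs := QuotientGroup.mk'_surjective W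
  have := hN.map _ hs
  refine (H.quot W (h2.le.trans (cc_le _))).min_false ?_ ?_ fun U hU a1 a2 => ?_
  · rw [← map_commutator]
    exact hc.coprime_dvd_left (card_map_dvd _ _)
  · rw [← map_commutator, ← map_commutator, Ne, Subgroup.map_eq_bot_iff, QuotientGroup.ker_mk']
    exact h2.not_ge
  · rw [← map_commutator, ← map_commutator] at a1 ⊢
    have a3 : U.comap (QuotientGroup.mk' W) ≤ ⁅⁅N, N⁆, ⁅N, N⁆⁆ := by
      have := comap_mono (f := QuotientGroup.mk' W) a1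
      rwa [comap_map_eq_self (by rw [QuotientGroup.ker_mk']; exact h2.le)] at this
    rcases a3.eq_or_lt with a4 | a4
    · rw [← a4, map_comap_eq_self_of_surjective hs]
    · refine (a2 ?_).elim
      rw [← map_comap_eq_self_of_surjective hs U, Subgroup.map_eq_bot_iff, QuotientGroup.ker_mk']
      exact h3 ⟨inferInstance, a4⟩ (QuotientGroup.le_comap_mk' W U)

theorem Hyp.eq_of_dvd (H : Hyp N K p l g) {a b : ℕ} (ha : a ∈ charDegrees G)
    (hb : b ∈ charDegrees G) (ha' : p ∣ a) (hb' : p ∣ b) : a = b := by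
  obtain ⟨L, h1, h2, h3, k, hk⟩ := H.exists_L
  by_cases h : ⁅N, N⁆ ⊓ L = ⊥
  · have key : ∀ d ∈ charDegrees G, p ∣ d → ∃ i, d = p ^ i := fun d hd hd' => by
      obtain ⟨χ, hχ, rfl⟩ := mem_cd.1 hd
      have h4 := deg_dvd_index_of_comm (res_isIrr_of_coprime N hχ (H.cop _ hd hd'))
        (L.subgroupOf N) fun x hx y hy => Subtype.ext (commutatorElement_eq_one_iff_mul_comm.1
          (mem_bot.1 (h ▸ mem_inf.2 ⟨commutator_mem_commutator x.2 y.2, ND.cm_mem L _ hy⟩)))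
      rw [deg_res, ← relIndex, hk] at h4
      exact ((Nat.dvd_prime_pow H.hp).1 h4).imp fun _ h => h.2
    have h1 : ∀ d, p ∣ d → d ≠ 1 := fun d hd e => H.hp.one_lt.ne' (Nat.dvd_one.1 (e ▸ hd))
    obtain ⟨i, hi⟩ := key a ha ha'
    obtain ⟨j, hj⟩ := key b hb hb'
    rcases le_total i j with h5 | h5
    · exact H.nd a ha b hb (h1 a ha') (hi ▸ hj ▸ pow_dvd_pow p h5)
    · exact (H.nd b hb a ha (h1 b hb') (hi ▸ hj ▸ pow_dvd_pow p h5)).symm
  · have hc := h3.coprime_dvd_left (card_dvd_of_le (H.cc_le_L h2 h3 hk h))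
    rw [H.eq_of_ab hc (H.metab hc) ha ha', H.eq_of_ab hc (H.metab hc) hb hb']

omit hN in
theorem three (hnd : ∀ a ∈ charDegrees G, ∀ b ∈ charDegrees G, 1 < a → a < b → ¬ a ∣ b)
    (htwo : Nat.card ((degreeGraph G).induce (degreePrimes G)).ConnectedComponent = 2) :
    Nat.card ↥(charDegrees G) = 3 := by
  have nd : ∀ a ∈ charDegrees G, ∀ b ∈ charDegrees G, a ≠ 1 → a ∣ b → a = b := fun a ha b hb h1 h2 =>
    by_contra fun h => hnd a ha b hb (by have := pos_of_mem_cd ha; omega)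
      (lt_of_le_of_ne (Nat.le_of_dvd (pos_of_mem_cd hb) h2) h) h2
  have con : ∀ r : ℕ, r.Prime → (∀ q : degreePrimes G, ∃ d ∈ charDegrees G, q.1 ∣ d ∧ r ∣ d) →
      False := fun r hr h => by
    have : Subsingleton ((degreeGraph G).induce (degreePrimes G)).ConnectedComponent := ⟨by
      refine SimpleGraph.ConnectedComponent.ind₂ fun a b => SimpleGraph.ConnectedComponent.sound ?_
      obtain ⟨d, hd, h1, h2⟩ := h a
      obtain ⟨e, he, h3, h4⟩ := h b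
      exact (reachable_of_dvd hd a ⟨r, hr, d, hd, h2⟩ h1 h2).trans
        (reachable_of_dvd he ⟨r, hr, d, hd, h2⟩ b h4 h3)⟩
    have := Finite.card_le_one_iff_subsingleton.2 this
    omega
  have hna : ¬ commutator G ≤ ⊥ := fun h => con 2 Nat.prime_two fun ⟨q, hq, d, hd, h1⟩ => by
    obtain ⟨χ, hχ, rfl⟩ := mem_cd.1 hd
    rw [(deg_eq_one_iff_commutator_le hχ).2 (h.trans bot_le)] at h1
    exact (hq.one_lt.ne' (Nat.dvd_one.1 h1)).elim
  obtain ⟨K, hK, -, h1, h2⟩ := exists_maximal_not_commutator_le ⊥ hna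
  obtain ⟨p, f, hp, hf, ⟨χ, hχ, h3, h4⟩, -, ⟨Z, hZ⟩ | ⟨N, hF⟩⟩ := dichotomy K h1 h2
  · refine (con p hp fun ⟨q, hq, d, hd, h5⟩ => ⟨d, hd, h5, by_contra fun h6 => ?_⟩).elim
    obtain ⟨a, ha⟩ := hZ.index_pow
    have h7 := mul_mem_cd_of_coprime K hd (h4 ▸ deg_mem_cd_quotient hχ K h3)
      (ha ▸ (hp.coprime_iff_not_dvd.2 h6).symm.pow_right a)
    have h8 := nd d hd _ h7 (fun e => hq.one_lt.ne' (Nat.dvd_one.1 (e ▸ h5))) (Dvd.intro _ rfl)
    exact hf.ne' ((mul_eq_left₀ (pos_of_mem_cd hd).ne').1 h8.symm)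
  have := hF.normal
  have := Fintype.ofFinite N
  have hfc : f ∈ charDegrees G := h4 ▸ deg_mem_cd hχ
  have dv : ∀ d ∈ charDegrees N, d ≠ 1 → p ∣ d := fun d hd h5 =>
    (FCase.mul_mem_cd_or_dvd hp hF hd).elim (fun h6 => (h5 ((mul_eq_left₀ (by omega)).1
      (nd f hfc _ h6 hf.ne' (Dvd.intro _ rfl)).symm)).elim) And.left
  have tri : ∀ d ∈ charDegrees G, d = 1 ∨ d = f ∨ p ∣ d := fun d hd => by
    obtain ⟨ψ, hψ, rfl⟩ := mem_cd.1 hd
    obtain ⟨θ, hθ, h5⟩ := H14.exists_irr_under N hψ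
    by_cases h6 : charDegree θ = 1
    · have h7 := deg_dvd_index_mul N hψ hθ h5
      rw [h6, mul_one, hF.index_eq] at h7
      exact or_iff_not_imp_left.2 fun h8 => Or.inl (nd _ hd f hfc h8 h7)
    · exact Or.inr (Or.inr ((dv _ (deg_mem_cd hθ) h6).trans (deg_dvd_of_over N hψ hθ h5)))
  obtain ⟨l, hl, hlf⟩ := Nat.exists_prime_and_dvd hf.ne'
  obtain ⟨m, hm, hpm⟩ : ∃ m ∈ charDegrees G, p ∣ m := by
    by_contra! h
    refine con l hl fun ⟨q, hq, d, hd, h5⟩ => ⟨d, hd, h5, ?_⟩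
    rcases tri d hd with rfl | rfl | h6
    · exact (hq.one_lt.ne' (Nat.dvd_one.1 h5)).elim
    · exact hlf
    · exact (h d hd h6).elim
  have cop : ∀ d ∈ charDegrees G, p ∣ d → d.Coprime N.index := fun d hd hd' => by
    rw [hF.index_eq]
    refine Nat.Coprime.symm (Nat.coprime_of_dvd fun r hr h5 h6 => ?_)
    have : Subsingleton ((degreeGraph G).induce (degreePrimes G)).ConnectedComponent := ⟨by
      have key : ∀ a : degreePrimes G, ((degreeGraph G).induce (degreePrimes G)).Reachable a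
          ⟨p, hp, d, hd, hd'⟩ := fun ⟨q, hq, e, he, h7⟩ => by
        rcases tri e he with rfl | rfl | h8
        · exact (hq.one_lt.ne' (Nat.dvd_one.1 h7)).elim
        · exact (reachable_of_dvd he _ ⟨r, hr, d, hd, h6⟩ h7 h5).trans (reachable_of_dvd hd _ _ h6 hd')
        · exact reachable_of_dvd he _ _ h7 h8
      exact SimpleGraph.ConnectedComponent.ind₂ fun a b => SimpleGraph.ConnectedComponent.sound
        ((key a).trans (key b).symm)⟩
    have := Finite.card_le_one_iff_subsingleton.2 this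
    omega
  have : Fact l.Prime := ⟨hl⟩
  obtain ⟨g, hg⟩ := exists_prime_orderOf_dvd_card' (G := G ⧸ N) l
    (show l ∣ N.index from hF.index_eq ▸ hlf)
  obtain ⟨g, rfl⟩ := QuotientGroup.mk'_surjective N g
  have hgN : g ∉ N := fun h => hl.one_lt.ne' (by
    rw [← hg, QuotientGroup.mk'_apply, (QuotientGroup.eq_one_iff g).2 h, orderOf_one])
  have H : Hyp N K p l g := ⟨hK, hp, hl, nd, dv, cop, by
    rw [← QuotientGroup.eq_one_iff, ← QuotientGroup.mk'_apply, map_pow, ← hg, pow_orderOf_eq_one],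
    hF.index_eq ▸ hlf, hF.commutator_le, fun h => h1 (hF.commutator_le'.trans h), hF.pow_mem,
    hF.fpf g hgN, hF.index_eq ▸ hF.not_dvd, hF.commutator_le'⟩
  have e : charDegrees G = {1, f, m} := by
    ext d
    simp only [Set.mem_insert_iff, Set.mem_singleton_iff]
    refine ⟨fun hd => (tri d hd).imp_right (Or.imp_right fun h => H.eq_of_dvd hd hm h hpm), ?_⟩
    rintro (rfl | rfl | rfl)
    exacts [one_mem_cd, hfc, hm]
  rw [e, Nat.card_coe_set_eq, Set.ncard_eq_three]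
  exact ⟨1, f, m, hf.ne, fun h => hp.one_lt.ne' (Nat.dvd_one.1 (h ▸ hpm)),
    fun h => hF.not_dvd (h ▸ hpm), rfl⟩

end Cfsg.Agent.H26.ND
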