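import Cfsg.Agent.H15.O8H
import Cfsg.Agent.H36.O8T1

/-! The braid relation and the final counting argument for the large Ree groups. -/

set_option autoImplicit false
set_option linter.unusedSectionVars false

namespace Cfsg.Agent.H26.O8Br

open Cfsg.Agent.H39 Cfsg.Agent.H83 Cfsg.Agent.H15.O8 Cfsg.Agent.H36.O8T Subgroup

variable {K : Type*} [Field K] [Finite K] {T : Tits K} {G : Type*} [Group G] [Finite G] {τ : G}

theorem step_cj {Z W l p l' p' : Subgroup G} (h : Step Z W l p l' p') (g : G) :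
    Step Z W (cj g l) (cj g p) (cj g l') (cj g p') := by
  obtain ⟨⟨a, rfl⟩, ⟨b, rfl⟩, ⟨c, rfl⟩, ⟨d, rfl⟩, h1, h2, h3, h4, h5⟩ := h
  exact ⟨⟨_, (cj_mul _ _ _).symm⟩, ⟨_, (cj_mul _ _ _).symm⟩, ⟨_, (cj_mul _ _ _).symm⟩,
    ⟨_, (cj_mul _ _ _).symm⟩, cj_mono g h1, cj_mono g h2, cj_mono g h3, fun e => h4 (cj_inj.1 e),
    fun e => h5 (cj_inj.1 e)⟩

theorem tor_x4 (a b : Kˣ) (t : K) : tor T (a, b) (x4 T t) = x4 T (a * T.θ a * t) := by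
  rw [tor_apply]; ext <;> o8s

theorem tor_x6 (a b : Kˣ) (t : K) : tor T (a, b) (x6 T t) = x6 T (b * T.θ b * t) := by
  rw [tor_apply]; ext <;> o8s

theorem x4_Z (t : K) : x4 T t ∈ Z T := by o8s

theorem x4_inj {t u : K} (h : x4 T t = x4 T u) : t = u := congrArg U.a4 h

theorem ex_unit {s t : K} (hs : s ≠ 0) (ht : t ≠ 0) : ∃ a : Kˣ, a * T.θ a * s = t := by
  obtain ⟨a, e⟩ := nrm_surj (T := T) (t / s)
  refine ⟨Units.mk0 a fun h => ?_, by rw [Units.val_mk0, e, div_mul_cancel₀ _ hs]⟩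
  rw [h, zero_mul] at e
  exact div_ne_zero ht hs e.symm

theorem pow4 (x : G) : x ^ 4 = x * x * x * x := by simp only [pow_succ, pow_zero, one_mul]

theorem x6_W (t : K) : x6 T t ∈ W T := by o8s

variable (M : PF T G)

theorem ρ_inv : (M.n1 * M.n8)⁻¹ = M.n8 * M.n1 := by
  rw [mul_inv_rev, inv_eq_of_mul_eq_one_right M.n1n1, inv_eq_of_mul_eq_one_right M.n8n8]

theorem ρ_φ {u : U T} (h : u ∈ Q T) (h' : w8 u ∈ E T) :
    M.n1 * M.n8 * M.φ u * (M.n1 * M.n8)⁻¹ = M.φ (w1 (w8 u)) := by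
  rw [ρ_inv, ← M.n1φ _ h', ← M.n8φ _ h]; group

theorem ρ_h (a b : Kˣ) : M.n1 * M.n8 * M.h (a, b) * (M.n1 * M.n8)⁻¹ = M.h (θu T a / b, a) := by
  rw [ρ_inv, ← M.n1h a, ← M.n8h]; group

theorem ρ4_h (c : Kˣ × Kˣ) : (M.n1 * M.n8) ^ 4 * M.h c * ((M.n1 * M.n8) ^ 4)⁻¹ = M.h c⁻¹ := by
  obtain ⟨a, b⟩ := c
  have e : ∀ x : Kˣ, θu T (θu T x) = x * x := fun x => Units.ext (by simp [T.θθ, sq])
  have := ρ_h M
  generalize M.n1 * M.n8 = ρ at this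
  rw [show ρ ^ 4 * M.h (a, b) * (ρ ^ 4)⁻¹ = ρ * (ρ * (ρ * (ρ * M.h (a, b) * ρ⁻¹) * ρ⁻¹) * ρ⁻¹) * ρ⁻¹ by
    rw [pow4]; group, this, this, this, this]
  simp only [map_div, map_mul, e, Prod.inv_mk]
  congr 2 <;> refine Units.ext ?_ <;>
    simp only [Units.val_div_eq_div_val, Units.val_mul, Units.val_inv_eq_inv_val] <;> field_simp

theorem ρ_x4 (t : K) : M.n1 * M.n8 * M.φ (x4 T t) * (M.n1 * M.n8)⁻¹ = M.φ (x6 T t) := by
  rw [ρ_φ M (by o8s) (by o8s)]; congr 1; ext <;> o8s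

theorem ρ_W {w : U T} (h : w ∈ W T)
    (h' : M.n1 * M.n8 * M.φ w * (M.n1 * M.n8)⁻¹ ∈ M.cf.s (W T)) : w ∈ Z T := by
  rw [ρ_φ M (W_le_Q h) h.2.2.2.2.2.2.2.1] at h'
  have := (M.cf.φ_mem_s.1 h').2.2.2.2.2.2.2.2.2
  obtain ⟨h1, h2, h3, h4, h5, h6, h7, h8, h9, h10⟩ := h
  o8s at this
  rw [h8, h2, zero_mul, mul_zero, add_zero, add_zero] at this
  exact ⟨h1, h2, h3, h4, h5, h6, h7, this, h8, h9, h10⟩

theorem step0 : Step (M.cf.s (Z T)) (M.cf.s (W T)) (M.cf.s (W T)) (cj (M.n1 * M.n8) (M.cf.s (Z T)))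
    (cj (M.n1 * M.n8) (M.cf.s (W T))) (cj (M.n1 * M.n8) (cj (M.n1 * M.n8) (M.cf.s (Z T)))) := by
  have h1 : cj (M.n1 * M.n8) (M.cf.s (Z T)) ≤ M.cf.s (W T) := by
    rintro _ ⟨_, ⟨z, hz, rfl⟩, rfl⟩
    exact ⟨x6 T z.a4, x6_W _, (ρ_x4 M _).symm.trans (by rw [← eq_x4 hz]; rfl)⟩
  have h2 : x6 T 1 ∉ Z T := fun h => one_ne_zero h.2.2.2.2.2.2.2.1
  refine ⟨⟨1, (cj_one _).symm⟩, ⟨_, rfl⟩, ⟨_, rfl⟩, ⟨_, (cj_mul _ _ _).symm⟩, h1,
    cj_mono _ (map_mono Z_le_W), cj_mono _ h1, fun e => h2 (ρ_W M (by o8s) ?_), fun e => h2 ?_⟩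
  · rw [e]; exact conj_mem_cj (M.cf.φ_mem_s.2 (by o8s))
  · rw [← M.cf.φ_mem_s, cj_inj.1 e]
    exact ρ_x4 M 1 ▸ conj_mem_cj (M.cf.φ_mem_s.2 (x4_Z 1))

theorem h_W (c : Kˣ × Kˣ) : M.h c ∈ normalizer (M.cf.s (W T) : Set G) :=
  mem_normalizer_fintype (by rintro _ ⟨w, hw, rfl⟩; exact ⟨_, tor_W c hw, (M.hφ c w).symm⟩)

theorem n1_W : M.n1 ∈ normalizer (M.cf.s (W T) : Set G) :=
  mem_normalizer_fintype (by
    rintro _ ⟨w, hw, rfl⟩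
    refine ⟨w1 w, ?_, by rw [inv_eq_of_mul_eq_one_right M.n1n1]; exact (M.n1φ w hw.1).symm⟩
    obtain ⟨h1, h2, h3, h4, h5, h6, h7, h8, h9, h10⟩ := hw
    change _ ∈ W T
    o8s
    simp [*])

theorem ρ8_W (hf : HF M.cf τ) (hg : GeoG (M.cf.s (Z T)) (M.cf.s (W T)) (Nat.card K)) (h3 : UF3 T)
    (hq : 2 < Nat.card K) : (M.n1 * M.n8) ^ 8 ∈ normalizer (M.cf.s (W T) : Set G) := by
  have s0 := step0 M
  have s1 := step_cj s0 (M.n1 * M.n8)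
  have s2 := step_cj s1 (M.n1 * M.n8)
  obtain ⟨o1, o2⟩ := hg.oppL _ _ _ _ _ _ _ _ _ _ s0 s1 s2 (step_cj s2 (M.n1 * M.n8))
  have a1 : M.n1 * M.n8 * M.φ (x1 T 1) * (M.n1 * M.n8)⁻¹ = M.φ (x3 T 1) := by
    rw [ρ_φ M (by o8s) (by o8s)]; congr 1; ext <;> o8s
  have a3 : M.n1 * M.n8 * M.φ (x3 T 1) * (M.n1 * M.n8)⁻¹ = M.φ (x5 T 1) := by
    rw [ρ_φ M (by o8s) (by o8s)]; congr 1; ext <;> o8s
  have a5 : M.n1 * M.n8 * M.φ (x5 T 1) * (M.n1 * M.n8)⁻¹ = M.φ (x7 T 1) := by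
    rw [ρ_φ M (by o8s) (by o8s)]; congr 1; ext <;> o8s
  have a7 : M.n1 * M.n8 * M.φ (x7 T 1) * (M.n1 * M.n8)⁻¹ = M.n1 * M.φ (x1 T 1) * M.n1 := by
    rw [ρ_inv, show x1 T 1 = w8 (x7 T 1) by ext <;> o8s, ← M.n8φ _ (by o8s)]; group
  have a8 : M.n1 * (M.n1 * M.n8) = (M.n1 * M.n8)⁻¹ * M.n1 := by
    rw [ρ_inv, ← mul_assoc, M.n1n1, mul_assoc, M.n1n1, one_mul, mul_one]
  have a9 := ρ4_h M
  generalize M.n1 * M.n8 = ρ at *
  rw [← cj_mul, ← cj_mul, ← cj_mul, ← pow4,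
    ← cj_normalizer, hf.cW] at o1 o2
  obtain ⟨_, ⟨e, he, rfl⟩, h1⟩ := o2 _ (M.cf.φ_norm_W (x1 T 1))
  have h2 : e = 1 := by
    have := h3.fix1 hq e fun a => by
      have k1 : M.h (a, a) ∈ cj (ρ ^ 4) (normalizer (M.cf.s (W T) : Set G)) := by
        rw [← inv_inv (a, a), ← a9]; exact conj_mem_cj (h_W M _)
      have k2 := mul_mem (inv_mem h1) (mul_mem (mul_mem k1 h1) (inv_mem k1))
      have k3 : tor T (a, a) (x1 T 1) = x1 T 1 := by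
        rw [tor_apply]; ext <;> o8s
        simp only [map_inv₀]
        field_simp
      change (M.φ _ * M.φ e)⁻¹ * (M.h _ * (M.φ _ * M.φ e) * _) ∈ _ at k2
      rw [← map_mul, M.hφ, ← map_inv, ← map_mul, map_mul (tor T _), k3, mul_inv_rev, mul_assoc,
        inv_mul_cancel_left] at k2
      have k4 := o1.le ⟨⟨_, mul_mem (inv_mem he) (tor_E _ he), rfl⟩, k2⟩
      exact (inv_mul_eq_one.1 (M.inj (k4.trans (map_one _).symm))).symm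
    obtain ⟨h1, h2, h3, h4, h5, h6, h7, h8, h9, h10, h11⟩ := this
    ext <;> first | exact he | assumption
  rw [h2, map_one, mul_one] at h1
  have h4 : M.n1 * M.φ (x1 T 1) * M.n1 ∈ cj (ρ ^ 4) (normalizer (M.cf.s (W T) : Set G)) := by
    rw [← a7, ← a5, ← a3, ← a1, show ∀ x, ρ * (ρ * (ρ * (ρ * x * ρ⁻¹) * ρ⁻¹) * ρ⁻¹) * ρ⁻¹ =
      ρ ^ 4 * x * (ρ ^ 4)⁻¹ from fun x => by rw [pow4]; group]
    exact conj_mem_cj (M.cf.φ_norm_W _)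
  have h5 := mul_mem (mul_mem (inv_mem h1) h4) (inv_mem h1)
  change (M.φ _)⁻¹ * _ * (M.φ _)⁻¹ ∈ _ at h5
  rw [← n1_eq M, mem_cj, mul_assoc, (show SemiconjBy M.n1 ρ ρ⁻¹ from a8).pow_right 4] at h5
  have h6 := inv_mem (mul_mem h5 (inv_mem (n1_W M)))
  rwa [show ((ρ ^ 4)⁻¹ * (ρ⁻¹ ^ 4 * M.n1) * M.n1⁻¹)⁻¹ = ρ ^ 8 by group] at h6

theorem braid (hf : HF M.cf τ) (hg : GeoG (M.cf.s (Z T)) (M.cf.s (W T)) (Nat.card K)) (h3 : UF3 T)
    (hq : 2 < Nat.card K) : (M.n1 * M.n8) ^ 8 = 1 := by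
  have h1 := ρ8_W M hf hg h3 hq
  have a8 : M.n1 * (M.n1 * M.n8) = (M.n1 * M.n8)⁻¹ * M.n1 := by
    rw [ρ_inv, ← mul_assoc, M.n1n1, mul_assoc, M.n1n1, one_mul, mul_one]
  have a9 : ∀ c, (M.n1 * M.n8) ^ 8 * M.h c = M.h c * (M.n1 * M.n8) ^ 8 := fun c => by
    rw [← mul_inv_eq_iff_eq_mul]
    conv_rhs => rw [← inv_inv c, ← ρ4_h, ← ρ4_h]
    generalize M.n1 * M.n8 = ρ
    group
  have a4 := ρ_x4 M
  have aW := @ρ_W _ _ _ _ _ _ _ M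
  have a7 := (show SemiconjBy M.n1 _ _ from a8).pow_right 8
  have a6 := (Commute.refl (M.n1 * M.n8)).pow_right 8
  generalize M.n1 * M.n8 = ρ at *
  rw [inv_pow] at a7
  generalize ρ ^ 8 = g at *
  have cw : ∀ w ∈ W T, g * M.φ w * g⁻¹ ∈ M.cf.s (W T) := fun w hw =>
    (mem_normalizer_iff.1 h1 _).1 ⟨w, hw, rfl⟩
  have cρ : ∀ x, ρ * (g * x * g⁻¹) * ρ⁻¹ = g * (ρ * x * ρ⁻¹) * g⁻¹ := fun x => by
    rw [← mul_assoc, ← mul_assoc, a6.eq, mul_assoc _ g⁻¹, ← a6.inv_inv.eq]; group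
  have h2 : ∀ t, ∃ s, g * M.φ (x4 T t) * g⁻¹ = M.φ (x4 T s) := fun t => by
    obtain ⟨w, hw, e⟩ := cw _ (Z_le_W (x4_Z t))
    have := aW hw (by
      change ρ * M.cf.φ w * _ ∈ _
      rw [e, cρ, a4]; exact cw _ (by o8s))
    exact ⟨w.a4, by rw [← e, ← eq_x4 this]; rfl⟩
  obtain ⟨s, h4⟩ := h2 1
  obtain ⟨a, ha⟩ := ex_unit (T := T) one_ne_zero (show s ≠ 0 by
    rintro rfl
    rw [show x4 T 0 = 1 from rfl, map_one, conj_eq_one_iff, ← map_one M.φ] at h4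
    exact one_ne_zero (congrArg U.a4 (M.inj h4)))
  have h5 : ∀ t, g * M.φ (x4 T t) * g⁻¹ = M.φ (x4 T (a * T.θ a * t)) := fun t => by
    by_cases ht : t = 0
    · rw [ht, mul_zero, show x4 T 0 = 1 from rfl, map_one, mul_one, mul_inv_cancel]
    obtain ⟨b, rfl⟩ := ex_unit (T := T) one_ne_zero ht
    rw [← tor_x4 b 1, ← M.hφ, show (a : K) * T.θ a * (b * T.θ b * 1) = b * T.θ b * s by
      rw [← ha]; ring, ← tor_x4 b 1, ← M.hφ, ← h4, ← mul_assoc, ← mul_assoc, a9, mul_assoc _ _ g⁻¹,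
      ← (show Commute _ _ from a9 _).inv_inv.eq]
    group
  have h6 : ∀ t, g * M.φ (x6 T t) * g⁻¹ = M.φ (x6 T (a * T.θ a * t)) := fun t => by
    rw [← a4, ← cρ, h5, a4]
  obtain ⟨e, he, h7⟩ : (M.h (a, a))⁻¹ * g ∈ M.cf.s (E T) := by
    rw [← hf.cW]
    rintro _ ⟨w, hw, rfl⟩
    have : g * M.φ w * g⁻¹ = M.h (a, a) * M.φ w * (M.h (a, a))⁻¹ := by
      rw [M.hφ, eq_x4_x6 hw, map_mul, map_mul, map_mul, ← conj_mul, h5, h6, tor_x4, tor_x6]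
    change M.φ w * _ = _ * M.φ w
    calc _ = (M.h (a, a))⁻¹ * (M.h (a, a) * M.φ w * (M.h (a, a))⁻¹) * g := by group
      _ = _ := by rw [← this]; group
  change M.φ e = _ at h7
  rw [h3.fix hq e fun c => M.inj (by
    rw [← M.hφ, h7, ← map_inv, ← mul_assoc, mul_assoc _ g, (show Commute _ _ from a9 _).inv_right.eq,
      ← mul_assoc, h_comm]), map_one, eq_inv_mul_iff_mul_eq, mul_one] at h7
  subst h7
  have h8 := M.n1h a a
  rw [a7.eq, mul_assoc, M.n1n1, mul_one, inv_eq_iff_mul_eq_one, ← map_mul] at h8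
  have h9 := congrArg U.b4 (M.inj ((M.hφ _ (y4 T 1)).symm.trans
    (show _ = M.φ (y4 T 1) by rw [h8]; group)))
  rw [tor_apply] at h9
  o8s at h9
  rw [unit_eq_one (T := T) (c := a) (k := 1) (Units.ext (by simpa [sq] using h9))]
  exact map_one _

theorem split {n : G} (h : Hyp M.cf τ) (hn : n ∈ normalizer (M.cf.s (Z T) : Set G)) :
    ∃ a : Kˣ, (M.h (a, 1))⁻¹ * n ∈ centralizer {τ} := by
  obtain ⟨z, hz, rfl⟩ := h.mem
  obtain ⟨z', hz', e⟩ := (mem_normalizer_iff.1 hn _).1 h.mem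
  have k : ∀ z ∈ Z T, M.cf.φ z ≠ 1 → z.a4 ≠ 0 := fun z hz h1 h0 =>
    h1 (by rw [eq_x4 hz, h0]; exact map_one _)
  obtain ⟨a, ha⟩ := ex_unit (T := T) (k z hz h.ne) (k z' hz' (by simpa [e] using h.ne))
  refine ⟨a, mem_centralizer_singleton_iff.2 ?_⟩
  have := M.hφ (a, 1) (x4 T z.a4)
  rw [tor_x4, ha, ← eq_x4 hz, ← eq_x4 hz'] at this
  change _ * M.φ z = M.φ z * _
  change M.φ z' = n * M.φ z * n⁻¹ at e
  calc _ = (M.h (a, 1))⁻¹ * (n * M.φ z * n⁻¹) * n := by group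
    _ = _ := by rw [← e, ← this]; group

theorem fin (h : Hyp M.cf τ)
    (hcent : ∀ z ∈ Z T, z ≠ 1 → M.X ⊓ centralizer {M.φ z} = M.cf.C)
    (hc : Nat.card M.X = Nat.card K ^ 12 * (Nat.card K - 1) * (Nat.card K ^ 3 + 1) *
      (Nat.card K ^ 4 - 1) * (Nat.card K ^ 6 + 1))
    (hg : GeoG (M.cf.s (Z T)) (M.cf.s (W T)) (Nat.card K)) :
    M.X.Normal ∧ M.X.index = M.cf.C.relIndex (centralizer {τ}) := by
  have hC : M.X ⊓ centralizer {τ} = M.cf.C := by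
    obtain ⟨z, hz, rfl⟩ := h.mem
    exact hcent z hz fun e => h.ne (by rw [e, map_one])
  set N := (normalizer (M.cf.s (Z T) : Set G)).subgroupOf M.X with hN
  have h1 : Nat.card N ≤ Nat.card (Kˣ × M.cf.C) := by
    choose a ha using fun n : N => split M h n.2
    refine Nat.card_le_card_of_injective (fun n => (a n, ⟨_, hC.le ⟨M.X.mul_mem (M.X.inv_mem
      (mem_X_h M _)) n.1.2, ha n⟩⟩)) fun n m e => Subtype.ext (Subtype.ext ?_)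
    have e2 := congrArg Subtype.val (congrArg Prod.snd e)
    simp only at e2
    rw [show a n = a m from congrArg Prod.fst e] at e2
    exact mul_left_cancel e2
  rw [Nat.card_prod, Nat.card_units, CF.card_C, CF.card_B] at h1
  have h2 := N.card_mul_index
  have h3 : (Nat.card K + 1) * (Nat.card K ^ 3 + 1) * (Nat.card K ^ 6 + 1) ≤ N.index := by
    obtain ⟨p, hp⟩ := Nat.exists_eq_add_of_lt (Finite.one_lt_card (α := K))
    have e : Nat.card K ^ 4 - 1 = (Nat.card K - 1) * (Nat.card K + 1) * (Nat.card K ^ 2 + 1) := by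
      rw [hp]; exact Nat.sub_eq_of_eq_add (by rw [Nat.add_sub_cancel]; ring)
    refine Nat.le_of_mul_le_mul_left (le_trans (le_of_eq ?_) (Nat.mul_le_mul_right _ h1)) ?_
    · rw [h2, hc, e]; ring
    · rw [hp, Nat.add_sub_cancel]; positivity
  let ι : M.X ⧸ N → {x // Cj (M.cf.s (Z T)) x} := Quotient.lift (fun x => ⟨cj x _, x, rfl⟩)
    fun x y e => Subtype.ext (by
      have := cj_eq_self (H := M.cf.s (Z T)) (g := (x : G)⁻¹ * y)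
        ((QuotientGroup.leftRel_apply (s := N)).1 e)
      change cj (x : G) _ = cj (y : G) _
      rw [← mul_inv_cancel_left (x : G) y, cj_mul, this])
  have h4 := (Function.Injective.bijective_of_nat_card_le (f := ι) (by
    rintro ⟨x⟩ ⟨y⟩ e
    refine Quotient.sound (QuotientGroup.leftRel_apply.2 (cj_eq_self_iff.1 ?_))
    change cj ((x : G)⁻¹ * y) _ = _
    rw [cj_mul, ← show cj (x : G) _ = cj (y : G) _ from congrArg Subtype.val e, cj_inv_cj])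
    (hg.count.trans h3)).2
  have h5 : ∀ g, ∃ x ∈ M.X, x⁻¹ * g ∈ normalizer (M.cf.s (Z T) : Set G) := fun g => by
    obtain ⟨⟨x⟩, e⟩ := h4 ⟨_, g, rfl⟩
    exact ⟨x, x.2, cj_eq_self_iff.1 (by
      rw [cj_mul, ← show cj (x : G) _ = cj g _ from congrArg Subtype.val e, cj_inv_cj])⟩
  have h6 : ∀ g, cj g M.cf.C ≤ M.X := fun g => by
    obtain ⟨x, hx, e⟩ := h5 g
    rw [h.nZ] at e
    rw [← mul_inv_cancel_left x g, cj_mul x, cj_eq_self e]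
    exact cj_le_of_mem (C_le_X M) hx
  have h7 : M.X.Normal := ⟨fun x hx g => by
    have := X_le M (cj g⁻¹ M.X) (fun k _ => by rw [← cj_le_iff, ← cj_mul]; exact h6 _) hx
    rwa [mem_cj, inv_inv] at this⟩
  have h8 : centralizer {τ} ⊔ M.X = ⊤ := eq_top_iff.2 fun g _ => by
    obtain ⟨x, hx, e⟩ := h5 g
    obtain ⟨a, ha⟩ := split M h e
    have := mul_mem (mem_sup_right (mul_mem hx (mem_X_h M (a, 1))) : _ ∈ centralizer {τ} ⊔ M.X)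
      (mem_sup_left ha)
    rwa [show x * M.h (a, 1) * ((M.h (a, 1))⁻¹ * (x⁻¹ * g)) = g by group] at this
  exact ⟨h7, by rw [← hC, inf_relIndex_right, ← relIndex_sup_right, h8, relIndex_top_right]⟩

end Cfsg.Agent.H26.O8Br
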